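import Cfsg.Agent.H1.PrG
import Cfsg.Agent.H5.PSLSimple
import Cfsg.Agent.H5.UnitCenter

set_option autoImplicit false
set_option linter.all false

namespace Cfsg.Agent.H1.Emb

open Cfsg Cfsg.Agent.H16 Cfsg.Agent.H5 Cfsg.Agent.H1.Pres Matrix

lemma z7a : ¬ ((0 : ZMod 7) = 3) := by decide
lemma z7b : ∀ y : ZMod 7, y ≠ 0 → ∃ n : Fin 6, (3 : ZMod 7) ^ (n : ℕ) = y := by decide
lemma z7c : (3 : ZMod 7) ^ 2 = 2 := by decide
lemma z7d : (3 : ZMod 7) ^ 6 = 1 := by decide
lemma z7e : ¬ ((3 : ZMod 7) ^ 2 = 1) := by decide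

theorem psl7_embed {Γ : Type*} [Group Γ] (u h t : Γ) (hu : u ^ 7 = 1) (hu1 : u ≠ 1) (huh : u * h = h * u ^ 2) (hh : h ^ 3 = 1)
    (ht : h * t * h = t) (t2 : t ^ 2 = 1) (r0 : (u * t) ^ 3 = 1) (r1 : (u ^ 3 * t * h) ^ 3 = 1)
    {K : Type*} [Field K] [Fintype K] (hK : Fintype.card K = 7) :
    ∃ f : Matrix.ProjectiveSpecialLinearGroup (Fin 2) K →* Γ, Function.Injective f := by
  classical
  haveI : Fact (Nat.Prime 7) := ⟨by norm_num⟩
  let e : K ≃+* ZMod 7 := (ZMod.ringEquivOfPrime K (by norm_num) hK).symm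
  let υ : K → Γ := fun y => u ^ (e y).val
  have hmod : ∀ m : ℕ, u ^ (m % 7) = u ^ m := by
    intro m
    conv_rhs => rw [← Nat.mod_add_div m 7, pow_add, pow_mul, hu, one_pow, mul_one]
  have hcj : cj h u = u ^ 2 := by
    unfold cj
    rw [mul_assoc, huh]; group
  obtain ⟨ζ, hζe⟩ : ∃ ζ : K, e ζ = 3 := ⟨e.symm 3, e.apply_symm_apply 3⟩
  have h0 : ζ ≠ 0 := by
    rintro rfl
    rw [map_zero] at hζe
    exact z7a hζe
  have hgen : ∀ x : K, x ≠ 0 → ∃ n : ℕ, ζ ^ n = x := by
    intro x hx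
    have hx' : e x ≠ 0 := fun h => hx ((map_eq_zero_iff e e.injective).1 h)
    obtain ⟨n, hn⟩ := z7b _ hx'
    refine ⟨n, e.injective ?_⟩
    rw [map_pow, hζe, hn]
  have U : Ups υ h (ζ ^ 2) := by
    refine ⟨?_, ?_⟩
    · intro a b
      show u ^ (e (a + b)).val = u ^ (e a).val * u ^ (e b).val
      rw [map_add, ZMod.val_add, hmod, pow_add]
    · intro a
      show cj h (u ^ (e a).val) = u ^ (e (ζ ^ 2 * a)).val
      rw [cj_pow, hcj, map_mul, map_pow, hζe, ← pow_mul]
      rw [z7c, ZMod.val_mul, hmod]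
      rfl
  have hord : 3 ∣ orderOf ζ := by
    have h6 : ζ ^ 6 = 1 := by
      apply e.injective
      rw [map_pow, hζe, map_one]; exact z7d
    have h2 : ζ ^ 2 ≠ 1 := by
      intro h
      have := congrArg e h
      rw [map_pow, hζe, map_one] at this
      exact z7e this
    have h3 := orderOf_dvd_of_pow_eq_one h6
    have h4 : orderOf ζ ∈ Nat.divisors 6 := Nat.mem_divisors.2 ⟨h3, by norm_num⟩
    have h5 : Nat.divisors 6 = {1, 2, 3, 6} := by decide
    rw [h5] at h4
    simp only [Finset.mem_insert, Finset.mem_singleton] at h4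
    rcases h4 with h4 | h4 | h4 | h4
    · exact absurd (by rw [show 2 = 1 * 2 from rfl, pow_mul, ← h4, pow_orderOf_eq_one, one_pow]) h2
    · exact absurd (by rw [← h4, pow_orderOf_eq_one]) h2
    · rw [h4]
    · rw [h4]; norm_num
  have hN : h ^ orderOf ζ = 1 := by
    obtain ⟨m, hm⟩ := hord
    rw [hm, pow_mul, hh, one_pow]
  have v1 : υ 1 = u := by
    show u ^ (e 1).val = u
    rw [map_one]; exact pow_one u
  have v3 : υ ζ = u ^ 3 := by
    show u ^ (e ζ).val = _
    rw [hζe]; rfl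
  have D : Frm υ h t (t ^ 2) ζ := mk_frm h0 U ht (fun y => by rw [t2, one_mul, mul_one]) (Or.inl rfl) hN (by rw [v1, r0, t2])
    (Or.inr ⟨by rw [v3, r1, t2], hgen⟩)
  obtain ⟨ψ, ψU, ψL, ψH, ψT⟩ := D.exists_psi h0
  have hneg : ψ (-1) = 1 := by
    rw [← s_T2, map_pow, ψT, inv_pow, t2, inv_one]
  have hcen : ∀ x ∈ Subgroup.center (SpecialLinearGroup (Fin 2) K), ψ x = 1 := by
    intro x hx
    rw [Matrix.SpecialLinearGroup.mem_center_iff] at hx
    obtain ⟨r, hr, hrx⟩ := hx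
    rw [Fintype.card_fin] at hr
    have hr' : (r - 1) * (r + 1) = 0 := by linear_combination hr
    rcases mul_eq_zero.1 hr' with h | h
    · have : x = 1 := by
        apply Subtype.ext
        show (x : Matrix (Fin 2) (Fin 2) K) = 1
        rw [← hrx, sub_eq_zero.1 h, map_one]
      rw [this, map_one]
    · have : x = -1 := by
        apply Subtype.ext
        show (x : Matrix (Fin 2) (Fin 2) K) = ((-1 : SpecialLinearGroup (Fin 2) K) : Matrix (Fin 2) (Fin 2) K)
        rw [Matrix.SpecialLinearGroup.coe_neg, Matrix.SpecialLinearGroup.coe_one, ← hrx, eq_neg_of_add_eq_zero_left h, map_neg, map_one]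
      rw [this, hneg]
  let ψ' : Matrix.ProjectiveSpecialLinearGroup (Fin 2) K →* Γ := QuotientGroup.lift (Subgroup.center (SpecialLinearGroup (Fin 2) K)) ψ hcen
  haveI hs : IsSimpleGroup (Matrix.ProjectiveSpecialLinearGroup (Fin 2) K) := PSL2_isSimple (by rw [Nat.card_eq_fintype_card, hK]; norm_num)
  refine ⟨ψ', ?_⟩
  rw [← MonoidHom.ker_eq_bot_iff]
  rcases hs.eq_bot_or_eq_top_of_normal ψ'.ker inferInstance with h | h
  · exact h
  · exfalso
    apply hu1
    have h1 : (QuotientGroup.mk (sU 1) : Matrix.ProjectiveSpecialLinearGroup (Fin 2) K) ∈ ψ'.ker := by rw [h]; trivial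
    rw [MonoidHom.mem_ker] at h1
    have h2 : ψ (sU 1) = 1 := h1
    rw [ψU, v1] at h2
    exact h2

section mats

variable {F : Type*} [Field F] [Fintype F]

def sM {n q : ℕ} (x : SU n F q) : Matrix (Fin n) (Fin n) F := ((x : Matrix.SpecialLinearGroup (Fin n) F) : Matrix (Fin n) (Fin n) F)

omit [Fintype F] in
theorem sM_mul {n q : ℕ} (x y : SU n F q) : sM (x * y) = sM x * sM y := rfl
omit [Fintype F] in
theorem sM_one {n q : ℕ} : sM (1 : SU n F q) = 1 := rfl
omit [Fintype F] in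
theorem sM_inj {n q : ℕ} {x y : SU n F q} (h : sM x = sM y) : x = y := Subtype.ext (Subtype.ext h)

omit [Fintype F] in
theorem exists_sM {n q : ℕ} {σ : F →+* F} (hσ : ∀ x, σ x = x ^ q) (M : Matrix (Fin n) (Fin n) F)
    (h : ∀ i j, hB (Fin n) σ (fun k => M k i) (fun k => M k j) = if i = j then 1 else 0)
    (hdet : M.det = 1) : ∃ x : SU n F q, sM x = M := ⟨mkSU hσ M h hdet, rfl⟩

set_option maxHeartbeats 4000000 in
theorem su33_mats (hF : Fintype.card F = 9) : ∃ u h t : SU 3 F 3, u ^ 7 = 1 ∧ u * h = h * u ^ 2 ∧ h ^ 3 = 1 ∧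
    h * t * h = t ∧ t ^ 2 = 1 ∧ (u * t) ^ 3 = 1 ∧ (u ^ 3 * t * h) ^ 3 = 1 ∧ ¬ Commute u h := by
  have hF2 : Fintype.card F = 3 ^ 2 := by rw [hF]; norm_num
  obtain ⟨σ, hσ, hσ2, hσ1⟩ := exists_frob hF2
  have h3 : (3 : F) = 0 := by
    have h9 : ((9 : ℕ) : F) = 0 := by rw [← hF]; exact Nat.cast_card_eq_zero F
    have : (3 : F) * 3 = 0 := by
      rw [← h9]; norm_num
    exact mul_self_eq_zero.1 this
  obtain ⟨i, hi⟩ : ∃ i : F, i ^ 2 = -1 := by
    have : IsSquare (-1 : F) := by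
      rw [FiniteField.isSquare_neg_one_iff, hF]; norm_num
    obtain ⟨i, hi⟩ := this
    exact ⟨i, by rw [sq]; exact hi.symm⟩
  have hσi : σ i = -i := by rw [hσ]; linear_combination i * hi
  have hσn : ∀ x : F, σ (-x) = -σ x := map_neg σ
  obtain ⟨u, hu⟩ := exists_sM hσ !![-1 + i, i, i; -1 - i, 1, 1; 0, -1 - i, 1 + i]
    (by intro a b; fin_cases a <;> fin_cases b <;> simp [hB_apply, Fin.sum_univ_three, hσi, map_add, map_sub, map_neg] <;> grind)
    (by rw [Matrix.det_fin_three]; simp; grind)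
  obtain ⟨h, hh⟩ := exists_sM hσ !![0, 0, -i; i, 0, 0; 0, 1, 0]
    (by intro a b; fin_cases a <;> fin_cases b <;> simp [hB_apply, Fin.sum_univ_three, hσi, map_add, map_sub, map_neg] <;> grind)
    (by rw [Matrix.det_fin_three]; simp; grind)
  obtain ⟨t, ht⟩ := exists_sM hσ !![0, 0, i; 0, -1, 0; -i, 0, 0]
    (by intro a b; fin_cases a <;> fin_cases b <;> simp [hB_apply, Fin.sum_univ_three, hσi, map_add, map_sub, map_neg] <;> grind)
    (by rw [Matrix.det_fin_three]; simp; grind)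
  have u2 : sM (u * u) = !![1, -i, 1 + i; 1 - i, 1 + i, 0; -i, -1, -1 + i] := by
    rw [sM_mul, hu]; ext a b; fin_cases a <;> fin_cases b <;> simp [Matrix.mul_apply, Fin.sum_univ_three] <;> grind
  have u3 : sM (u * u * u) = !![1 - i, i, -i; 0, -1 - i, -1 - i; -1 - i, -1, 1] := by
    rw [sM_mul, u2, hu]; ext a b; fin_cases a <;> fin_cases b <;> simp [Matrix.mul_apply, Fin.sum_univ_three] <;> grind
  have u6 : sM (u * u * u * (u * u * u)) = !![-1 - i, -1 + i, 0; -i, 1, -1 + i; -i, 1, 1 - i] := by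
    rw [sM_mul, u3]; ext a b; fin_cases a <;> fin_cases b <;> simp [Matrix.mul_apply, Fin.sum_univ_three] <;> grind
  have u7 : u * u * u * (u * u * u) * u = 1 := by
    apply sM_inj
    rw [sM_mul, u6, hu, sM_one]; ext a b; fin_cases a <;> fin_cases b <;> simp [Matrix.mul_apply, Fin.sum_univ_three] <;> grind
  have uh : u * h = h * (u * u) := by
    apply sM_inj
    rw [sM_mul, sM_mul, u2, hu, hh]; ext a b; fin_cases a <;> fin_cases b <;> simp [Matrix.mul_apply, Fin.sum_univ_three] <;> grind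
  have hh2 : sM (h * h) = !![0, -i, 0; 0, 0, 1; i, 0, 0] := by
    rw [sM_mul, hh]; ext a b; fin_cases a <;> fin_cases b <;> simp [Matrix.mul_apply, Fin.sum_univ_three] <;> grind
  have hh3 : h * h * h = 1 := by
    apply sM_inj
    rw [sM_mul, hh2, hh, sM_one]; ext a b; fin_cases a <;> fin_cases b <;> simp [Matrix.mul_apply, Fin.sum_univ_three] <;> grind
  have hht : sM (h * t) = !![-1, 0, 0; 0, 0, -1; 0, -1, 0] := by
    rw [sM_mul, hh, ht]; ext a b; fin_cases a <;> fin_cases b <;> simp [Matrix.mul_apply, Fin.sum_univ_three] <;> grind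
  have hth : h * t * h = t := by
    apply sM_inj
    rw [sM_mul, hht, hh, ht]; ext a b; fin_cases a <;> fin_cases b <;> simp [Matrix.mul_apply, Fin.sum_univ_three] <;> grind
  have tt : t * t = 1 := by
    apply sM_inj
    rw [sM_mul, ht, sM_one]; ext a b; fin_cases a <;> fin_cases b <;> simp [Matrix.mul_apply, Fin.sum_univ_three] <;> grind
  have ut : sM (u * t) = !![1, -i, -1 - i; -i, -1, 1 - i; 1 - i, 1 + i, 0] := by
    rw [sM_mul, hu, ht]; ext a b; fin_cases a <;> fin_cases b <;> simp [Matrix.mul_apply, Fin.sum_univ_three] <;> grind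
  have ut2 : sM (u * t * (u * t)) = !![1, i, 1 + i; i, -1, 1 - i; -1 + i, 1 + i, 0] := by
    rw [sM_mul, ut]; ext a b; fin_cases a <;> fin_cases b <;> simp [Matrix.mul_apply, Fin.sum_univ_three] <;> grind
  have ut3 : u * t * (u * t) * (u * t) = 1 := by
    apply sM_inj
    rw [sM_mul, ut2, ut, sM_one]; ext a b; fin_cases a <;> fin_cases b <;> simp [Matrix.mul_apply, Fin.sum_univ_three] <;> grind
  have q0 : sM (u * u * u * t) = !![-1, -i, 1 + i; -1 + i, 1 + i, 0; -i, 1, 1 - i] := by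
    rw [sM_mul, u3, ht]; ext a b; fin_cases a <;> fin_cases b <;> simp [Matrix.mul_apply, Fin.sum_univ_three] <;> grind
  have q1 : sM (u * u * u * t * h) = !![1, 1 + i, i; -1 + i, 0, 1 + i; i, 1 - i, -1] := by
    rw [sM_mul, q0, hh]; ext a b; fin_cases a <;> fin_cases b <;> simp [Matrix.mul_apply, Fin.sum_univ_three] <;> grind
  have q2 : sM (u * u * u * t * h * (u * u * u * t * h)) = !![1, -1 - i, -i; 1 - i, 0, 1 + i; -i, 1 - i, -1] := by
    rw [sM_mul, q1]; ext a b; fin_cases a <;> fin_cases b <;> simp [Matrix.mul_apply, Fin.sum_univ_three] <;> grind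
  have q3 : u * u * u * t * h * (u * u * u * t * h) * (u * u * u * t * h) = 1 := by
    apply sM_inj
    rw [sM_mul, q2, q1, sM_one]; ext a b; fin_cases a <;> fin_cases b <;> simp [Matrix.mul_apply, Fin.sum_univ_three] <;> grind
  refine ⟨u, h, t, ?_, ?_, ?_, hth, ?_, ?_, ?_, ?_⟩
  · rw [← u7]; simp only [pow_succ, pow_zero, one_mul, mul_assoc]
  · rw [sq]; exact uh
  · rw [← hh3]; simp only [pow_succ, pow_zero, one_mul, mul_assoc]
  · rw [sq, tt]
  · rw [← ut3]; simp only [pow_succ, pow_zero, one_mul, mul_assoc]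
  · rw [← q3]; simp only [pow_succ, pow_zero, one_mul, mul_assoc]
  · intro hc
    have h1 : h * u = h * (u * u) := by rw [← uh]; exact hc.eq.symm
    have h2 : u = 1 := by
      have := mul_left_cancel h1
      exact (left_eq_mul.1 this)
    have h4 := congrArg (fun x => sM x 2 1) h2
    simp only [hu, sM_one] at h4
    have h5 : (-1 - i : F) = 0 := by simpa using h4
    have h6 : i = -1 := by linear_combination -h5
    rw [h6] at hi
    have : (2 : F) = 0 := by linear_combination hi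
    apply one_ne_zero (α := F)
    linear_combination h3 - this

end mats

theorem psu33 {F : Type*} [Field F] [Fintype F] (hF : Fintype.card F = 9) {K : Type*} [Field K] [Fintype K] (hK : Fintype.card K = 7) :
    ∃ H : Subgroup (Cfsg.PSU 3 F 3), Nonempty (H ≃* Matrix.ProjectiveSpecialLinearGroup (Fin 2) K) := by
  obtain ⟨u, h, t, r1, r2, r3, r4, r5, r6, r7, hc⟩ := su33_mats hF
  let π : SU 3 F 3 →* Cfsg.PSU 3 F 3 := QuotientGroup.mk' (Subgroup.center (SU 3 F 3))
  obtain ⟨f, hf⟩ := psl7_embed (π u) (π h) (π t) (by rw [← map_pow, r1, map_one]) (by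
      intro h1
      apply hc
      have h2 : u ∈ Subgroup.center (SU 3 F 3) := by
        rw [← QuotientGroup.eq_one_iff]; exact h1
      exact ((Subgroup.mem_center_iff.1 h2) h).symm) (by rw [← map_pow, ← map_mul, ← map_mul, r2]) (by rw [← map_pow, r3, map_one])
    (by rw [← map_mul, ← map_mul, r4]) (by rw [← map_pow, r5, map_one]) (by rw [← map_mul, ← map_pow, r6, map_one])
    (by rw [← map_pow, ← map_mul, ← map_mul, ← map_pow, r7, map_one]) hK
  exact ⟨f.range, ⟨(MonoidHom.ofInjective hf).symm⟩⟩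

end Cfsg.Agent.H1.Emb
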