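import Cfsg.Agent.H1.FrobQuot
import Cfsg.Agent.H1.NilHall
import Cfsg.Agent.H20.ZFpf
import Cfsg.Agent.S0039
import Cfsg.Agent.S0034
import Cfsg.Agent.S0666
import Cfsg.Agent.H1.Coprime2
import Cfsg.Agent.H2.Cyc

set_option autoImplicit false

/-! Fixed point free actions: subgroups of order `pq` are cyclic, the centre (helper1). -/

namespace Cfsg.Agent.H1

open Subgroup Cfsg
open scoped Pointwise commutatorElement

universe u

variable {G : Type u} [Group G] [Finite G]

theorem fpf_coprime {A V : Subgroup G} (hAV : A ≤ normalizer (V : Set G))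
    (hfpf : ∀ a ∈ A, a ≠ 1 → ∀ v ∈ V, a * v = v * a → v = 1) :
    (Nat.card A).Coprime (Nat.card V) := by
  refine Nat.coprime_of_dvd fun p hp h1 h2 => ?_
  haveI : Fact p.Prime := ⟨hp⟩
  obtain ⟨⟨a, ha⟩, hao⟩ := exists_prime_orderOf_dvd_card' (G := A) p h1
  rw [Subgroup.orderOf_mk] at hao
  have ha1 : a ≠ 1 := by
    rintro rfl
    rw [orderOf_one] at hao
    exact hp.one_lt.ne hao
  have hzp : IsPGroup p (zpowers a) := IsPGroup.of_card (n := 1) (by
    rw [Nat.card_zpowers, hao, pow_one])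
  obtain ⟨v, hv, hv1, hvc⟩ : ∃ v ∈ V, v ≠ 1 ∧ a * v = v * a := by
    -- action of `zpowers a` on `V`
    have hle : zpowers a ≤ normalizer (V : Set G) := by
      rw [zpowers_le]; exact hAV ha
    let _ := MulDistribMulAction.compHom V (V.normalizerMonoidHom.comp (Subgroup.inclusion hle))
    have h3 := hzp.card_modEq_card_fixedPoints V
    have h4 : p ∣ Nat.card (MulAction.fixedPoints (zpowers a) V) :=
      (Nat.modEq_zero_iff_dvd.1 (h3.symm.trans (Nat.modEq_zero_iff_dvd.2 h2)))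
    have h5 : 1 < Nat.card (MulAction.fixedPoints (zpowers a) V) := by
      have h6 : (1 : V) ∈ MulAction.fixedPoints (zpowers a) V := fun g => smul_one g
      have h7 : 0 < Nat.card (MulAction.fixedPoints (zpowers a) V) :=
        Nat.card_pos_iff.2 ⟨⟨⟨1, h6⟩⟩, inferInstance⟩
      exact lt_of_lt_of_le hp.one_lt (Nat.le_of_dvd h7 h4)
    obtain ⟨⟨x, hx⟩, ⟨y, hy⟩, hxy⟩ := Finite.one_lt_card_iff_nontrivial.1 h5
    have h8 : ∀ z : V, z ∈ MulAction.fixedPoints (zpowers a) V → a * (z : G) = z * a := by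
      intro z hz
      have h9 := congrArg Subtype.val (hz ⟨a, mem_zpowers a⟩)
      have h10 : a * (z : G) * a⁻¹ = z := h9
      exact mul_inv_eq_iff_eq_mul.1 h10
    by_cases hx1 : (x : G) = 1
    · refine ⟨y, y.2, fun h => hxy ?_, h8 y hy⟩
      apply Subtype.ext
      apply Subtype.ext
      exact hx1.trans h.symm
    · exact ⟨x, x.2, hx1, h8 x hx⟩
  exact hv1 (hfpf a ha ha1 v hv hvc)

/-- two subgroups of distinct prime orders, one normalizing the other, commute in a group acting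
fixed point freely on an abelian group -/
theorem fpf_comm {A V Q R : Subgroup G} (hVab : IsMulCommutative V) (hV1 : V ≠ ⊥)
    (hAV : A ≤ normalizer (V : Set G))
    (hfpf : ∀ a ∈ A, a ≠ 1 → ∀ v ∈ V, a * v = v * a → v = 1) (hQA : Q ≤ A) (hRA : R ≤ A)
    (hQ : (Nat.card Q).Prime) (hR : (Nat.card R).Prime) (hne : Nat.card Q ≠ Nat.card R)
    (hQR : Q ≤ normalizer (R : Set G)) : ∀ x ∈ Q, ∀ y ∈ R, x * y = y * x := by
  by_contra hcon
  push Not at hcon
  obtain ⟨x₀, hx₀, y₀, hy₀, hxy⟩ := hcon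
  set F : Subgroup G := R ⊔ Q with hF
  have hRF : R ≤ F := le_sup_left
  have hQF : Q ≤ F := le_sup_right
  have hFA : F ≤ A := sup_le hRA hQA
  have hFR : F ≤ normalizer (R : Set G) := sup_le le_normalizer hQR
  have hQb : Q ≠ ⊥ := by
    rintro rfl; rw [Subgroup.card_bot] at hQ; exact Nat.not_prime_one hQ
  have hRb : R ≠ ⊥ := by
    rintro rfl; rw [Subgroup.card_bot] at hR; exact Nat.not_prime_one hR
  have hcop : (Nat.card R).Coprime (Nat.card Q) := (Nat.coprime_primes hR hQ).2 (Ne.symm hne)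
  have hinf : R ⊓ Q = ⊥ := by
    rw [← Subgroup.card_eq_one]
    exact Nat.eq_one_of_dvd_coprimes hcop (card_dvd_of_le inf_le_left) (card_dvd_of_le inf_le_right)
  haveI hn : (R.subgroupOf F).Normal := by
    rw [normal_subgroupOf_iff_le_normalizer hRF]; exact hFR
  have hc : IsComplement' (R.subgroupOf F) (Q.subgroupOf F) := by
    refine isComplement'_of_disjoint_and_mul_eq_univ ?_ ?_
    · rw [disjoint_iff, eq_bot_iff]
      intro z hz
      have h1 : (z : G) ∈ R ⊓ Q := ⟨mem_subgroupOf.1 hz.1, mem_subgroupOf.1 hz.2⟩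
      rw [hinf, mem_bot] at h1
      exact mem_bot.2 (Subtype.ext h1)
    · rw [← normal_mul, ← subgroupOf_sup hRF hQF, subgroupOf_self, coe_top]
  have hne0 : ∀ {X : Subgroup G}, X ≤ F → X ≠ ⊥ → X.subgroupOf F ≠ ⊥ := by
    intro X hX hb h
    apply hb
    rw [subgroupOf_eq_bot, disjoint_iff, inf_eq_left.2 hX] at h
    exact h
  have hfr : IsFrobeniusComplement (Q.subgroupOf F) := by
    refine (Cfsg.Agent.S0039.result (R.subgroupOf F) (Q.subgroupOf F) hc (hne0 hRF hRb)
      (hne0 hQF hQb)).2 fun h hh hh1 => ?_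
    have hhQ : (h : G) ∈ Q := mem_subgroupOf.1 hh
    have hh1' : (h : G) ≠ 1 := fun e => hh1 (Subtype.ext e)
    -- `C_R(h)` is `1` or `R`
    have h2 : R ⊓ centralizer ({(h : G)} : Set G) = ⊥ := by
      have h3 : Nat.card ↥(R ⊓ centralizer ({(h : G)} : Set G)) ∣ Nat.card R :=
        card_dvd_of_le inf_le_left
      rcases (Nat.dvd_prime hR).1 h3 with h4 | h4
      · exact Subgroup.card_eq_one.1 h4
      · exfalso
        have h5 : R ⊓ centralizer ({(h : G)} : Set G) = R :=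
          Subgroup.eq_of_le_of_card_ge inf_le_left h4.ge
        have h6 : zpowers (h : G) = Q := by
          refine Subgroup.eq_of_le_of_card_ge (by rwa [zpowers_le]) ?_
          rw [Nat.card_zpowers]
          rcases (Nat.dvd_prime hQ).1 (Subgroup.orderOf_dvd_natCard Q hhQ) with h7 | h7
          · exact absurd (orderOf_eq_one_iff.1 h7) hh1'
          · exact h7.ge
        apply hxy
        rw [← h6] at hx₀
        obtain ⟨k, rfl⟩ := mem_zpowers_iff.1 hx₀
        have h7 : y₀ ∈ centralizer ({(h : G)} : Set G) := by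
          rw [← h5] at hy₀; exact hy₀.2
        rw [Subgroup.mem_centralizer_singleton_iff] at h7
        exact ((show Commute (h : G) y₀ from h7.symm).zpow_left k).eq
    rw [eq_bot_iff]
    rintro z ⟨hz1, hz2⟩
    have h3 : (z : G) ∈ R ⊓ centralizer ({(h : G)} : Set G) := by
      exact ⟨mem_subgroupOf.1 hz1, Subgroup.mem_centralizer_singleton_iff.2
        (congrArg Subtype.val (Subgroup.mem_centralizer_singleton_iff.1 hz2))⟩
    rw [h2, mem_bot] at h3
    exact mem_bot.2 (Subtype.ext h3)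
  have hk : Nat.card (frobeniusKernel (Q.subgroupOf F)) = Nat.card R := by
    rw [(Cfsg.Agent.S0034.result _ hfr).1, hc.index_eq_card]
    exact Nat.card_congr (subgroupOfEquivOfLe hRF).toEquiv
  have hcopAV := fpf_coprime hAV hfpf
  -- a nontrivial element of the kernel
  obtain ⟨x, hx, hx1⟩ : ∃ x ∈ frobeniusKernel (Q.subgroupOf F), x ≠ 1 := by
    by_contra hcon
    push Not at hcon
    have h1 : frobeniusKernel (Q.subgroupOf F) ⊆ {1} := fun y hy => hcon y hy
    have h2 := Set.ncard_le_ncard h1 (Set.toFinite _)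
    rw [Set.ncard_singleton, ← Nat.card_coe_set_eq, hk] at h2
    exact absurd hR.one_lt (by omega)
  have hx1' : (x : G) ≠ 1 := fun e => hx1 (Subtype.ext e)
  refine Cfsg.Agent.S0666.result V F hVab hV1 (hFA.trans hAV) (Q.subgroupOf F) hfr ?_ ?_ ?_
  · rw [hk]
    exact (Nat.Coprime.coprime_dvd_left (card_dvd_of_le hRA) hcopAV).symm
  · rw [eq_bot_iff]
    rintro v ⟨hv, hvc⟩
    exact mem_bot.2 (hfpf x (hFA x.2) hx1' v hv (mem_centralizer_iff.1 hvc x ⟨x, hx, rfl⟩))
  · rw [eq_bot_iff]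
    rintro v ⟨hv, hvc⟩
    obtain ⟨⟨q, hq⟩, hq1⟩ := (Subgroup.ne_bot_iff_exists_ne_one (H := Q)).mp hQb
    have hq1' : q ≠ 1 := fun e => hq1 (Subtype.ext e)
    exact mem_bot.2 (hfpf q (hQA hq) hq1' v hv (mem_centralizer_iff.1 hvc q
      ⟨⟨q, hQF hq⟩, mem_subgroupOf.2 hq, rfl⟩))

/-- S0041 -/
theorem fpf_cyclic_of_card {A V : Subgroup G} (hVab : IsMulCommutative V) (hV1 : V ≠ ⊥)
    (hAV : A ≤ normalizer (V : Set G))
    (hfpf : ∀ a ∈ A, a ≠ 1 → ∀ v ∈ V, a * v = v * a → v = 1) {p q : ℕ} (hp : p.Prime)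
    (hq : q.Prime) (hpq : p ≤ q) (hA : Nat.card A = p * q) : IsCyclic A := by
  have hcop := fpf_coprime hAV hfpf
  rcases hpq.eq_or_lt with rfl | hlt
  · haveI : Fact p.Prime := ⟨hp⟩
    have hc := IsPGroup.commutative_of_card_eq_prime_sq (G := ↥A) (p := p) (by rw [hA, sq])
    exact Cfsg.Agent.H20.isCyclic_of_fpf_comm hV1 hAV hfpf hcop fun a ha b hb =>
      congrArg Subtype.val (hc ⟨a, ha⟩ ⟨b, hb⟩)
  · haveI : Fact p.Prime := ⟨hp⟩
    haveI : Fact q.Prime := ⟨hq⟩
    -- subgroups of order `p` and `q`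
    obtain ⟨⟨a, ha⟩, hao⟩ := exists_prime_orderOf_dvd_card' (G := A) p (by rw [hA]; exact dvd_mul_right _ _)
    obtain ⟨⟨b, hb⟩, hbo⟩ := exists_prime_orderOf_dvd_card' (G := A) q (by rw [hA]; exact dvd_mul_left _ _)
    have hRn : (zpowers (⟨b, hb⟩ : A)).Normal := by
      apply Subgroup.normal_of_index_eq_minFac_card
      have h1 := (zpowers (⟨b, hb⟩ : A)).card_mul_index
      rw [Nat.card_zpowers, hbo, hA, mul_comm p q] at h1
      rw [Nat.eq_of_mul_eq_mul_left hq.pos h1, hA]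
      have h2 : (p * q) ≠ 1 := by
        intro h
        exact hp.one_lt.ne' (Nat.eq_one_of_mul_eq_one_right h)
      have h3 := Nat.minFac_prime h2
      refine le_antisymm ?_ (Nat.minFac_le_of_dvd hp.two_le (dvd_mul_right _ _))
      rcases (h3.dvd_mul).1 (Nat.minFac_dvd (p * q)) with h4 | h4
      · exact ((Nat.prime_dvd_prime_iff_eq h3 hp).1 h4).ge
      · rw [(Nat.prime_dvd_prime_iff_eq h3 hq).1 h4]; exact hlt.le
    rw [Subgroup.orderOf_mk] at hao hbo
    have hQR : zpowers a ≤ normalizer (zpowers b : Set G) := by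
      have h1 := Subgroup.le_normalizer_map A.subtype (H := zpowers (⟨b, hb⟩ : A))
      rw [normalizer_eq_top, ← MonoidHom.range_eq_map, range_subtype, MonoidHom.map_zpowers] at h1
      rw [zpowers_le]
      exact h1 ha
    have hc := fpf_comm hVab hV1 hAV hfpf (Q := zpowers a) (R := zpowers b) (by rwa [zpowers_le])
      (by rwa [zpowers_le]) (by rwa [Nat.card_zpowers, hao]) (by rwa [Nat.card_zpowers, hbo])
      (by rw [Nat.card_zpowers, Nat.card_zpowers, hao, hbo]; exact hlt.ne) hQR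
    have hab : Commute a b := hc a (mem_zpowers a) b (mem_zpowers b)
    have ho : orderOf (a * b) = p * q := by
      rw [hab.orderOf_mul_eq_mul_orderOf_of_coprime (by
        rw [hao, hbo]; exact (Nat.coprime_primes hp hq).2 hlt.ne), hao, hbo]
    refine isCyclic_of_orderOf_eq_card (⟨a * b, mul_mem ha hb⟩ : A) ?_
    rw [Subgroup.orderOf_mk, ho, hA]

/-- an element of order 2 of a group acting fixed point freely is central -/
theorem fpf_center_even {A V : Subgroup G} (hV1 : V ≠ ⊥) (hAV : A ≤ normalizer (V : Set G))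
    (hfpf : ∀ a ∈ A, a ≠ 1 → ∀ v ∈ V, a * v = v * a → v = 1) {t : G} (ht : t ∈ A)
    (ho : orderOf t = 2) {a : G} (ha : a ∈ A) : a * t = t * a := by
  have key : ∀ s ∈ A, orderOf s = 2 → ∀ v ∈ V, s * v * s⁻¹ = v⁻¹ := by
    intro s hs hso v hv
    have hs1 : s ≠ 1 := by
      rintro rfl; rw [orderOf_one] at hso; omega
    have hss : s * s = 1 := by rw [← sq, ← hso, pow_orderOf_eq_one]
    have hsi : s⁻¹ = s := inv_eq_of_mul_eq_one_right hss
    obtain ⟨b, hb, e⟩ := fpf_surj (K := V) (x := s) (hAV hs)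
      (fun k hk hc => hfpf s hs hs1 k hk hc) hv
    have e' : v = b⁻¹ * s * b * s := by rw [← e, hsi]
    rw [e', hsi]
    simp only [mul_inv_rev, hsi, inv_inv]
    calc s * (b⁻¹ * s * b * s) * s = s * b⁻¹ * s * b * (s * s) := by group
      _ = s * (b⁻¹ * (s * b)) := by rw [hss]; group
  have hs : a * t * a⁻¹ ∈ A := mul_mem (mul_mem ha ht) (inv_mem ha)
  have hso : orderOf (a * t * a⁻¹) = 2 := by
    rw [← MulAut.conj_apply, MulEquiv.orderOf_eq, ho]
  obtain ⟨⟨v, hv⟩, hv1⟩ := (Subgroup.ne_bot_iff_exists_ne_one (H := V)).mp hV1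
  have h1 := key _ hs hso v hv
  have h2 := key t ht ho v hv
  have h3 : t⁻¹ * (a * t * a⁻¹) = 1 := by
    by_contra hne
    apply hv1
    apply Subtype.ext
    refine hfpf _ (mul_mem (inv_mem ht) hs) hne v hv ?_
    have h4 : a * t * a⁻¹ * v * (a * t * a⁻¹)⁻¹ = t * v * t⁻¹ := by rw [h1, h2]
    have h5 : t⁻¹ * (a * t * a⁻¹ * v * (a * t * a⁻¹)⁻¹) * (a * t * a⁻¹) =
        t⁻¹ * (t * v * t⁻¹) * (a * t * a⁻¹) := by rw [h4]
    calc t⁻¹ * (a * t * a⁻¹) * v = t⁻¹ * (a * t * a⁻¹ * v * (a * t * a⁻¹)⁻¹) * (a * t * a⁻¹) := by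
          group
      _ = t⁻¹ * (t * v * t⁻¹) * (a * t * a⁻¹) := h5
      _ = v * (t⁻¹ * (a * t * a⁻¹)) := by group
  have h4 : a * t * a⁻¹ = t := (inv_mul_eq_one.1 h3).symm
  exact mul_inv_eq_iff_eq_mul.1 h4

open scoped IsMulCommutative in
theorem fpf_center_odd {A V : Subgroup G} (hVab : IsMulCommutative V) (hV1 : V ≠ ⊥)
    (hAV : A ≤ normalizer (V : Set G))
    (hfpf : ∀ a ∈ A, a ≠ 1 → ∀ v ∈ V, a * v = v * a → v = 1) (hA : A ≠ ⊥)
    (hodd : Odd (Nat.card A)) : ∃ x ∈ A, x ≠ 1 ∧ ∀ a ∈ A, a * x = x * a := by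
  have hcop := fpf_coprime hAV hfpf
  haveI hZ := Cfsg.Agent.H20.isZGroup_of_fpf hV1 hAV hfpf hcop hodd
  haveI : Nontrivial A := (Subgroup.nontrivial_iff_ne_bot A).2 hA
  have hlt := IsZGroup.commutator_lt (G := ↥A)
  have hcc := IsZGroup.coprime_commutator_index (G := ↥A)
  have hcyc := IsZGroup.isCyclic_commutator (G := ↥A)
  set D : Subgroup G := (_root_.commutator ↥A).map A.subtype with hD
  have hDA : D ≤ A := map_subtype_le _
  have hcardD : Nat.card D = Nat.card (_root_.commutator ↥A) := card_map_subtype _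
  haveI hDcyc : IsCyclic D := by
    exact ((_root_.commutator ↥A).equivMapOfInjective A.subtype A.subtype_injective).isCyclic.1 hcyc
  haveI hDab : IsMulCommutative D := by infer_instance
  have hAD : A ≤ normalizer (D : Set G) := by
    have h1 := Subgroup.le_normalizer_map A.subtype (H := _root_.commutator ↥A)
    rwa [normalizer_eq_top, ← MonoidHom.range_eq_map, range_subtype] at h1
  obtain ⟨q, hq, hqd⟩ := Nat.exists_prime_and_dvd (n := (_root_.commutator ↥A).index)
    (fun e => hlt.ne (Subgroup.index_eq_one.1 e))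
  haveI : Fact q.Prime := ⟨hq⟩
  have hqA : q ∣ Nat.card A := hqd.trans (Subgroup.index_dvd_card _)
  have hqD : (Nat.card D).Coprime q := by
    rw [hcardD]; exact Nat.Coprime.coprime_dvd_right hqd hcc
  obtain ⟨⟨x, hx⟩, hxo⟩ := exists_prime_orderOf_dvd_card' (G := A) q hqA
  rw [Subgroup.orderOf_mk] at hxo
  have hx1 : x ≠ 1 := by
    rintro rfl
    rw [orderOf_one] at hxo
    exact hq.one_lt.ne hxo
  refine ⟨x, hx, hx1, ?_⟩
  -- `x` centralizes `D`
  have hxD : zpowers x ≤ centralizer (D : Set G) := by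
    refine abelian_coprime_trivial_of_omega (zpowers x) D ((zpowers_le.2 hx).trans hAD) (by
      rw [Nat.card_zpowers, hxo]; exact hqD.symm) ?_
    intro v hv hvo a ha
    refine fpf_comm hVab hV1 hAV hfpf (Q := zpowers x) (R := zpowers v) (by rwa [zpowers_le])
      (by rw [zpowers_le]; exact hDA hv) (by rwa [Nat.card_zpowers, hxo])
      (by rwa [Nat.card_zpowers]) ?_ ?_ a ha v (mem_zpowers v)
    · rw [Nat.card_zpowers, Nat.card_zpowers, hxo]
      intro e
      have h1 : q ∣ Nat.card D := by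
        rw [e]; exact Subgroup.orderOf_dvd_natCard D hv
      exact hq.one_lt.ne' (Nat.eq_one_of_dvd_coprimes hqD h1 dvd_rfl)
    · -- subgroups of the cyclic group `D` are characteristic
      rw [zpowers_le]
      have h1 : ∀ g ∈ A, g * v * g⁻¹ ∈ zpowers v := by
        intro g hg
        have h2 : g * v * g⁻¹ ∈ D := (mem_normalizer_iff.1 (hAD hg) v).1 hv
        have h3 : zpowers (⟨g * v * g⁻¹, h2⟩ : D) = zpowers (⟨v, hv⟩ : D) := by
          apply Cfsg.Agent.H2.zpowers_eq_of_orderOf_eq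
          rw [Subgroup.orderOf_mk, Subgroup.orderOf_mk,
            ← MulAut.conj_apply, MulEquiv.orderOf_eq]
        have h4 : (⟨g * v * g⁻¹, h2⟩ : D) ∈ zpowers (⟨v, hv⟩ : D) := by
          rw [← h3]; exact mem_zpowers _
        obtain ⟨k, hk⟩ := mem_zpowers_iff.1 h4
        exact mem_zpowers_iff.2 ⟨k, congrArg Subtype.val hk⟩
      rw [mem_normalizer_iff]
      intro h
      constructor
      · intro hh
        obtain ⟨k, rfl⟩ := mem_zpowers_iff.1 hh
        have := zpow_mem (h1 x hx) k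
        rwa [conj_zpow] at this
      · intro hh
        obtain ⟨k, hk⟩ := mem_zpowers_iff.1 hh
        have h2 : h = x⁻¹ * v ^ k * x := by rw [hk]; group
        have := zpow_mem (h1 x⁻¹ (inv_mem hx)) k
        rw [conj_zpow, inv_inv] at this
        rwa [h2]
  intro g hg
  have hd : g * x * g⁻¹ * x⁻¹ ∈ D := by
    rw [hD]
    exact ⟨⁅⟨g, hg⟩, ⟨x, hx⟩⁆, commutator_mem_commutator trivial trivial, rfl⟩
  set d := g * x * g⁻¹ * x⁻¹ with hdd
  have hdx : Commute d x := mem_centralizer_iff.1 (hxD (mem_zpowers x)) d hd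
  have e1 : g * x * g⁻¹ = d * x := by rw [hdd]; group
  have e2 : (g * x * g⁻¹) ^ q = 1 := by
    rw [conj_pow, ← hxo, pow_orderOf_eq_one]; group
  rw [e1, hdx.mul_pow, ← hxo, pow_orderOf_eq_one, mul_one, hxo] at e2
  have h5 : orderOf d ∣ q := orderOf_dvd_of_pow_eq_one e2
  have h6 : orderOf d = 1 := Nat.eq_one_of_dvd_coprimes hqD (Subgroup.orderOf_dvd_natCard D hd) h5
  rw [orderOf_eq_one_iff] at h6
  rw [h6, one_mul] at e1
  exact mul_inv_eq_iff_eq_mul.1 e1

theorem fpf_center {A V : Subgroup G} (hVab : IsMulCommutative V) (hV1 : V ≠ ⊥)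
    (hAV : A ≤ normalizer (V : Set G))
    (hfpf : ∀ a ∈ A, a ≠ 1 → ∀ v ∈ V, a * v = v * a → v = 1) (hA : A ≠ ⊥) :
    center A ≠ ⊥ := by
  obtain ⟨x, hx, hx1, hc⟩ : ∃ x ∈ A, x ≠ 1 ∧ ∀ a ∈ A, a * x = x * a := by
    by_cases hodd : Odd (Nat.card A)
    · exact fpf_center_odd hVab hV1 hAV hfpf hA hodd
    · rw [Nat.not_odd_iff_even] at hodd
      haveI : Fact (Nat.Prime 2) := ⟨Nat.prime_two⟩
      obtain ⟨⟨t, ht⟩, hto⟩ := exists_prime_orderOf_dvd_card' (G := A) 2 hodd.two_dvd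
      rw [Subgroup.orderOf_mk] at hto
      refine ⟨t, ht, ?_, fun a ha => fpf_center_even hV1 hAV hfpf ht hto ha⟩
      rintro rfl
      rw [orderOf_one] at hto
      omega
  intro h
  have h1 : (⟨x, hx⟩ : A) ∈ center A := by
    rw [mem_center_iff]
    intro g
    exact Subtype.ext (hc g g.2)
  rw [h, mem_bot] at h1
  exact hx1 (congrArg Subtype.val h1)

/-- S0069 -/
theorem frob_compl_center {H : Subgroup G} (hH : IsFrobeniusComplement H) : center H ≠ ⊥ := by
  obtain ⟨K, -, hKn, hK1, hK2, hKb, hKnil, hfix⟩ := frob_struct hH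
  haveI : Nontrivial K := (Subgroup.nontrivial_iff_ne_bot K).2 hKb
  have hZ : center K ≠ ⊥ := by
    haveI := hKnil
    exact Group.IsNilpotent.center_ne_bot _
  set V : Subgroup G := (center K).map K.subtype with hV
  have hVn : V.Normal := ConjAct.normal_of_characteristic_of_normal
  have hVK : V ≤ K := map_subtype_le _
  refine fpf_center (V := V) ?_ ?_ (by rw [normalizer_eq_top]; exact le_top) ?_ hH.1
  · refine ⟨⟨?_⟩⟩
    rintro ⟨_, a, ha, rfl⟩ ⟨_, b, hb, rfl⟩
    exact Subtype.ext (congrArg Subtype.val (mem_center_iff.1 hb a) : (a : G) * b = b * a)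
  · intro h
    exact hZ ((Subgroup.map_eq_bot_iff_of_injective _ K.subtype_injective).1 h)
  · intro a ha ha1 v hv hc
    exact hfix a ha ha1 v (hVK hv) hc

end Cfsg.Agent.H1
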