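import Cfsg.Agent.H1.FrobComp
import Cfsg.Agent.H25.FrobKernel
import Cfsg.Agent.H20.Fpf2

/-!
# Frobenius groups: criterion, quotients (helper1)
-/

set_option autoImplicit false

namespace Cfsg.Agent.H1

open Subgroup Cfsg
open scoped commutatorElement Pointwise

universe u v w

variable {G : Type u} [Group G] [Finite G]

/-- `k ↦ k⁻¹ x k x⁻¹` is injective on a subgroup normalized by a fixed point free element -/
theorem fpf_inj {K : Subgroup G} {x : G}
    (hfix : ∀ k ∈ K, Commute x k → k = 1) {a b : G} (ha : a ∈ K) (hb : b ∈ K)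
    (hab : a⁻¹ * x * a * x⁻¹ = b⁻¹ * x * b * x⁻¹) : a = b := by
  have h2 : a⁻¹ * x * a = b⁻¹ * x * b := mul_right_cancel hab
  have h3 : Commute x (a * b⁻¹) := by
    show x * (a * b⁻¹) = a * b⁻¹ * x
    calc x * (a * b⁻¹) = a * (a⁻¹ * x * a) * b⁻¹ := by group
      _ = a * (b⁻¹ * x * b) * b⁻¹ := by rw [h2]
      _ = a * b⁻¹ * x := by group
  exact mul_inv_eq_one.mp (hfix _ (mul_mem ha (inv_mem hb)) h3)

theorem fpf_surj {K : Subgroup G} {x : G} (hx : x ∈ normalizer (K : Set G))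
    (hfix : ∀ k ∈ K, Commute x k → k = 1) {c : G} (hc : c ∈ K) :
    ∃ a ∈ K, a⁻¹ * x * a * x⁻¹ = c := by
  let φ : K → K := fun a => ⟨(a : G)⁻¹ * x * a * x⁻¹, by
    have h1 := mul_mem (inv_mem a.2) ((mem_normalizer_iff.mp hx a).mp a.2)
    have e : (a : G)⁻¹ * (x * a * x⁻¹) = (a : G)⁻¹ * x * a * x⁻¹ := by group
    rwa [e] at h1⟩
  have hφ : Function.Injective φ := fun a b hab =>
    Subtype.ext (fpf_inj hfix a.2 b.2 (congrArg Subtype.val hab))
  obtain ⟨a, ha⟩ := Finite.surjective_of_injective hφ ⟨c, hc⟩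
  exact ⟨a, a.2, congrArg Subtype.val ha⟩

theorem frob_criterion {K R : Subgroup G} [hK : K.Normal] (hKR : K ⊓ R = ⊥) (htop : K ⊔ R = ⊤)
    (hK1 : K ≠ ⊥) (hR1 : R ≠ ⊥) (hfix : ∀ x ∈ R, x ≠ 1 → ∀ k ∈ K, Commute x k → k = 1) :
    IsFrobeniusComplement R ∧ frobeniusKernel R = K := by
  refine ⟨⟨hR1, ?_, ?_⟩, ?_⟩
  · rintro rfl
    rw [inf_top_eq] at hKR
    exact hK1 hKR
  · intro g hg
    rw [eq_bot_iff]
    intro x hx
    obtain ⟨hxR, hxg⟩ := mem_inf.mp hx
    rw [mem_conj_smul] at hxg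
    have hgt : g ∈ K ⊔ R := by rw [htop]; trivial
    obtain ⟨k, hk, y, hy, rfl⟩ := mem_sup_of_normal_left.mp hgt
    by_contra hx1
    rw [mem_bot] at hx1
    have h1 : k⁻¹ * x * k ∈ R := by
      have := mul_mem (mul_mem hy hxg) (inv_mem hy)
      have e : y * ((k * y)⁻¹ * x * (k * y)) * y⁻¹ = k⁻¹ * x * k := by group
      rwa [e] at this
    have h2 : k⁻¹ * x * k * x⁻¹ ∈ K ⊓ R := by
      refine mem_inf.mpr ⟨?_, mul_mem h1 (inv_mem hxR)⟩
      have := mul_mem (inv_mem hk) (hK.conj_mem k hk x)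
      have e : k⁻¹ * (x * k * x⁻¹) = k⁻¹ * x * k * x⁻¹ := by group
      rwa [e] at this
    rw [hKR, mem_bot, mul_inv_eq_one, mul_assoc, inv_mul_eq_iff_eq_mul] at h2
    have h3 := hfix x hxR hx1 k hk h2
    apply hg
    rw [h3, one_mul]; exact hy
  · ext x
    constructor
    · rintro (rfl | hx)
      · exact one_mem K
      · have hgt : x ∈ K ⊔ R := by rw [htop]; trivial
        obtain ⟨k, hk, y, hy, rfl⟩ := mem_sup_of_normal_left.mp hgt
        by_cases hy1 : y = 1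
        · rw [hy1, mul_one]; exact hk
        · exfalso
          obtain ⟨a, ha, hak⟩ := fpf_surj (K := K) (x := y) (by rw [normalizer_eq_top]; trivial)
            (hfix y hy hy1) hk
          apply hx a⁻¹
          rw [mem_conj_smul, ← hak]
          have e : a⁻¹⁻¹ * (a⁻¹ * y * a * y⁻¹ * y) * a⁻¹ = y := by group
          rw [e]; exact hy
    · intro hx
      by_cases hx1 : x = 1
      · exact Or.inl hx1
      · right
        intro g hg
        rw [mem_conj_smul] at hg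
        have h1 : g⁻¹ * x * g ∈ K := by
          have := hK.conj_mem x hx g⁻¹
          rwa [inv_inv] at this
        have h2 : g⁻¹ * x * g ∈ K ⊓ R := mem_inf.mpr ⟨h1, hg⟩
        rw [hKR, mem_bot] at h2
        apply hx1
        have : x = g * (g⁻¹ * x * g) * g⁻¹ := by group
        rw [this, h2]; group

/-- the structure of a Frobenius group -/
theorem frob_struct {R : Subgroup G} (hR : IsFrobeniusComplement R) :
    ∃ K : Subgroup G, (K : Set G) = frobeniusKernel R ∧ K.Normal ∧ K ⊓ R = ⊥ ∧ K ⊔ R = ⊤ ∧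
      K ≠ ⊥ ∧ Group.IsNilpotent K ∧ ∀ x ∈ R, x ≠ 1 → ∀ k ∈ K, Commute x k → k = 1 := by
  obtain ⟨K, hKs, hKn, hKc⟩ := H25.frobenius_kernel hR
  obtain ⟨K', hKs', -, hKnil⟩ := Cfsg.Agent.H20.Fpf.frobenius_nilpotent hR
  have hKK : K' = K := SetLike.coe_injective (hKs'.trans hKs.symm)
  subst hKK
  have h1 : K' ⊓ R = ⊥ := hKc.disjoint.eq_bot
  have h2 : K' ⊔ R = ⊤ := hKc.sup_eq_top
  refine ⟨K', hKs, hKn, h1, h2, ?_, hKnil, ?_⟩
  · rintro rfl
    rw [bot_sup_eq] at h2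
    exact hR.2.1 h2
  · intro x hx hx1 k hk hc
    have h3 := frob_centralizer_le hR hx hx1
      (Subgroup.mem_centralizer_singleton_iff.2 (show k * x = x * k from hc.symm))
    have h4 : k ∈ K' ⊓ R := mem_inf.mpr ⟨hk, h3⟩
    rwa [h1, mem_bot] at h4

/-- a normal subgroup of a Frobenius group is contained in or contains the kernel -/
theorem frob_normal_le {R K : Subgroup G} [hK : K.Normal] (htop : K ⊔ R = ⊤)
    (hfix : ∀ x ∈ R, x ≠ 1 → ∀ k ∈ K, Commute x k → k = 1) (N : Subgroup G) [hN : N.Normal]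
    (hKN : ¬ K ≤ N) : N ≤ K := by
  by_contra hNK
  apply hKN
  obtain ⟨x, hxN, hxK⟩ := SetLike.not_le_iff_exists.mp hNK
  have hgt : x ∈ K ⊔ R := by rw [htop]; trivial
  obtain ⟨k, hk, y, hy, rfl⟩ := mem_sup_of_normal_left.mp hgt
  have hy1 : y ≠ 1 := by
    rintro rfl
    rw [mul_one] at hxK
    exact hxK hk
  -- a conjugate of `y` lies in `N`
  obtain ⟨a, ha, hak⟩ := fpf_surj (K := K) (x := y) (by rw [normalizer_eq_top]; trivial)
    (hfix y hy hy1) hk
  have hyN : y ∈ N := by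
    have h1 := hN.conj_mem _ hxN a
    rw [← hak] at h1
    have e : a * (a⁻¹ * y * a * y⁻¹ * y) * a⁻¹ = y := by group
    rwa [e] at h1
  intro c hc
  obtain ⟨b, hb, rfl⟩ := fpf_surj (K := K) (x := y) (by rw [normalizer_eq_top]; trivial)
    (hfix y hy hy1) hc
  have h1 := mul_mem (hN.conj_mem y hyN b⁻¹) (inv_mem hyN)
  rwa [inv_inv] at h1

theorem frob_quotient {R : Subgroup G} (hR : IsFrobeniusComplement R) (N : Subgroup G) [hN : N.Normal]
    (hKN : ¬ frobeniusKernel R ⊆ N) : IsFrobeniusComplement (R.map (QuotientGroup.mk' N)) ∧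
      frobeniusKernel (R.map (QuotientGroup.mk' N)) =
        QuotientGroup.mk' N '' frobeniusKernel R := by
  obtain ⟨K, hKs, hKn, hKR, htop, hK1, -, hfix⟩ := frob_struct hR
  have hKN' : ¬ K ≤ N := fun h => hKN (by rw [← hKs]; exact h)
  have hNK := frob_normal_le htop hfix N hKN'
  set κ := QuotientGroup.mk' N with hκ
  have hκs : Function.Surjective κ := QuotientGroup.mk'_surjective N
  have hκ1 : ∀ y : G, κ y = 1 ↔ y ∈ N := fun y => QuotientGroup.eq_one_iff y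
  haveI : (K.map κ).Normal := hKn.map κ hκs
  have h1 : K.map κ ⊓ R.map κ = ⊥ := by
    rw [eq_bot_iff]
    rintro _ hz
    obtain ⟨⟨k, hk, rfl⟩, ⟨x, hx, hxk⟩⟩ := mem_inf.mp hz
    have h2 : k⁻¹ * x ∈ N := by rw [← hκ1, map_mul, map_inv, hxk, inv_mul_cancel]
    have h3 : x ∈ K ⊓ R := by
      refine mem_inf.mpr ⟨?_, hx⟩
      have := mul_mem hk (hNK h2)
      rwa [mul_inv_cancel_left] at this
    rw [hKR, mem_bot] at h3
    rw [mem_bot, ← hxk, h3, map_one]
  have h2 : K.map κ ⊔ R.map κ = ⊤ := by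
    rw [← Subgroup.map_sup, htop, ← MonoidHom.range_eq_map, MonoidHom.range_eq_top]
    exact hκs
  have h3 : K.map κ ≠ ⊥ := by
    rw [Ne, map_mk'_eq_bot_iff]
    exact hKN'
  have h4 : R.map κ ≠ ⊥ := by
    rw [Ne, map_mk'_eq_bot_iff]
    intro h5
    apply hR.1
    rw [eq_bot_iff, ← hKR]
    exact le_inf (h5.trans hNK) le_rfl
  have h5 := frob_criterion h1 h2 h3 h4 (by
    rintro _ ⟨x, hx, rfl⟩ hx1 _ ⟨k, hk, rfl⟩ hc
    have hx1' : x ≠ 1 := by rintro rfl; exact hx1 (map_one _)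
    have h6 : k⁻¹ * x * k * x⁻¹ ∈ N := by
      rw [← hκ1]
      simp only [map_mul, map_inv]
      rw [mul_assoc ((κ k)⁻¹), show κ x * κ k = κ k * κ x from hc]
      group
    obtain ⟨n, hn, hnk⟩ := fpf_surj (K := N) (x := x) (by rw [normalizer_eq_top]; trivial)
      (fun k' hk' hc' => hfix x hx hx1' k' (hNK hk') hc') h6
    have h7 := fpf_inj (K := K) (x := x) (hfix x hx hx1') (hNK hn) hk hnk
    rw [hκ1, ← h7]; exact hn)
  refine ⟨h5.1, ?_⟩
  rw [h5.2, coe_map, hKs]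

end Cfsg.Agent.H1
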