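import Mathlib
import Cfsg.Prelude.Def_FusionSystem
import Cfsg.Agent.H28.FusSimple
import Cfsg.Agent.H28.GroupSimple
import Cfsg.Agent.H28.Mach2

set_option autoImplicit false

/-! A second criterion for simplicity of the fusion system of a group (helper1). -/

open Cfsg Cfsg.FusionSystem

namespace Cfsg.Agent.H1.FusCrit

open Cfsg.Agent.H28

/-- the subgroup of `N_G(S)` coming from products of `p`-elements in normalizers of centric normal subgroups of `S` -/
def ctl {G : Type*} [Group G] (p : ℕ) (S : Subgroup G) : Set G :=
  {n : G | n ∈ Subgroup.normalizer (S : Set G) ∧ ∃ R : Subgroup G, R ≤ S ∧ S ≤ Subgroup.normalizer (R : Set G) ∧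
        (∀ x ∈ S, (∀ y ∈ R, x * y = y * x) → x ∈ R) ∧
        n ∈ Subgroup.closure {g : G | g ∈ Subgroup.normalizer (R : Set G) ∧ ∃ k : ℕ, g ^ p ^ k = 1}}

/-- If no proper nontrivial subgroup of `S` is strongly closed and `N_G(S)` is generated by `S`, elements centralizing
`S` and elements which are products of `p`-elements of `N_G(R)` for some `R` normal in `S` with `C_S(R) ≤ R`, then the
fusion system of `G` is simple. -/
theorem simple_crit3 {G : Type*} [Group G] [Finite G] {p : ℕ} [Fact p.Prime] (S : Sylow p G)
    (hne : (S : Subgroup G) ≠ ⊥)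
    (hT : ∀ T : Subgroup G, T ≤ S → T ≠ ⊥ →
      (∀ t ∈ T, ∀ g : G, g * t * g⁻¹ ∈ (S : Subgroup G) → g * t * g⁻¹ ∈ T) → (S : Subgroup G) ≤ T)
    (hN : ∀ n : G, n ∈ Subgroup.normalizer ((S : Subgroup G) : Set G) →
      n ∈ Subgroup.closure (((S : Subgroup G) : Set G) ∪ {g | ∀ x ∈ (S : Subgroup G), g * x = x * g} ∪
        ctl p (S : Subgroup G))) :
    (groupFusionSystem (S : Subgroup G)).IsSimple p := by
  have hS := S.isPGroup'
  obtain ⟨F, hFdef⟩ : ∃ F, F = groupFusionSystem (S : Subgroup G) := ⟨_, rfl⟩
  rw [← hFdef]
  have hF : F.IsSaturated p := by rw [hFdef]; exact group_saturated S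
  refine ⟨hF, hne, fun T E hE => ?_⟩
  have hsc : F.StronglyClosed T := hE.1.2.2.2.1
  by_cases hT0 : T = ⊥
  · exact Or.inl hT0
  right
  have hmg : ∀ {P : Subgroup G} {g : G}, P ≤ S → (∀ x ∈ P, g * x * g⁻¹ ∈ (S : Subgroup G)) →
      Mor F P (fun x => g * x * g⁻¹) := by
    intro P g hP h
    rw [hFdef]; exact mor_group_conj hP h
  have hST : (S : Subgroup G) ≤ T := by
    refine hT T hsc.1 hT0 fun t ht g hg => ?_
    have hm : Mor F (Subgroup.zpowers t) (fun x => g * x * g⁻¹) := by
      refine hmg (by rw [Subgroup.zpowers_le]; exact hsc.1 ht) fun x hx => ?_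
      obtain ⟨k, rfl⟩ := Subgroup.mem_zpowers_iff.1 hx
      rw [← conj_zpow]
      exact zpow_mem hg k
    exact sc_apply (f := fun x => g * x * g⁻¹) hsc hm (Subgroup.mem_zpowers t) ht
  obtain rfl : T = (S : Subgroup G) := le_antisymm hsc.1 hST
  have hEs : E.IsSaturated p := hE.1.1
  have hinv : E.IsInvariantIn F := hE.1.2.2
  have hsub : ∀ P f, Mor E P f → Mor F P f := subsystem_iff.1 hinv.1
  suffices h : F.autGroup (S : Subgroup G) ≤ E.autGroup (S : Subgroup G) by
    have := inv_eq_of_top hinv h
    exact ⟨rfl, fun P => by rw [this]⟩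
  have hFaut : ∀ {P : Subgroup G}, P ≤ S → F.autGroup P = autInducedBy ⊤ P := by
    intro P hP; rw [hFdef]; exact autGroup_group hP
  rw [hFaut le_rfl]
  intro α hα
  obtain ⟨n, -, hnα⟩ := mem_autInducedBy'.1 hα
  have hnN : n ∈ Subgroup.normalizer ((S : Subgroup G) : Set G) := normalizer_of_autFun hnα
  suffices hm : Mor E (S : Subgroup G) (fun x => n * x * n⁻¹) from
    mem_autGroup_of_mor hm fun x => by rw [← autFun_coe, hnα x x.2]
  -- the subgroup of elements that induce automorphisms in `E`
  have hclos : ∀ n ∈ Subgroup.closure (((S : Subgroup G) : Set G) ∪ {g | ∀ x ∈ (S : Subgroup G), g * x = x * g} ∪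
        ctl p (S : Subgroup G)), n ∈ Subgroup.normalizer ((S : Subgroup G) : Set G) ∧
        Mor E (S : Subgroup G) (fun x => n * x * n⁻¹) ∧ Mor E (S : Subgroup G) (fun x => n⁻¹ * x * n⁻¹⁻¹) := by
    -- enough for single elements
    have hone : ∀ n ∈ (((S : Subgroup G) : Set G) ∪ {g | ∀ x ∈ (S : Subgroup G), g * x = x * g} ∪
        ctl p (S : Subgroup G)), n ∈ Subgroup.normalizer ((S : Subgroup G) : Set G) ∧
        Mor E (S : Subgroup G) (fun x => n * x * n⁻¹) := by
      rintro n ((hn | hn) | ⟨hnN, R, hRS, hRn, hRc, hg⟩)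
      · exact ⟨Subgroup.le_normalizer hn, mor_conj le_rfl hn⟩
      · have hn' : ∀ x ∈ (S : Subgroup G), n * x * n⁻¹ = x := by
          intro x hx
          rw [hn x hx, mul_inv_cancel_right]
        refine ⟨?_, (mor_self le_rfl).congr fun x hx => (hn' x hx).symm⟩
        rw [Subgroup.mem_normalizer_iff]
        intro x
        constructor
        · intro hx
          rw [hn' x hx]; exact hx
        · intro hx
          have h1 := hn' _ hx
          have h2 : n * x * n⁻¹ = x := by
            have h3 : n * (n * x * n⁻¹) * n⁻¹ = n * x * n⁻¹ := h1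
            have h4 := mul_right_cancel h3
            have h5 := mul_left_cancel h4
            exact h5
          rw [h2] at hx; exact hx
      · refine ⟨hnN, ?_⟩
        have hfn : F.IsFullyNormalized R := fullyNormalized_of_normal hRS hRn
        have hcen : F.IsCentric R := by
          apply centric_of_fullyCentralized (FN.fc hS hF hfn)
          intro x hx
          obtain ⟨h1, h2⟩ := mem_centralizerIn.1 hx
          exact hRc x h1 h2
        have key : ∀ g ∈ Subgroup.closure {g : G | g ∈ Subgroup.normalizer (R : Set G) ∧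
            ∃ k : ℕ, g ^ p ^ k = 1}, ∃ h : g ∈ Subgroup.normalizer (R : Set G),
            conjAut R g h ∈ E.autGroup R := by
          intro g hg
          refine Subgroup.closure_induction (p := fun g _ => ∃ h : g ∈ Subgroup.normalizer (R : Set G),
            conjAut R g h ∈ E.autGroup R) ?_ ?_ ?_ ?_ hg
          · rintro g ⟨hgR, k, hk⟩
            refine ⟨hgR, inv_pElement hS hF hinv hfn ?_ ?_⟩
            · rw [hFaut hRS]
              exact conjAut_mem hgR trivial
            · apply isPGroup_zpowers_of_pow (n := k)
              apply mulAut_ext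
              intro x hx
              rw [autFun_one hx]
              have : ∀ n : ℕ, ∀ x ∈ R, autFun ((conjAut R g hgR) ^ n) x = g ^ n * x * (g ^ n)⁻¹ := by
                intro n
                induction n with
                | zero => intro x hx; rw [pow_zero, autFun_one hx]; simp
                | succ n ih =>
                  intro x hx
                  rw [pow_succ, autFun_mul _ _ hx, autFun_conjAut hgR hx, ih _
                    ((Subgroup.mem_normalizer_iff.1 hgR x).1 hx), pow_succ]
                  group
              rw [this _ x hx, hk]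
              simp
          · refine ⟨Subgroup.one_mem _, ?_⟩
            have : conjAut R (1 : G) (Subgroup.one_mem _) = 1 := mulAut_ext fun x hx => by
              rw [autFun_conjAut _ hx, autFun_one hx]; simp
            rw [this]; exact Subgroup.one_mem _
          · rintro a b _ _ ⟨ha, ha'⟩ ⟨hb, hb'⟩
            refine ⟨Subgroup.mul_mem _ ha hb, ?_⟩
            have : conjAut R (a * b) (Subgroup.mul_mem _ ha hb) = conjAut R a ha * conjAut R b hb :=
              mulAut_ext fun x hx => by
                rw [autFun_conjAut _ hx, autFun_mul _ _ hx, autFun_conjAut _ hx, autFun_conjAut ha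
                  ((Subgroup.mem_normalizer_iff.1 hb x).1 hx)]
                group
            rw [this]; exact Subgroup.mul_mem _ ha' hb'
          · rintro a _ ⟨ha, ha'⟩
            refine ⟨Subgroup.inv_mem _ ha, ?_⟩
            have : conjAut R a⁻¹ (Subgroup.inv_mem _ ha) = (conjAut R a ha)⁻¹ := by
              rw [eq_inv_iff_mul_eq_one]
              refine mulAut_ext fun x hx => ?_
              rw [autFun_mul _ _ hx, autFun_conjAut _ hx, autFun_one hx,
                autFun_conjAut (Subgroup.inv_mem _ ha) ((Subgroup.mem_normalizer_iff.1 ha x).1 hx)]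
              group
            rw [this]; exact Subgroup.inv_mem _ ha'
        obtain ⟨hgR, hgE⟩ := key _ hg
        have hmE : Mor E R (fun x => n * x * n⁻¹) :=
          (mor_autFun hRS hgE).congr fun x hx => autFun_conjAut hgR hx
        have hmF : Mor F (S : Subgroup G) (fun x => n * x * n⁻¹) :=
          hmg le_rfl fun x hx => (Subgroup.mem_normalizer_iff.1 hnN x).1 hx
        exact ext_up hS hF hEs hsub hmF _ R hcen le_rfl hmE
    have hinvs : ∀ n : G, n ∈ Subgroup.normalizer ((S : Subgroup G) : Set G) →
        Mor E (S : Subgroup G) (fun x => n * x * n⁻¹) → Mor E (S : Subgroup G) (fun x => n⁻¹ * x * n⁻¹⁻¹) := by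
      intro n hn hm
      obtain ⟨g, hg1, hg2, hg3⟩ := hm.inverse
      have himg : img (S : Subgroup G) (fun x => n * x * n⁻¹) = (S : Subgroup G) := by
        apply le_antisymm
        · rw [img_le_iff]; intro x hx; exact (Subgroup.mem_normalizer_iff.1 hn x).1 hx
        · intro y hy
          rw [hm.mem_img]
          exact ⟨n⁻¹ * y * n, by
            have := (Subgroup.mem_normalizer_iff.1 hn (n⁻¹ * y * n)).2
            apply this
            have e : n * (n⁻¹ * y * n) * n⁻¹ = y := by group
            rw [e]; exact hy, by group⟩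
      rw [himg] at hg1
      refine hg1.congr fun x hx => ?_
      have h1 := hg2 (n⁻¹ * x * n) (by
            have := (Subgroup.mem_normalizer_iff.1 hn (n⁻¹ * x * n)).2
            apply this
            have e : n * (n⁻¹ * x * n) * n⁻¹ = x := by group
            rw [e]; exact hx)
      have e : n * (n⁻¹ * x * n) * n⁻¹ = x := by group
      simp only [e] at h1
      rw [h1]; group
    intro n hn
    induction hn using Subgroup.closure_induction with
    | mem n hn =>
      obtain ⟨h1, h2⟩ := hone n hn
      exact ⟨h1, h2, hinvs n h1 h2⟩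
    | one =>
      refine ⟨one_mem _, ?_, ?_⟩
      · exact (mor_self le_rfl).congr fun x _ => by group
      · exact (mor_self le_rfl).congr fun x _ => by group
    | mul a b _ _ ha hb =>
      obtain ⟨a1, a2, a3⟩ := ha
      obtain ⟨b1, b2, b3⟩ := hb
      refine ⟨mul_mem a1 b1, ?_, ?_⟩
      · exact (b2.comp a2 (fun x hx => (Subgroup.mem_normalizer_iff.1 b1 x).1 hx)).congr fun x _ => by group
      · exact (a3.comp b3 (fun x hx => (Subgroup.mem_normalizer_iff.1 (inv_mem a1) x).1 hx)).congr
          fun x _ => by group
    | inv a _ ha =>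
      obtain ⟨a1, a2, a3⟩ := ha
      refine ⟨inv_mem a1, a3, a2.congr fun x _ => by group⟩
  exact (hclos n (hN n hnN)).2.1

end Cfsg.Agent.H1.FusCrit
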