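import Cfsg.Agent.H1.FusCrit3

set_option autoImplicit false

/-! Transport of the criterion to an arbitrary Sylow subgroup (helper1). -/

open Cfsg Cfsg.FusionSystem

namespace Cfsg.Agent.H1.FusCrit

section
variable {G : Type*} [Group G]

theorem mem_conjMap {H : Subgroup G} {g x : G} :
    x ∈ H.map (MulAut.conj g).toMonoidHom ↔ g⁻¹ * x * g ∈ H := by
  constructor
  · rintro ⟨y, hy, rfl⟩
    show g⁻¹ * (g * y * g⁻¹) * g ∈ H
    have e : g⁻¹ * (g * y * g⁻¹) * g = y := by group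
    rw [e]; exact hy
  · intro h
    refine ⟨g⁻¹ * x * g, h, ?_⟩
    show g * (g⁻¹ * x * g) * g⁻¹ = x
    group

theorem mem_norm_conjMap {H : Subgroup G} {g n : G} :
    n ∈ Subgroup.normalizer ((H.map (MulAut.conj g).toMonoidHom : Subgroup G) : Set G) ↔
      g⁻¹ * n * g ∈ Subgroup.normalizer (H : Set G) := by
  rw [Subgroup.mem_normalizer_iff, Subgroup.mem_normalizer_iff]
  constructor
  · intro h x
    have h1 := h (g * x * g⁻¹)
    rw [mem_conjMap, mem_conjMap] at h1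
    have e1 : g⁻¹ * (g * x * g⁻¹) * g = x := by group
    have e2 : g⁻¹ * (n * (g * x * g⁻¹) * n⁻¹) * g = g⁻¹ * n * g * x * (g⁻¹ * n * g)⁻¹ := by group
    rw [e1, e2] at h1
    exact h1
  · intro h x
    rw [mem_conjMap, mem_conjMap]
    have h1 := h (g⁻¹ * x * g)
    have e2 : g⁻¹ * n * g * (g⁻¹ * x * g) * (g⁻¹ * n * g)⁻¹ = g⁻¹ * (n * x * n⁻¹) * g := by group
    rw [e2] at h1
    exact h1

theorem ctl_conj {p : ℕ} {S : Subgroup G} {g n : G} (h : n ∈ ctl p S) :
    g * n * g⁻¹ ∈ ctl p (S.map (MulAut.conj g).toMonoidHom) := by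
  obtain ⟨h1, R, hRS, hRn, hRc, hcl⟩ := h
  have e0 : g⁻¹ * (g * n * g⁻¹) * g = n := by group
  refine ⟨by rw [mem_norm_conjMap, e0]; exact h1, R.map (MulAut.conj g).toMonoidHom, Subgroup.map_mono hRS, ?_, ?_, ?_⟩
  · rintro _ ⟨s, hs, rfl⟩
    rw [mem_norm_conjMap]
    have e : g⁻¹ * ((MulAut.conj g).toMonoidHom s) * g = s := by
      show g⁻¹ * (g * s * g⁻¹) * g = s
      group
    rw [e]; exact hRn hs
  · rintro _ ⟨s, hs, rfl⟩ hc
    refine ⟨s, hRc s hs fun y hy => ?_, rfl⟩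
    have h2 := hc ((MulAut.conj g).toMonoidHom y) ⟨y, hy, rfl⟩
    rw [← map_mul, ← map_mul] at h2
    exact (MulAut.conj g).injective h2
  · have h2 : (MulAut.conj g).toMonoidHom n ∈ (Subgroup.closure {g : G | g ∈ Subgroup.normalizer (R : Set G) ∧
        ∃ k : ℕ, g ^ p ^ k = 1}).map (MulAut.conj g).toMonoidHom := ⟨n, hcl, rfl⟩
    rw [MonoidHom.map_closure] at h2
    refine Subgroup.closure_mono ?_ h2
    rintro _ ⟨x, ⟨hx, k, hk⟩, rfl⟩
    refine ⟨?_, k, ?_⟩
    · rw [mem_norm_conjMap]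
      have e : g⁻¹ * ((MulAut.conj g).toMonoidHom x) * g = x := by
        show g⁻¹ * (g * x * g⁻¹) * g = x
        group
      rw [e]; exact hx
    · rw [← map_pow, hk, map_one]

theorem simple_crit4 [Finite G] {p : ℕ} [Fact p.Prime] (R : Sylow p G) (hne : (R : Subgroup G) ≠ ⊥)
    (hT : ∀ T : Subgroup G, T ≤ R → T ≠ ⊥ →
      (∀ t ∈ T, ∀ g : G, g * t * g⁻¹ ∈ (R : Subgroup G) → g * t * g⁻¹ ∈ T) → (R : Subgroup G) ≤ T)
    (hN : ∀ n : G, n ∈ Subgroup.normalizer ((R : Subgroup G) : Set G) →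
      n ∈ Subgroup.closure (((R : Subgroup G) : Set G) ∪ {g | ∀ x ∈ (R : Subgroup G), g * x = x * g} ∪
        ctl p (R : Subgroup G))) (S : Sylow p G) :
    (groupFusionSystem (S : Subgroup G)).IsSimple p := by
  obtain ⟨g, hg⟩ := MulAction.exists_smul_eq G R S
  have hS : (S : Subgroup G) = (R : Subgroup G).map (MulAut.conj g).toMonoidHom := by rw [← hg]; rfl
  apply simple_crit3 S
  · rw [hS]
    intro h
    apply hne
    rw [(Subgroup.map_eq_bot_iff_of_injective _ (MulAut.conj g).injective)] at h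
    exact h
  · intro T hTS hT1 hTc
    have h1 := hT (T.map (MulAut.conj g⁻¹).toMonoidHom) ?_ ?_ ?_
    · rw [hS]
      rintro _ ⟨x, hx, rfl⟩
      have h2 := h1 hx
      rw [mem_conjMap, inv_inv] at h2
      exact h2
    · rintro _ ⟨x, hx, rfl⟩
      have h2 := hTS hx
      rw [hS, mem_conjMap] at h2
      show g⁻¹ * x * g⁻¹⁻¹ ∈ _
      rw [inv_inv]; exact h2
    · intro h
      apply hT1
      rw [(Subgroup.map_eq_bot_iff_of_injective _ (MulAut.conj g⁻¹).injective)] at h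
      exact h
    · intro t ht k hk
      rw [mem_conjMap, inv_inv] at ht ⊢
      have e : g * (k * t * k⁻¹) * g⁻¹ = g * k * g⁻¹ * (g * t * g⁻¹) * (g * k * g⁻¹)⁻¹ := by group
      rw [e]
      apply hTc _ ht
      rw [← e, hS, mem_conjMap]
      have e2 : g⁻¹ * (g * (k * t * k⁻¹) * g⁻¹) * g = k * t * k⁻¹ := by group
      rw [e2]; exact hk
  · intro n hn
    rw [hS, mem_norm_conjMap] at hn
    have h1 := hN _ hn
    have h2 : (MulAut.conj g).toMonoidHom (g⁻¹ * n * g) ∈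
        (Subgroup.closure (((R : Subgroup G) : Set G) ∪ {g | ∀ x ∈ (R : Subgroup G), g * x = x * g} ∪
        ctl p (R : Subgroup G))).map (MulAut.conj g).toMonoidHom := ⟨_, h1, rfl⟩
    have e : (MulAut.conj g).toMonoidHom (g⁻¹ * n * g) = n := by
      show g * (g⁻¹ * n * g) * g⁻¹ = n
      group
    rw [e, MonoidHom.map_closure] at h2
    refine Subgroup.closure_mono ?_ h2
    rintro _ ⟨x, ((hx | hx) | hx), rfl⟩
    · left; left
      rw [hS]; exact ⟨x, hx, rfl⟩
    · left; right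
      intro y hy
      rw [hS] at hy
      obtain ⟨y', hy', rfl⟩ := hy
      rw [← map_mul, ← map_mul, hx y' hy']
    · right
      rw [hS]; exact ctl_conj hx

end

end Cfsg.Agent.H1.FusCrit
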