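import Cfsg.Agent.H1.Sylow
import Cfsg.Agent.H1.Permute
import Cfsg.Agent.H3.BurnsidePQ

/-!
# Converse of Hall's theorem (helper1)
-/

set_option autoImplicit false
set_option linter.all false

namespace Cfsg.Agent.H1

open Subgroup
open scoped Pointwise

universe u

/-- Either at most two primes divide `n`, or there are three distinct prime divisors. -/
theorem two_or_three_primes (n : ℕ) :
    (∃ p q : ℕ, p.Prime ∧ q.Prime ∧ ∀ r : ℕ, r.Prime → r ∣ n → r = p ∨ r = q) ∨
    (∃ p q r : ℕ, p.Prime ∧ q.Prime ∧ r.Prime ∧ p ≠ q ∧ p ≠ r ∧ q ≠ r ∧ p ∣ n ∧ q ∣ n ∧ r ∣ n) := by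
  by_cases h1 : ∃ p : ℕ, p.Prime ∧ p ∣ n
  · obtain ⟨p, hp, hpn⟩ := h1
    by_cases h2 : ∃ q : ℕ, q.Prime ∧ q ∣ n ∧ q ≠ p
    · obtain ⟨q, hq, hqn, hqp⟩ := h2
      by_cases h3 : ∃ r : ℕ, r.Prime ∧ r ∣ n ∧ r ≠ p ∧ r ≠ q
      · obtain ⟨r, hr, hrn, hrp, hrq⟩ := h3
        exact Or.inr ⟨p, q, r, hp, hq, hr, hqp.symm, hrp.symm, hrq.symm, hpn, hqn, hrn⟩
      · push Not at h3
        refine Or.inl ⟨p, q, hp, hq, fun r hr hrn => ?_⟩
        by_cases hrp : r = p
        · exact Or.inl hrp
        · exact Or.inr (h3 r hr hrn hrp)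
    · push Not at h2
      exact Or.inl ⟨p, p, hp, hp, fun r hr hrn => Or.inl (h2 r hr hrn)⟩
  · push Not at h1
    exact Or.inl ⟨2, 2, Nat.prime_two, Nat.prime_two, fun r hr hrn => absurd hrn (h1 r hr)⟩

theorem hall_converse_aux (n : ℕ) : ∀ (G : Type u) [Group G] [Finite G], Nat.card G = n →
    (∀ p : ℕ, p.Prime → ∃ H : Subgroup G, H.index = p ^ (Nat.card G).factorization p) →
    Group.IsSolvable G := by
  induction n using Nat.strong_induction_on with
  | _ n ih =>
    intro G _ _ hn h
    have hG0 : Nat.card G ≠ 0 := Nat.card_pos.ne'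
    rcases two_or_three_primes (Nat.card G) with ⟨p, q, hp, hq, hr⟩ | ⟨p, q, r, hp, hq, hr, hpq, hpr, hqr, hpn, hqn, hrn⟩
    · exact Cfsg.Agent.H3.burnside_paqb p q hp hq _ G rfl hr
    · have key : ∀ p : ℕ, p.Prime → p ∣ Nat.card G → ∀ K : Subgroup G,
          K.index = p ^ (Nat.card G).factorization p → Group.IsSolvable K := by
        intro p hp hpn K hK
        have hcard : Nat.card K * p ^ (Nat.card G).factorization p = Nat.card G := by
          rw [← hK, K.card_mul_index]
        have hK0 : Nat.card K ≠ 0 := Nat.card_pos.ne'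
        have hlt : Nat.card K < n := by
          rw [← hn, ← hcard]
          have h1 : 1 < p ^ (Nat.card G).factorization p := by
            apply Nat.one_lt_pow _ hp.one_lt
            rw [← pos_iff_ne_zero]
            exact hp.factorization_pos_of_dvd hG0 hpn
          have h2 : 0 < Nat.card K := Nat.card_pos
          nlinarith
        have hfac : ∀ s : ℕ, (Nat.card K).factorization s + (if s = p then (Nat.card G).factorization p else 0)
            = (Nat.card G).factorization s := by
          intro s
          have : (Nat.card K * p ^ (Nat.card G).factorization p).factorization s =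
              (Nat.card G).factorization s := by rw [hcard]
          rw [Nat.factorization_mul hK0 (pow_ne_zero _ hp.ne_zero), hp.factorization_pow] at this
          rw [← this, Finsupp.add_apply, Finsupp.single_apply]
          by_cases hsp : s = p
          · subst hsp; simp
          · rw [if_neg hsp, if_neg (fun h => hsp h.symm)]
        refine ih _ hlt K rfl ?_
        intro s hs
        by_cases hsp : s = p
        · subst hsp
          refine ⟨⊤, ?_⟩
          have := hfac s
          rw [if_pos rfl] at this
          have h0 : (Nat.card K).factorization s = 0 := by omega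
          rw [h0, pow_zero, Subgroup.index_top]
        · obtain ⟨L, hL⟩ := h s hs
          have hcop : L.index.Coprime K.index := by
            rw [hL, hK]
            exact Nat.Coprime.pow _ _ ((Nat.coprime_primes hs hp).mpr hsp)
          refine ⟨L.subgroupOf K, ?_⟩
          have h1 : (L.subgroupOf K).index = L.relIndex K := rfl
          rw [h1, relIndex_eq_index_of_factor (factor_of_coprime_index hcop), hL]
          have := hfac s
          rw [if_neg hsp, add_zero] at this
          rw [this]
      obtain ⟨K₁, h₁⟩ := h p hp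
      obtain ⟨K₂, h₂⟩ := h q hq
      obtain ⟨K₃, h₃⟩ := h r hr
      refine isSolvable_of_three_coprime_indices (key p hp hpn K₁ h₁) (key q hq hqn K₂ h₂)
        (key r hr hrn K₃ h₃) ?_ ?_ ?_
      · rw [h₁, h₂]; exact Nat.Coprime.pow _ _ ((Nat.coprime_primes hp hq).mpr hpq)
      · rw [h₁, h₃]; exact Nat.Coprime.pow _ _ ((Nat.coprime_primes hp hr).mpr hpr)
      · rw [h₂, h₃]; exact Nat.Coprime.pow _ _ ((Nat.coprime_primes hq hr).mpr hqr)

theorem hall_converse {G : Type*} [Group G] [Finite G]
    (h : ∀ p : ℕ, p.Prime → ∃ H : Subgroup G, H.index = p ^ (Nat.card G).factorization p) :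
    Group.IsSolvable G := hall_converse_aux _ G rfl h

/-- Pairwise permuting Sylow subgroups: products over finite sets of primes. -/
theorem exists_hall_of_permuting {G : Type*} [Group G] [Finite G]
    (S : (p : Nat.Primes) → Sylow (p : ℕ) G)
    (hS : ∀ p q : Nat.Primes, (S p : Set G) * (S q : Set G) = (S q : Set G) * (S p : Set G))
    (T : Finset Nat.Primes) :
    ∃ K : Subgroup G, Nat.card K = ∏ q ∈ T, (q : ℕ) ^ (Nat.card G).factorization q ∧
      (∀ r : Nat.Primes, (K : Set G) * (S r : Set G) = (S r : Set G) * (K : Set G)) ∧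
      (K = ⨆ q ∈ T, (S q : Subgroup G)) := by
  classical
  induction T using Finset.induction_on with
  | empty =>
    refine ⟨⊥, by simp, fun r => ?_, by simp⟩
    simp
  | insert q T hq ih =>
    obtain ⟨K, hK, hp, hsup⟩ := ih
    haveI : Fact (q : ℕ).Prime := ⟨q.2⟩
    have h1 := coe_sup_of_permute (H := K) (K := (S q : Subgroup G)) (hp q)
    have hcop : (Nat.card K).Coprime (Nat.card (S q : Subgroup G)) := by
      rw [hK, (S q).card_eq_multiplicity]
      apply Nat.Coprime.prod_left
      intro r hr
      apply Nat.Coprime.pow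
      refine (Nat.coprime_primes r.2 q.2).mpr ?_
      intro h
      exact hq (by rwa [← Subtype.ext h])
    have h2 := card_of_coe_eq_mul_of_coprime h1 hcop
    refine ⟨K ⊔ (S q : Subgroup G), ?_, fun r => ?_, ?_⟩
    · rw [h2, hK, (S q).card_eq_multiplicity, Finset.prod_insert hq, mul_comm]
    · rw [h1]
      change (K : Set G) * (S q : Set G) * (S r : Set G) = (S r : Set G) * ((K : Set G) * (S q : Set G))
      rw [mul_assoc, hS q r, ← mul_assoc, hp r, mul_assoc]
    · rw [Finset.iSup_insert, ← hsup, sup_comm]

theorem solvable_of_permuting_sylow {G : Type*} [Group G] [Finite G]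
    (S : (p : Nat.Primes) → Sylow (p : ℕ) G)
    (hS : ∀ p q : Nat.Primes, (S p : Set G) * (S q : Set G) = (S q : Set G) * (S p : Set G)) :
    Group.IsSolvable G := by
  classical
  apply hall_converse
  intro p hp
  have hG0 : Nat.card G ≠ 0 := Nat.card_pos.ne'
  let T : Finset Nat.Primes := ((Nat.card G).primeFactors.erase p).subtype Nat.Prime
  obtain ⟨K, hK, -, -⟩ := exists_hall_of_permuting S hS T
  refine ⟨K, ?_⟩
  have h1 : ∏ q ∈ T, (q : ℕ) ^ (Nat.card G).factorization q =
      ∏ q ∈ (Nat.card G).primeFactors.erase p, q ^ (Nat.card G).factorization q := by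
    refine (Finset.prod_subtype_eq_prod_filter (s := (Nat.card G).primeFactors.erase p)
      (p := Nat.Prime) (f := fun q => q ^ (Nat.card G).factorization q)).trans ?_
    rw [Finset.filter_true_of_mem]
    intro x hx
    exact Nat.prime_of_mem_primeFactors (Finset.mem_of_mem_erase hx)
  rw [h1] at hK
  have h2 : (∏ q ∈ (Nat.card G).primeFactors.erase p, q ^ (Nat.card G).factorization q) *
      p ^ (Nat.card G).factorization p = Nat.card G := by
    conv_rhs => rw [← Nat.prod_factorization_pow_eq_self hG0]
    rw [Finsupp.prod, Nat.support_factorization]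
    by_cases hpm : p ∈ (Nat.card G).primeFactors
    · rw [Finset.prod_erase_mul _ _ hpm]
    · rw [Finset.erase_eq_of_notMem hpm]
      have : (Nat.card G).factorization p = 0 := by
        rw [← Finsupp.notMem_support_iff, Nat.support_factorization]; exact hpm
      rw [this, pow_zero, mul_one]
  have h3 := K.card_mul_index
  rw [hK] at h3
  have h4 : (∏ q ∈ (Nat.card G).primeFactors.erase p, q ^ (Nat.card G).factorization q) ≠ 0 := by
    rw [← hK]; exact Nat.card_pos.ne'
  exact mul_left_cancel₀ h4 (h3.trans h2.symm)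

end Cfsg.Agent.H1
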