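import Cfsg.Agent.H29.XS4
import Cfsg.Agent.H1.Cores

set_option autoImplicit false

/-! Large extraspecial 2-subgroups. -/

namespace Cfsg.Agent.H1.Large
open Cfsg Cfsg.Agent.H29

variable {G : Type*} [Group G]

structure LS [Finite G] (Q : G → Subgroup G) (z : G) : Prop where
  hQ : ∀ x : G, Q x = (Cfsg.pCore 2 ↥(Subgroup.centralizer ({x} : Set G))).map (Subgroup.centralizer ({x} : Set G)).subtype
  hz : orderOf z = 2
  hE : Cfsg.IsExtraspecial 2 ↥(Q z)
  hC : Subgroup.centralizer ((Q z : Subgroup G) : Set G) ≤ Q z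

section basic
variable [Finite G] {Q : G → Subgroup G}
  (hQ : ∀ x : G, Q x = (Cfsg.pCore 2 ↥(Subgroup.centralizer ({x} : Set G))).map (Subgroup.centralizer ({x} : Set G)).subtype)
include hQ

theorem Q_le (x : G) : Q x ≤ Subgroup.centralizer ({x} : Set G) := by
  rw [hQ]; exact Subgroup.map_subtype_le _

theorem Q_comm {x y : G} (hy : y ∈ Q x) : y * x = x * y :=
  Subgroup.mem_centralizer_singleton_iff.1 (Q_le hQ x hy)

theorem Q_pgroup (x : G) : IsPGroup 2 (Q x) := by
  rw [hQ]; exact (H1.pCore_isPGroup 2 _).map _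

theorem Q_norm {x c y : G} (hc : c * x = x * c) (hy : y ∈ Q x) : c * y * c⁻¹ ∈ Q x := by
  rw [hQ] at hy ⊢
  obtain ⟨w, hw, rfl⟩ := hy
  exact ⟨⟨c, Subgroup.mem_centralizer_singleton_iff.2 hc⟩ * w * ⟨c, Subgroup.mem_centralizer_singleton_iff.2 hc⟩⁻¹,
    (H1.pCore_normal 2 _).conj_mem _ hw _, rfl⟩

theorem le_Q {x : G} {N : Subgroup G} (h1 : N ≤ Subgroup.centralizer ({x} : Set G)) (h2 : IsPGroup 2 N)
    (h3 : ∀ c : G, c * x = x * c → ∀ n ∈ N, c * n * c⁻¹ ∈ N) : N ≤ Q x := by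
  rw [hQ]
  have h4 : (N.subgroupOf (Subgroup.centralizer ({x} : Set G))).Normal := by
    constructor
    intro n hn c
    rw [Subgroup.mem_subgroupOf] at hn ⊢
    exact h3 c (Subgroup.mem_centralizer_singleton_iff.1 c.2) n hn
  have h5 : IsPGroup 2 (N.subgroupOf (Subgroup.centralizer ({x} : Set G))) :=
    h2.comap_subtype
  intro n hn
  exact ⟨⟨n, h1 hn⟩, H1.le_pCore h4 h5 hn, rfl⟩

theorem Q_conj_le (g x y : G) (hy : y ∈ Q x) : g * y * g⁻¹ ∈ Q (g * x * g⁻¹) := by
  have h : (Q x).map (MulAut.conj g).toMonoidHom ≤ Q (g * x * g⁻¹) := by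
    apply le_Q hQ
    · rintro _ ⟨w, hw, rfl⟩
      rw [Subgroup.mem_centralizer_singleton_iff]
      have := Q_comm hQ hw
      show g * w * g⁻¹ * (g * x * g⁻¹) = g * x * g⁻¹ * (g * w * g⁻¹)
      calc g * w * g⁻¹ * (g * x * g⁻¹) = g * (w * x) * g⁻¹ := by group
        _ = g * (x * w) * g⁻¹ := by rw [this]
        _ = _ := by group
    · exact (Q_pgroup hQ x).map _
    · rintro c hc _ ⟨w, hw, rfl⟩
      refine ⟨(g⁻¹ * c * g) * w * (g⁻¹ * c * g)⁻¹, Q_norm hQ ?_ hw, ?_⟩
      · calc g⁻¹ * c * g * x = g⁻¹ * (c * (g * x * g⁻¹)) * g := by group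
          _ = g⁻¹ * (g * x * g⁻¹ * c) * g := by rw [hc]
          _ = _ := by group
      · show g * ((g⁻¹ * c * g) * w * (g⁻¹ * c * g)⁻¹) * g⁻¹ = c * (g * w * g⁻¹) * c⁻¹
        group
  exact h ⟨y, hy, rfl⟩

theorem mem_Q_conj {g x y : G} : g * y * g⁻¹ ∈ Q (g * x * g⁻¹) ↔ y ∈ Q x := by
  constructor
  · intro h
    have := Q_conj_le hQ g⁻¹ _ _ h
    rwa [show g⁻¹ * (g * y * g⁻¹) * g⁻¹⁻¹ = y by group, show g⁻¹ * (g * x * g⁻¹) * g⁻¹⁻¹ = x by group] at this
  · exact Q_conj_le hQ g x y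

theorem mem_Q_conj' {g x y : G} : y ∈ Q (g * x * g⁻¹) ↔ g⁻¹ * y * g ∈ Q x := by
  rw [← mem_Q_conj hQ (g := g) (x := x) (y := g⁻¹ * y * g)]
  rw [show g * (g⁻¹ * y * g) * g⁻¹ = y by group]

end basic

section LS
variable [Finite G] {Q : G → Subgroup G} {z : G}

theorem LS.xs (h : LS Q z) : XS (Q z) z := by
  obtain ⟨w, hw⟩ := xs_of_isExtraspecial (Q z) h.hE
  have hz : z ∈ Q z := h.hC (Subgroup.mem_centralizer_iff.2 fun y hy => Q_comm h.hQ hy)
  rcases hw.cent z hz (fun y hy => (Q_comm h.hQ hy).symm) with h1 | h1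
  · exfalso
    have := h.hz
    rw [h1, orderOf_one] at this
    omega
  · rw [h1]; rw [h1] at hw; exact hw

/-- everything conjugates -/
theorem LS.xs_conj (h : LS Q z) {x : G} (hx : ∃ g : G, g * z * g⁻¹ = x) :
    XS (Q x) x ∧ (∀ y, (∀ w ∈ Q x, y * w = w * y) → y ∈ Q x) ∧ Nat.card (Q x) = Nat.card (Q z) := by
  obtain ⟨g, rfl⟩ := hx
  have hz := h.xs
  have hm := fun y => mem_Q_conj' h.hQ (g := g) (x := z) (y := y)
  have hcomm : ∀ a b : G, a * b = b * a ↔ (g⁻¹ * a * g) * (g⁻¹ * b * g) = (g⁻¹ * b * g) * (g⁻¹ * a * g) := by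
    intro a b
    rw [show (g⁻¹ * a * g) * (g⁻¹ * b * g) = g⁻¹ * (a * b) * g by group,
      show (g⁻¹ * b * g) * (g⁻¹ * a * g) = g⁻¹ * (b * a) * g by group]
    constructor
    · intro h; rw [h]
    · intro h
      exact mul_left_cancel (mul_right_cancel h)
  refine ⟨XS.mk' (Q_pgroup h.hQ _) ?_ ?_ ?_ ?_ ?_ ?_ ?_ ?_, ?_, ?_⟩
  · intro h1
    apply hz.z_ne
    rw [mul_inv_eq_one] at h1
    exact mul_eq_left.1 h1
  · rw [show g * z * g⁻¹ * (g * z * g⁻¹) = g * (z * z) * g⁻¹ by group, hz.z_sq]; group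
  · exact Q_conj_le h.hQ g z z hz.z_mem
  · intro y hy
    exact Q_comm h.hQ hy
  · intro y hy hyc
    have h1 := hz.cent _ ((hm y).1 hy) (fun w hw => by
      have := (hcomm y (g * w * g⁻¹)).1 (hyc _ (Q_conj_le h.hQ g z w hw))
      rwa [show g⁻¹ * (g * w * g⁻¹) * g = w by group] at this)
    rcases h1 with h1 | h1
    · left
      rw [show y = g * (g⁻¹ * y * g) * g⁻¹ by group, h1]; group
    · right
      rw [← h1]; group
  · intro a ha b hb
    rcases hz.comm _ ((hm a).1 ha) _ ((hm b).1 hb) with h1 | h1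
    · left; exact (hcomm a b).2 h1
    · right
      calc a * b = g * ((g⁻¹ * a * g) * (g⁻¹ * b * g)) * g⁻¹ := by group
        _ = g * (z * (g⁻¹ * b * g * (g⁻¹ * a * g))) * g⁻¹ := by rw [h1]
        _ = _ := by group
  · intro a ha
    rcases hz.sq _ ((hm a).1 ha) with h1 | h1
    · left
      calc a * a = g * ((g⁻¹ * a * g) * (g⁻¹ * a * g)) * g⁻¹ := by group
        _ = 1 := by rw [h1]; group
    · right
      calc a * a = g * ((g⁻¹ * a * g) * (g⁻¹ * a * g)) * g⁻¹ := by group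
        _ = _ := by rw [h1]
  · obtain ⟨a, ha, b, hb, hab⟩ := hz.nonab
    refine ⟨g * a * g⁻¹, Q_conj_le h.hQ g z a ha, g * b * g⁻¹, Q_conj_le h.hQ g z b hb, fun h1 => hab ?_⟩
    have := (hcomm _ _).1 h1
    rwa [show g⁻¹ * (g * a * g⁻¹) * g = a by group, show g⁻¹ * (g * b * g⁻¹) * g = b by group] at this
  · intro y hy
    rw [hm]
    apply h.hC
    rw [Subgroup.mem_centralizer_iff]
    intro w hw
    have := (hcomm y (g * w * g⁻¹)).1 (hy _ (Q_conj_le h.hQ g z w hw))
    rw [show g⁻¹ * (g * w * g⁻¹) * g = w by group] at this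
    exact this.symm
  · have h1 : (Q z).map (MulAut.conj g).toMonoidHom = Q (g * z * g⁻¹) := by
      ext y
      rw [hm]
      constructor
      · rintro ⟨w, hw, rfl⟩
        show g⁻¹ * (g * w * g⁻¹) * g ∈ Q z
        rwa [show g⁻¹ * (g * w * g⁻¹) * g = w by group]
      · intro hy
        refine ⟨_, hy, ?_⟩
        show g * (g⁻¹ * y * g) * g⁻¹ = y
        group
    rw [← h1]
    exact (Nat.card_congr ((Q z).equivMapOfInjective _ (MulAut.conj g).injective).toEquiv).symm

end LS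

/-! ### singular subgroups -/

/-- an element of `Q` centralizing `H` but not `v` -/
theorem exists_sep {Q : Subgroup G} {z : G} (h : XS Q z) [Finite Q] {H : Subgroup G} (hz : z ∈ H) (hH : H ≤ Q)
    {v : G} (hv : v ∈ Q) (hvH : v ∉ H) : ∃ q ∈ Q, (∀ y ∈ H, q * y = y * q) ∧ q * v = z * (v * q) := by
  by_contra hne
  push Not at hne
  apply hvH
  rw [← h.cent_cent hz hH, XS.mem_centIn]
  refine ⟨hv, fun q hq => ?_⟩
  rw [XS.mem_centIn] at hq
  rcases h.comm q hq.1 v hv with h1 | h1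
  · exact h1.symm
  · exact absurd h1 (hne q hq.1 hq.2)

section sing
variable [Finite G] {Q : G → Subgroup G} {z : G} {U : Subgroup G}

structure Sing (Q : G → Subgroup G) (z : G) (U : Subgroup G) : Prop where
  hU2 : ∀ u ∈ U, u * u = 1
  hS : ∀ u ∈ U, u ≠ 1 → ∃ g : G, g * z * g⁻¹ = u
  hO : ∀ u ∈ U, ∀ v ∈ U, u ≠ 1 → v ≠ 1 → v ∈ Q u

theorem Sing.le (hU : Sing Q z U) {u : G} (hu : u ∈ U) (hu1 : u ≠ 1) : U ≤ Q u := by
  intro v hv
  by_cases h : v = 1
  · rw [h]; exact one_mem _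
  · exact hU.hO u hu v hv hu1 h

theorem Sing.inv (hU : Sing Q z U) {u : G} (hu : u ∈ U) : u⁻¹ = u :=
  inv_eq_of_mul_eq_one_left (hU.hU2 u hu)

theorem Sing.comm (h : LS Q z) (hU : Sing Q z U) {u v : G} (hu : u ∈ U) (hv : v ∈ U) : u * v = v * u := by
  by_cases hu1 : u = 1
  · rw [hu1]; simp
  · exact (Q_comm h.hQ (hU.le hu hu1 hv)).symm

/-- `[q, v] ∈ U` -/
theorem Sing.comm_mem (h : LS Q z) (hU : Sing Q z U) {u : G} (hu : u ∈ U) (hu1 : u ≠ 1) {q v : G}
    (hq : q ∈ Q u) (hv : v ∈ Q u) : q * v * q⁻¹ * v⁻¹ ∈ U := by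
  have hx := (h.xs_conj (hU.hS u hu hu1)).1
  rcases hx.comm q hq v hv with h1 | h1
  · rw [h1]; simp
  · rw [h1]
    have : u * (v * q) * q⁻¹ * v⁻¹ = u := by group
    rw [this]; exact hu

theorem Sing.norm (h : LS Q z) (hU : Sing Q z U) {u : G} (hu : u ∈ U) (hu1 : u ≠ 1) {q v : G}
    (hq : q ∈ Q u) (hv : v ∈ U) : q * v * q⁻¹ ∈ U := by
  have h1 := hU.comm_mem h hu hu1 hq (hU.le hu hu1 hv)
  have h2 := U.mul_mem h1 hv
  rwa [show q * v * q⁻¹ * v⁻¹ * v = q * v * q⁻¹ by group] at h2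

theorem Sing.fix_full (h : LS Q z) (hU : Sing Q z U) (LU : Subgroup G)
    (hLU : ∀ u ∈ U, u ≠ 1 → Q u ≤ LU) :
    ∀ (n : ℕ) (φ : U ≃* U) (W : Subgroup G), W ≤ U → (∀ u : U, (u : G) ∈ W → φ u = u) →
      Nat.card U - Nat.card W ≤ n → ∃ g ∈ LU, ∀ u : U, g * (u : G) * g⁻¹ = ((φ u : U) : G) := by
  intro n
  induction n with
  | zero =>
    intro φ W hWU hW hn
    have hWe : W = U := by
      apply Subgroup.eq_of_le_of_card_ge hWU
      omega
    refine ⟨1, one_mem _, fun u => ?_⟩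
    rw [hW u (by rw [hWe]; exact u.2)]
    simp
  | succ n ih =>
    intro φ W hWU hW hn
    by_cases hWe : U ≤ W
    · refine ⟨1, one_mem _, fun u => ?_⟩
      rw [hW u (hWe u.2)]
      simp
    obtain ⟨v, hvU, hvW⟩ := SetLike.not_le_iff_exists.1 hWe
    by_cases hfix : φ ⟨v, hvU⟩ = ⟨v, hvU⟩
    · -- enlarge W
      let W' : Subgroup G := W ⊔ Subgroup.zpowers v
      have hW'U : W' ≤ U := sup_le hWU (by rw [Subgroup.zpowers_le]; exact hvU)
      refine ih φ W' hW'U ?_ ?_
      · have hle : W' ≤ ((φ.toMonoidHom.eqLocus (MonoidHom.id U)).map U.subtype) := by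
          refine sup_le ?_ ?_
          · intro w hw
            exact ⟨⟨w, hWU hw⟩, hW ⟨w, hWU hw⟩ hw, rfl⟩
          · rw [Subgroup.zpowers_le]
            exact ⟨⟨v, hvU⟩, hfix, rfl⟩
        intro u hu
        obtain ⟨w, hw, hwu⟩ := hle hu
        have : w = u := Subtype.ext hwu
        rw [← this]; exact hw
      · have hlt : W < W' := by
          refine lt_of_le_of_ne le_sup_left ?_
          intro he
          apply hvW
          rw [he]
          exact (le_sup_right : Subgroup.zpowers v ≤ W') (Subgroup.mem_zpowers v)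
        have h1 : Nat.card W < Nat.card W' := by
          by_contra hge
          push Not at hge
          exact hlt.ne (Subgroup.eq_of_le_of_card_ge hlt.le hge)
        have h2 : Nat.card W' ≤ Nat.card U := Subgroup.card_le_of_le hW'U
        omega
    · -- use a transvection
      set v' : G := ((φ ⟨v, hvU⟩ : U) : G) with hv'
      have hv'U : v' ∈ U := (φ ⟨v, hvU⟩).2
      set u : G := v * v' with hu
      have huU : u ∈ U := U.mul_mem hvU hv'U
      have hu1 : u ≠ 1 := by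
        intro h1
        apply hfix
        apply Subtype.ext
        have : v' = v⁻¹ := eq_inv_of_mul_eq_one_right h1
        rw [← hv', this, hU.inv hvU]
      have hxs := (h.xs_conj (hU.hS u huU hu1)).1
      -- v' ∉ ⟨W, u⟩
      have hWmem : ∀ y, y ∈ W ⊔ Subgroup.zpowers u → y ∈ W ∨ ∃ w ∈ W, y = w * u := by
        intro y hy
        -- explicit subgroup
        let K : Subgroup G :=
          { carrier := {y | y ∈ W ∨ ∃ w ∈ W, y = w * u}
            one_mem' := Or.inl W.one_mem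
            mul_mem' := by
              rintro a b (ha | ⟨a', ha, rfl⟩) (hb | ⟨b', hb, rfl⟩)
              · exact Or.inl (W.mul_mem ha hb)
              · right
                exact ⟨a * b', W.mul_mem ha hb, by group⟩
              · right
                refine ⟨a' * b, W.mul_mem ha hb, ?_⟩
                rw [mul_assoc, hU.comm h huU (hWU hb)]; group
              · left
                have h1 : a' * u * (b' * u) = a' * b' * (u * u) := by
                  calc a' * u * (b' * u) = a' * (u * b') * u := by group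
                    _ = a' * (b' * u) * u := by rw [hU.comm h huU (hWU hb)]
                    _ = _ := by group
                rw [h1, hU.hU2 u huU, mul_one]
                exact W.mul_mem ha hb
            inv_mem' := by
              rintro a (ha | ⟨a', ha, rfl⟩)
              · exact Or.inl (W.inv_mem ha)
              · right
                refine ⟨a'⁻¹, W.inv_mem ha, ?_⟩
                rw [mul_inv_rev, hU.inv huU, hU.comm h huU (U.inv_mem (hWU ha))] }
        have hle : W ⊔ Subgroup.zpowers u ≤ K := by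
          refine sup_le (fun w hw => Or.inl hw) ?_
          rw [Subgroup.zpowers_le]
          exact Or.inr ⟨1, W.one_mem, by simp⟩
        exact hle hy
      have hv'W : v' ∉ W := by
        intro h1
        have h2 := hW ⟨v', hv'U⟩ h1
        have h3 : (⟨v', hv'U⟩ : U) = ⟨v, hvU⟩ := by
          apply φ.injective
          rw [h2]
        apply hvW
        have h4 : v' = v := congrArg Subtype.val h3
        rw [← h4]; exact h1
      have hv'H : v' ∉ W ⊔ Subgroup.zpowers u := by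
        intro h1
        rcases hWmem v' h1 with h2 | ⟨w, hw, h2⟩
        · exact hv'W h2
        · apply hvW
          -- v' = w * v * v'  → v = w⁻¹
          have h3 : w * v = 1 := by
            have : w * v * v' = v' := by rw [mul_assoc, ← hu]; exact h2.symm
            exact mul_eq_right.1 this
          have h4 : v = w⁻¹ := eq_inv_of_mul_eq_one_right h3
          rw [h4]; exact W.inv_mem hw
      obtain ⟨q, hq, hqH, hqv⟩ := exists_sep hxs (H := W ⊔ Subgroup.zpowers u)
        ((le_sup_right : Subgroup.zpowers u ≤ _) (Subgroup.mem_zpowers u))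
        (sup_le (hWU.trans (hU.le huU hu1)) (by rw [Subgroup.zpowers_le]; exact hU.le huU hu1 huU))
        (hU.le huU hu1 hv'U) hv'H
      -- the transvection
      have hqU : ∀ y ∈ U, q * y * q⁻¹ ∈ U := fun y hy => hU.norm h huU hu1 hq hy
      have hqU' : ∀ y ∈ U, q⁻¹ * y * q ∈ U := fun y hy => by
        have := hU.norm h huU hu1 ((Q u).inv_mem hq) hy
        rwa [inv_inv] at this
      let τ : U ≃* U :=
        { toFun := fun y => ⟨q * y * q⁻¹, hqU y y.2⟩
          invFun := fun y => ⟨q⁻¹ * y * q, hqU' y y.2⟩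
          left_inv := fun y => Subtype.ext (by show q⁻¹ * (q * y * q⁻¹) * q = y; group)
          right_inv := fun y => Subtype.ext (by show q * (q⁻¹ * y * q) * q⁻¹ = y; group)
          map_mul' := fun a b => Subtype.ext (by
            show q * ((a : G) * b) * q⁻¹ = (q * a * q⁻¹) * (q * b * q⁻¹); group) }
      have hτ : ∀ y : U, ((τ y : U) : G) = q * y * q⁻¹ := fun y => rfl
      let W' : Subgroup G := W ⊔ Subgroup.zpowers v
      have hW'U : W' ≤ U := sup_le hWU (by rw [Subgroup.zpowers_le]; exact hvU)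
      obtain ⟨g, hg, hgφ⟩ := ih (φ.trans τ) W' hW'U (by
        have hle : W' ≤ (((φ.trans τ).toMonoidHom.eqLocus (MonoidHom.id U)).map U.subtype) := by
          refine sup_le ?_ ?_
          · intro w hw
            refine ⟨⟨w, hWU hw⟩, ?_, rfl⟩
            show τ (φ ⟨w, hWU hw⟩) = ⟨w, hWU hw⟩
            rw [hW ⟨w, hWU hw⟩ hw]
            apply Subtype.ext
            rw [hτ]
            show q * w * q⁻¹ = w
            rw [hqH w ((le_sup_left : W ≤ _) hw)]; group
          · rw [Subgroup.zpowers_le]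
            refine ⟨⟨v, hvU⟩, ?_, rfl⟩
            show τ (φ ⟨v, hvU⟩) = ⟨v, hvU⟩
            apply Subtype.ext
            rw [hτ, ← hv', hqv]
            show u * (v' * q) * q⁻¹ = v
            calc u * (v' * q) * q⁻¹ = u * v' := by group
              _ = v * (v' * v') := by rw [hu]; group
              _ = v := by rw [hU.hU2 v' hv'U, mul_one]
        intro u hu
        obtain ⟨w, hw, hwu⟩ := hle hu
        have : w = u := Subtype.ext hwu
        rw [← this]; exact hw) (by
        have hlt : W < W' := by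
          refine lt_of_le_of_ne le_sup_left ?_
          intro he
          apply hvW
          rw [he]
          exact (le_sup_right : Subgroup.zpowers v ≤ W') (Subgroup.mem_zpowers v)
        have h1 : Nat.card W < Nat.card W' := by
          by_contra hge
          push Not at hge
          exact hlt.ne (Subgroup.eq_of_le_of_card_ge hlt.le hge)
        have h2 : Nat.card W' ≤ Nat.card U := Subgroup.card_le_of_le hW'U
        omega)
      refine ⟨q⁻¹ * g, LU.mul_mem (LU.inv_mem (hLU u huU hu1 hq)) hg, fun y => ?_⟩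
      have h1 := hgφ y
      have h2 : (((φ.trans τ) y : U) : G) = q * ((φ y : U) : G) * q⁻¹ := rfl
      rw [h2] at h1
      calc q⁻¹ * g * y * (q⁻¹ * g)⁻¹ = q⁻¹ * (g * y * g⁻¹) * q := by group
        _ = q⁻¹ * (q * ((φ y : U) : G) * q⁻¹) * q := by rw [h1]
        _ = _ := by group

theorem Sing.bot_lt_exists (hU : U ≠ ⊥) : ∃ u ∈ U, u ≠ 1 := by
  by_contra hne
  push Not at hne
  exact hU ((Subgroup.eq_bot_iff_forall U).2 hne)

variable {QU LU : Subgroup G} (hQU : QU = ⨅ u ∈ ((U : Set G) \ {1}), Q u)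
  (hLU : LU = ⨆ u ∈ ((U : Set G) \ {1}), Q u)

include hQU in
theorem mem_QU {x : G} : x ∈ QU ↔ ∀ u ∈ U, u ≠ 1 → x ∈ Q u := by
  rw [hQU]
  simp only [Subgroup.mem_iInf]
  constructor
  · intro h u hu hu1; exact h u ⟨hu, hu1⟩
  · intro h u hu; exact h u hu.1 hu.2

include hLU in
theorem le_LU {u : G} (hu : u ∈ U) (hu1 : u ≠ 1) : Q u ≤ LU := by
  rw [hLU]
  exact le_iSup₂_of_le u ⟨hu, hu1⟩ le_rfl

include hLU in
theorem LU_le {K : Subgroup G} (h : ∀ u ∈ U, u ≠ 1 → Q u ≤ K) : LU ≤ K := by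
  rw [hLU]
  exact iSup₂_le fun u hu => h u hu.1 hu.2

include hLU in
theorem LU_norm (h : LS Q z) (hU : Sing Q z U) : LU ≤ Subgroup.normalizer (U : Set G) := by
  apply LU_le hLU
  intro u hu hu1 q hq
  rw [Subgroup.mem_normalizer_iff]
  intro y
  constructor
  · intro hy; exact hU.norm h hu hu1 hq hy
  · intro hy
    have := hU.norm h hu hu1 ((Q u).inv_mem hq) hy
    rwa [show q⁻¹ * (q * y * q⁻¹) * q⁻¹⁻¹ = y by group] at this

include hQU in
theorem U_le_QU (hU : Sing Q z U) : U ≤ QU := by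
  intro x hx
  rw [mem_QU hQU]
  intro u hu hu1
  exact hU.le hu hu1 hx

include hQU hLU in
theorem comm_LU_QU (h : LS Q z) (hU : Sing Q z U) : ∀ g ∈ LU, ∀ x ∈ QU, g * x * g⁻¹ * x⁻¹ ∈ U := by
  -- the subgroup of all such normalizing elements
  have hUQ := U_le_QU hQU hU
  have hn := LU_norm hLU h hU
  let K : Subgroup G :=
    { carrier := {g | g ∈ Subgroup.normalizer (U : Set G) ∧ ∀ x ∈ QU, g * x * g⁻¹ * x⁻¹ ∈ U}
      one_mem' := ⟨one_mem _, fun x _ => by simp⟩
      mul_mem' := by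
        rintro a b ⟨ha, ha'⟩ ⟨hb, hb'⟩
        refine ⟨mul_mem ha hb, fun x hx => ?_⟩
        have h1 := hb' x hx
        have h2 : a * (b * x * b⁻¹ * x⁻¹) * a⁻¹ ∈ U := (Subgroup.mem_normalizer_iff.1 ha _).1 h1
        have h3 := ha' x hx
        have h4 := U.mul_mem h2 h3
        rwa [show a * (b * x * b⁻¹ * x⁻¹) * a⁻¹ * (a * x * a⁻¹ * x⁻¹) = a * b * x * (a * b)⁻¹ * x⁻¹ by group] at h4
      inv_mem' := by
        rintro a ⟨ha, ha'⟩
        refine ⟨inv_mem ha, fun x hx => ?_⟩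
        have h1 := ha' x hx
        have h2 : a⁻¹ * (a * x * a⁻¹ * x⁻¹) * a⁻¹⁻¹ ∈ U := (Subgroup.mem_normalizer_iff.1 (inv_mem ha) _).1 h1
        have h3 := U.inv_mem h2
        rwa [show (a⁻¹ * (a * x * a⁻¹ * x⁻¹) * a⁻¹⁻¹)⁻¹ = a⁻¹ * x * a⁻¹⁻¹ * x⁻¹ by group] at h3 }
  have hle : LU ≤ K := by
    apply LU_le hLU
    intro u hu hu1 q hq
    refine ⟨hn (le_LU hLU hu hu1 hq), fun x hx => ?_⟩
    exact hU.comm_mem h hu hu1 hq ((mem_QU hQU).1 hx u hu hu1)
  intro g hg
  exact (hle hg).2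

include hQU hLU in
theorem trans_coset (h : LS Q z) (hU : Sing Q z U) : ∀ x ∈ QU, x ∉ U → ∀ u ∈ U,
    ∃ g ∈ LU ⊓ Subgroup.centralizer (U : Set G), g * x * g⁻¹ = x * u := by
  intro x hx hxU u hu
  by_cases hu1 : u = 1
  · exact ⟨1, one_mem _, by rw [hu1]; simp⟩
  · have hxs := (h.xs_conj (hU.hS u hu hu1)).1
    obtain ⟨q, hq, hqU, hqx⟩ := exists_sep hxs (H := U) hu (hU.le hu hu1)
      ((mem_QU hQU).1 hx u hu hu1) hxU
    refine ⟨q, ?_, ?_⟩
    · refine Subgroup.mem_inf.2 ⟨le_LU hLU hu hu1 hq, ?_⟩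
      rw [Subgroup.mem_centralizer_iff]
      intro y hy
      exact (hqU y hy).symm
    · rw [hqx]
      have := Q_comm h.hQ ((mem_QU hQU).1 hx u hu hu1)
      calc u * (x * q) * q⁻¹ = u * x := by group
        _ = x * u := this.symm

/-- `Q_s ∩ Q_t ≤ Q_{st}` -/
theorem inter_le (h : LS Q z) (hU : Sing Q z U) {s t x : G} (hs : s ∈ U) (ht : t ∈ U) (hs1 : s ≠ 1)
    (ht1 : t ≠ 1) (hst : s * t ≠ 1) (hxs : x ∈ Q s) (hxt : x ∈ Q t) : x ∈ Q (s * t) := by
  have hT := (h.xs_conj (hU.hS t ht ht1)).1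
  have hsT : s ∈ Q t := hU.le ht ht1 hs
  -- q in Q t not commuting with s
  have hex : ∃ q ∈ Q t, q * s ≠ s * q := by
    by_contra hne
    push Not at hne
    rcases hT.cent s hsT (fun y hy => (hne y hy).symm) with h1 | h1
    · exact hs1 h1
    · apply hst
      rw [h1]; exact hU.hU2 t ht
  obtain ⟨q, hq, hqs⟩ := hex
  have h1 : q * s = t * (s * q) := (hT.comm q hq s hsT).resolve_left hqs
  have h2 : q * s * q⁻¹ = s * t := by
    rw [h1, hU.comm h hs ht]; group
  -- q⁻¹ x q ∈ {x, t x}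
  have h3 : q⁻¹ * x * q ∈ Q s := by
    rcases hT.comm q hq x hxt with h4 | h4
    · rw [mul_assoc, ← h4]; 
      rwa [show q⁻¹ * (q * x) = x by group]
    · have h5 : q⁻¹ * x * q = t * x := by
        have h6 : x * q = t * (q * x) := by
          have : t * (t * (x * q)) = t * (q * x) := by rw [h4]
          rwa [← mul_assoc, hU.hU2 t ht, one_mul] at this
        have h7 := Q_comm h.hQ hq
        calc q⁻¹ * x * q = q⁻¹ * (x * q) := by group
          _ = q⁻¹ * (t * (q * x)) := by rw [h6]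
          _ = q⁻¹ * ((t * q) * x) := by group
          _ = q⁻¹ * ((q * t) * x) := by rw [h7]
          _ = t * x := by group
      rw [h5]
      exact (Q s).mul_mem (hU.le hs hs1 ht) hxs
  rw [← h2, mem_Q_conj' h.hQ]
  exact h3

include hQU in
theorem gen_QU (h : LS Q z) (hU : Sing Q z U) (T : Set G) (hT : Subgroup.closure T = U) (hT1 : (1 : G) ∉ T) :
    QU = ⨅ t ∈ T, Q t := by
  have hTU : ∀ t ∈ T, t ∈ U := fun t ht => by rw [← hT]; exact Subgroup.subset_closure ht
  apply le_antisymm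
  · refine le_iInf₂ fun t ht x hx => ?_
    exact (mem_QU hQU).1 hx t (hTU t ht) (fun h1 => hT1 (h1 ▸ ht))
  · intro x hx
    simp only [Subgroup.mem_iInf] at hx
    rw [mem_QU hQU]
    let K : Subgroup G :=
      { carrier := {u | u ∈ U ∧ (u = 1 ∨ x ∈ Q u)}
        one_mem' := ⟨one_mem _, Or.inl rfl⟩
        mul_mem' := by
          rintro a b ⟨ha, ha'⟩ ⟨hb, hb'⟩
          refine ⟨U.mul_mem ha hb, ?_⟩
          by_cases ha1 : a = 1
          · rw [ha1, one_mul]; exact hb'
          by_cases hb1 : b = 1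
          · rw [hb1, mul_one]; exact ha'
          by_cases hab : a * b = 1
          · exact Or.inl hab
          · exact Or.inr (inter_le h hU ha hb ha1 hb1 hab (ha'.resolve_left ha1) (hb'.resolve_left hb1))
        inv_mem' := by
          rintro a ⟨ha, ha'⟩
          rw [hU.inv ha]; exact ⟨ha, ha'⟩ }
    have hle : U ≤ K := by
      rw [← hT, Subgroup.closure_le]
      intro t ht
      exact ⟨hTU t ht, Or.inr (hx t ht)⟩
    intro u hu hu1
    exact (hle hu).2.resolve_left hu1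

end sing

end Cfsg.Agent.H1.Large
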