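import Cfsg.Agent.H1.Large

set_option autoImplicit false

/-! Large extraspecial 2-subgroups: orthogonality is symmetric. -/

namespace Cfsg.Agent.H1.Large
open Cfsg Cfsg.Agent.H29

variable {G : Type*} [Group G] [Finite G]

/-- The subgroup generated by two commuting involutions. -/
def four {x z : G} (hx : x * x = 1) (hz : z * z = 1) (hxz : x * z = z * x) : Subgroup G where
  carrier := {y | y = 1 ∨ y = x ∨ y = z ∨ y = x * z}
  one_mem' := Or.inl rfl
  mul_mem' := by
    have h1 : x * (x * z) = z := by rw [← mul_assoc, hx, one_mul]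
    have h2 : z * (x * z) = x := by rw [hxz, ← mul_assoc, hz, one_mul]
    have h3 : x * z * x = z := by rw [mul_assoc, ← hxz, h1]
    have h4 : x * z * z = x := by rw [mul_assoc, hz, mul_one]
    have h5 : x * z * (x * z) = 1 := by rw [← mul_assoc, h3, hz]
    rintro a b (rfl | rfl | rfl | rfl) (rfl | rfl | rfl | rfl)
    · left; simp
    · right; left; simp
    · right; right; left; simp
    · right; right; right; simp
    · right; left; simp
    · left; exact hx
    · right; right; right; rfl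
    · right; right; left; exact h1
    · right; right; left; simp
    · right; right; right; exact hxz.symm
    · left; exact hz
    · right; left; exact h2
    · right; right; right; simp
    · right; right; left; exact h3
    · right; left; exact h4
    · left; exact h5
  inv_mem' := by
    rintro a (rfl | rfl | rfl | rfl)
    · left; simp
    · right; left; exact inv_eq_of_mul_eq_one_left hx
    · right; right; left; exact inv_eq_of_mul_eq_one_left hz
    · right; right; right
      rw [mul_inv_rev, inv_eq_of_mul_eq_one_left hx, inv_eq_of_mul_eq_one_left hz, hxz]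

theorem mem_four {x z : G} (hx : x * x = 1) (hz : z * z = 1) (hxz : x * z = z * x) {y : G} :
    y ∈ four hx hz hxz ↔ y = 1 ∨ y = x ∨ y = z ∨ y = x * z := Iff.rfl

theorem four_card_le {x z : G} (hx : x * x = 1) (hz : z * z = 1) (hxz : x * z = z * x) :
    Nat.card (four hx hz hxz) ≤ 4 := by
  classical
  have h1 : ((four hx hz hxz : Subgroup G) : Set G) = (({1, x, z, x * z} : Finset G) : Set G) := by
    ext y
    simp only [Finset.coe_insert, Finset.coe_singleton]
    rfl
  have h2 : Nat.card (four hx hz hxz) = ((four hx hz hxz : Subgroup G) : Set G).ncard := rfl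
  rw [h2, h1, Set.ncard_coe_finset]
  exact Finset.card_le_four

theorem orth_symm {Q : G → Subgroup G} {z : G} (h : LS Q z) {x : G} (hg : ∃ g : G, g * z * g⁻¹ = x)
    (hx : x ∈ Q z) : z ∈ Q x := by
  by_contra hzR
  have hQ := h.xs
  obtain ⟨hR, hRC, hcardR⟩ := h.xs_conj hg
  have hzx : x * z = z * x := Q_comm h.hQ hx
  have hxz_ne : x ≠ z := by
    rintro rfl
    exact hzR hx
  have hx1 : x ≠ 1 := hR.z_ne
  have hx2 : x * x = 1 := hR.z_sq
  have hz2 : z * z = 1 := hQ.z_sq
  have hzinv : z⁻¹ = z := inv_eq_of_mul_eq_one_left hz2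
  have hxinv : x⁻¹ = x := inv_eq_of_mul_eq_one_left hx2
  have hcR : ∀ r ∈ Q x, r * x = x * r := fun r hr => Q_comm h.hQ hr
  have hcQ : ∀ r ∈ Q z, r * z = z * r := fun r hr => Q_comm h.hQ hr
  -- an element y of Q with x y = z y x
  obtain ⟨y, hy, hxy⟩ : ∃ y ∈ Q z, x * y ≠ y * x := by
    by_contra hne
    push Not at hne
    rcases hQ.cent x hx hne with h1 | h1
    · exact hx1 h1
    · exact hxz_ne h1
  have hxy' : x * y = z * (y * x) := (hQ.comm x hx y hy).resolve_left hxy
  -- (2)
  have key2 : ∀ s : G, s * x = x * s → s * z * s⁻¹ ≠ z * x := by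
    intro s hs hsz
    apply hzR
    have h1 : s * (z * x) * s⁻¹ = z := by
      calc s * (z * x) * s⁻¹ = (s * z * s⁻¹) * (s * x * s⁻¹) := by group
        _ = (z * x) * (x * s * s⁻¹) := by rw [hsz, hs]
        _ = z * (x * x) := by group
        _ = z := by rw [hx2, mul_one]
    have h2 : z ∈ Q (z * x) := by
      rw [← hsz]
      have := (mem_Q_conj h.hQ (g := s) (x := z) (y := z * x)).2 ((Q z).mul_mem hQ.z_mem hx)
      rwa [h1] at this
    have h3 : y⁻¹ * x * y⁻¹⁻¹ = z * x := by
      rw [inv_inv]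
      calc y⁻¹ * x * y = y⁻¹ * (x * y) := by group
        _ = y⁻¹ * (z * (y * x)) := by rw [hxy']
        _ = y⁻¹ * (z * y) * x := by group
        _ = y⁻¹ * (y * z) * x := by rw [← hcQ y hy]
        _ = z * x := by group
    rw [← h3, mem_Q_conj' h.hQ] at h2
    have h4 : y⁻¹⁻¹ * z * y⁻¹ = z := by rw [inv_inv, hcQ y hy]; group
    rwa [h4] at h2
  have key2' : ∀ s : G, s * x = x * s → (s * z * s⁻¹ = z ∨ s * z * s⁻¹ = z * x) → s * z = z * s := by
    intro s hs h1
    rcases h1 with h1 | h1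
    · rwa [mul_inv_eq_iff_eq_mul] at h1
    · exact absurd h1 (key2 s hs)
  -- r in R
  have hzRn : ∀ r ∈ Q x, z * r * z⁻¹ ∈ Q x := fun r hr => Q_norm h.hQ hzx.symm hr
  have key3 : ∀ r ∈ Q x, (z * r * z⁻¹ = r ∨ z * r * z⁻¹ = x * r) → r * z = z * r := by
    intro r hr h1
    apply key2' r (hcR r hr)
    rcases h1 with h1 | h1
    · left
      rw [mul_inv_eq_iff_eq_mul] at h1 ⊢
      exact h1.symm
    · right
      rw [mul_inv_eq_iff_eq_mul] at h1 ⊢
      -- z r = x r z ; want r z = z x r
      calc r * z = x * (x * (r * z)) := by rw [← mul_assoc, hx2, one_mul]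
        _ = x * (x * r * z) := by group
        _ = x * (z * r) := by rw [h1]
        _ = (x * z) * r := by group
        _ = z * x * r := by rw [hzx]
  -- P
  set P : Subgroup G := Q x ⊓ Subgroup.centralizer {z} with hP
  have memP : ∀ r, r ∈ P ↔ r ∈ Q x ∧ r * z = z * r := by
    intro r; rw [hP, Subgroup.mem_inf, Subgroup.mem_centralizer_singleton_iff]
  -- X
  set H : Subgroup G := four hx2 hz2 hzx with hH
  have hHQ : H ≤ Q z := by
    intro w hw
    rcases hw with rfl | rfl | rfl | rfl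
    · exact one_mem _
    · exact hx
    · exact hQ.z_mem
    · exact (Q z).mul_mem hx hQ.z_mem
  have hzH : z ∈ H := Or.inr (Or.inr (Or.inl rfl))
  have hxH : x ∈ H := Or.inr (Or.inl rfl)
  set X : Subgroup G := XS.centIn (Q z) H with hX
  have memX : ∀ c, c ∈ X ↔ c ∈ Q z ∧ c * x = x * c := by
    intro c
    rw [hX, XS.mem_centIn]
    constructor
    · rintro ⟨h1, h2⟩; exact ⟨h1, h2 x hxH⟩
    · rintro ⟨h1, h2⟩
      refine ⟨h1, ?_⟩
      intro w hw
      rcases hw with rfl | rfl | rfl | rfl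
      · simp
      · exact h2
      · exact hcQ c h1
      · rw [← mul_assoc, h2, mul_assoc, hcQ c h1]; group
  -- (4)
  have key4 : ∀ a, a ∈ Q z → a ∈ Q x → a = 1 ∨ a = x := by
    intro a haQ haR
    have h1 : a ∈ XS.centIn (Q z) X := by
      rw [XS.mem_centIn]
      refine ⟨haQ, fun c hc => ?_⟩
      obtain ⟨hcQ', hcx⟩ := (memX c).1 hc
      rcases hQ.comm a haQ c hcQ' with h2 | h2
      · exact h2
      · exfalso
        apply hzR
        have h3 : c * a⁻¹ * c⁻¹ ∈ Q x := Q_norm h.hQ hcx ((Q x).inv_mem haR)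
        have h4 := (Q x).mul_mem haR h3
        have h5 : a * (c * a⁻¹ * c⁻¹) = z := by
          calc a * (c * a⁻¹ * c⁻¹) = a * c * a⁻¹ * c⁻¹ := by group
            _ = z * (c * a) * a⁻¹ * c⁻¹ := by rw [h2]
            _ = z := by group
        rwa [h5] at h4
    rw [hX, hQ.cent_cent hzH hHQ] at h1
    rcases h1 with h1 | h1 | h1 | h1
    · exact Or.inl h1
    · exact Or.inr h1
    · exfalso; apply hzR; rw [← h1]; exact haR
    · exfalso; apply hzR
      have h2 := (Q x).mul_mem hR.z_mem haR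
      rwa [h1, ← mul_assoc, hx2, one_mul] at h2
  -- (5)
  have key5 : ∀ c ∈ X, ∀ p ∈ P, c * p * c⁻¹ = p ∨ c * p * c⁻¹ = x * p := by
    intro c hc p hp
    obtain ⟨hcQ', hcx⟩ := (memX c).1 hc
    obtain ⟨hpR, hpz⟩ := (memP p).1 hp
    have h1 : c * p * c⁻¹ * p⁻¹ ∈ Q x := (Q x).mul_mem (Q_norm h.hQ hcx hpR) ((Q x).inv_mem hpR)
    have h2 : c * p * c⁻¹ * p⁻¹ ∈ Q z := by
      have h3 : p * c⁻¹ * p⁻¹ ∈ Q z := Q_norm h.hQ hpz ((Q z).inv_mem hcQ')
      have := (Q z).mul_mem hcQ' h3
      rwa [show c * (p * c⁻¹ * p⁻¹) = c * p * c⁻¹ * p⁻¹ by group] at this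
    rcases key4 _ h2 h1 with h3 | h3
    · left; exact mul_inv_eq_one.1 h3
    · right; exact mul_inv_eq_iff_eq_mul.1 h3
  have zRm : ∀ r ∈ Q x, ∀ p ∈ Q x, r * p * r⁻¹ = p ∨ r * p * r⁻¹ = x * p := by
    intro r hr p hp
    rcases hR.comm r hr p hp with h1 | h1
    · left; rw [h1]; group
    · right; rw [h1]; group
  -- (6)
  have key6 : ∀ c ∈ X, ∀ r ∈ Q x, c * r * c⁻¹ * r⁻¹ ∈ XS.centIn (Q x) P := by
    intro c hc r hr
    obtain ⟨hcQ', hcx⟩ := (memX c).1 hc
    have hcinv : c⁻¹ ∈ X := X.inv_mem hc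
    rw [XS.mem_centIn]
    refine ⟨(Q x).mul_mem (Q_norm h.hQ hcx hr) ((Q x).inv_mem hr), fun p hp => ?_⟩
    have hpR := ((memP p).1 hp).1
    have hcr : ∀ w, c * (x * w) = x * (c * w) := by
      intro w; rw [← mul_assoc, hcx, mul_assoc]
    have hrr : ∀ w, r * (x * w) = x * (r * w) := by
      intro w; rw [← mul_assoc, hcR r hr, mul_assoc]
    have h1 := zRm r⁻¹ ((Q x).inv_mem hr) p hpR
    rw [inv_inv] at h1
    have h2 := key5 c⁻¹ hcinv p hp
    rw [inv_inv] at h2
    have h3 := zRm r hr p hpR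
    have h4 := key5 c hc p hp
    -- consistency: r⁻¹ p r = ε p ↔ r p r⁻¹ = ε p
    have hxx : ∀ w, x * (x * w) = w := by intro w; rw [← mul_assoc, hx2, one_mul]
    have hcinvx : ∀ w, c⁻¹ * (x * w) = x * (c⁻¹ * w) := by
      intro w
      have := (memX c⁻¹).1 hcinv
      rw [← mul_assoc, this.2, mul_assoc]
    have hrinvx : ∀ w, r⁻¹ * (x * w) = x * (r⁻¹ * w) := by
      intro w
      rw [← mul_assoc, hcR _ ((Q x).inv_mem hr), mul_assoc]
    -- m p m⁻¹ where m = c r c⁻¹ r⁻¹
    have e1 : ∃ ε : G, (ε = 1 ∨ ε = x) ∧ r⁻¹ * p * r = ε * p ∧ r * p * r⁻¹ = ε * p := by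
      rcases h1 with h1 | h1
      · refine ⟨1, Or.inl rfl, by rw [h1, one_mul], ?_⟩
        rw [one_mul]
        calc r * p * r⁻¹ = r * (r⁻¹ * p * r) * r⁻¹ := by rw [h1]
          _ = p := by group
      · refine ⟨x, Or.inr rfl, h1, ?_⟩
        have : p = x * (r * p * r⁻¹) := by
          calc p = r * (r⁻¹ * p * r) * r⁻¹ := by group
            _ = r * (x * p) * r⁻¹ := by rw [h1]
            _ = x * (r * p) * r⁻¹ := by rw [hrr]
            _ = _ := by group
        rw [← hxx (r * p * r⁻¹), ← this]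
    have e2 : ∃ δ : G, (δ = 1 ∨ δ = x) ∧ c⁻¹ * p * c = δ * p ∧ c * p * c⁻¹ = δ * p := by
      rcases h2 with h2 | h2
      · refine ⟨1, Or.inl rfl, by rw [h2, one_mul], ?_⟩
        rw [one_mul]
        calc c * p * c⁻¹ = c * (c⁻¹ * p * c) * c⁻¹ := by rw [h2]
          _ = p := by group
      · refine ⟨x, Or.inr rfl, h2, ?_⟩
        have : p = x * (c * p * c⁻¹) := by
          calc p = c * (c⁻¹ * p * c) * c⁻¹ := by group
            _ = c * (x * p) * c⁻¹ := by rw [h2]
            _ = x * (c * p) * c⁻¹ := by rw [hcr]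
            _ = _ := by group
        rw [← hxx (c * p * c⁻¹), ← this]
    obtain ⟨ε, hε, he1, he2⟩ := e1
    obtain ⟨δ, hδ, hd1, hd2⟩ := e2
    have hεc : ∀ w, c * (ε * w) = ε * (c * w) ∧ c⁻¹ * (ε * w) = ε * (c⁻¹ * w) ∧
        r * (ε * w) = ε * (r * w) ∧ r⁻¹ * (ε * w) = ε * (r⁻¹ * w) ∧ ε * (ε * w) = w := by
      intro w
      rcases hε with rfl | rfl
      · simp
      · exact ⟨hcr w, hcinvx w, hrr w, hrinvx w, hxx w⟩
    have hδc : ∀ w, c * (δ * w) = δ * (c * w) ∧ c⁻¹ * (δ * w) = δ * (c⁻¹ * w) ∧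
        r * (δ * w) = δ * (r * w) ∧ r⁻¹ * (δ * w) = δ * (r⁻¹ * w) ∧ δ * (δ * w) = w := by
      intro w
      rcases hδ with rfl | rfl
      · simp
      · exact ⟨hcr w, hcinvx w, hrr w, hrinvx w, hxx w⟩
    have hfin : (c * r * c⁻¹ * r⁻¹) * p * (c * r * c⁻¹ * r⁻¹)⁻¹ = p := by
      calc (c * r * c⁻¹ * r⁻¹) * p * (c * r * c⁻¹ * r⁻¹)⁻¹
          = c * (r * (c⁻¹ * (r⁻¹ * p * r) * c) * r⁻¹) * c⁻¹ := by group
        _ = c * (r * (c⁻¹ * (ε * p) * c) * r⁻¹) * c⁻¹ := by rw [he1]
        _ = c * (r * (ε * (c⁻¹ * p) * c) * r⁻¹) * c⁻¹ := by rw [(hεc p).2.1]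
        _ = c * (r * (ε * (c⁻¹ * p * c)) * r⁻¹) * c⁻¹ := by group
        _ = c * (r * (ε * (δ * p)) * r⁻¹) * c⁻¹ := by rw [hd1]
        _ = c * (ε * (r * (δ * p)) * r⁻¹) * c⁻¹ := by rw [(hεc (δ * p)).2.2.1]
        _ = c * (ε * (δ * (r * p)) * r⁻¹) * c⁻¹ := by rw [(hδc p).2.2.1]
        _ = c * (ε * (δ * (r * p * r⁻¹))) * c⁻¹ := by group
        _ = c * (ε * (δ * (ε * p))) * c⁻¹ := by rw [he2]
        _ = ε * (c * (δ * (ε * p))) * c⁻¹ := by rw [(hεc (δ * (ε * p))).1]
        _ = ε * (δ * (c * (ε * p))) * c⁻¹ := by rw [(hδc (ε * p)).1]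
        _ = ε * (δ * (ε * (c * p))) * c⁻¹ := by rw [(hεc p).1]
        _ = ε * (δ * (ε * (c * p * c⁻¹))) := by group
        _ = ε * (δ * (ε * (δ * p))) := by rw [hd2]
        _ = p := by
            have hcomm : δ * (ε * (δ * p)) = ε * (δ * (δ * p)) := by
              rcases hε with rfl | rfl <;> rcases hδ with rfl | rfl <;> simp
            rw [hcomm, (hδc p).2.2.2.2, (hεc p).2.2.2.2]
    exact mul_inv_eq_iff_eq_mul.1 hfin
  -- (7) the subgroup B
  have hsprop : ∀ r ∈ Q x, r * z * r⁻¹ * z ∈ P ∧ (r * z * r⁻¹ * z) * (r * z * r⁻¹ * z) = 1 := by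
    intro r hr
    have h1 : r * z * r⁻¹ * z ∈ Q x := by
      have := (Q x).mul_mem hr (hzRn _ ((Q x).inv_mem hr))
      rwa [hzinv, show r * (z * r⁻¹ * z) = r * z * r⁻¹ * z by group] at this
    set s := r * z * r⁻¹ * z with hs
    have hsinv : s⁻¹ = z * s * z := by
      rw [inv_eq_iff_mul_eq_one, hs]
      calc r * z * r⁻¹ * z * (z * (r * z * r⁻¹ * z) * z) = r * z * r⁻¹ * (z * z) * r * z * r⁻¹ * (z * z) := by group
        _ = r * z * r⁻¹ * r * z * r⁻¹ := by rw [hz2]; group
        _ = r * (z * z) * r⁻¹ := by group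
        _ = 1 := by rw [hz2]; group
    rcases hR.sq s h1 with h2 | h2
    · refine ⟨(memP s).2 ⟨h1, ?_⟩, h2⟩
      have h3 : s⁻¹ = s := inv_eq_of_mul_eq_one_left h2
      rw [h3] at hsinv
      calc s * z = z * s * z * z := by rw [← hsinv]
        _ = z * s * (z * z) := by group
        _ = z * s := by rw [hz2, mul_one]
    · exfalso
      -- s⁻¹ = s * x ; s⁻¹ z s = z x
      have h3 : s⁻¹ * s⁻¹ = x := by rw [← mul_inv_rev, h2, hxinv]
      apply key2 s⁻¹ (hcR _ ((Q x).inv_mem h1))
      rw [inv_inv]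
      -- s⁻¹ z s : from s⁻¹ = z s z, z s = s⁻¹ z
      have h4 : z * s = s⁻¹ * z := by
        rw [hsinv, mul_assoc, hz2, mul_one]
      calc s⁻¹ * z * s = s⁻¹ * (z * s) := by group
        _ = s⁻¹ * (s⁻¹ * z) := by rw [h4]
        _ = (s⁻¹ * s⁻¹) * z := by group
        _ = x * z := by rw [h3]
        _ = z * x := hzx
  set B : Subgroup G := Subgroup.closure ({x} ∪ {s | ∃ r ∈ Q x, s = r * z * r⁻¹ * z}) with hB
  have hBP : B ≤ P := by
    rw [hB, Subgroup.closure_le]
    rintro w (hw | ⟨r, hr, rfl⟩)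
    · rw [Set.mem_singleton_iff] at hw
      rw [hw]
      exact (memP x).2 ⟨hR.z_mem, hzx⟩
    · exact (hsprop r hr).1
  have hBR : B ≤ Q x := fun w hw => ((memP w).1 (hBP hw)).1
  have hxB : x ∈ B := Subgroup.subset_closure (Or.inl rfl)
  have hcentB : XS.centIn (Q x) B ≤ P := by
    intro r' hr'
    rw [XS.mem_centIn] at hr'
    obtain ⟨hr'R, hr'B⟩ := hr'
    -- r' commutes with r iff (z r' z) commutes with r
    have hz' : z * r' * z ∈ Q x := by have := hzRn r' hr'R; rwa [hzinv] at this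
    have hiff : ∀ r ∈ Q x, (r * r' = r' * r ↔ r * (z * r' * z) = (z * r' * z) * r) := by
      intro r hr
      have h1 : r' * (r * z * r⁻¹ * z) = (r * z * r⁻¹ * z) * r' :=
        hr'B _ (Subgroup.subset_closure (Or.inr ⟨r, hr, rfl⟩))
      -- r' commutes with r * (z r z)⁻¹
      have h2 : r * z * r⁻¹ * z = r * (z * r * z)⁻¹ := by
        rw [mul_inv_rev, mul_inv_rev, hzinv]; group
      rw [h2] at h1
      have h3 : (r * r' = r' * r) ↔ ((z * r * z) * r' = r' * (z * r * z)) := by
        constructor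
        · intro h4
          have h5 : r' * (z * r * z)⁻¹ = (z * r * z)⁻¹ * r' := by
            have : r * (r' * (z * r * z)⁻¹) = r * ((z * r * z)⁻¹ * r') := by
              rw [← mul_assoc, h4, mul_assoc, h1]; group
            exact mul_left_cancel this
          calc (z * r * z) * r' = (z * r * z) * (r' * (z * r * z)⁻¹) * (z * r * z) := by group
            _ = (z * r * z) * ((z * r * z)⁻¹ * r') * (z * r * z) := by rw [h5]
            _ = _ := by group
        · intro h4
          have h5 : r' * (z * r * z)⁻¹ = (z * r * z)⁻¹ * r' := by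
            calc r' * (z * r * z)⁻¹ = (z * r * z)⁻¹ * ((z * r * z) * r') * (z * r * z)⁻¹ := by group
              _ = (z * r * z)⁻¹ * (r' * (z * r * z)) * (z * r * z)⁻¹ := by rw [h4]
              _ = _ := by group
          have h6 : (r * r') * (z * r * z)⁻¹ = (r' * r) * (z * r * z)⁻¹ := by
            calc (r * r') * (z * r * z)⁻¹ = r * (r' * (z * r * z)⁻¹) := by group
              _ = r * ((z * r * z)⁻¹ * r') := by rw [h5]
              _ = r * (z * r * z)⁻¹ * r' := by group
              _ = r' * (r * (z * r * z)⁻¹) := h1.symm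
              _ = _ := by group
          exact mul_right_cancel h6
      rw [h3]
      have e1 : z * ((z * r * z) * r') * z = r * (z * r' * z) := by
        calc z * ((z * r * z) * r') * z = (z * z) * r * (z * r' * z) := by group
          _ = _ := by rw [hz2, one_mul]
      have e2 : z * (r' * (z * r * z)) * z = (z * r' * z) * r := by
        calc z * (r' * (z * r * z)) * z = (z * r' * z) * r * (z * z) := by group
          _ = _ := by rw [hz2, mul_one]
      rw [← e1, ← e2]
      constructor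
      · intro h4; rw [h4]
      · intro h4; exact mul_left_cancel (mul_right_cancel h4)
    -- s' = r' (z r' z)⁻¹ is central in R
    have hs'R : r' * (z * r' * z)⁻¹ ∈ Q x := (Q x).mul_mem hr'R ((Q x).inv_mem hz')
    have hs'c : ∀ r ∈ Q x, r' * (z * r' * z)⁻¹ * r = r * (r' * (z * r' * z)⁻¹) := by
      intro r hr
      by_cases h4 : r * r' = r' * r
      · have h5 := (hiff r hr).1 h4
        have h6 : r * (z * r' * z)⁻¹ = (z * r' * z)⁻¹ * r := by
          calc r * (z * r' * z)⁻¹ = (z * r' * z)⁻¹ * ((z * r' * z) * r) * (z * r' * z)⁻¹ := by group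
            _ = (z * r' * z)⁻¹ * (r * (z * r' * z)) * (z * r' * z)⁻¹ := by rw [h5]
            _ = _ := by group
        calc r' * (z * r' * z)⁻¹ * r = r' * ((z * r' * z)⁻¹ * r) := by group
          _ = r' * (r * (z * r' * z)⁻¹) := by rw [h6]
          _ = (r' * r) * (z * r' * z)⁻¹ := by group
          _ = (r * r') * (z * r' * z)⁻¹ := by rw [h4]
          _ = _ := by group
      · have h5 : ¬ (r * (z * r' * z) = (z * r' * z) * r) := fun h6 => h4 ((hiff r hr).2 h6)
        have h6 : r * (z * r' * z)⁻¹ ≠ (z * r' * z)⁻¹ * r := by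
          intro h7
          apply h5
          calc r * (z * r' * z) = (z * r' * z) * ((z * r' * z)⁻¹ * r) * (z * r' * z) := by group
            _ = (z * r' * z) * (r * (z * r' * z)⁻¹) * (z * r' * z) := by rw [h7]
            _ = _ := by group
        exact (hR.comm_mul hr hr'R ((Q x).inv_mem hz') h4 h6).symm
    have h7 := hR.cent _ hs'R hs'c
    refine (memP r').2 ⟨hr'R, ?_⟩
    apply key3 r' hr'R
    rw [hzinv]
    rcases h7 with h7 | h7
    · left; exact (mul_inv_eq_one.1 h7).symm
    · right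
      have h8 : r' = x * (z * r' * z) := mul_inv_eq_iff_eq_mul.1 h7
      have h9 : x * r' = z * r' * z := by
        conv_lhs => rw [h8]
        rw [← mul_assoc, hx2, one_mul]
      exact h9.symm
  have hPR : P ≤ Q x := inf_le_left
  have hxP : x ∈ P := hBP hxB
  have hcentP : XS.centIn (Q x) P ≤ P := by
    intro w hw
    have h1 : w ∈ XS.centIn (Q x) (XS.centIn (Q x) B) := by
      rw [XS.mem_centIn] at hw ⊢
      exact ⟨hw.1, fun v hv => hw.2 v (hcentB hv)⟩
    rw [hR.cent_cent hxB hBR] at h1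
    exact hBP h1
  -- (8)
  have key8 : ∀ c ∈ X, ∀ r ∈ Q x, c * r * c⁻¹ * r⁻¹ ∈ P := fun c hc r hr => hcentP (key6 c hc r hr)
  have hXab : ∀ c ∈ X, ∀ d ∈ X, c * d = d * c := by
    intro c hc d hd
    obtain ⟨hcQ', hcx⟩ := (memX c).1 hc
    obtain ⟨hdQ', hdx⟩ := (memX d).1 hd
    rcases hQ.comm c hcQ' d hdQ' with h1 | h1
    · exact h1
    · exfalso
      apply hzR
      apply hRC
      intro w hw
      -- r with w = (d c) r (d c)⁻¹
      have hdc : (d * c)⁻¹ * x = x * (d * c)⁻¹ := by
        have : (d * c) * x = x * (d * c) := by rw [mul_assoc, hcx, ← mul_assoc, hdx, mul_assoc]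
        rw [inv_mul_eq_iff_eq_mul, ← mul_assoc, this]; group
      set r := (d * c)⁻¹ * w * (d * c) with hr
      have hrR : r ∈ Q x := by
        have := Q_norm h.hQ hdc hw
        rwa [inv_inv] at this
      have hm := key8 c hc r hrR
      have hn := key8 d hd r hrR
      set m := c * r * c⁻¹ * r⁻¹ with hmdef
      set n := d * r * d⁻¹ * r⁻¹ with hndef
      have hcr : c * r * c⁻¹ = m * r := by rw [hmdef]; group
      have hdr : d * r * d⁻¹ = n * r := by rw [hndef]; group
      have hmR := hPR hm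
      have hnR := hPR hn
      have hε : ∀ w : G, w ∈ Q x → ∀ c' ∈ X, c' * (x * w) * c'⁻¹ = x * (c' * w * c'⁻¹) := by
        intro w _ c' hc'
        have := ((memX c').1 hc').2
        calc c' * (x * w) * c'⁻¹ = (c' * x) * w * c'⁻¹ := by group
          _ = (x * c') * w * c'⁻¹ := by rw [this]
          _ = _ := by group
      -- cd r (cd)⁻¹ = (c n c⁻¹) (m r)
      have e1 : (c * d) * r * (c * d)⁻¹ = (c * n * c⁻¹) * (m * r) := by
        calc (c * d) * r * (c * d)⁻¹ = c * (d * r * d⁻¹) * c⁻¹ := by group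
          _ = c * (n * r) * c⁻¹ := by rw [hdr]
          _ = (c * n * c⁻¹) * (c * r * c⁻¹) := by group
          _ = _ := by rw [hcr]
      have e2 : (d * c) * r * (d * c)⁻¹ = (d * m * d⁻¹) * (n * r) := by
        calc (d * c) * r * (d * c)⁻¹ = d * (c * r * c⁻¹) * d⁻¹ := by group
          _ = d * (m * r) * d⁻¹ := by rw [hcr]
          _ = (d * m * d⁻¹) * (d * r * d⁻¹) := by group
          _ = _ := by rw [hdr]
      have e3 : (d * c) * r * (d * c)⁻¹ = w := by rw [hr]; group
      have e4 : (c * d) * r * (c * d)⁻¹ = z * w * z⁻¹ := by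
        rw [h1, ← e3]; group
      have hxm : ∀ a, x * (x * a) = a := by intro a; rw [← mul_assoc, hx2, one_mul]
      have hmx : m * x = x * m := hcR m hmR
      have hnx : n * x = x * n := hcR n hnR
      -- conclude z w z⁻¹ ∈ {w, x w}
      have hfin : z * w * z⁻¹ = w ∨ z * w * z⁻¹ = x * w := by
        rw [← e4, e1, ← e3, e2]
        have hnm : n * m = m * n ∨ n * m = x * (m * n) := hR.comm n hnR m hmR
        rcases key5 c hc n hn with a1 | a1 <;> rcases key5 d hd m hm with a2 | a2 <;>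
          rcases hnm with a3 | a3 <;> rw [a1, a2]
        · left; rw [← mul_assoc, a3, mul_assoc]
        · right; rw [← mul_assoc, a3]; group
        · right; rw [← mul_assoc, a3]
          calc m * n * r = x * (x * (m * n * r)) := (hxm _).symm
            _ = x * (x * m * (n * r)) := by group
        · left; rw [← mul_assoc, a3]; group
        · right; rw [mul_assoc, ← mul_assoc n, a3]; group
        · left; rw [mul_assoc, ← mul_assoc n, a3]
          calc x * (x * (m * n) * r) = x * (x * ((m * n) * r)) := by group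
            _ = m * n * r := hxm _
            _ = _ := by group
        · left; rw [mul_assoc, ← mul_assoc n, a3]; group
        · right
          rw [mul_assoc, ← mul_assoc n, a3]; group
      exact (key3 w hw hfin).symm
  -- the abelian case: Q has order 8
  have hXH : X ≤ H := by
    have h1 : X ≤ XS.centIn (Q z) X := by
      intro c hc
      rw [XS.mem_centIn]
      exact ⟨((memX c).1 hc).1, fun d hd => hXab c hc d hd⟩
    rwa [hX, hQ.cent_cent hzH hHQ] at h1
  have hcH : Nat.card H ≤ 4 := four_card_le _ _ _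
  have hcX : Nat.card X ≤ Nat.card H := Subgroup.card_le_of_le hXH
  have hcQ8 := hQ.card_cent_mul hzH hHQ
  have hQle : Nat.card (Q z) ≤ 8 := by
    have : Nat.card X * Nat.card H ≤ 4 * 4 := Nat.mul_le_mul (hcX.trans hcH) hcH
    rw [← hX] at hcQ8
    omega
  -- P is proper, of index 2 and abelian
  have hPne : P ≠ Q x := by
    intro hPe
    apply hzR
    apply hRC
    intro w hw
    rw [← hPe] at hw
    exact ((memP w).1 hw).2.symm
  obtain ⟨r, hr, hrP⟩ := SetLike.exists_of_lt (lt_of_le_of_ne hPR hPne)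
  obtain ⟨hsP, hs2⟩ := hsprop r hr
  set s := r * z * r⁻¹ * z with hsdef
  have hsR := hPR hsP
  have hcardP := hR.card_cent_mul hxP hPR
  have hdvd : Nat.card P ∣ Nat.card (Q x) := Subgroup.card_dvd_of_le hPR
  have hPlt : Nat.card P < Nat.card (Q x) := by
    by_contra hge
    push Not at hge
    exact hPne (Subgroup.eq_of_le_of_card_ge hPR hge)
  have hcP : Nat.card (XS.centIn (Q x) P) ≤ Nat.card P := Subgroup.card_le_of_le hcentP
  have hpos : 0 < Nat.card (Q x) := Nat.card_pos
  -- |P| * 2 ≤ |Q x| ≤ 8, and |P|² ≥ 2 |Q x| 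
  obtain ⟨k, hk⟩ := hdvd
  have hPpos : 0 < Nat.card P := Nat.card_pos
  have hk2 : 2 ≤ k := by
    by_contra hk2
    have : k = 0 ∨ k = 1 := by omega
    rcases this with rfl | rfl
    · omega
    · omega
  rw [hcardR] at hk hcardP
  rw [hcardR] at hPlt
  have h16 : 2 * Nat.card (Q z) ≤ Nat.card P * Nat.card P := by
    rw [← hcardP]; exact Nat.mul_le_mul_right _ hcP
  have hP4 : Nat.card P = 4 := by
    have h1 : 2 * k ≤ Nat.card P := by
      rw [hk] at h16
      have : (2 * k) * Nat.card P ≤ Nat.card P * Nat.card P := by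
        calc (2 * k) * Nat.card P = 2 * (Nat.card P * k) := by ring
          _ ≤ _ := h16
      exact Nat.le_of_mul_le_mul_right this hPpos
    have h2 : Nat.card P * 2 ≤ 8 := by
      calc Nat.card P * 2 ≤ Nat.card P * k := Nat.mul_le_mul_left _ hk2
        _ = Nat.card (Q z) := hk.symm
        _ ≤ 8 := hQle
    omega
  have hQ8 : Nat.card (Q z) = 8 := by
    have : Nat.card P * 2 ≤ Nat.card P * k := Nat.mul_le_mul_left _ hk2
    omega
  have hCP : XS.centIn (Q x) P = P := by
    apply Subgroup.eq_of_le_of_card_ge hcentP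
    rw [hP4, hQ8] at hcardP
    omega
  -- s commutes with P and with r
  have hsr : s * r = r * s := by
    have h1 : s⁻¹ = s := inv_eq_of_mul_eq_one_left hs2
    have hsz : s * z = z * s := ((memP s).1 hsP).2
    -- z r z = s r
    have h2 : z * r * z = s * r := by
      have : s⁻¹ = z⁻¹ * r * z⁻¹ * r⁻¹ := by rw [hsdef]; group
      rw [h1, hzinv] at this
      rw [this]; group
    -- squares
    have hr2 : z * (r * r) * z = r * r := by
      rcases hR.sq r hr with h3 | h3
      · rw [h3, mul_one, hz2]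
      · rw [h3]
        calc z * x * z = x * z * z := by rw [hzx]
          _ = x * (z * z) := by group
          _ = x := by rw [hz2, mul_one]
    have h3 : (s * r) * (s * r) = r * r := by
      rw [← h2, ← hr2]
      calc z * r * z * (z * r * z) = z * r * (z * z) * r * z := by group
        _ = _ := by rw [hz2]; group
    have h4 : s * r * s = r := by
      have : s * r * s * r = r * r := by rw [← h3]; group
      exact mul_right_cancel this
    calc s * r = s * r * (s * s) := by rw [hs2, mul_one]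
      _ = (s * r * s) * s := by group
      _ = r * s := by rw [h4]
  -- centralizer of s in R is everything
  have hCs : P < Q x ⊓ Subgroup.centralizer {s} := by
    refine lt_of_le_of_ne ?_ ?_
    · intro p hp
      refine Subgroup.mem_inf.2 ⟨hPR hp, ?_⟩
      rw [Subgroup.mem_centralizer_singleton_iff]
      rw [← hCP, XS.mem_centIn] at hp
      exact hp.2 s hsP
    · intro he
      apply hrP
      rw [he]
      exact Subgroup.mem_inf.2 ⟨hr, Subgroup.mem_centralizer_singleton_iff.2 hsr.symm⟩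
  have hall : Q x ⊓ Subgroup.centralizer {s} = Q x := by
    apply Subgroup.eq_of_le_of_card_ge inf_le_left
    have h1 : Nat.card (Q x ⊓ Subgroup.centralizer {s} : Subgroup G) ∣ 8 := by
      rw [← hQ8, ← hcardR]
      exact Subgroup.card_dvd_of_le inf_le_left
    have h2 : 4 < Nat.card (Q x ⊓ Subgroup.centralizer {s} : Subgroup G) := by
      rw [← hP4]
      by_contra hge
      push Not at hge
      exact hCs.ne (Subgroup.eq_of_le_of_card_ge hCs.le hge)
    have h3 := Nat.le_of_dvd (by norm_num) h1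
    rw [hcardR, hQ8]
    generalize Nat.card (Q x ⊓ Subgroup.centralizer {s} : Subgroup G) = a at h1 h2 h3
    interval_cases a <;> omega
  have hscent : s = 1 ∨ s = x := by
    apply hR.cent s hsR
    intro w hw
    rw [← hall] at hw
    exact (Subgroup.mem_centralizer_singleton_iff.1 (Subgroup.mem_inf.1 hw).2).symm
  apply hrP
  refine (memP r).2 ⟨hr, ?_⟩
  apply key2' r (hcR r hr)
  have h5 : r * z * r⁻¹ = s * z := by
    calc r * z * r⁻¹ = r * z * r⁻¹ * (z * z) := by rw [hz2, mul_one]
      _ = s * z := by rw [hsdef]; group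
  rw [h5]
  rcases hscent with h6 | h6
  · left; rw [h6, one_mul]
  · right; rw [h6, hzx]

end Cfsg.Agent.H1.Large
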