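import Cfsg.Agent.H1.PrE

set_option autoImplicit false
set_option linter.all false

namespace Cfsg.Agent.H1.Pres

open Polynomial Matrix

section even

variable (K : Type*) [Field K] [Fintype K] [CharP K 2]

lemma neg_one_eq2 : (-1 : Matrix.SpecialLinearGroup (Fin 2) K) = 1 := by
  apply Subtype.ext
  rw [Matrix.SpecialLinearGroup.coe_neg, Matrix.SpecialLinearGroup.coe_one]
  ext i j
  rw [Matrix.neg_apply, CharTwo.neg_eq]

theorem sl_two (hq : Fintype.card K = 2) :
    ∃ rels : Finset (FreeGroup (Fin 3)), rels.card ≤ 5 ∧ Nonempty (PresentedGroup (↑rels : Set (FreeGroup (Fin 3))) ≃* Matrix.SpecialLinearGroup (Fin 2) K) := by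
  classical
  letI : Algebra (ZMod 2) K := ZMod.algebra K 2
  haveI : Fact (Nat.Prime 2) := ⟨Nat.prime_two⟩
  have h0 : (1 : K) ≠ 0 := one_ne_zero
  have hall : ∀ x : K, x ≠ 0 → x = 1 := by
    intro x hx
    have h1 := FiniteField.pow_card_sub_one_eq_one x hx
    rw [hq] at h1
    simpa using h1
  have hord : orderOf (1 : K) = Fintype.card K - 1 := by rw [orderOf_one, hq]
  have hH : sH (1 : K) h0 = 1 := by
    have := sH_pow_one h0 (m := 1) (one_pow 1)
    rwa [pow_one] at this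
  refine pres_of (T := Matrix.SpecialLinearGroup (Fin 2) K) [gU ^ 2, gH, (gU * gT) ^ 3, gT ^ 2] 5 (by simp) (sU 1) (sH 1 h0) sT
    (s_gen (p := 2) h0 (full_sq hord)) ?_ ?_
  · intro r hr
    simp only [List.mem_cons, List.not_mem_nil, or_false] at hr
    rcases hr with rfl | rfl | rfl | rfl
    · rw [map_pow, lU, (s_ups h0).npow, CharP.cast_eq_zero K 2, zero_mul, (s_ups h0).zero]
    · rw [lH, hH]
    · rw [map_pow, map_mul, lU, lT, s_R0]
    · rw [map_pow, lT, s_T2, neg_one_eq2]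
  · intro Γ _ u h t hgen hr
    have r1 := hr (gU ^ 2) (by simp)
    have r2 := hr gH (by simp)
    have r3 := hr ((gU * gT) ^ 3) (by simp)
    have r4 := hr (gT ^ 2) (by simp)
    rw [map_pow, lU] at r1
    rw [lH] at r2
    rw [map_pow, map_mul, lU, lT] at r3
    rw [map_pow, lT] at r4
    subst r2
    let υ : K → Γ := fun y => if y = 0 then 1 else u
    have h11 : (1 : K) + 1 = 0 := CharTwo.add_self_eq_zero 1
    have hυ0 : υ 0 = 1 := if_pos rfl
    have hυ1 : υ 1 = u := if_neg h0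
    have hcase : ∀ y : K, y = 0 ∨ y = 1 := fun y => by
      by_cases hy : y = 0
      · exact Or.inl hy
      · exact Or.inr (hall y hy)
    have U : Ups υ (1 : Γ) ((1 : K) ^ 2) := by
      refine ⟨?_, ?_⟩
      · intro x y
        rcases hcase x with rfl | rfl <;> rcases hcase y with rfl | rfl
        · rw [add_zero, hυ0, mul_one]
        · rw [zero_add, hυ0, one_mul]
        · rw [add_zero, hυ0, mul_one]
        · rw [h11, hυ0, hυ1, ← sq, r1]
      · intro y
        rw [one_cj, one_pow, one_mul]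
    have ht4 : t ^ 4 = 1 := by
      rw [show 4 = 2 * 2 from rfl, pow_mul, r4, one_pow]
    have D : Frm υ 1 t 1 (1 : K) := mk_frm h0 U (by rw [one_mul, mul_one]) (by intro y; rw [r4, one_mul, mul_one]) (Or.inr ⟨rfl, ht4⟩)
      (one_pow _) (by rw [hυ1]; exact r3) (Or.inl (fun x hx => ⟨0, by rw [pow_zero, hall x hx]⟩))
    exact D.card_le h0 (by rw [hυ1]; exact hgen)

theorem sl_even (hq : 2 < Fintype.card K) :
    ∃ rels : Finset (FreeGroup (Fin 3)), rels.card ≤ 5 ∧ Nonempty (PresentedGroup (↑rels : Set (FreeGroup (Fin 3))) ≃* Matrix.SpecialLinearGroup (Fin 2) K) := by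
  classical
  letI : Algebra (ZMod 2) K := ZMod.algebra K 2
  haveI : Fact (Nat.Prime 2) := ⟨Nat.prime_two⟩
  obtain ⟨ζ, h0, hζ, hord⟩ := exists_zeta K
  have hζ1 : ζ ≠ 1 := by
    rintro rfl
    rw [orderOf_one] at hord
    omega
  have h10 : 1 + ζ ≠ 0 := by
    intro h
    apply hζ1
    have := eq_neg_of_add_eq_zero_right h
    rw [this, CharTwo.neg_eq]
  obtain ⟨k, hk⟩ := hζ _ h10
  have hk2 : (ζ ^ 2) ^ k = 1 + ζ ^ 2 := by
    have : (ζ ^ 2) ^ k = (ζ ^ k) ^ 2 := by ring
    rw [this, hk, CharTwo.add_sq, one_pow]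
  have hfull := full_sq (p := 2) hord
  have hsq : ∀ x : K, x ≠ 0 → ∃ n : ℕ, (ζ ^ 2) ^ n = x := by
    intro x hx
    have hs : Function.Surjective (fun y : K => y ^ 2) := by
      apply Finite.surjective_of_injective
      intro a b hab
      have h1 : (a - b) ^ 2 = 0 := by
        rw [sub_sq]
        have h2 : (2 : K) = 0 := CharTwo.two_eq_zero
        have h3 : a ^ 2 = b ^ 2 := hab
        rw [h3, h2]
        have h4 := CharTwo.add_self_eq_zero (b ^ 2)
        linear_combination h4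
      exact sub_eq_zero.1 (pow_eq_zero_iff (two_ne_zero) |>.1 h1)
    obtain ⟨y, hy⟩ := hs x
    have hy' : y ^ 2 = x := hy
    have hy0 : y ≠ 0 := by
      rintro rfl
      rw [zero_pow two_ne_zero] at hy'
      exact hx hy'.symm
    obtain ⟨n, hn⟩ := hζ y hy0
    exact ⟨n, by rw [← hy', ← hn]; ring⟩
  refine pres_of (T := Matrix.SpecialLinearGroup (Fin 2) K) [gU ^ 2, cj (gH ^ k) gU * (gU * cj gH gU)⁻¹,
      wd (minpoly (ZMod 2) (ζ ^ 2)) gU gH * (gH ^ (Fintype.card K - 1))⁻¹, (gU * gT) ^ 3 * (gT ^ 2)⁻¹, gH * gT * gH * gT⁻¹] 5 (by simp) (sU 1) (sH ζ h0) sT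
    (s_gen (p := 2) h0 (full_sq hord)) ?_ ?_
  · have U := s_ups h0
    intro r hr
    simp only [List.mem_cons, List.not_mem_nil, or_false] at hr
    rcases hr with rfl | rfl | rfl | rfl | rfl
    · rw [map_pow, lU, U.npow, CharP.cast_eq_zero K 2, zero_mul, U.zero]
    · rw [map_mul, map_inv, map_mul, map_cj, map_cj, map_pow, lU, lH, mul_inv_eq_one, U.actPow, U.act, ← U.add, mul_one, mul_one, hk2]
    · rw [map_mul, map_inv, map_wd, map_pow, lU, lH, U.wd_eq, minpoly.aeval, U.zero, sH_pow_one h0 (by rw [← hord, pow_orderOf_eq_one]), inv_one, mul_one]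
    · rw [map_mul, map_inv, map_pow, map_pow, map_mul, lU, lT, s_R0, s_T2, neg_one_eq2, inv_one, mul_one]
    · rw [map_mul, map_mul, map_mul, map_inv, lH, lT, s_inv, mul_inv_cancel]
  · intro Γ _ u h t hgen hr
    have r1 := hr (gU ^ 2) (by simp)
    have r2 := hr (cj (gH ^ k) gU * (gU * cj gH gU)⁻¹) (by simp)
    have r3 := hr (wd (minpoly (ZMod 2) (ζ ^ 2)) gU gH * (gH ^ (Fintype.card K - 1))⁻¹) (by simp)
    have r4 := hr ((gU * gT) ^ 3 * (gT ^ 2)⁻¹) (by simp)
    have r5 := hr (gH * gT * gH * gT⁻¹) (by simp)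
    rw [map_pow, lU] at r1
    rw [map_mul, map_inv, map_mul, map_cj, map_cj, map_pow, lU, lH, mul_inv_eq_one] at r2
    rw [map_mul, map_inv, map_wd, map_pow, lU, lH, mul_inv_eq_one] at r3
    rw [map_mul, map_inv, map_pow, map_pow, map_mul, lU, lT, mul_inv_eq_one] at r4
    rw [map_mul, map_mul, map_mul, map_inv, lH, lT, mul_inv_eq_one] at r5
    have hc1 : Commute u (cj h u) := by
      have h1 : (u * cj h u) ^ 2 = 1 := by rw [← r2, ← cj_pow, r1, cj_one]
      have h2 : (cj h u) ^ 2 = 1 := by rw [← cj_pow, r1, cj_one]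
      have h3 : u⁻¹ = u := by rw [inv_eq_iff_mul_eq_one, ← sq, r1]
      have h4 : (cj h u)⁻¹ = cj h u := by rw [inv_eq_iff_mul_eq_one, ← sq, h2]
      have h5 : (u * cj h u)⁻¹ = u * cj h u := by rw [inv_eq_iff_mul_eq_one, ← sq, h1]
      rw [_root_.mul_inv_rev, h3, h4] at h5
      exact h5.symm
    have hc := comm_rel1 (u := u) ((Commute.refl h).pow_left k) r2 hc1
    obtain ⟨c, hcX⟩ : (X - 1 : (ZMod 2)[X]) ∣ X ^ k - 1 := by
      have := sub_dvd_pow_sub_pow (X : (ZMod 2)[X]) 1 k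
      rwa [one_pow] at this
    obtain ⟨υ, rfl, U, hwd⟩ := exists_ups' (ζ ^ 2) hfull r1 hc (X ^ k - X - 1) (minpoly (ZMod 2) (ζ ^ 2)) (Or.inr ⟨k, rfl, r2⟩)
      (by
        rw [r3]
        unfold cj
        rw [mul_assoc, ← pow_succ, pow_succ', ← mul_assoc, inv_mul_cancel, one_mul])
      ⟨-(minpoly (ZMod 2) (ζ ^ 2)), c - 1, by linear_combination (minpoly (ZMod 2) (ζ ^ 2)) * hcX⟩
    have hN' : h ^ (Fintype.card K - 1) = 1 := by
      rw [← r3, hwd, minpoly.aeval, U.zero]
    have hzu : υ 1 ∈ Subgroup.centralizer ({t ^ 2} : Set Γ) := by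
      rw [Subgroup.mem_centralizer_singleton_iff]
      have h3 : Commute (t ^ 2) (υ 1 * t) := by rw [← r4]; exact (Commute.refl _).pow_left 3
      have h4 : Commute (t ^ 2) t := (Commute.refl t).pow_left 2
      have h5 : Commute (t ^ 2) (υ 1) := by
        have := h3.mul_right h4.inv_right
        rwa [mul_inv_cancel_right] at this
      exact h5.symm.eq
    have hzh : h ∈ Subgroup.centralizer ({t ^ 2} : Set Γ) := by
      rw [Subgroup.mem_centralizer_singleton_iff]
      exact (tth' r5).symm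
    have hz : ∀ y, t ^ 2 * υ y = υ y * t ^ 2 := by
      intro y
      obtain ⟨f, rfl⟩ := hfull y
      have h3 := wd_mem _ f hzu hzh
      rw [U.wd_eq, Subgroup.mem_centralizer_singleton_iff] at h3
      exact h3.symm
    have D : Frm υ h t (t ^ 2) ζ := mk_frm h0 U r5 hz (Or.inl rfl) (by rw [hord, hN']) r4 (Or.inl hsq)
    exact D.card_le h0 hgen

theorem sl_even' : ∃ rels : Finset (FreeGroup (Fin 3)), rels.card ≤ 5 ∧ Nonempty (PresentedGroup (↑rels : Set (FreeGroup (Fin 3))) ≃* Matrix.SpecialLinearGroup (Fin 2) K) := by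
  have h1 : 1 < Fintype.card K := Fintype.one_lt_card
  rcases Nat.lt_or_ge 2 (Fintype.card K) with h | h
  · exact sl_even K h
  · exact sl_two K (by omega)

theorem sl_equiv_psl : Nonempty (Matrix.SpecialLinearGroup (Fin 2) K ≃* Matrix.ProjectiveSpecialLinearGroup (Fin 2) K) := by
  refine ⟨MulEquiv.ofBijective pr ⟨?_, pr_surj⟩⟩
  rw [injective_iff_map_eq_one]
  intro x hx
  have hx' : x ∈ Subgroup.center (SpecialLinearGroup (Fin 2) K) := by
    unfold pr at hx
    rw [QuotientGroup.mk'_apply, QuotientGroup.eq_one_iff] at hx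
    exact hx
  rw [Matrix.SpecialLinearGroup.mem_center_iff] at hx'
  obtain ⟨r, hr, hrx⟩ := hx'
  rw [Fintype.card_fin] at hr
  have h1 : (r - 1) ^ 2 = 0 := by
    have h4 := CharTwo.add_self_eq_zero (1 : K)
    linear_combination hr + (1 - r) * h4
  have h2 : r = 1 := sub_eq_zero.1 ((pow_eq_zero_iff two_ne_zero).1 h1)
  apply Subtype.ext
  show (x : Matrix (Fin 2) (Fin 2) K) = 1
  rw [← hrx, h2, map_one]

end even

end Cfsg.Agent.H1.Pres
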