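import Cfsg.Agent.H1.PrG

set_option autoImplicit false
set_option linter.all false

namespace Cfsg.Agent.H1.Pres

open Cfsg.Agent.H16 Matrix

section gen

variable {Γ : Type*} [Group Γ]

lemma closure_conj {S : Set Γ} {g : Γ} (h : ∀ x ∈ S, g * x * g⁻¹ ∈ Subgroup.closure S) {τ : Γ} (hτ : τ ∈ Subgroup.closure S) :
    g * τ * g⁻¹ ∈ Subgroup.closure S := by
  induction hτ using Subgroup.closure_induction with
  | mem x hx => exact h x hx
  | one => rw [mul_one, mul_inv_cancel]; exact Subgroup.one_mem _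
  | mul x y _ _ hx hy =>
    have : g * (x * y) * g⁻¹ = (g * x * g⁻¹) * (g * y * g⁻¹) := by group
    rw [this]; exact Subgroup.mul_mem _ hx hy
  | inv x _ hx =>
    have : g * x⁻¹ * g⁻¹ = (g * x * g⁻¹)⁻¹ := by group
    rw [this]; exact Subgroup.inv_mem _ hx

/-- `B` normalizes `A` elementwise -/
def Nz (A : Subgroup Γ) (g : Γ) : Prop := ∀ x ∈ A, g * x * g⁻¹ ∈ A

lemma Nz.one (A : Subgroup Γ) : Nz A 1 := fun x hx => by rw [one_mul, inv_one, mul_one]; exact hx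
lemma Nz.mul {A : Subgroup Γ} {g k : Γ} (hg : Nz A g) (hk : Nz A k) : Nz A (g * k) := fun x hx => by
  have : g * k * x * (g * k)⁻¹ = g * (k * x * k⁻¹) * g⁻¹ := by group
  rw [this]; exact hg _ (hk _ hx)

lemma Nz.closure {A : Subgroup Γ} {S : Set Γ} (hS : ∀ g ∈ S, Nz A g) (hS' : ∀ g ∈ S, Nz A g⁻¹) : ∀ g ∈ Subgroup.closure S, Nz A g := by
  intro g hg
  have : Nz A g ∧ Nz A g⁻¹ := by
    induction hg using Subgroup.closure_induction with
    | mem x hx => exact ⟨hS x hx, hS' x hx⟩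
    | one => exact ⟨Nz.one A, by rw [inv_one]; exact Nz.one A⟩
    | mul x y _ _ hx hy => exact ⟨hx.1.mul hy.1, by rw [_root_.mul_inv_rev]; exact hy.2.mul hx.2⟩
    | inv x _ hx => exact ⟨hx.2, by rw [inv_inv]; exact hx.1⟩
  exact this.1

lemma sup_mem' {A B : Subgroup Γ} (hN : ∀ b ∈ B, Nz A b) {g : Γ} (hg : g ∈ A ⊔ B) : ∃ a ∈ A, ∃ b ∈ B, g = a * b := by
  rw [Subgroup.sup_eq_closure] at hg
  induction hg using Subgroup.closure_induction with
  | mem x hx =>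
    rcases hx with hx | hx
    · exact ⟨x, hx, 1, B.one_mem, (mul_one x).symm⟩
    · exact ⟨1, A.one_mem, x, hx, (one_mul x).symm⟩
  | one => exact ⟨1, A.one_mem, 1, B.one_mem, (one_mul 1).symm⟩
  | mul x y _ _ hx hy =>
    obtain ⟨a, ha, b, hb, rfl⟩ := hx
    obtain ⟨a', ha', b', hb', rfl⟩ := hy
    exact ⟨a * (b * a' * b⁻¹), A.mul_mem ha (hN b hb _ ha'), b * b', B.mul_mem hb hb', by group⟩
  | inv x _ hx =>
    obtain ⟨a, ha, b, hb, rfl⟩ := hx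
    refine ⟨b⁻¹ * a⁻¹ * b⁻¹⁻¹, hN _ (B.inv_mem hb) _ (A.inv_mem ha), b⁻¹, B.inv_mem hb, by group⟩

lemma card_sup_le {A B : Subgroup Γ} [Finite A] [Finite B] (hN : ∀ b ∈ B, Nz A b) : Finite ↥(A ⊔ B) ∧ Nat.card ↥(A ⊔ B) ≤ Nat.card A * Nat.card B := by
  have hs : Function.Surjective (fun p : A × B => (⟨p.1.1 * p.2.1, Subgroup.mul_mem _ (Subgroup.mem_sup_left p.1.2) (Subgroup.mem_sup_right p.2.2)⟩ : ↥(A ⊔ B))) := by
    rintro ⟨g, hg⟩
    obtain ⟨a, ha, b, hb, rfl⟩ := sup_mem' hN hg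
    exact ⟨(⟨a, ha⟩, ⟨b, hb⟩), rfl⟩
  refine ⟨Finite.of_surjective _ hs, ?_⟩
  rw [← Nat.card_prod]
  exact Nat.card_le_card_of_surjective _ hs

/-- product of two commuting additive families -/
def PS {K : Type*} [Field K] (X Y : K → Γ) (hX : ∀ a b, X (a + b) = X a * X b) (hY : ∀ a b, Y (a + b) = Y a * Y b)
    (hXY : ∀ a b, X a * Y b = Y b * X a) : Subgroup Γ where
  carrier := {g | ∃ a b, g = X a * Y b}
  one_mem' := by
    have h1 : X 0 = 1 := by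
      have := hX 0 0
      rw [add_zero] at this
      exact left_eq_mul.1 this
    have h2 : Y 0 = 1 := by
      have := hY 0 0
      rw [add_zero] at this
      exact left_eq_mul.1 this
    exact ⟨0, 0, by rw [h1, h2, mul_one]⟩
  mul_mem' := by
    rintro _ _ ⟨a, b, rfl⟩ ⟨a', b', rfl⟩
    refine ⟨a + a', b + b', ?_⟩
    rw [hX, hY]
    calc X a * Y b * (X a' * Y b') = X a * (Y b * X a') * Y b' := by group
      _ = X a * (X a' * Y b) * Y b' := by rw [hXY]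
      _ = X a * X a' * (Y b * Y b') := by group
  inv_mem' := by
    rintro _ ⟨a, b, rfl⟩
    have h1 : X 0 = 1 := by
      have := hX 0 0
      rw [add_zero] at this
      exact left_eq_mul.1 this
    have h2 : Y 0 = 1 := by
      have := hY 0 0
      rw [add_zero] at this
      exact left_eq_mul.1 this
    refine ⟨-a, -b, ?_⟩
    have e1 : X (-a) = (X a)⁻¹ := by
      have := hX (-a) a
      rw [neg_add_cancel, h1] at this
      exact eq_inv_of_mul_eq_one_left this.symm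
    have e2 : Y (-b) = (Y b)⁻¹ := by
      have := hY (-b) b
      rw [neg_add_cancel, h2] at this
      exact eq_inv_of_mul_eq_one_left this.symm
    rw [e1, e2, hXY, _root_.mul_inv_rev]

lemma PS_card {K : Type*} [Field K] [Fintype K] (X Y : K → Γ) (hX : ∀ a b, X (a + b) = X a * X b) (hY : ∀ a b, Y (a + b) = Y a * Y b)
    (hXY : ∀ a b, X a * Y b = Y b * X a) : Finite ↥(PS X Y hX hY hXY) ∧ Nat.card ↥(PS X Y hX hY hXY) ≤ Fintype.card K ^ 2 := by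
  have hs : Function.Surjective (fun p : K × K => (⟨X p.1 * Y p.2, ⟨p.1, p.2, rfl⟩⟩ : ↥(PS X Y hX hY hXY))) := by
    rintro ⟨g, a, b, rfl⟩
    exact ⟨(a, b), rfl⟩
  refine ⟨Finite.of_surjective _ hs, ?_⟩
  have := Nat.card_le_card_of_surjective _ hs
  rwa [Nat.card_prod, Nat.card_eq_fintype_card (α := K), ← sq] at this

end gen

section act

variable {Γ K : Type*} [Group Γ] [Field K]

/-- every element of `T` acts on the family `X` by a scalar -/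
def Act (T : Subgroup Γ) (X : K → Γ) : Prop := ∀ τ ∈ T, ∃ μ : K, μ ≠ 0 ∧ ∀ a, cj τ (X a) = X (μ * a)

lemma act_closure {S : Set Γ} {X : K → Γ} (hS : ∀ τ ∈ S, ∃ μ : K, μ ≠ 0 ∧ ∀ a, cj τ (X a) = X (μ * a)) : Act (Subgroup.closure S) X := by
  intro τ hτ
  induction hτ using Subgroup.closure_induction with
  | mem x hx => exact hS x hx
  | one => exact ⟨1, one_ne_zero, fun a => by rw [one_cj, one_mul]⟩
  | mul x y _ _ hx hy =>
    obtain ⟨μ, hμ, h1⟩ := hx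
    obtain ⟨ν, hν, h2⟩ := hy
    exact ⟨ν * μ, mul_ne_zero hν hμ, fun a => by rw [← cj_cj, h1, h2, mul_assoc]⟩
  | inv x _ hx =>
    obtain ⟨μ, hμ, h1⟩ := hx
    refine ⟨μ⁻¹, inv_ne_zero hμ, fun a => ?_⟩
    have h2 := h1 (μ⁻¹ * a)
    rw [← mul_assoc, mul_inv_cancel₀ hμ, one_mul] at h2
    rw [← h2, cj_cj, mul_inv_cancel, one_cj]

lemma Act.conj {T : Subgroup Γ} {X : K → Γ} (hA : Act T X) {g : Γ} (hT : Nz T g) : Act T (fun a => cj g (X a)) := by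
  intro τ hτ
  obtain ⟨μ, hμ, h1⟩ := hA _ (hT τ hτ)
  refine ⟨μ, hμ, fun a => ?_⟩
  show cj τ (cj g (X a)) = cj g (X (μ * a))
  rw [← h1, cj_cj, cj_cj]
  congr 1
  group

def x23 (υ : K → Γ) (c : Γ) (a : K) : Γ := cj c (υ a)
def x31 (υ : K → Γ) (c : Γ) (a : K) : Γ := cj (c ^ 2) (υ a)
def x32 (υ : K → Γ) (t c : Γ) (a : K) : Γ := cj c (Frm.opp υ t a)
def x13 (υ : K → Γ) (t c : Γ) (a : K) : Γ := cj (c ^ 2) (Frm.opp υ t a)

/-- the relations of `SL₃` -/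
structure A2 (υ : K → Γ) (h t c : Γ) (ζ : K) : Prop where
  frm : Frm υ h t (t ^ 2) ζ
  uk : ∀ a, cj (cj c h) (υ a) = υ (ζ⁻¹ * a)
  c3 : c ^ 3 = 1
  ct : c * t⁻¹ * c = t
  T : h * cj c h * cj (c ^ 2) h = 1
  r1 : ∀ a b, υ a * x23 υ c b = x23 υ c b * υ a * x13 υ t c (a * b)
  r3 : ∀ a b, υ a * x13 υ t c b = x13 υ t c b * υ a
  r4 : ∀ a b, υ a * x32 υ t c b = x32 υ t c b * υ a

def TT (h c : Γ) : Subgroup Γ := Subgroup.closure {h, cj c h}

lemma h_TT (h c : Γ) : h ∈ TT h c := Subgroup.subset_closure (by simp)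
lemma k_TT (h c : Γ) : cj c h ∈ TT h c := Subgroup.subset_closure (by simp)

namespace A2

variable {υ : K → Γ} {h t c : Γ} {ζ : K} (D : A2 υ h t c ζ)
include D

lemma cinv : c⁻¹ = c ^ 2 := by
  rw [inv_eq_iff_mul_eq_one, ← pow_succ']; exact D.c3

lemma ct1 : c * t⁻¹ = t * c⁻¹ := by
  rw [eq_mul_inv_iff_mul_eq]; exact D.ct

lemma ct2 : t⁻¹ * c = c⁻¹ * t := by
  rw [eq_inv_mul_iff_mul_eq, ← mul_assoc]; exact D.ct

lemma ts : t * cj c t = c⁻¹ := by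
  unfold cj
  have h1 := D.ct1
  calc t * (c⁻¹ * t * c) = (t * c⁻¹) * t * c := by group
    _ = c * t⁻¹ * t * c := by rw [h1]
    _ = c ^ 2 := by rw [sq]; group
    _ = c⁻¹ := D.cinv.symm

lemma s_inv : (cj c t)⁻¹ = c * t := by
  have := D.ts
  have h1 : cj c t = t⁻¹ * c⁻¹ := by rw [← this]; group
  rw [h1]; group

lemma braid : cj c t * t * cj c t = t * cj c t * t := by
  rw [mul_assoc, D.ts]
  unfold cj
  group

lemma hc2 : cj (c ^ 2) h = (h * cj c h)⁻¹ := eq_inv_of_mul_eq_one_right D.T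

lemma Tc : Nz (TT h c) c := by
  intro x hx
  refine closure_conj ?_ hx
  rintro x (rfl | rfl)
  · have : c * x * c⁻¹ = (x * cj c x)⁻¹ := by
      rw [← D.hc2]
      unfold cj
      rw [← D.cinv, inv_inv]
    rw [this]
    exact Subgroup.inv_mem _ (Subgroup.mul_mem _ (h_TT _ _) (k_TT _ _))
  · have : c * cj c h * c⁻¹ = h := by unfold cj; group
    rw [this]
    exact h_TT _ _

lemma Tc' : Nz (TT h c) c⁻¹ := by
  rw [D.cinv, sq]
  exact D.Tc.mul D.Tc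

lemma th1 : t * h * t⁻¹ = h⁻¹ := by
  have := D.frm.inv
  calc t * h * t⁻¹ = h⁻¹ * (h * t * h) * t⁻¹ := by group
    _ = h⁻¹ := by rw [this]; group

lemma th2 : t⁻¹ * h * t = h⁻¹ := by
  have := D.frm.inv
  calc t⁻¹ * h * t = t⁻¹ * (h * t * h) * h⁻¹ := by group
    _ = h⁻¹ := by rw [this]; group

lemma tk : t * cj c h * t⁻¹ = h * cj c h := by
  have h1 := D.ct1
  have h2 := D.th2
  have h3 : t * cj c h * t⁻¹ = (t * c⁻¹) * h * (t * c⁻¹)⁻¹ := by unfold cj; group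
  rw [h3, ← h1]
  have h4 : c * t⁻¹ * h * (c * t⁻¹)⁻¹ = c * (t⁻¹ * h * t) * c⁻¹ := by group
  rw [h4, h2]
  have h5 : c * h⁻¹ * c⁻¹ = (cj (c ^ 2) h)⁻¹ := by
    unfold cj; rw [← D.cinv]; group
  rw [h5, D.hc2, inv_inv]

lemma Tt : Nz (TT h c) t := by
  intro x hx
  refine closure_conj ?_ hx
  rintro x (rfl | rfl)
  · rw [D.th1]
    exact Subgroup.inv_mem _ (h_TT _ _)
  · rw [D.tk]
    exact Subgroup.mul_mem _ (h_TT _ _) (k_TT _ _)

lemma Ts : Nz (TT h c) (cj c t) := by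
  unfold cj
  exact (D.Tc'.mul D.Tt).mul D.Tc

lemma act_u (hζ : ζ ≠ 0) : Act (TT h c) υ := by
  apply act_closure
  rintro τ (rfl | rfl)
  · exact ⟨ζ ^ 2, pow_ne_zero 2 hζ, D.frm.ups.act⟩
  · exact ⟨ζ⁻¹, inv_ne_zero hζ, D.uk⟩

lemma act_y (hζ : ζ ≠ 0) (ht4 : t ^ 4 = 1) : Act (TT h c) (Frm.opp υ t) := by
  have Tt' : Nz (TT h c) t⁻¹ := by
    have : t⁻¹ = t * t * t := by
      rw [inv_eq_iff_mul_eq_one, ← ht4]; simp only [pow_succ, pow_zero, one_mul, mul_assoc]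
    rw [this]
    exact (D.Tt.mul D.Tt).mul D.Tt
  intro τ hτ
  obtain ⟨μ, hμ, h1⟩ := D.act_u hζ _ (Tt' τ hτ)
  refine ⟨μ, hμ, fun a => ?_⟩
  unfold Frm.opp
  have h2 : cj τ (t * υ (-a) * t⁻¹) = t * cj (t⁻¹ * τ * t⁻¹⁻¹) (υ (-a)) * t⁻¹ := by unfold cj; group
  rw [h2, h1, mul_neg]

lemma t_u (a : K) : t * υ a * t⁻¹ = Frm.opp υ t (-a) := by
  unfold Frm.opp; rw [neg_neg]

lemma t_y (a : K) : t * Frm.opp υ t a * t⁻¹ = υ (-a) := D.frm.opp_eq a

lemma tinv_u (a : K) : t⁻¹ * υ a * t = Frm.opp υ t (-a) := by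
  rw [← D.t_u]
  have h1 := D.frm.zc a
  calc t⁻¹ * υ a * t = t⁻¹ * (υ a * t ^ 2) * t⁻¹ := by rw [sq]; group
    _ = t⁻¹ * (t ^ 2 * υ a) * t⁻¹ := by rw [h1]
    _ = t * υ a * t⁻¹ := by rw [sq]; group

lemma tinv_y (a : K) : t⁻¹ * Frm.opp υ t a * t = υ (-a) := by
  unfold Frm.opp; group

lemma t_x23 (a : K) : t * x23 υ c a * t⁻¹ = x13 υ t c (-a) := by
  unfold x23 x13
  have h1 : t * cj c (υ a) * t⁻¹ = (t * c⁻¹) * υ a * (t * c⁻¹)⁻¹ := by unfold cj; group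
  rw [h1, ← D.ct1, ← D.tinv_u a, ← D.cinv]
  unfold cj; group

lemma t_x32 (a : K) : t * x32 υ t c a * t⁻¹ = x31 υ c (-a) := by
  unfold x32 x31
  have h1 : t * cj c (Frm.opp υ t a) * t⁻¹ = (t * c⁻¹) * Frm.opp υ t a * (t * c⁻¹)⁻¹ := by unfold cj; group
  rw [h1, ← D.ct1, ← D.tinv_y a, ← D.cinv]
  unfold cj; group

lemma c_x23 (a : K) : cj c (x23 υ c a) = x31 υ c a := by unfold x23 x31; rw [cj_cj, sq]
lemma c_x13 (a : K) : cj c (x13 υ t c a) = Frm.opp υ t a := by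
  unfold x13; rw [cj_cj, ← pow_succ, D.c3, one_cj]
lemma c_x31 (a : K) : cj c (x31 υ c a) = υ a := by
  unfold x31; rw [cj_cj, ← pow_succ, D.c3, one_cj]
lemma c_x32 (a : K) : cj c (x32 υ t c a) = x13 υ t c a := by
  unfold x32 x13; rw [cj_cj, sq]
lemma c_u (a : K) : cj c (υ a) = x23 υ c a := rfl
lemma c_y (a : K) : cj c (Frm.opp υ t a) = x32 υ t c a := rfl

lemma r1c (a b : K) : x23 υ c a * x31 υ c b = x31 υ c b * x23 υ c a * Frm.opp υ t (a * b) := by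
  have := congrArg (cj c) (D.r1 a b)
  rwa [cj_mul, cj_mul, cj_mul, D.c_x23, D.c_x13, D.c_u] at this

lemma r1cc (a b : K) : x31 υ c a * υ b = υ b * x31 υ c a * x32 υ t c (a * b) := by
  have := congrArg (cj c) (D.r1c a b)
  rwa [cj_mul, cj_mul, cj_mul, D.c_x23, D.c_x31, D.c_y] at this

lemma r3c (a b : K) : x23 υ c a * Frm.opp υ t b = Frm.opp υ t b * x23 υ c a := by
  have := congrArg (cj c) (D.r3 a b)
  rwa [cj_mul, cj_mul, D.c_x13, D.c_u] at this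

lemma r3cc (a b : K) : x31 υ c a * x32 υ t c b = x32 υ t c b * x31 υ c a := by
  have := congrArg (cj c) (D.r3c a b)
  rwa [cj_mul, cj_mul, D.c_x23, D.c_y] at this

lemma r4c (a b : K) : x23 υ c a * x13 υ t c b = x13 υ t c b * x23 υ c a := by
  have := congrArg (cj c) (D.r4 a b)
  rwa [cj_mul, cj_mul, D.c_x32, D.c_u] at this

lemma r4cc (a b : K) : x31 υ c a * Frm.opp υ t b = Frm.opp υ t b * x31 υ c a := by
  have := congrArg (cj c) (D.r4c a b)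
  rwa [cj_mul, cj_mul, D.c_x23, D.c_x13] at this

lemma add_y (a b : K) : Frm.opp υ t (a + b) = Frm.opp υ t a * Frm.opp υ t b := by
  unfold Frm.opp
  rw [neg_add, D.frm.ups.add]; group

lemma add_x13 (a b : K) : x13 υ t c (a + b) = x13 υ t c a * x13 υ t c b := by
  unfold x13; rw [D.add_y, cj_mul]
lemma add_x23 (a b : K) : x23 υ c (a + b) = x23 υ c a * x23 υ c b := by
  unfold x23; rw [D.frm.ups.add, cj_mul]
lemma add_x31 (a b : K) : x31 υ c (a + b) = x31 υ c a * x31 υ c b := by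
  unfold x31; rw [D.frm.ups.add, cj_mul]
lemma add_x32 (a b : K) : x32 υ t c (a + b) = x32 υ t c a * x32 υ t c b := by
  unfold x32; rw [D.add_y, cj_mul]

end A2

end act

end Cfsg.Agent.H1.Pres
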