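import Cfsg.Agent.H1.PrH

set_option autoImplicit false
set_option linter.all false

namespace Cfsg.Agent.H1.Pres

open Cfsg.Agent.H16 Matrix

variable {Γ K : Type*} [Group Γ] [Field K]

lemma sLT {ζ : K} (hζ : ζ ≠ 0) {b : K} (hb : b ≠ 0) {j : ℕ} (hj : ζ ^ j = -b) :
    sL b = sU b⁻¹ * sH ζ hζ ^ j * sL (-b⁻¹) * sT := by
  apply Subtype.ext
  simp only [Matrix.SpecialLinearGroup.coe_mul]
  rw [sH_pow, inv_pow, hj]
  show !![1, 0; b, 1] = !![1, b⁻¹; 0, 1] * Matrix.diagonal ![(-b)⁻¹, -b] * !![1, 0; -b⁻¹, 1] * !![0, 1; -1, 0]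
  have e : Matrix.diagonal ![(-b)⁻¹, -b] = !![(-b)⁻¹, 0; 0, -b] := by
    ext i j; fin_cases i <;> fin_cases j <;> simp
  rw [e]
  ext i j; fin_cases i <;> fin_cases j <;> simp [Matrix.mul_apply, Fin.sum_univ_two, hb]

namespace A2

variable {υ : K → Γ} {h t c : Γ} {ζ : K}

theorem bound [Fintype K] (D : A2 υ h t c ζ) (hζ : ζ ≠ 0) (hg : ∀ x : K, x ≠ 0 → ∃ n : ℕ, ζ ^ n = x)
    (hgen : Subgroup.closure ({υ 1, h, t, c} : Set Γ) = ⊤) :
    Finite Γ ∧ Nat.card Γ ≤ (Fintype.card K ^ 2 * Nat.card (SpecialLinearGroup (Fin 2) K)) * (Fintype.card K - 1) * (Fintype.card K ^ 2 + (Fintype.card K + 1)) := by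
  classical
  obtain ⟨ψ, ψU, ψL, ψH, ψT⟩ := D.frm.exists_psi hζ
  -- torus facts
  obtain ⟨j₀, hj₀⟩ := hg (-1 : K) (neg_ne_zero.2 one_ne_zero)
  have ht2 : t⁻¹ ^ 2 = h ^ j₀ := by
    rw [← ψT, ← map_pow, s_T2, ← sH_pow_neg hζ hj₀, map_pow, ψH]
  have ht4 : t ^ 4 = 1 := by
    have h1 : (sT : SpecialLinearGroup (Fin 2) K) ^ 4 = 1 := by
      rw [show 4 = 2 * 2 from rfl, pow_mul, s_T2, neg_one_sq]
    have h2 := congrArg ψ h1
    rw [map_pow, ψT, map_one, inv_pow, inv_eq_one] at h2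
    exact h2
  have ht2T : t ^ 2 ∈ TT h c := by
    have h1 : t ^ 2 = (t⁻¹ ^ 2)⁻¹ := by rw [inv_pow, inv_inv]
    rw [h1, ht2]
    exact Subgroup.inv_mem _ (Subgroup.pow_mem _ (h_TT _ _) _)
  have hN : h ^ (Fintype.card K - 1) = 1 := by
    have := D.frm.hq (Fintype.card K - 1) 0 (by rw [FiniteField.pow_card_sub_one_eq_one ζ hζ, pow_zero])
    rwa [pow_zero] at this
  have aU := D.act_u hζ
  have aY := D.act_y hζ ht4
  have a31 : Act (TT h c) (x31 υ c) := by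
    have := (aU.conj D.Tc).conj D.Tc
    intro τ hτ
    obtain ⟨μ, hμ, h1⟩ := this τ hτ
    refine ⟨μ, hμ, fun a => ?_⟩
    have h2 := h1 a
    simp only [cj_cj, ← sq] at h2
    unfold x31
    rw [cj_cj]
    exact h2
  have a23 : Act (TT h c) (x23 υ c) := aU.conj D.Tc
  have a32 : Act (TT h c) (x32 υ t c) := aY.conj D.Tc
  have a13 : Act (TT h c) (x13 υ t c) := by
    have := (aY.conj D.Tc).conj D.Tc
    intro τ hτ
    obtain ⟨μ, hμ, h1⟩ := this τ hτ
    refine ⟨μ, hμ, fun a => ?_⟩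
    have h2 := h1 a
    simp only [cj_cj, ← sq] at h2
    unfold x13
    rw [cj_cj]
    exact h2
  -- subgroups
  obtain ⟨V, hV⟩ : ∃ V, V = PS (x13 υ t c) (x23 υ c) D.add_x13 D.add_x23 (fun a b => (D.r4c b a).symm) := ⟨_, rfl⟩
  obtain ⟨V', hV'⟩ : ∃ V', V' = PS (x31 υ c) (x32 υ t c) D.add_x31 D.add_x32 D.r3cc := ⟨_, rfl⟩
  have mV : ∀ g, g ∈ V ↔ ∃ a b, g = x13 υ t c a * x23 υ c b := fun g => by rw [hV]; rfl
  have mV' : ∀ g, g ∈ V' ↔ ∃ a b, g = x31 υ c a * x32 υ t c b := fun g => by rw [hV']; rfl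
  have cV : Finite V ∧ Nat.card V ≤ Fintype.card K ^ 2 := by rw [hV]; exact PS_card _ _ _ _ _
  have z13 : x13 υ t c 0 = 1 := by
    have := D.add_x13 0 0
    rw [add_zero] at this
    exact left_eq_mul.1 this
  have z23 : x23 υ c 0 = 1 := by
    have := D.add_x23 0 0
    rw [add_zero] at this
    exact left_eq_mul.1 this
  have z31 : x31 υ c 0 = 1 := by
    have := D.add_x31 0 0
    rw [add_zero] at this
    exact left_eq_mul.1 this
  have z32 : x32 υ t c 0 = 1 := by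
    have := D.add_x32 0 0
    rw [add_zero] at this
    exact left_eq_mul.1 this
  have zU : υ 0 = 1 := D.frm.ups.zero
  have nU : ∀ a, (υ a)⁻¹ = υ (-a) := fun a => (D.frm.ups.neg a).symm
  have nY : ∀ a, (Frm.opp υ t a)⁻¹ = Frm.opp υ t (-a) := by
    intro a; unfold Frm.opp; rw [neg_neg, ← nU]
    have := nU (-a)
    rw [neg_neg] at this
    rw [nU, ← this]; group
  have v13 : ∀ a, x13 υ t c a ∈ V := fun a => (mV _).2 ⟨a, 0, by rw [z23, mul_one]⟩
  have v23 : ∀ a, x23 υ c a ∈ V := fun a => (mV _).2 ⟨0, a, by rw [z13, one_mul]⟩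
  have v31 : ∀ a, x31 υ c a ∈ V' := fun a => (mV' _).2 ⟨a, 0, by rw [z32, mul_one]⟩
  have v32 : ∀ a, x32 υ t c a ∈ V' := fun a => (mV' _).2 ⟨0, a, by rw [z31, one_mul]⟩
  -- general normalizer lemma for V and V'
  have nzV : ∀ g : Γ, (∀ a, g * x13 υ t c a * g⁻¹ ∈ V) → (∀ a, g * x23 υ c a * g⁻¹ ∈ V) → Nz V g := by
    intro g h1 h2 x hx
    obtain ⟨a, b, rfl⟩ := (mV x).1 hx
    have : g * (x13 υ t c a * x23 υ c b) * g⁻¹ = (g * x13 υ t c a * g⁻¹) * (g * x23 υ c b * g⁻¹) := by group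
    rw [this]; exact V.mul_mem (h1 a) (h2 b)
  have nzV' : ∀ g : Γ, (∀ a, g * x31 υ c a * g⁻¹ ∈ V') → (∀ a, g * x32 υ t c a * g⁻¹ ∈ V') → Nz V' g := by
    intro g h1 h2 x hx
    obtain ⟨a, b, rfl⟩ := (mV' x).1 hx
    have : g * (x31 υ c a * x32 υ t c b) * g⁻¹ = (g * x31 υ c a * g⁻¹) * (g * x32 υ t c b * g⁻¹) := by group
    rw [this]; exact V'.mul_mem (h1 a) (h2 b)
  have actc : ∀ (X : K → Γ), Act (TT h c) X → ∀ τ ∈ TT h c, ∀ a, ∃ b, τ * X a * τ⁻¹ = X b := by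
    intro X hX τ hτ a
    obtain ⟨μ, hμ, h1⟩ := hX _ (Subgroup.inv_mem _ hτ)
    refine ⟨μ * a, ?_⟩
    rw [← h1]; unfold cj; rw [inv_inv]
  have VT : ∀ τ ∈ TT h c, Nz V τ := by
    intro τ hτ
    apply nzV
    · intro a
      obtain ⟨b, hb⟩ := actc _ a13 τ hτ a
      rw [hb]; exact v13 b
    · intro a
      obtain ⟨b, hb⟩ := actc _ a23 τ hτ a
      rw [hb]; exact v23 b
  have VT' : ∀ τ ∈ TT h c, Nz V' τ := by
    intro τ hτ
    apply nzV'
    · intro a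
      obtain ⟨b, hb⟩ := actc _ a31 τ hτ a
      rw [hb]; exact v31 b
    · intro a
      obtain ⟨b, hb⟩ := actc _ a32 τ hτ a
      rw [hb]; exact v32 b
  have VU : ∀ a, Nz V (υ a) := by
    intro a
    apply nzV
    · intro b
      rw [D.r3, mul_assoc, mul_inv_cancel, mul_one]; exact v13 b
    · intro b
      have h1 : υ a * x23 υ c b * (υ a)⁻¹ = x23 υ c b * x13 υ t c (a * b) := by
        rw [D.r1]
        have h2 := D.r3 a (a * b)
        calc x23 υ c b * υ a * x13 υ t c (a * b) * (υ a)⁻¹ = x23 υ c b * (υ a * x13 υ t c (a * b)) * (υ a)⁻¹ := by group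
          _ = x23 υ c b * x13 υ t c (a * b) := by rw [h2]; group
      rw [h1]; exact V.mul_mem (v23 _) (v13 _)
  have VU' : ∀ a, Nz V' (υ a) := by
    intro a
    apply nzV'
    · intro b
      have h1 : υ a * x31 υ c b * (υ a)⁻¹ = x31 υ c b * x32 υ t c (-(b * a)) := by
        have h2 := D.r1cc b (-a)
        have h3 := D.r4 a (-(b * a))
        rw [← nU] at h2
        rw [mul_inv_eq_iff_eq_mul]
        have h4 : b * -a = -(b * a) := by ring
        rw [h4] at h2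
        calc υ a * x31 υ c b = υ a * (x31 υ c b * (υ a)⁻¹) * υ a := by group
          _ = υ a * ((υ a)⁻¹ * x31 υ c b * x32 υ t c (-(b * a))) * υ a := by rw [h2]
          _ = x31 υ c b * (x32 υ t c (-(b * a)) * υ a) := by group
          _ = x31 υ c b * x32 υ t c (-(b * a)) * υ a := by group
      rw [h1]; exact V'.mul_mem (v31 _) (v32 _)
    · intro b
      rw [D.r4, mul_assoc, mul_inv_cancel, mul_one]; exact v32 b
  -- conjugation by t
  have Vt : Nz V t := by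
    apply nzV
    · intro a
      have h1 : t * x13 υ t c a * t⁻¹ = t ^ 2 * x23 υ c (-a) * (t ^ 2)⁻¹ := by
        have := D.t_x23 (-a)
        rw [neg_neg] at this
        rw [← this, sq]; group
      rw [h1]
      obtain ⟨b, hb⟩ := actc _ a23 _ ht2T (-a)
      rw [hb]; exact v23 b
    · intro a
      rw [D.t_x23]; exact v13 _
  have Vt' : Nz V' t := by
    apply nzV'
    · intro a
      have h1 : t * x31 υ c a * t⁻¹ = t ^ 2 * x32 υ t c (-a) * (t ^ 2)⁻¹ := by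
        have := D.t_x32 (-a)
        rw [neg_neg] at this
        rw [← this, sq]; group
      rw [h1]
      obtain ⟨b, hb⟩ := actc _ a32 _ ht2T (-a)
      rw [hb]; exact v32 b
    · intro a
      rw [D.t_x32]; exact v31 _
  have tinv : t⁻¹ = t * t * t := by
    rw [inv_eq_iff_mul_eq_one, ← ht4]; simp only [pow_succ, pow_zero, one_mul, mul_assoc]
  have VY : ∀ a, Nz V (Frm.opp υ t a) := by
    intro a
    have : Nz V t⁻¹ := by rw [tinv]; exact (Vt.mul Vt).mul Vt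
    unfold Frm.opp
    exact (Vt.mul (VU _)).mul this
  have VY' : ∀ a, Nz V' (Frm.opp υ t a) := by
    intro a
    have : Nz V' t⁻¹ := by rw [tinv]; exact (Vt'.mul Vt').mul Vt'
    unfold Frm.opp
    exact (Vt'.mul (VU' _)).mul this
  -- L
  obtain ⟨L, hL⟩ : ∃ L, L = ψ.range := ⟨_, rfl⟩
  have LU : ∀ a, υ a ∈ L := fun a => by rw [hL]; exact ⟨_, ψU a⟩
  have LY : ∀ a, Frm.opp υ t a ∈ L := fun a => by rw [hL]; exact ⟨_, ψL a⟩
  have Lh : h ∈ L := by rw [hL]; exact ⟨_, ψH⟩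
  have Lt : t ∈ L := by
    rw [hL]
    exact ⟨sT⁻¹, by rw [map_inv, ψT, inv_inv]⟩
  have Lcl : L = Subgroup.closure (Set.range υ ∪ Set.range (Frm.opp υ t)) := by
    rw [hL, MonoidHom.range_eq_map, ← s_closure, MonoidHom.map_closure, Set.image_union]
    congr 1
    congr 1
    · ext x; constructor
      · rintro ⟨_, ⟨a, rfl⟩, rfl⟩; exact ⟨a, (ψU a).symm⟩
      · rintro ⟨a, rfl⟩; exact ⟨_, ⟨a, rfl⟩, ψU a⟩
    · ext x; constructor
      · rintro ⟨_, ⟨a, rfl⟩, rfl⟩; exact ⟨a, (ψL a).symm⟩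
      · rintro ⟨a, rfl⟩; exact ⟨_, ⟨a, rfl⟩, ψL a⟩
  have VL : ∀ g ∈ L, Nz V g := by
    rw [Lcl]
    apply Nz.closure
    · rintro _ (⟨a, rfl⟩ | ⟨a, rfl⟩)
      · exact VU a
      · exact VY a
    · rintro _ (⟨a, rfl⟩ | ⟨a, rfl⟩)
      · rw [nU]; exact VU _
      · rw [nY]; exact VY _
  have VL' : ∀ g ∈ L, Nz V' g := by
    rw [Lcl]
    apply Nz.closure
    · rintro _ (⟨a, rfl⟩ | ⟨a, rfl⟩)
      · exact VU' a
      · exact VY' a
    · rintro _ (⟨a, rfl⟩ | ⟨a, rfl⟩)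
      · rw [nU]; exact VU' _
      · rw [nY]; exact VY' _
  have LT : ∀ τ ∈ TT h c, Nz L τ := by
    intro τ hτ x hx
    rw [Lcl] at hx ⊢
    refine closure_conj ?_ hx
    rintro x (⟨a, rfl⟩ | ⟨a, rfl⟩)
    · obtain ⟨b, hb⟩ := actc _ aU τ hτ a
      rw [hb]; exact Subgroup.subset_closure (Or.inl ⟨b, rfl⟩)
    · obtain ⟨b, hb⟩ := actc _ aY τ hτ a
      rw [hb]; exact Subgroup.subset_closure (Or.inr ⟨b, rfl⟩)
  haveI : Finite V := cV.1
  haveI : Finite (SpecialLinearGroup (Fin 2) K) := inferInstance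
  have cL : Finite L ∧ Nat.card L ≤ Nat.card (SpecialLinearGroup (Fin 2) K) := by
    rw [hL]
    have hs : Function.Surjective ψ.rangeRestrict := ψ.rangeRestrict_surjective
    exact ⟨Finite.of_surjective _ hs, Nat.card_le_card_of_surjective _ hs⟩
  haveI : Finite L := cL.1
  have kN : (cj c h) ^ (Fintype.card K - 1) = 1 := by rw [← cj_pow, hN, cj_one]
  have hq1 : 0 < Fintype.card K - 1 := by have : 1 < Fintype.card K := Fintype.one_lt_card; omega
  have kfin : IsOfFinOrder (cj c h) := isOfFinOrder_iff_pow_eq_one.2 ⟨_, hq1, kN⟩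
  haveI : Finite (Subgroup.zpowers (cj c h)) := (finite_zpowers.2 kfin).to_subtype
  have cZ : Nat.card (Subgroup.zpowers (cj c h)) ≤ Fintype.card K - 1 := by
    rw [Nat.card_zpowers]
    exact Nat.le_of_dvd hq1 (orderOf_dvd_of_pow_eq_one kN)
  have zT : Subgroup.zpowers (cj c h) ≤ TT h c := by
    rw [Subgroup.zpowers_le]; exact k_TT _ _
  obtain ⟨fVL, cVL⟩ := card_sup_le (A := V) (B := L) VL
  have PN : ∀ b ∈ Subgroup.zpowers (cj c h), Nz (V ⊔ L) b := by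
    intro b hb x hx
    obtain ⟨v, hv, l, hl, rfl⟩ := sup_mem' VL hx
    have : b * (v * l) * b⁻¹ = (b * v * b⁻¹) * (b * l * b⁻¹) := by group
    rw [this]
    exact Subgroup.mul_mem _ (Subgroup.mem_sup_left (VT b (zT hb) _ hv)) (Subgroup.mem_sup_right (LT b (zT hb) _ hl))
  obtain ⟨fP, cP⟩ := card_sup_le (A := V ⊔ L) (B := Subgroup.zpowers (cj c h)) PN
  obtain ⟨P, hP⟩ : ∃ P, P = (V ⊔ L) ⊔ Subgroup.zpowers (cj c h) := ⟨_, rfl⟩
  rw [← hP] at fP cP
  have PV : V ≤ P := by rw [hP]; exact le_sup_of_le_left le_sup_left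
  have PL : L ≤ P := by rw [hP]; exact le_sup_of_le_left le_sup_right
  have Pk : cj c h ∈ P := by rw [hP]; exact Subgroup.mem_sup_right (Subgroup.mem_zpowers _)
  have PT : TT h c ≤ P := by
    unfold TT
    rw [Subgroup.closure_le]
    rintro x (rfl | rfl)
    · exact PL Lh
    · exact Pk
  -- the set
  obtain ⟨s, hs⟩ : ∃ s, s = cj c t := ⟨_, rfl⟩
  have s4 : s ^ 4 = 1 := by rw [hs, ← cj_pow, ht4, cj_one]
  have s2P : s * s ∈ P := by
    have : s * s = cj c (t ^ 2) := by rw [hs, cj_pow, sq]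
    rw [this]
    apply PT
    have h1 := D.Tc' _ ht2T
    rw [inv_inv] at h1
    exact h1
  have sinv : s⁻¹ = c * t := by rw [hs]; exact D.s_inv
  have ts : t * s = c⁻¹ := by rw [hs]; exact D.ts
  have braid : s * t * s = t * s * t := by rw [hs]; exact D.braid
  -- conjugation facts by s
  have cs31 : ∀ a, ∃ b, x31 υ c a * s = s * Frm.opp υ t b := by
    intro a
    have h1 : c ^ 2 * s = (c * t ^ 2 * c⁻¹) * t := by
      have e2 := D.ct2
      calc c ^ 2 * s = c ^ 2 * (c⁻¹ * t * c) := by rw [hs]; rfl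
        _ = c * t ^ 2 * (t⁻¹ * c) := by rw [sq, sq]; group
        _ = c * t ^ 2 * c⁻¹ * t := by rw [e2]; group
    obtain ⟨μ, hμ, h2⟩ := aU _ (D.Tc _ ht2T)
    have h3 : cj s (x31 υ c a) = Frm.opp υ t (-(μ * a)) := by
      unfold x31
      rw [cj_cj, h1, ← cj_cj, h2]
      unfold cj
      rw [D.tinv_u]
    refine ⟨-(μ * a), ?_⟩
    rw [← h3]; unfold cj; group
  have csY : ∀ b, Frm.opp υ t b * s = s * x31 υ c (-b) := by
    intro b
    have e2 := D.ct2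
    have h1 : t⁻¹ * s = t⁻¹ ^ 2 * c ^ 2 := by
      calc t⁻¹ * s = t⁻¹ * (c⁻¹ * t * c) := by rw [hs]; rfl
        _ = t⁻¹ * (c⁻¹ * t) * c := by group
        _ = t⁻¹ * (t⁻¹ * c) * c := by rw [e2]
        _ = t⁻¹ ^ 2 * c ^ 2 := by rw [sq, sq]; group
    have h2 : cj (t⁻¹ ^ 2) (υ (-b)) = υ (-b) := by
      unfold cj
      have := D.frm.zc (-b)
      rw [inv_pow, inv_inv, this]; group
    have h3 : cj s (Frm.opp υ t b) = x31 υ c (-b) := by
      have : Frm.opp υ t b = cj t⁻¹ (υ (-b)) := by unfold Frm.opp cj; rw [inv_inv]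
      rw [this, cj_cj, h1, ← cj_cj, h2]; rfl
    rw [← h3]; unfold cj; group
  have csU : ∀ a, s * υ a * s⁻¹ ∈ P := by
    intro a
    have h1 : s * υ a * s⁻¹ = t⁻¹ * x23 υ c a * t := by
      have : s = (c * t)⁻¹ := by rw [← sinv, inv_inv]
      rw [this]; unfold x23 cj; group
    have h2 : Nz V t⁻¹ := by rw [tinv]; exact (Vt.mul Vt).mul Vt
    have h3 := h2 _ (v23 a)
    rw [inv_inv] at h3
    rw [h1]; exact PV h3
  have csT : ∀ τ ∈ TT h c, s * τ * s⁻¹ ∈ P := by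
    intro τ hτ
    apply PT
    rw [hs]
    exact D.Ts _ hτ
  let 𝒮 : Set Γ := {g | (∃ p ∈ P, ∃ a b, g = p * (x31 υ c a * x32 υ t c b)) ∨ (∃ p ∈ P, ∃ l ∈ L, g = p * s * l)}
  have S1 : (1 : Γ) ∈ 𝒮 := Or.inl ⟨1, P.one_mem, 0, 0, by rw [z31, z32]; group⟩
  have SL' : ∀ l ∈ L, ∀ g ∈ 𝒮, g * l ∈ 𝒮 := by
    rintro l hl g (⟨p, hp, a, b, rfl⟩ | ⟨p, hp, l', hl', rfl⟩)
    · left
      have h1 : l⁻¹ * (x31 υ c a * x32 υ t c b) * l⁻¹⁻¹ ∈ V' := VL' _ (L.inv_mem hl) _ ((mV' _).2 ⟨a, b, rfl⟩)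
      rw [inv_inv] at h1
      obtain ⟨a', b', h2⟩ := (mV' _).1 h1
      refine ⟨p * l, P.mul_mem hp (PL hl), a', b', ?_⟩
      rw [← h2]; group
    · right
      exact ⟨p, hp, l' * l, L.mul_mem hl' hl, by group⟩
  have Ss : ∀ g ∈ 𝒮, g * s ∈ 𝒮 := by
    rintro g (⟨p, hp, a, b, rfl⟩ | ⟨p, hp, l, hl, rfl⟩)
    · by_cases hb : b = 0
      · subst hb
        right
        obtain ⟨b', hb'⟩ := cs31 a
        refine ⟨p, hp, Frm.opp υ t b', LY _, ?_⟩
        rw [z32, mul_one, mul_assoc, hb']; group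
      · left
        obtain ⟨j, hj⟩ := hg (-b) (neg_ne_zero.2 hb)
        have h1 : Frm.opp υ t b * t = υ b⁻¹ * h ^ j * Frm.opp υ t (-b⁻¹) := by
          have h2 := congrArg ψ (sLT hζ hb hj)
          rw [map_mul, map_mul, map_mul, map_pow, ψL, ψU, ψH, ψL, ψT] at h2
          rw [h2]; group
        have h2 : x32 υ t c b * s = x23 υ c b⁻¹ * (cj c h) ^ j * x32 υ t c (-b⁻¹) := by
          have h3 := congrArg (cj c) h1
          rw [cj_mul, cj_mul, cj_mul, cj_pow, ← hs] at h3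
          exact h3
        have h3 := D.r1c b⁻¹ a
        have h4 := D.r4cc a (b⁻¹ * a)
        obtain ⟨μ, hμ, h5⟩ := a31 _ (Subgroup.pow_mem _ (k_TT h c) j)
        have h6 : x31 υ c a * (cj c h) ^ j = (cj c h) ^ j * x31 υ c (μ * a) := by
          rw [← h5]; unfold cj; group
        refine ⟨p * (x23 υ c b⁻¹ * (Frm.opp υ t (b⁻¹ * a))⁻¹ * (cj c h) ^ j), ?_, μ * a, -b⁻¹, ?_⟩
        · exact P.mul_mem hp (P.mul_mem (P.mul_mem (PV (v23 _)) (P.inv_mem (PL (LY _)))) (P.pow_mem Pk _))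
        · have h7 : x31 υ c a * x23 υ c b⁻¹ = x23 υ c b⁻¹ * (Frm.opp υ t (b⁻¹ * a))⁻¹ * x31 υ c a := by
            have h8 : x31 υ c a * x23 υ c b⁻¹ = x23 υ c b⁻¹ * x31 υ c a * (Frm.opp υ t (b⁻¹ * a))⁻¹ := by
              rw [h3]; group
            rw [h8]
            generalize Frm.opp υ t (b⁻¹ * a) = yy at *
            have h9 : x31 υ c a * yy⁻¹ = yy⁻¹ * x31 υ c a := by
              calc x31 υ c a * yy⁻¹ = yy⁻¹ * (yy * x31 υ c a) * yy⁻¹ := by group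
                _ = yy⁻¹ * x31 υ c a := by rw [← h4]; group
            rw [mul_assoc, h9]; group
          calc p * (x31 υ c a * x32 υ t c b) * s = p * (x31 υ c a * (x32 υ t c b * s)) := by group
            _ = p * (x31 υ c a * x23 υ c b⁻¹) * (cj c h) ^ j * x32 υ t c (-b⁻¹) := by rw [h2]; group
            _ = p * (x23 υ c b⁻¹ * (Frm.opp υ t (b⁻¹ * a))⁻¹) * (x31 υ c a * (cj c h) ^ j) * x32 υ t c (-b⁻¹) := by rw [h7]; group
            _ = _ := by rw [h6]; group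
    · rw [hL] at hl
      obtain ⟨m, rfl⟩ := hl
      rcases s_dec m hζ hg with ⟨a, b, j, rfl⟩ | ⟨a, j, rfl⟩
      · left
        rw [map_mul, map_mul, map_pow, ψU, ψH, ψL]
        refine ⟨p * (s * υ a * s⁻¹) * (s * h ^ j * s⁻¹) * (s * s), ?_, -b, 0, ?_⟩
        · exact P.mul_mem (P.mul_mem (P.mul_mem hp (csU a)) (csT _ (Subgroup.pow_mem _ (h_TT _ _) _))) s2P
        · rw [z32, mul_one]
          have := csY b
          calc p * s * (υ a * h ^ j * Frm.opp υ t b) * s = p * s * υ a * h ^ j * (Frm.opp υ t b * s) := by group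
            _ = p * s * υ a * h ^ j * (s * x31 υ c (-b)) := by rw [this]
            _ = _ := by group
      · right
        rw [map_mul, map_mul, map_pow, map_inv, ψU, ψH, ψT, inv_inv]
        refine ⟨p * (s * υ a * s⁻¹) * (s * h ^ j * s⁻¹) * t, ?_, t, Lt, ?_⟩
        · exact P.mul_mem (P.mul_mem (P.mul_mem hp (csU a)) (csT _ (Subgroup.pow_mem _ (h_TT _ _) _))) (PL Lt)
        · calc p * s * (υ a * h ^ j * t) * s = p * s * υ a * h ^ j * s⁻¹ * (s * t * s) := by group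
            _ = p * s * υ a * h ^ j * s⁻¹ * (t * s * t) := by rw [braid]
            _ = _ := by group
  have sinv3 : s⁻¹ = s * s * s := by
    rw [inv_eq_iff_mul_eq_one, ← s4]; simp only [pow_succ, pow_zero, one_mul, mul_assoc]
  have Sall : ∀ g : Γ, g ∈ 𝒮 := by
    have hcl : Subgroup.closure ({s} ∪ (L : Set Γ)) = ⊤ := by
      rw [eq_top_iff, ← hgen, Subgroup.closure_le]
      have hsC : s ∈ Subgroup.closure ({s} ∪ (L : Set Γ)) := Subgroup.subset_closure (by simp)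
      have hLC : ∀ l ∈ L, l ∈ Subgroup.closure ({s} ∪ (L : Set Γ)) := fun l hl => Subgroup.subset_closure (Or.inr hl)
      rintro x (rfl | rfl | rfl | rfl)
      · exact hLC _ (LU 1)
      · exact hLC _ Lh
      · exact hLC _ Lt
      · have : x = (t * s)⁻¹ := by rw [ts, inv_inv]
        rw [this]
        exact Subgroup.inv_mem _ (Subgroup.mul_mem _ (hLC _ Lt) hsC)
    have key : ∀ g ∈ Subgroup.closure ({s} ∪ (L : Set Γ)), ∀ x ∈ 𝒮, x * g ∈ 𝒮 ∧ x * g⁻¹ ∈ 𝒮 := by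
      intro g hg
      induction hg using Subgroup.closure_induction with
      | mem g hg =>
        rcases hg with rfl | hg
        · intro x hx
          refine ⟨Ss x hx, ?_⟩
          rw [sinv3, ← mul_assoc, ← mul_assoc]
          exact Ss _ (Ss _ (Ss _ hx))
        · intro x hx
          exact ⟨SL' g hg x hx, SL' g⁻¹ (L.inv_mem hg) x hx⟩
      | one => intro x hx; rw [inv_one, mul_one]; exact ⟨hx, hx⟩
      | mul a b _ _ ha hb =>
        intro x hx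
        refine ⟨?_, ?_⟩
        · rw [← mul_assoc]; exact (hb _ (ha x hx).1).1
        · rw [_root_.mul_inv_rev, ← mul_assoc]; exact (ha _ (hb x hx).2).2
      | inv a _ ha => intro x hx; rw [inv_inv]; exact ⟨(ha x hx).2, (ha x hx).1⟩
    intro g
    have := (key g (by rw [hcl]; trivial) 1 S1).1
    rwa [one_mul] at this
  let F : P × ((K × K) ⊕ (K ⊕ Unit)) → Γ := fun x => match x with
    | (p, Sum.inl (a, b)) => p.1 * (x31 υ c a * x32 υ t c b)
    | (p, Sum.inr (Sum.inl b)) => p.1 * s * Frm.opp υ t b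
    | (p, Sum.inr (Sum.inr ())) => p.1 * s * t
  have hF : Function.Surjective F := by
    intro g
    rcases Sall g with ⟨p, hp, a, b, rfl⟩ | ⟨p, hp, l, hl, rfl⟩
    · exact ⟨(⟨p, hp⟩, Sum.inl (a, b)), rfl⟩
    · rw [hL] at hl
      obtain ⟨m, rfl⟩ := hl
      rcases s_dec m hζ hg with ⟨a, b, j, rfl⟩ | ⟨a, j, rfl⟩
      · rw [map_mul, map_mul, map_pow, ψU, ψH, ψL]
        refine ⟨(⟨p * (s * υ a * s⁻¹) * (s * h ^ j * s⁻¹), P.mul_mem (P.mul_mem hp (csU a)) (csT _ (Subgroup.pow_mem _ (h_TT _ _) _))⟩, Sum.inr (Sum.inl b)), ?_⟩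
        show p * (s * υ a * s⁻¹) * (s * h ^ j * s⁻¹) * s * Frm.opp υ t b = _
        group
      · rw [map_mul, map_mul, map_pow, map_inv, ψU, ψH, ψT, inv_inv]
        refine ⟨(⟨p * (s * υ a * s⁻¹) * (s * h ^ j * s⁻¹), P.mul_mem (P.mul_mem hp (csU a)) (csT _ (Subgroup.pow_mem _ (h_TT _ _) _))⟩, Sum.inr (Sum.inr ())), ?_⟩
        show p * (s * υ a * s⁻¹) * (s * h ^ j * s⁻¹) * s * t = _
        group
  haveI := fP
  refine ⟨Finite.of_surjective _ hF, ?_⟩
  have h1 := Nat.card_le_card_of_surjective _ hF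
  have hu : Nat.card Unit = 1 := Nat.card_unique
  rw [Nat.card_prod, Nat.card_sum, Nat.card_sum, Nat.card_prod, Nat.card_eq_fintype_card (α := K), hu, ← sq] at h1
  refine h1.trans (Nat.mul_le_mul_right _ ?_)
  refine cP.trans ?_
  refine Nat.mul_le_mul (cVL.trans ?_) cZ
  exact Nat.mul_le_mul cV.2 cL.2

end A2

end Cfsg.Agent.H1.Pres
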