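import Cfsg.Agent.H1.PrI

set_option autoImplicit false
set_option linter.all false

namespace Cfsg.Agent.H1.Pres

open Cfsg.Agent.H16 Matrix

section spanning

variable {K : Type*} [Field K] [Fintype K] {p : ℕ} [Fact p.Prime] [Algebra (ZMod p) K] {ζ : K}

lemma full_zeta (hord : orderOf ζ = Fintype.card K - 1) : ∀ y : K, ∃ f : Polynomial (ZMod p), Polynomial.aeval ζ f = y := by
  intro y
  obtain ⟨f, hf⟩ := full_sq (p := p) hord y
  refine ⟨f.comp (Polynomial.X ^ 2), ?_⟩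
  rw [Polynomial.aeval_comp, map_pow, Polynomial.aeval_X, hf]

lemma full_cube (hord : orderOf ζ = Fintype.card K - 1) (h4 : Fintype.card K ≠ 4) : ∀ y : K, ∃ f : Polynomial (ZMod p), Polynomial.aeval (ζ ^ 3) f = y := by
  apply full_of
  intro k hk h1 h2
  have h0 : ζ ≠ 0 := by
    rintro rfl
    have h3 : 2 ^ 2 ≤ Fintype.card K := (Nat.pow_le_pow_left hk 2).trans h2
    have h4 := pow_orderOf_eq_one (0 : K)
    rw [hord, zero_pow (by omega)] at h4
    exact zero_ne_one h4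
  have h3 := h1 (ζ ^ 3) (IntermediateField.mem_adjoin_simple_self _ _)
  have h5 : ζ ^ (3 * (p ^ k - 1)) = 1 := by
    obtain ⟨r, hr⟩ : ∃ r, p ^ k = r + 1 := ⟨p ^ k - 1, by omega⟩
    rw [hr] at h3 ⊢
    rw [← pow_mul, Nat.add_sub_cancel] at *
    have : ζ ^ (3 * r) * ζ ^ 3 = 1 * ζ ^ 3 := by
      rw [one_mul, ← pow_add, ← h3]
      congr 1
    exact mul_right_cancel₀ (pow_ne_zero 3 h0) this
  have h6 := Nat.le_of_dvd (by omega) (orderOf_dvd_of_pow_eq_one h5)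
  rw [hord] at h6
  generalize p ^ k = r at *
  have h7 : r ≤ 2 := by
    by_contra h8
    push Not at h8
    have h9 : r ^ 2 ≤ 3 * (r - 1) + 1 := by omega
    obtain ⟨s, rfl⟩ : ∃ s, r = s + 1 := ⟨r - 1, by omega⟩
    rw [Nat.add_sub_cancel] at h9
    nlinarith
  obtain rfl : r = 2 := by omega
  omega

lemma span_all (a : K) (ha : ∀ y : K, ∃ f : Polynomial (ZMod p), Polynomial.aeval a f = y) (A : AddSubgroup K) (hA : ∀ i : ℕ, a ^ i ∈ A) (y : K) : y ∈ A := by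
  obtain ⟨f, rfl⟩ := ha y
  rw [Polynomial.aeval_eq_sum_range]
  apply AddSubgroup.sum_mem
  intro i _
  rw [← ZMod.natCast_zmod_val (f.coeff i), Nat.cast_smul_eq_nsmul]
  exact A.nsmul_mem (hA i) _

end spanning

section raw

variable {Γ : Type*} [Group Γ]

/-- raw relations -/
structure Raw (h t c : Γ) : Prop where
  hk : h * cj c h = cj c h * h
  inv : h * t * h = t
  c3 : c ^ 3 = 1
  ct : c * t⁻¹ * c = t
  T : h * cj c h * cj (c ^ 2) h = 1

namespace Raw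

variable {h t c : Γ} (R : Raw h t c)
include R

lemma cinv : c⁻¹ = c ^ 2 := by
  rw [inv_eq_iff_mul_eq_one, ← pow_succ']; exact R.c3

lemma ct1 : c * t⁻¹ = t * c⁻¹ := by
  rw [eq_mul_inv_iff_mul_eq]; exact R.ct

lemma hc2 : cj (c ^ 2) h = (h * cj c h)⁻¹ := eq_inv_of_mul_eq_one_right R.T

lemma chc : c * h * c⁻¹ = (h * cj c h)⁻¹ := by
  rw [← R.hc2]; unfold cj; rw [← R.cinv, inv_inv]

lemma ckc : c * cj c h * c⁻¹ = h := by unfold cj; group

lemma th1 : t * h * t⁻¹ = h⁻¹ := by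
  have := R.inv
  calc t * h * t⁻¹ = h⁻¹ * (h * t * h) * t⁻¹ := by group
    _ = h⁻¹ := by rw [this]; group

lemma th2 : t⁻¹ * h * t = h⁻¹ := by
  have := R.inv
  calc t⁻¹ * h * t = t⁻¹ * (h * t * h) * h⁻¹ := by group
    _ = h⁻¹ := by rw [this]; group

lemma tk : t * cj c h * t⁻¹ = h * cj c h := by
  have h1 := R.ct1
  have h2 := R.th2
  have h3 : t * cj c h * t⁻¹ = (t * c⁻¹) * h * (t * c⁻¹)⁻¹ := by unfold cj; group
  rw [h3, ← h1]
  have h4 : c * t⁻¹ * h * (c * t⁻¹)⁻¹ = c * (t⁻¹ * h * t) * c⁻¹ := by group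
  rw [h4, h2]
  have h5 : c * h⁻¹ * c⁻¹ = (cj (c ^ 2) h)⁻¹ := by
    unfold cj; rw [← R.cinv]; group
  rw [h5, R.hc2, inv_inv]

lemma tk2 : t⁻¹ * cj c h * t = h * cj c h := by
  have h1 := R.tk
  have h2 := R.th1
  have h3 : t * (h * cj c h) * t⁻¹ = cj c h := by
    have : t * (h * cj c h) * t⁻¹ = (t * h * t⁻¹) * (t * cj c h * t⁻¹) := by group
    rw [this, h1, h2]; group
  calc t⁻¹ * cj c h * t = t⁻¹ * (t * (h * cj c h) * t⁻¹) * t := by rw [h3]
    _ = h * cj c h := by group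

lemma kt : cj c h * t = t * (h * cj c h) := by
  rw [← R.tk2]; group

lemma ttk : t ^ 2 * cj c h = cj c h * t ^ 2 := by
  have h1 := R.tk
  have h3 : t * (h * cj c h) * t⁻¹ = cj c h := by
    have : t * (h * cj c h) * t⁻¹ = (t * h * t⁻¹) * (t * cj c h * t⁻¹) := by group
    rw [this, h1, R.th1]; group
  have h4 : t ^ 2 * cj c h * (t ^ 2)⁻¹ = cj c h := by
    calc t ^ 2 * cj c h * (t ^ 2)⁻¹ = t * (t * cj c h * t⁻¹) * t⁻¹ := by rw [sq]; group
      _ = cj c h := by rw [h1, h3]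
  rw [mul_inv_eq_iff_eq_mul] at h4
  exact h4

lemma kt1 : cj ((cj c h)⁻¹) t = t * h := by
  have := R.kt
  show (cj c h)⁻¹⁻¹ * t * (cj c h)⁻¹ = _
  rw [inv_inv, this]; group

end Raw

end raw

section sc

variable {Γ K : Type*} [Group Γ] [Field K]

/-- scalar actions of `h` and `k₁` -/
structure Sc (h k₁ : Γ) (X : K → Γ) (α β : K) : Prop where
  h1 : ∀ a, cj h (X a) = X (α * a)
  h2 : ∀ a, cj k₁ (X a) = X (β * a)

lemma cj_inv_of {g : Γ} {X : K → Γ} {α : K} (hα : α ≠ 0) (h : ∀ a, cj g (X a) = X (α * a)) (a : K) : cj g⁻¹ (X a) = X (α⁻¹ * a) := by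
  have h2 := h (α⁻¹ * a)
  rw [← mul_assoc, mul_inv_cancel₀ hα, one_mul] at h2
  rw [← h2, cj_cj, mul_inv_cancel, one_cj]

lemma cj_powX {g : Γ} {X : K → Γ} {α : K} (h : ∀ a, cj g (X a) = X (α * a)) (n : ℕ) (a : K) : cj (g ^ n) (X a) = X (α ^ n * a) := by
  induction n with
  | zero => rw [pow_zero, one_cj, pow_zero, one_mul]
  | succ n ih => rw [pow_succ, ← cj_cj, ih, h]; congr 1; ring

lemma Sc.conj {h t c : Γ} (R : Raw h t c) {X : K → Γ} {α β : K} (hα : α ≠ 0) (hβ : β ≠ 0) (S : Sc h (cj c h)⁻¹ X α β) :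
    Sc h (cj c h)⁻¹ (fun a => cj c (X a)) (α⁻¹ * β) α⁻¹ := by
  constructor
  · intro a
    have e : cj h (cj c (X a)) = cj c (cj (c * h * c⁻¹) (X a)) := by
      rw [cj_cj, cj_cj]; congr 1; group
    show cj h (cj c (X a)) = _
    rw [e, R.chc, _root_.mul_inv_rev, ← cj_cj, S.h2, cj_inv_of hα S.h1, mul_assoc]
  · intro a
    have e : cj (cj c h)⁻¹ (cj c (X a)) = cj c (cj (c * cj c h * c⁻¹)⁻¹ (X a)) := by
      rw [cj_cj, cj_cj]; congr 1; group
    show cj (cj c h)⁻¹ (cj c (X a)) = _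
    rw [e, R.ckc, cj_inv_of hα S.h1]

end sc

section main

variable {Γ K : Type*} [Group Γ] [Field K] [Fintype K]
  {h t c : Γ} {ζ : K} {υ : K → Γ}

/-- first step: the rank one framework -/
theorem step1 (p : ℕ) [Fact p.Prime] [Algebra (ZMod p) K] (R : Raw h t c) (h0 : ζ ≠ 0) (hζ : ∀ x : K, x ≠ 0 → ∃ n : ℕ, ζ ^ n = x) (hord : orderOf ζ = Fintype.card K - 1)
    (U : Ups υ (cj c h)⁻¹ ζ) (hN : h ^ (Fintype.card K - 1) = 1) (h5 : cj h (υ 1) = cj ((cj c h)⁻¹ ^ 2) (υ 1))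
    (h7 : (υ 1 * t) ^ 3 = t ^ 2) : Frm υ h t (t ^ 2) ζ := by
  have hfull := full_zeta (p := p) hord
  have hkk : cj h (cj c h)⁻¹ = (cj c h)⁻¹ := by
    have := R.hk
    rw [cj_inv]
    congr 1
    show h⁻¹ * cj c h * h = _
    rw [mul_assoc, ← this]; group
  have U2 : Ups υ h (ζ ^ 2) := by
    refine ⟨U.add, fun y => ?_⟩
    obtain ⟨f, rfl⟩ := hfull y
    rw [← U.wd_eq f]
    have e2 : ∀ x : Γ, cj h x = (MulAut.conj h⁻¹).toMonoidHom x := by
      intro x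
      show h⁻¹ * x * h = h⁻¹ * x * h⁻¹⁻¹
      rw [inv_inv]
    rw [e2, map_wd, ← e2, ← e2, hkk, h5, U.actPow, mul_one, U.wd_eq', mul_comm]
  have hzu : υ 1 ∈ Subgroup.centralizer ({t ^ 2} : Set Γ) := by
    rw [Subgroup.mem_centralizer_singleton_iff]
    have h3 : Commute (t ^ 2) (υ 1 * t) := by rw [← h7]; exact (Commute.refl _).pow_left 3
    have h4 : Commute (t ^ 2) t := (Commute.refl t).pow_left 2
    have h5 : Commute (t ^ 2) (υ 1) := by
      have := h3.mul_right h4.inv_right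
      rwa [mul_inv_cancel_right] at this
    exact h5.symm.eq
  have hzk : (cj c h)⁻¹ ∈ Subgroup.centralizer ({t ^ 2} : Set Γ) := by
    apply Subgroup.inv_mem
    rw [Subgroup.mem_centralizer_singleton_iff]
    exact R.ttk.symm
  have hz : ∀ y, t ^ 2 * υ y = υ y * t ^ 2 := by
    intro y
    obtain ⟨f, rfl⟩ := hfull y
    have h3 := wd_mem _ f hzu hzk
    rw [U.wd_eq, Subgroup.mem_centralizer_singleton_iff] at h3
    exact h3.symm
  have h8 : (υ ζ * t * h) ^ 3 = t ^ 2 := by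
    have h9 := congrArg (cj (cj c h)⁻¹) h7
    rw [cj_pow, cj_mul, cj_pow, R.kt1, U.act, mul_one] at h9
    rw [mul_assoc, h9, sq, sq]
    have := R.inv
    calc t * h * (t * h) = t * (h * t * h) := by group
      _ = t * t := by rw [this]
  exact mk_frm h0 U2 R.inv hz (Or.inl rfl) (by rw [hord, hN]) h7 (Or.inr ⟨h8, hζ⟩)

/-- scalar data -/
theorem scal (R : Raw h t c) (h0 : ζ ≠ 0) (U : Ups υ (cj c h)⁻¹ ζ) (D : Frm υ h t (t ^ 2) ζ) :
    Sc h (cj c h)⁻¹ υ (ζ ^ 2) ζ ∧ Sc h (cj c h)⁻¹ (x23 υ c) ζ⁻¹ (ζ ^ 2)⁻¹ ∧ Sc h (cj c h)⁻¹ (x32 υ t c) ζ (ζ ^ 2) ∧ Sc h (cj c h)⁻¹ (x13 υ t c) ζ ζ⁻¹ := by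
  have S1 : Sc h (cj c h)⁻¹ υ (ζ ^ 2) ζ := ⟨D.ups.act, U.act⟩
  have h20 : ζ ^ 2 ≠ 0 := pow_ne_zero 2 h0
  have S2 : Sc h (cj c h)⁻¹ (Frm.opp υ t) (ζ ^ 2)⁻¹ ζ⁻¹ := by
    constructor
    · intro a
      unfold Frm.opp
      have e1 : h⁻¹ * t = t * h := by
        have := R.inv
        calc h⁻¹ * t = h⁻¹ * (h * t * h) := by rw [this]
          _ = t * h := by group
      have e2 : cj h (t * υ (-a) * t⁻¹) = t * cj h⁻¹ (υ (-a)) * t⁻¹ := by
        show h⁻¹ * (t * υ (-a) * t⁻¹) * h = t * (h⁻¹⁻¹ * υ (-a) * h⁻¹) * t⁻¹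
        calc h⁻¹ * (t * υ (-a) * t⁻¹) * h = (h⁻¹ * t) * υ (-a) * (h⁻¹ * t)⁻¹ := by group
          _ = _ := by rw [e1]; group
      rw [e2, cj_inv_of h20 S1.h1, mul_neg]
    · intro a
      unfold Frm.opp
      have e1 := R.kt
      have e2 : cj (cj c h)⁻¹ (t * υ (-a) * t⁻¹) = t * cj ((cj c h)⁻¹ * h⁻¹) (υ (-a)) * t⁻¹ := by
        show (cj c h)⁻¹⁻¹ * (t * υ (-a) * t⁻¹) * (cj c h)⁻¹ = t * (((cj c h)⁻¹ * h⁻¹)⁻¹ * υ (-a) * ((cj c h)⁻¹ * h⁻¹)) * t⁻¹
        generalize cj c h = k at *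
        calc k⁻¹⁻¹ * (t * υ (-a) * t⁻¹) * k⁻¹ = (k * t) * υ (-a) * (k * t)⁻¹ := by group
          _ = _ := by rw [e1]; group
      rw [e2, ← cj_cj, U.act, cj_inv_of h20 S1.h1, mul_neg, mul_neg]
      congr 3
      field_simp
  have S3 := S1.conj R h20 h0
  have S4 := S2.conj R (inv_ne_zero h20) (inv_ne_zero h0)
  have S5 := S4.conj R (mul_ne_zero (inv_ne_zero (inv_ne_zero h20)) (inv_ne_zero h0)) (inv_ne_zero (inv_ne_zero h20))
  have e1 : (ζ ^ 2)⁻¹ * ζ = ζ⁻¹ := by field_simp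
  have e2 : ((ζ ^ 2)⁻¹)⁻¹ * ζ⁻¹ = ζ := by field_simp
  have e3 : ((ζ ^ 2)⁻¹)⁻¹ = ζ ^ 2 := by rw [inv_inv]
  rw [e2, e3] at S4 S5
  rw [e1] at S3
  have e4 : ζ⁻¹ * ζ ^ 2 = ζ := by field_simp
  rw [e4] at S5
  refine ⟨S1, S3, S4, ⟨fun a => ?_, fun a => ?_⟩⟩
  · have := S5.h1 a
    simp only [cj_cj, ← sq] at this
    unfold x13
    rw [cj_cj]; exact this
  · have := S5.h2 a
    simp only [cj_cj, ← sq] at this
    unfold x13
    rw [cj_cj]; exact this

/-- commutation with a fixed family extends -/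
lemma comm_ext (p : ℕ) [Fact p.Prime] [Algebra (ZMod p) K] (h0 : ζ ≠ 0) (hζ : ∀ x : K, x ≠ 0 → ∃ n : ℕ, ζ ^ n = x) (hord : orderOf ζ = Fintype.card K - 1)
    (h4 : Fintype.card K ≠ 4) {X Y : K → Γ} (hX : ∀ a b, X (a + b) = X a * X b) (hY : ∀ a b, Y (a + b) = Y a * Y b)
    (τ : Γ) (hτX : ∀ a, cj τ (X a) = X (ζ ^ 3 * a)) (hτY : ∀ a, cj τ (Y a) = Y a)
    (σ : Γ) (β : K) (hσX : ∀ a, cj σ (X a) = X (β * a)) (hσY : ∀ a, cj σ (Y a) = Y (ζ * a))
    (hβ : β ≠ 0) (base : X 1 * Y 1 = Y 1 * X 1) : ∀ a b, X a * Y b = Y b * X a := by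
  have X0 : X 0 = 1 := by
    have := hX 0 0
    rw [add_zero] at this
    exact left_eq_mul.1 this
  have Y0 : Y 0 = 1 := by
    have := hY 0 0
    rw [add_zero] at this
    exact left_eq_mul.1 this
  have Xn : ∀ a, X (-a) = (X a)⁻¹ := by
    intro a
    have := hX (-a) a
    rw [neg_add_cancel, X0] at this
    exact eq_inv_of_mul_eq_one_left this.symm
  let A : AddSubgroup K :=
    { carrier := {a | Commute (X a) (Y 1)}
      zero_mem' := by show Commute (X 0) (Y 1); rw [X0]; exact Commute.one_left _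
      add_mem' := by
        intro a b ha hb
        show Commute (X (a + b)) (Y 1)
        rw [hX]; exact ha.mul_left hb
      neg_mem' := by
        intro a ha
        show Commute (X (-a)) (Y 1)
        rw [Xn]; exact ha.inv_left }
  have hA : ∀ i : ℕ, (ζ ^ 3) ^ i ∈ A := by
    intro i
    show Commute (X _) (Y 1)
    have h1 : Commute (X 1) (Y 1) := base
    have h2 := cj_comm (g := τ ^ i) h1
    rw [cj_powX hτX i 1, mul_one] at h2
    have h3 : cj (τ ^ i) (Y 1) = Y 1 := by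
      have := cj_powX (X := Y) (α := 1) (g := τ) (fun a => by rw [hτY, one_mul]) i 1
      rw [one_pow, one_mul] at this
      exact this
    rwa [h3] at h2
  have hall := span_all (p := p) (ζ ^ 3) (full_cube (p := p) hord h4) A hA
  intro a b
  by_cases hb : b = 0
  · rw [hb, Y0, mul_one, one_mul]
  · obtain ⟨i, hi⟩ := hζ b hb
    have h1 : Commute (X ((β ^ i)⁻¹ * a)) (Y 1) := hall _
    have h2 := cj_comm (g := σ ^ i) h1
    rw [cj_powX hσX i, cj_powX hσY i, mul_one, hi, ← mul_assoc, mul_inv_cancel₀ (pow_ne_zero i hβ), one_mul] at h2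
    exact h2

/-- the main derivation, `q ≠ 4` -/
theorem mkA2 (p : ℕ) [Fact p.Prime] [Algebra (ZMod p) K] (R : Raw h t c) (h0 : ζ ≠ 0) (hζ : ∀ x : K, x ≠ 0 → ∃ n : ℕ, ζ ^ n = x) (hord : orderOf ζ = Fintype.card K - 1)
    (h4 : Fintype.card K ≠ 4)
    (U : Ups υ (cj c h)⁻¹ ζ) (D : Frm υ h t (t ^ 2) ζ)
    (b1 : υ 1 * x23 υ c 1 = x23 υ c 1 * υ 1 * x13 υ t c 1) (b3 : υ 1 * x13 υ t c 1 = x13 υ t c 1 * υ 1)
    (b4 : υ 1 * x32 υ t c 1 = x32 υ t c 1 * υ 1) : A2 υ h t c ζ := by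
  obtain ⟨S1, S23, S32, S13⟩ := scal R h0 U D
  have addU := D.ups.add
  have addY : ∀ a b, Frm.opp υ t (a + b) = Frm.opp υ t a * Frm.opp υ t b := by
    intro a b
    unfold Frm.opp
    rw [neg_add, D.ups.add]; group
  have add13 : ∀ a b, x13 υ t c (a + b) = x13 υ t c a * x13 υ t c b := by
    intro a b; unfold x13; rw [addY, cj_mul]
  have add23 : ∀ a b, x23 υ c (a + b) = x23 υ c a * x23 υ c b := by
    intro a b; unfold x23; rw [addU, cj_mul]
  have add32 : ∀ a b, x32 υ t c (a + b) = x32 υ t c a * x32 υ t c b := by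
    intro a b; unfold x32; rw [addY, cj_mul]
  have r3 : ∀ a b, υ a * x13 υ t c b = x13 υ t c b * υ a := by
    refine comm_ext p h0 hζ hord h4 addU add13 (h * (cj c h)⁻¹) ?_ ?_ h (ζ ^ 2) S1.h1 S13.h1 (pow_ne_zero 2 h0) b3
    · intro a
      rw [← cj_cj, S1.h1, S1.h2]; congr 1; ring
    · intro a
      rw [← cj_cj, S13.h1, S13.h2]; congr 1; field_simp
  have r4 : ∀ a b, υ a * x32 υ t c b = x32 υ t c b * υ a := by
    refine comm_ext p h0 hζ hord h4 addU add32 (h * h * (cj c h)⁻¹⁻¹) ?_ ?_ h (ζ ^ 2) S1.h1 S32.h1 (pow_ne_zero 2 h0) b4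
    · intro a
      rw [← cj_cj, ← cj_cj, S1.h1, S1.h1, cj_inv_of h0 S1.h2]; congr 1; field_simp
    · intro a
      rw [← cj_cj, ← cj_cj, S32.h1, S32.h1, cj_inv_of (pow_ne_zero 2 h0) S32.h2]; congr 1; field_simp
  have U0 := D.ups.zero
  have z13 : x13 υ t c 0 = 1 := by
    have := add13 0 0
    rw [add_zero] at this
    exact left_eq_mul.1 this
  have z23 : x23 υ c 0 = 1 := by
    have := add23 0 0
    rw [add_zero] at this
    exact left_eq_mul.1 this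
  have n13 : ∀ a, x13 υ t c (-a) = (x13 υ t c a)⁻¹ := by
    intro a
    have := add13 (-a) a
    rw [neg_add_cancel, z13] at this
    exact eq_inv_of_mul_eq_one_left this.symm
  have r1 : ∀ a b, υ a * x23 υ c b = x23 υ c b * υ a * x13 υ t c (a * b) := by
    let A : AddSubgroup K :=
      { carrier := {a | υ a * x23 υ c 1 = x23 υ c 1 * υ a * x13 υ t c a}
        zero_mem' := by
          show υ 0 * x23 υ c 1 = x23 υ c 1 * υ 0 * x13 υ t c 0
          rw [U0, z13, one_mul, mul_one, mul_one]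
        add_mem' := by
          intro a b ha hb
          have ha' : υ a * x23 υ c 1 = x23 υ c 1 * υ a * x13 υ t c a := ha
          have hb' : υ b * x23 υ c 1 = x23 υ c 1 * υ b * x13 υ t c b := hb
          show υ (a + b) * x23 υ c 1 = x23 υ c 1 * υ (a + b) * x13 υ t c (a + b)
          rw [addU, add13]
          calc υ a * υ b * x23 υ c 1 = υ a * (υ b * x23 υ c 1) := by group
            _ = (υ a * x23 υ c 1) * υ b * x13 υ t c b := by rw [hb']; group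
            _ = x23 υ c 1 * υ a * (x13 υ t c a * υ b) * x13 υ t c b := by rw [ha']; group
            _ = x23 υ c 1 * υ a * (υ b * x13 υ t c a) * x13 υ t c b := by rw [r3]
            _ = _ := by group
        neg_mem' := by
          intro a ha
          have ha' : υ a * x23 υ c 1 = x23 υ c 1 * υ a * x13 υ t c a := ha
          show υ (-a) * x23 υ c 1 = x23 υ c 1 * υ (-a) * x13 υ t c (-a)
          rw [D.ups.neg, n13]
          have h1 : x23 υ c 1 = (υ a)⁻¹ * (x23 υ c 1 * υ a * x13 υ t c a) := by rw [← ha']; group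
          have h2 : υ a * (x13 υ t c a)⁻¹ = (x13 υ t c a)⁻¹ * υ a := by
            have := r3 a a
            generalize x13 υ t c a = z at *
            calc υ a * z⁻¹ = z⁻¹ * (z * υ a) * z⁻¹ := by group
              _ = z⁻¹ * υ a := by rw [← this]; group
          have h3 : (υ a)⁻¹ * x23 υ c 1 * υ a * x13 υ t c a = x23 υ c 1 := by
            conv_rhs => rw [h1]
            group
          calc (υ a)⁻¹ * x23 υ c 1 = ((υ a)⁻¹ * x23 υ c 1 * υ a * x13 υ t c a) * (x13 υ t c a)⁻¹ * (υ a)⁻¹ := by group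
            _ = x23 υ c 1 * (υ a * x13 υ t c a)⁻¹ := by rw [h3]; group
            _ = x23 υ c 1 * (x13 υ t c a * υ a)⁻¹ := by rw [r3]
            _ = x23 υ c 1 * (υ a)⁻¹ * (x13 υ t c a)⁻¹ := by group }
    have hτU : ∀ a, cj (h * h * (cj c h)⁻¹⁻¹) (υ a) = υ (ζ ^ 3 * a) := by
      intro a
      rw [← cj_cj, ← cj_cj, S1.h1, S1.h1, cj_inv_of h0 S1.h2]; congr 1; field_simp
    have hτ23 : ∀ a, cj (h * h * (cj c h)⁻¹⁻¹) (x23 υ c a) = x23 υ c (1 * a) := by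
      intro a
      rw [← cj_cj, ← cj_cj, S23.h1, S23.h1, cj_inv_of (inv_ne_zero (pow_ne_zero 2 h0)) S23.h2]; congr 1; field_simp
    have hτ13 : ∀ a, cj (h * h * (cj c h)⁻¹⁻¹) (x13 υ t c a) = x13 υ t c (ζ ^ 3 * a) := by
      intro a
      rw [← cj_cj, ← cj_cj, S13.h1, S13.h1, cj_inv_of (inv_ne_zero h0) S13.h2]; congr 1; field_simp
    have hA : ∀ i : ℕ, (ζ ^ 3) ^ i ∈ A := by
      intro i
      show υ _ * x23 υ c 1 = x23 υ c 1 * υ _ * x13 υ t c _
      have h2 := congrArg (cj ((h * h * (cj c h)⁻¹⁻¹) ^ i)) b1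
      rw [cj_mul, cj_mul, cj_mul, cj_powX hτU, cj_powX hτ23, cj_powX hτ13, one_pow, mul_one, mul_one] at h2
      exact h2
    have hall := span_all (p := p) (ζ ^ 3) (full_cube (p := p) hord h4) A hA
    intro a b
    by_cases hb : b = 0
    · rw [hb, mul_zero, z13, z23, mul_one, one_mul, mul_one]
    · obtain ⟨i, hi⟩ := hζ b hb
      have h1 : υ (ζ ^ (2 * i) * a) * x23 υ c 1 = x23 υ c 1 * υ (ζ ^ (2 * i) * a) * x13 υ t c (ζ ^ (2 * i) * a) := hall _
      have h2 := congrArg (cj (h⁻¹ ^ i)) h1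
      rw [cj_mul, cj_mul, cj_mul, cj_powX (cj_inv_of (pow_ne_zero 2 h0) S1.h1), cj_powX (cj_inv_of (inv_ne_zero h0) S23.h1),
        cj_powX (cj_inv_of h0 S13.h1)] at h2
      have e1 : (ζ ^ 2)⁻¹ ^ i * (ζ ^ (2 * i) * a) = a := by
        rw [inv_pow, ← pow_mul, ← mul_assoc, inv_mul_cancel₀ (pow_ne_zero _ h0), one_mul]
      have e2 : ζ⁻¹⁻¹ ^ i * 1 = b := by rw [inv_inv, mul_one, hi]
      have e3 : ζ⁻¹ ^ i * (ζ ^ (2 * i) * a) = a * b := by
        rw [← hi, inv_pow, two_mul, pow_add]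
        field_simp
      rw [e1, e2, e3] at h2
      exact h2
  exact ⟨D, fun a => by
    have := cj_inv_of h0 S1.h2 a
    rwa [inv_inv] at this, R.c3, R.ct, R.T, r1, r3, r4⟩

end main

end Cfsg.Agent.H1.Pres
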