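import Cfsg.Agent.H1.PrJ

set_option autoImplicit false
set_option linter.all false

namespace Cfsg.Agent.H1.Pres

open Cfsg.Agent.H16 Matrix

lemma d8 {Γ : Type*} [Group Γ] {x y z : Γ} (hx : x * x = 1) (hy : y * y = 1) (hz : z * z = 1) (h : x * y = y * x * z) :
    x * z = z * x ∧ y * z = z * y := by
  have hx' : x⁻¹ = x := inv_eq_of_mul_eq_one_left hx
  have hy' : y⁻¹ = y := inv_eq_of_mul_eq_one_left hy
  have hz' : z⁻¹ = z := inv_eq_of_mul_eq_one_left hz
  have e : z = x * y * x * y := by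
    have h1 : z = x⁻¹ * y⁻¹ * (x * y) := by rw [h]; group
    rw [hx', hy'] at h1
    rw [h1]; group
  have e2 : z = y * x * y * x := by
    have h1 : z⁻¹ = y⁻¹ * x⁻¹ * y⁻¹ * x⁻¹ := by
      conv_lhs => rw [e]
      group
    rw [hx', hy', hz'] at h1
    exact h1
  constructor
  · have h1 : x * z = (x * x) * (y * x * y) := by conv_lhs => rw [e]
                                                  group
    have h2 : z * x = (y * x * y) * (x * x) := by conv_lhs => rw [e2]
                                                  group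
    rw [h1, h2, hx, one_mul, mul_one]
  · have h1 : y * z = (y * y) * (x * y * x) := by conv_lhs => rw [e2]
                                                  group
    have h2 : z * y = (x * y * x) * (y * y) := by conv_lhs => rw [e]
                                                  group
    rw [h1, h2, hy, one_mul, mul_one]

theorem mkA2_four {Γ K : Type*} [Group Γ] [Field K] [Fintype K]
    {h t c : Γ} {ζ : K} {υ : K → Γ} [CharP K 2] (R : Raw h t c) (h0 : ζ ≠ 0) (hζ : ∀ x : K, x ≠ 0 → ∃ n : ℕ, ζ ^ n = x)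
    (hord : orderOf ζ = Fintype.card K - 1)
    (h4 : Fintype.card K = 4)
    (U : Ups υ (cj c h)⁻¹ ζ) (D : Frm υ h t (t ^ 2) ζ)
    (b1 : υ 1 * x23 υ c 1 = x23 υ c 1 * υ 1 * x13 υ t c 1)
    (b2 : υ ζ * x23 υ c 1 = x23 υ c 1 * υ ζ * x13 υ t c ζ) : A2 υ h t c ζ := by
  obtain ⟨S1, S23, S32, S13⟩ := scal R h0 U D
  have h11 : (1 : K) + 1 = 0 := CharTwo.add_self_eq_zero 1
  have hz3 : ζ ^ 3 = 1 := by
    have := pow_orderOf_eq_one ζ
    rwa [hord, h4] at this
  have hz1 : ζ ≠ 1 := by
    rintro rfl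
    rw [orderOf_one, h4] at hord
    omega
  have hzz : ζ ^ 2 + ζ + 1 = 0 := by
    have : (ζ - 1) * (ζ ^ 2 + ζ + 1) = 0 := by linear_combination hz3
    exact (mul_eq_zero.1 this).resolve_left (sub_ne_zero.2 hz1)
  have addU := D.ups.add
  have addY : ∀ a b, Frm.opp υ t (a + b) = Frm.opp υ t a * Frm.opp υ t b := by
    intro a b
    unfold Frm.opp
    rw [neg_add, D.ups.add]; group
  have add13 : ∀ a b, x13 υ t c (a + b) = x13 υ t c a * x13 υ t c b := by
    intro a b; unfold x13; rw [addY, cj_mul]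
  have add23 : ∀ a b, x23 υ c (a + b) = x23 υ c a * x23 υ c b := by
    intro a b; unfold x23; rw [addU, cj_mul]
  have add32 : ∀ a b, x32 υ t c (a + b) = x32 υ t c a * x32 υ t c b := by
    intro a b; unfold x32; rw [addY, cj_mul]
  have U0 := D.ups.zero
  have z13 : x13 υ t c 0 = 1 := by
    have := add13 0 0
    rw [add_zero] at this
    exact left_eq_mul.1 this
  have z23 : x23 υ c 0 = 1 := by
    have := add23 0 0
    rw [add_zero] at this
    exact left_eq_mul.1 this
  have iU : ∀ a, υ a * υ a = 1 := fun a => by rw [← addU, CharTwo.add_self_eq_zero, U0]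
  have i13 : ∀ a, x13 υ t c a * x13 υ t c a = 1 := fun a => by rw [← add13, CharTwo.add_self_eq_zero, z13]
  have i23 : ∀ a, x23 υ c a * x23 υ c a = 1 := fun a => by rw [← add23, CharTwo.add_self_eq_zero, z23]
  have conjb : ∀ a : K, υ a * x23 υ c 1 = x23 υ c 1 * υ a * x13 υ t c a → ∀ s : K, s ≠ 0 →
      υ (a * s) * x23 υ c s = x23 υ c s * υ (a * s) * x13 υ t c (a * s * s) := by
    intro a ha s hs
    obtain ⟨i, hi⟩ := hζ s hs
    have h2 := congrArg (cj ((cj c h)⁻¹ ^ i)) ha
    rw [cj_mul, cj_mul, cj_mul, cj_powX S1.h2, cj_powX S23.h2, cj_powX S13.h2] at h2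
    have e1 : ζ ^ i * a = a * s := by rw [hi, mul_comm]
    have e2 : (ζ ^ 2)⁻¹ ^ i * 1 = s := by
      have : (ζ ^ 2)⁻¹ = ζ := by
        rw [inv_eq_iff_eq_inv]
        exact eq_inv_of_mul_eq_one_left (by rw [← hz3]; ring)
      rw [this, mul_one, hi]
    have e3 : ζ⁻¹ ^ i * a = a * s * s := by
      have : ζ⁻¹ = ζ ^ 2 := by
        rw [inv_eq_iff_eq_inv]
        exact eq_inv_of_mul_eq_one_left (by rw [← hz3]; ring)
      rw [this, ← pow_mul, mul_comm 2 i, pow_mul, hi]; ring
    rw [e1, e2, e3] at h2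
    exact h2
  have P1 : ∀ s : K, s ≠ 0 → υ s * x23 υ c s = x23 υ c s * υ s * x13 υ t c (s * s) := by
    intro s hs
    have := conjb 1 b1 s hs
    rwa [one_mul] at this
  have P2 : ∀ s : K, s ≠ 0 → υ (ζ * s) * x23 υ c s = x23 υ c s * υ (ζ * s) * x13 υ t c (ζ * s * s) := fun s hs => conjb ζ b2 s hs
  have three : ∀ x : K, x ≠ 0 → x = 1 ∨ x = ζ ∨ x = ζ ^ 2 := by
    intro x hx
    obtain ⟨n, hn⟩ := hζ x hx
    have h1 : n = 3 * (n / 3) + n % 3 := (Nat.div_add_mod n 3).symm
    have h2 : x = ζ ^ (n % 3) := by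
      rw [← hn]
      conv_lhs => rw [h1]
      rw [pow_add, pow_mul, hz3, one_pow, one_mul]
    have h3 : n % 3 < 3 := Nat.mod_lt _ (by norm_num)
    interval_cases h : n % 3
    · left; rw [h2, pow_zero]
    · right; left; rw [h2, pow_one]
    · right; right; exact h2
  have r3 : ∀ a b, υ a * x13 υ t c b = x13 υ t c b * υ a := by
    intro a b
    by_cases ha : a = 0
    · rw [ha, U0, one_mul, mul_one]
    by_cases hb : b = 0
    · rw [hb, z13, one_mul, mul_one]
    have c1 := (d8 (iU a) (i23 a) (i13 _) (P1 a ha)).1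
    have hs0 : ζ⁻¹ * a ≠ 0 := mul_ne_zero (inv_ne_zero h0) ha
    have c2 := (d8 (iU (ζ * (ζ⁻¹ * a))) (i23 (ζ⁻¹ * a)) (i13 _) (P2 (ζ⁻¹ * a) hs0)).1
    have e1 : ζ * (ζ⁻¹ * a) = a := by rw [← mul_assoc, mul_inv_cancel₀ h0, one_mul]
    have e2 : a * (ζ⁻¹ * a) = ζ ^ 2 * (a * a) := by
      have : ζ⁻¹ = ζ ^ 2 := by
        rw [inv_eq_iff_eq_inv]
        exact eq_inv_of_mul_eq_one_left (by rw [← hz3]; ring)
      rw [this]; ring
    rw [e1, e2] at c2
    have haa : a * a ≠ 0 := mul_ne_zero ha ha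
    rcases three (b / (a * a)) (div_ne_zero hb haa) with h | h | h
    · rw [div_eq_iff haa, one_mul] at h
      rw [h]; exact c1
    · rw [div_eq_iff haa] at h
      have e3 : b = a * a + ζ ^ 2 * (a * a) := by
        rw [h]
        linear_combination (-(a * a)) * hzz + (ζ * a * a) * h11
      rw [e3, add13]
      calc υ a * (x13 υ t c (a * a) * x13 υ t c (ζ ^ 2 * (a * a))) = (υ a * x13 υ t c (a * a)) * x13 υ t c (ζ ^ 2 * (a * a)) := by group
        _ = x13 υ t c (a * a) * (υ a * x13 υ t c (ζ ^ 2 * (a * a))) := by rw [c1]; group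
        _ = _ := by rw [c2]; group
    · rw [div_eq_iff haa] at h
      rw [h]; exact c2
  have r4' : ∀ a b, x23 υ c a * x13 υ t c b = x13 υ t c b * x23 υ c a := by
    intro a b
    by_cases ha : a = 0
    · rw [ha, z23, one_mul, mul_one]
    by_cases hb : b = 0
    · rw [hb, z13, one_mul, mul_one]
    have c1 := (d8 (iU a) (i23 a) (i13 _) (P1 a ha)).2
    have c2 := (d8 (iU (ζ * a)) (i23 a) (i13 _) (P2 a ha)).2
    have haa : a * a ≠ 0 := mul_ne_zero ha ha
    rcases three (b / (a * a)) (div_ne_zero hb haa) with h | h | h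
    · rw [div_eq_iff haa, one_mul] at h
      rw [h]; exact c1
    · rw [div_eq_iff haa, ← mul_assoc] at h
      rw [h]; exact c2
    · rw [div_eq_iff haa] at h
      have e3 : b = a * a + ζ * a * a := by
        rw [h]
        linear_combination (a * a) * hzz - (a * a + ζ * a * a) * h11
      rw [e3, add13]
      calc x23 υ c a * (x13 υ t c (a * a) * x13 υ t c (ζ * a * a)) = (x23 υ c a * x13 υ t c (a * a)) * x13 υ t c (ζ * a * a) := by group
        _ = x13 υ t c (a * a) * (x23 υ c a * x13 υ t c (ζ * a * a)) := by rw [c1]; group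
        _ = _ := by rw [c2]; group
  have r4 : ∀ a b, υ a * x32 υ t c b = x32 υ t c b * υ a := by
    intro a b
    have h1 := congrArg (cj (c ^ 2)) (r4' a b)
    have e1 : cj (c ^ 2) (x23 υ c a) = υ a := by
      unfold x23
      rw [cj_cj, ← pow_succ', R.c3, one_cj]
    have e2 : cj (c ^ 2) (x13 υ t c b) = x32 υ t c b := by
      unfold x13 x32
      rw [cj_cj, ← pow_add, show 2 + 2 = 3 + 1 from rfl, pow_add, R.c3, pow_one, one_mul]
    rwa [cj_mul, cj_mul, e1, e2] at h1
  have r1 : ∀ a b, υ a * x23 υ c b = x23 υ c b * υ a * x13 υ t c (a * b) := by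
    intro a b
    by_cases hb : b = 0
    · rw [hb, mul_zero, z13, z23, mul_one, one_mul, mul_one]
    by_cases ha : a = 0
    · rw [ha, zero_mul, z13, U0, mul_one, one_mul, mul_one]
    rcases three (a / b) (div_ne_zero ha hb) with h | h | h
    · rw [div_eq_iff hb, one_mul] at h
      rw [h]; exact P1 b hb
    · rw [div_eq_iff hb] at h
      rw [h]; exact P2 b hb
    · rw [div_eq_iff hb] at h
      have e3 : a = b + ζ * b := by
        rw [h]
        linear_combination b * hzz - (b + ζ * b) * h11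
      have e4 : a * b = b * b + ζ * b * b := by rw [e3]; ring
      rw [e4, add13, e3, addU]
      calc υ b * υ (ζ * b) * x23 υ c b = υ b * (υ (ζ * b) * x23 υ c b) := by group
        _ = (υ b * x23 υ c b) * υ (ζ * b) * x13 υ t c (ζ * b * b) := by rw [P2 b hb]; group
        _ = x23 υ c b * υ b * (x13 υ t c (b * b) * υ (ζ * b)) * x13 υ t c (ζ * b * b) := by rw [P1 b hb]; group
        _ = x23 υ c b * υ b * (υ (ζ * b) * x13 υ t c (b * b)) * x13 υ t c (ζ * b * b) := by rw [r3]
        _ = _ := by group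
  exact ⟨D, fun a => by
    have := cj_inv_of h0 S1.h2 a
    rwa [inv_inv] at this, R.c3, R.ct, R.T, r1, r3, r4⟩

end Cfsg.Agent.H1.Pres
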