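import Cfsg.Agent.H1.PrK

set_option autoImplicit false
set_option linter.all false

namespace Cfsg.Agent.H1.Pres

open Cfsg.Agent.H16 Matrix

section target

variable {K : Type*} [Field K]

def mU (a : K) : SpecialLinearGroup (Fin 3) K := ⟨!![1, a, 0; 0, 1, 0; 0, 0, 1], by simp [Matrix.det_fin_three]⟩
def mL (a : K) : SpecialLinearGroup (Fin 3) K := ⟨!![1, 0, 0; a, 1, 0; 0, 0, 1], by simp [Matrix.det_fin_three]⟩
def m23 (a : K) : SpecialLinearGroup (Fin 3) K := ⟨!![1, 0, 0; 0, 1, a; 0, 0, 1], by simp [Matrix.det_fin_three]⟩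
def m32 (a : K) : SpecialLinearGroup (Fin 3) K := ⟨!![1, 0, 0; 0, 1, 0; 0, a, 1], by simp [Matrix.det_fin_three]⟩
def m13 (a : K) : SpecialLinearGroup (Fin 3) K := ⟨!![1, 0, a; 0, 1, 0; 0, 0, 1], by simp [Matrix.det_fin_three]⟩
def m31 (a : K) : SpecialLinearGroup (Fin 3) K := ⟨!![1, 0, 0; 0, 1, 0; a, 0, 1], by simp [Matrix.det_fin_three]⟩
def mH (ζ : K) (h0 : ζ ≠ 0) : SpecialLinearGroup (Fin 3) K := ⟨!![ζ⁻¹, 0, 0; 0, ζ, 0; 0, 0, 1], by simp [Matrix.det_fin_three, h0]⟩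
def mK (ζ : K) (h0 : ζ ≠ 0) : SpecialLinearGroup (Fin 3) K := ⟨!![1, 0, 0; 0, ζ⁻¹, 0; 0, 0, ζ], by simp [Matrix.det_fin_three, h0]⟩
def mK2 (ζ : K) (h0 : ζ ≠ 0) : SpecialLinearGroup (Fin 3) K := ⟨!![ζ, 0, 0; 0, 1, 0; 0, 0, ζ⁻¹], by simp [Matrix.det_fin_three, h0]⟩
def mR : SpecialLinearGroup (Fin 3) K := ⟨!![0, 0, 1; 0, -1, 0; 1, 0, 0], by simp [Matrix.det_fin_three]⟩
def mT : SpecialLinearGroup (Fin 3) K := ⟨!![0, -1, 0; 1, 0, 0; 0, 0, 1], by simp [Matrix.det_fin_three]⟩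
def mC : SpecialLinearGroup (Fin 3) K := ⟨!![0, 1, 0; 0, 0, 1; 1, 0, 0], by simp [Matrix.det_fin_three]⟩

lemma cj_eq {Γ : Type*} [Group Γ] {g x y : Γ} (h : x * g = g * y) : cj g x = y := by
  unfold cj; rw [mul_assoc, h]; group

lemma mK_eq {ζ : K} (h0 : ζ ≠ 0) : cj mC (mH ζ h0) = mK ζ h0 := by
  apply cj_eq
  apply Subtype.ext
  simp only [Matrix.SpecialLinearGroup.coe_mul]
  show !![ζ⁻¹, 0, 0; 0, ζ, 0; 0, 0, 1] * !![0, 1, 0; 0, 0, 1; 1, 0, 0] = !![0, 1, 0; 0, 0, 1; 1, 0, 0] * !![1, 0, 0; 0, ζ⁻¹, 0; 0, 0, ζ]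
  ext i j; fin_cases i <;> fin_cases j <;> simp [Matrix.mul_apply, Fin.sum_univ_three]

lemma mU_add (a b : K) : mU (a + b) = mU a * mU b := by
  apply Subtype.ext
  simp only [Matrix.SpecialLinearGroup.coe_mul]
  show !![1, a + b, 0; 0, 1, 0; 0, 0, 1] = !![1, a, 0; 0, 1, 0; 0, 0, 1] * !![1, b, 0; 0, 1, 0; 0, 0, 1]
  ext i j; fin_cases i <;> fin_cases j <;> simp [Matrix.mul_apply, Fin.sum_univ_three, add_comm]

lemma m_ups {ζ : K} (h0 : ζ ≠ 0) : Ups (mU (K := K)) (cj mC (mH ζ h0))⁻¹ ζ := by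
  rw [mK_eq]
  refine ⟨mU_add, fun y => ?_⟩
  have : cj (mK ζ h0) (mU (ζ * y)) = mU y := by
    apply cj_eq
    apply Subtype.ext
    simp only [Matrix.SpecialLinearGroup.coe_mul]
    show !![1, ζ * y, 0; 0, 1, 0; 0, 0, 1] * !![1, 0, 0; 0, ζ⁻¹, 0; 0, 0, ζ] = !![1, 0, 0; 0, ζ⁻¹, 0; 0, 0, ζ] * !![1, y, 0; 0, 1, 0; 0, 0, 1]
    ext i j; fin_cases i <;> fin_cases j <;> simp [Matrix.mul_apply, Fin.sum_univ_three]
    field_simp
  rw [← this, cj_cj, mul_inv_cancel, one_cj]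

lemma m_ups2 {ζ : K} (h0 : ζ ≠ 0) : Ups (mU (K := K)) (mH ζ h0) (ζ ^ 2) := by
  refine ⟨mU_add, fun y => ?_⟩
  apply cj_eq
  apply Subtype.ext
  simp only [Matrix.SpecialLinearGroup.coe_mul]
  show !![1, y, 0; 0, 1, 0; 0, 0, 1] * !![ζ⁻¹, 0, 0; 0, ζ, 0; 0, 0, 1] = !![ζ⁻¹, 0, 0; 0, ζ, 0; 0, 0, 1] * !![1, ζ ^ 2 * y, 0; 0, 1, 0; 0, 0, 1]
  ext i j; fin_cases i <;> fin_cases j <;> simp [Matrix.mul_apply, Fin.sum_univ_three]
  field_simp

lemma m_raw {ζ : K} (h0 : ζ ≠ 0) : Raw (mH ζ h0) mT mC where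
  hk := by
    rw [mK_eq]
    apply Subtype.ext
    simp only [Matrix.SpecialLinearGroup.coe_mul]
    show !![ζ⁻¹, 0, 0; 0, ζ, 0; 0, 0, 1] * !![1, 0, 0; 0, ζ⁻¹, 0; 0, 0, ζ] = !![1, 0, 0; 0, ζ⁻¹, 0; 0, 0, ζ] * !![ζ⁻¹, 0, 0; 0, ζ, 0; 0, 0, 1]
    ext i j; fin_cases i <;> fin_cases j <;> simp [Matrix.mul_apply, Fin.sum_univ_three, h0]
  inv := by
    apply Subtype.ext
    simp only [Matrix.SpecialLinearGroup.coe_mul]
    show !![ζ⁻¹, 0, 0; 0, ζ, 0; 0, 0, 1] * !![0, -1, 0; 1, 0, 0; 0, 0, 1] * !![ζ⁻¹, 0, 0; 0, ζ, 0; 0, 0, 1] = !![0, -1, 0; 1, 0, 0; 0, 0, 1]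
    ext i j; fin_cases i <;> fin_cases j <;> simp [Matrix.mul_apply, Fin.sum_univ_three, h0]
  c3 := by
    apply Subtype.ext
    rw [pow_succ, sq]
    simp only [Matrix.SpecialLinearGroup.coe_mul]
    show !![0, 1, 0; 0, 0, 1; 1, 0, 0] * !![0, 1, 0; 0, 0, 1; 1, 0, 0] * !![0, 1, 0; 0, 0, 1; 1, 0, 0] = (1 : Matrix (Fin 3) (Fin 3) K)
    ext i j; fin_cases i <;> fin_cases j <;> simp [Matrix.mul_apply, Fin.sum_univ_three]
  ct := by
    have h3 : (mT : SpecialLinearGroup (Fin 3) K)⁻¹ * mC = mR := by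
      rw [inv_mul_eq_iff_eq_mul]
      apply Subtype.ext
      simp only [Matrix.SpecialLinearGroup.coe_mul]
      show !![0, 1, 0; 0, 0, 1; 1, 0, 0] = !![0, -1, 0; 1, 0, 0; 0, 0, 1] * !![0, 0, 1; 0, -1, 0; 1, 0, 0]
      ext i j; fin_cases i <;> fin_cases j <;> simp [Matrix.mul_apply, Fin.sum_univ_three]
    rw [mul_assoc, h3]
    apply Subtype.ext
    simp only [Matrix.SpecialLinearGroup.coe_mul]
    show !![0, 1, 0; 0, 0, 1; 1, 0, 0] * !![0, 0, 1; 0, -1, 0; 1, 0, 0] = !![0, -1, 0; 1, 0, 0; 0, 0, 1]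
    ext i j; fin_cases i <;> fin_cases j <;> simp [Matrix.mul_apply, Fin.sum_univ_three]
  T := by
    rw [sq, ← cj_cj, mK_eq]
    have : cj mC (mK ζ h0) = mK2 ζ h0 := by
      apply cj_eq
      apply Subtype.ext
      simp only [Matrix.SpecialLinearGroup.coe_mul]
      show !![1, 0, 0; 0, ζ⁻¹, 0; 0, 0, ζ] * !![0, 1, 0; 0, 0, 1; 1, 0, 0] = !![0, 1, 0; 0, 0, 1; 1, 0, 0] * !![ζ, 0, 0; 0, 1, 0; 0, 0, ζ⁻¹]
      ext i j; fin_cases i <;> fin_cases j <;> simp [Matrix.mul_apply, Fin.sum_univ_three]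
    rw [this]
    apply Subtype.ext
    simp only [Matrix.SpecialLinearGroup.coe_mul]
    show !![ζ⁻¹, 0, 0; 0, ζ, 0; 0, 0, 1] * !![1, 0, 0; 0, ζ⁻¹, 0; 0, 0, ζ] * !![ζ, 0, 0; 0, 1, 0; 0, 0, ζ⁻¹] = 1
    ext i j; fin_cases i <;> fin_cases j <;> simp [Matrix.mul_apply, Fin.sum_univ_three, h0]

lemma m_R0 : ((mU 1 : SpecialLinearGroup (Fin 3) K) * mT) ^ 3 = mT ^ 2 := by
  apply Subtype.ext
  rw [pow_succ, sq, sq]
  simp only [Matrix.SpecialLinearGroup.coe_mul]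
  have : ((mU 1 : SpecialLinearGroup (Fin 3) K) : Matrix (Fin 3) (Fin 3) K) * ((mT : SpecialLinearGroup (Fin 3) K) : Matrix (Fin 3) (Fin 3) K) = !![1, -1, 0; 1, 0, 0; 0, 0, 1] := by
    show !![1, (1 : K), 0; 0, 1, 0; 0, 0, 1] * !![0, -1, 0; 1, 0, 0; 0, 0, 1] = _
    ext i j; fin_cases i <;> fin_cases j <;> simp [Matrix.mul_apply, Fin.sum_univ_three]
  rw [this]
  show _ = !![0, -1, 0; 1, 0, 0; 0, 0, 1] * !![0, -1, 0; 1, 0, 0; 0, 0, 1]
  ext i j; fin_cases i <;> fin_cases j <;> simp [Matrix.mul_apply, Fin.sum_univ_three]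

lemma m_opp (a : K) : Frm.opp mU mT a = mL a := by
  unfold Frm.opp
  rw [mul_inv_eq_iff_eq_mul]
  apply Subtype.ext
  simp only [Matrix.SpecialLinearGroup.coe_mul]
  show !![0, -1, 0; 1, 0, 0; 0, 0, 1] * !![1, -a, 0; 0, 1, 0; 0, 0, 1] = !![1, 0, 0; a, 1, 0; 0, 0, 1] * !![0, -1, 0; 1, 0, 0; 0, 0, 1]
  ext i j; fin_cases i <;> fin_cases j <;> simp [Matrix.mul_apply, Fin.sum_univ_three]

lemma m_x23 (a : K) : x23 mU mC a = m23 a := by
  unfold x23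
  apply cj_eq
  apply Subtype.ext
  simp only [Matrix.SpecialLinearGroup.coe_mul]
  show !![1, a, 0; 0, 1, 0; 0, 0, 1] * !![0, 1, 0; 0, 0, 1; 1, 0, 0] = !![0, 1, 0; 0, 0, 1; 1, 0, 0] * !![1, 0, 0; 0, 1, a; 0, 0, 1]
  ext i j; fin_cases i <;> fin_cases j <;> simp [Matrix.mul_apply, Fin.sum_univ_three]

lemma m_x31 (a : K) : x31 mU mC a = m31 a := by
  have : x31 mU mC a = cj mC (x23 mU mC a) := by unfold x23 x31; rw [cj_cj, sq]
  rw [this, m_x23]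
  apply cj_eq
  apply Subtype.ext
  simp only [Matrix.SpecialLinearGroup.coe_mul]
  show !![1, 0, 0; 0, 1, a; 0, 0, 1] * !![0, 1, 0; 0, 0, 1; 1, 0, 0] = !![0, 1, 0; 0, 0, 1; 1, 0, 0] * !![1, 0, 0; 0, 1, 0; a, 0, 1]
  ext i j; fin_cases i <;> fin_cases j <;> simp [Matrix.mul_apply, Fin.sum_univ_three]

lemma m_x32 (a : K) : x32 mU mT mC a = m32 a := by
  unfold x32
  rw [m_opp]
  apply cj_eq
  apply Subtype.ext
  simp only [Matrix.SpecialLinearGroup.coe_mul]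
  show !![1, 0, 0; a, 1, 0; 0, 0, 1] * !![0, 1, 0; 0, 0, 1; 1, 0, 0] = !![0, 1, 0; 0, 0, 1; 1, 0, 0] * !![1, 0, 0; 0, 1, 0; 0, a, 1]
  ext i j; fin_cases i <;> fin_cases j <;> simp [Matrix.mul_apply, Fin.sum_univ_three]

lemma m_x13 (a : K) : x13 mU mT mC a = m13 a := by
  have : x13 mU mT mC a = cj mC (x32 mU mT mC a) := by unfold x13 x32; rw [cj_cj, sq]
  rw [this, m_x32]
  apply cj_eq
  apply Subtype.ext
  simp only [Matrix.SpecialLinearGroup.coe_mul]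
  show !![1, 0, 0; 0, 1, 0; 0, a, 1] * !![0, 1, 0; 0, 0, 1; 1, 0, 0] = !![0, 1, 0; 0, 0, 1; 1, 0, 0] * !![1, 0, a; 0, 1, 0; 0, 0, 1]
  ext i j; fin_cases i <;> fin_cases j <;> simp [Matrix.mul_apply, Fin.sum_univ_three]

lemma m_b1 (a b : K) : mU a * x23 mU mC b = x23 mU mC b * mU a * x13 mU mT mC (a * b) := by
  rw [m_x23, m_x13]
  apply Subtype.ext
  simp only [Matrix.SpecialLinearGroup.coe_mul]
  show !![1, a, 0; 0, 1, 0; 0, 0, 1] * !![1, 0, 0; 0, 1, b; 0, 0, 1] = !![1, 0, 0; 0, 1, b; 0, 0, 1] * !![1, a, 0; 0, 1, 0; 0, 0, 1] * !![1, 0, a * b; 0, 1, 0; 0, 0, 1]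
  ext i j; fin_cases i <;> fin_cases j <;> simp [Matrix.mul_apply, Fin.sum_univ_three]

lemma m_b3 (a b : K) : mU a * x13 mU mT mC b = x13 mU mT mC b * mU a := by
  rw [m_x13]
  apply Subtype.ext
  simp only [Matrix.SpecialLinearGroup.coe_mul]
  show !![1, a, 0; 0, 1, 0; 0, 0, 1] * !![1, 0, b; 0, 1, 0; 0, 0, 1] = !![1, 0, b; 0, 1, 0; 0, 0, 1] * !![1, a, 0; 0, 1, 0; 0, 0, 1]
  ext i j; fin_cases i <;> fin_cases j <;> simp [Matrix.mul_apply, Fin.sum_univ_three]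

lemma m_b4 (a b : K) : mU a * x32 mU mT mC b = x32 mU mT mC b * mU a := by
  rw [m_x32]
  apply Subtype.ext
  simp only [Matrix.SpecialLinearGroup.coe_mul]
  show !![1, a, 0; 0, 1, 0; 0, 0, 1] * !![1, 0, 0; 0, 1, 0; 0, b, 1] = !![1, 0, 0; 0, 1, 0; 0, b, 1] * !![1, a, 0; 0, 1, 0; 0, 0, 1]
  ext i j; fin_cases i <;> fin_cases j <;> simp [Matrix.mul_apply, Fin.sum_univ_three]

lemma mH_pow {ζ : K} (h0 : ζ ≠ 0) {m : ℕ} (hm : ζ ^ m = 1) : (mH ζ h0 : SpecialLinearGroup (Fin 3) K) ^ m = 1 := by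
  apply Subtype.ext
  have hc : ((mH ζ h0 : SpecialLinearGroup (Fin 3) K) : Matrix (Fin 3) (Fin 3) K) = Matrix.diagonal ![ζ⁻¹, ζ, 1] := by
    show !![ζ⁻¹, 0, 0; 0, ζ, 0; 0, 0, 1] = _
    ext i j; fin_cases i <;> fin_cases j <;> simp
  rw [Matrix.SpecialLinearGroup.coe_pow, hc, Matrix.diagonal_pow, Matrix.SpecialLinearGroup.coe_one]
  ext i j; fin_cases i <;> fin_cases j <;> simp [hm]

theorem m_gen {p : ℕ} [Fact p.Prime] [Algebra (ZMod p) K] {ζ : K} (h0 : ζ ≠ 0)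
    (ha : ∀ y : K, ∃ f : Polynomial (ZMod p), Polynomial.aeval ζ f = y) :
    Subgroup.closure ({mU 1, mH ζ h0, mT, mC} : Set (SpecialLinearGroup (Fin 3) K)) = ⊤ := by
  apply eq_top_of_transvection_mem
  obtain ⟨H, hH⟩ : ∃ H, H = Subgroup.closure ({mU 1, mH ζ h0, mT, mC} : Set (SpecialLinearGroup (Fin 3) K)) := ⟨_, rfl⟩
  rw [← hH]
  have g1 : mU 1 ∈ H := by rw [hH]; exact Subgroup.subset_closure (by simp)
  have g2 : mH ζ h0 ∈ H := by rw [hH]; exact Subgroup.subset_closure (by simp)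
  have g3 : mT ∈ H := by rw [hH]; exact Subgroup.subset_closure (by simp)
  have g4 : mC ∈ H := by rw [hH]; exact Subgroup.subset_closure (by simp)
  have gc : ∀ x ∈ H, ∀ n : ℕ, cj (mC ^ n) x ∈ H := fun x hx n => H.mul_mem (H.mul_mem (H.inv_mem (H.pow_mem g4 n)) hx) (H.pow_mem g4 n)
  have gk : (cj mC (mH ζ h0))⁻¹ ∈ H := H.inv_mem (by have := gc _ g2 1; rwa [pow_one] at this)
  have hU : ∀ y : K, mU y ∈ H := by
    intro y
    obtain ⟨f, rfl⟩ := ha y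
    rw [← (m_ups h0).wd_eq f]
    exact wd_mem _ f g1 gk
  have hL : ∀ y : K, mL y ∈ H := by
    intro y
    rw [← m_opp]
    exact H.mul_mem (H.mul_mem g3 (hU _)) (H.inv_mem g3)
  have h23 : ∀ y : K, m23 y ∈ H := by
    intro y
    rw [← m_x23]; have := gc _ (hU y) 1; rwa [pow_one] at this
  have h31 : ∀ y : K, m31 y ∈ H := by
    intro y
    rw [← m_x31]; exact gc _ (hU y) 2
  have h32 : ∀ y : K, m32 y ∈ H := by
    intro y
    rw [← m_x32]; unfold x32; rw [m_opp]; have := gc _ (hL y) 1; rwa [pow_one] at this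
  have h13 : ∀ y : K, m13 y ∈ H := by
    intro y
    rw [← m_x13]; unfold x13; rw [m_opp]; exact gc _ (hL y) 2
  intro i j hij a
  have key : ∀ (X : SpecialLinearGroup (Fin 3) K), X ∈ H → (X : Matrix (Fin 3) (Fin 3) K) = Matrix.transvection i j a → SpecialLinearGroup.transvection hij a ∈ H := by
    intro X hX hXe
    have : SpecialLinearGroup.transvection hij a = X := Subtype.ext hXe.symm
    rw [this]; exact hX
  fin_cases i <;> fin_cases j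
  · exact absurd rfl hij
  · refine key _ (hU a) ?_
    show !![1, a, 0; 0, 1, 0; 0, 0, 1] = _
    ext a b; fin_cases a <;> fin_cases b <;> simp [Matrix.transvection, Matrix.single_apply]
  · refine key _ (h13 a) ?_
    show !![1, 0, a; 0, 1, 0; 0, 0, 1] = _
    ext a b; fin_cases a <;> fin_cases b <;> simp [Matrix.transvection, Matrix.single_apply]
  · refine key _ (hL a) ?_
    show !![1, 0, 0; a, 1, 0; 0, 0, 1] = _
    ext a b; fin_cases a <;> fin_cases b <;> simp [Matrix.transvection, Matrix.single_apply]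
  · exact absurd rfl hij
  · refine key _ (h23 a) ?_
    show !![1, 0, 0; 0, 1, a; 0, 0, 1] = _
    ext a b; fin_cases a <;> fin_cases b <;> simp [Matrix.transvection, Matrix.single_apply]
  · refine key _ (h31 a) ?_
    show !![1, 0, 0; 0, 1, 0; a, 0, 1] = _
    ext a b; fin_cases a <;> fin_cases b <;> simp [Matrix.transvection, Matrix.single_apply]
  · refine key _ (h32 a) ?_
    show !![1, 0, 0; 0, 1, 0; 0, a, 1] = _
    ext a b; fin_cases a <;> fin_cases b <;> simp [Matrix.transvection, Matrix.single_apply]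
  · exact absurd rfl hij

end target

/-- the finishing lemma -/
theorem pres_of4 {T : Type*} [Group T] [Finite T] (L : List (FreeGroup (Fin 4))) (n : ℕ) (hn : L.length ≤ n) (u h t c : T)
    (hgen : Subgroup.closure ({u, h, t, c} : Set T) = ⊤) (hrel : ∀ r ∈ L, FreeGroup.lift ![u, h, t, c] r = 1)
    (hΓ : ∀ (Γ : Type) [Group Γ] (u h t c : Γ), Subgroup.closure ({u, h, t, c} : Set Γ) = ⊤ → (∀ r ∈ L, FreeGroup.lift ![u, h, t, c] r = 1) →
      Finite Γ ∧ Nat.card Γ ≤ Nat.card T) :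
    ∃ rels : Finset (FreeGroup (Fin 4)), rels.card ≤ n ∧ Nonempty (PresentedGroup (↑rels : Set (FreeGroup (Fin 4))) ≃* T) := by
  classical
  refine ⟨L.toFinset, (List.toFinset_card_le L).trans hn, ?_⟩
  have hr : ∀ r ∈ (↑L.toFinset : Set (FreeGroup (Fin 4))), FreeGroup.lift ![u, h, t, c] r = 1 := by
    intro r hr
    exact hrel r (by simpa using hr)
  let φ : PresentedGroup (↑L.toFinset : Set (FreeGroup (Fin 4))) →* T := PresentedGroup.toGroup hr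
  have hφ : ∀ i, φ (PresentedGroup.of i) = ![u, h, t, c] i := fun i => PresentedGroup.toGroup.of hr
  have hsurj : Function.Surjective φ := by
    rw [← MonoidHom.range_eq_top, eq_top_iff, ← hgen, Subgroup.closure_le]
    rintro _ (rfl | rfl | rfl | rfl)
    · exact ⟨_, hφ 0⟩
    · exact ⟨_, hφ 1⟩
    · exact ⟨_, hφ 2⟩
    · exact ⟨_, hφ 3⟩
  obtain ⟨hfin, hcard⟩ := hΓ (PresentedGroup (↑L.toFinset : Set (FreeGroup (Fin 4)))) (PresentedGroup.of 0) (PresentedGroup.of 1) (PresentedGroup.of 2) (PresentedGroup.of 3) (by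
      rw [eq_top_iff, ← PresentedGroup.closure_range_of, Subgroup.closure_le]
      rintro _ ⟨i, rfl⟩
      apply Subgroup.subset_closure
      fin_cases i <;> simp) (by
      intro r hr
      have h1 : FreeGroup.lift ![(PresentedGroup.of 0 : PresentedGroup (↑L.toFinset : Set (FreeGroup (Fin 4)))), PresentedGroup.of 1, PresentedGroup.of 2, PresentedGroup.of 3] = PresentedGroup.mk _ := by
        apply FreeGroup.ext_hom
        intro i
        rw [FreeGroup.lift_apply_of]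
        fin_cases i <;> rfl
      rw [h1]
      exact PresentedGroup.one_of_mem (by simpa using hr))
  have hbij : Function.Bijective φ := by
    exact (Nat.bijective_iff_surjective_and_card φ).2 ⟨hsurj, le_antisymm hcard (Nat.card_le_card_of_surjective _ hsurj)⟩
  exact ⟨MulEquiv.ofBijective φ hbij⟩

end Cfsg.Agent.H1.Pres
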