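import Cfsg.Agent.H1.PrL
import Cfsg.Agent.H5.Small

set_option autoImplicit false
set_option linter.all false

namespace Cfsg.Agent.H1.Pres

open Cfsg.Agent.H16 Matrix Polynomial

abbrev fU : FreeGroup (Fin 4) := FreeGroup.of 0
abbrev fH : FreeGroup (Fin 4) := FreeGroup.of 1
abbrev fT : FreeGroup (Fin 4) := FreeGroup.of 2
abbrev fC : FreeGroup (Fin 4) := FreeGroup.of 3

section lifts

variable {Γ : Type*} [Group Γ] (u h t c : Γ)

lemma qU : FreeGroup.lift ![u, h, t, c] fU = u := by simp [fU]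
lemma qH : FreeGroup.lift ![u, h, t, c] fH = h := by simp [fH]
lemma qT : FreeGroup.lift ![u, h, t, c] fT = t := by simp [fT]
lemma qC : FreeGroup.lift ![u, h, t, c] fC = c := by simp [fC]

end lifts

/-- the common relators -/
def CR : List (FreeGroup (Fin 4)) :=
  [cj fH fU * (cj ((cj fC fH)⁻¹ ^ 2) fU)⁻¹, fH * cj fC fH * (cj fC fH * fH)⁻¹, fH * fT * fH * fT⁻¹,
    (fU * fT) ^ 3 * (fT ^ 2)⁻¹, fC ^ 3, fC * fT⁻¹ * fC * fT⁻¹, fH * cj fC fH * cj (fC ^ 2) fH]

def R12 : FreeGroup (Fin 4) := fU * cj fC fU * (cj fC fU * fU * cj (fC ^ 2) (fT * fU⁻¹ * fT⁻¹))⁻¹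
def R13 : FreeGroup (Fin 4) := fU * cj (fC ^ 2) (fT * fU⁻¹ * fT⁻¹) * (cj (fC ^ 2) (fT * fU⁻¹ * fT⁻¹) * fU)⁻¹
def R14 : FreeGroup (Fin 4) := fU * cj fC (fT * fU⁻¹ * fT⁻¹) * (cj fC (fT * fU⁻¹ * fT⁻¹) * fU)⁻¹
def R12' : FreeGroup (Fin 4) := cj (cj fC fH)⁻¹ fU * cj fC fU * (cj fC fU * cj (cj fC fH)⁻¹ fU * cj (fC ^ 2) (fT * (cj (cj fC fH)⁻¹ fU)⁻¹ * fT⁻¹))⁻¹

section eval

variable {Γ : Type*} [Group Γ] {u h t c : Γ}

lemma CR_iff : (∀ r ∈ CR, FreeGroup.lift ![u, h, t, c] r = 1) ↔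
    (cj h u = cj ((cj c h)⁻¹ ^ 2) u ∧ (u * t) ^ 3 = t ^ 2 ∧ Raw h t c) := by
  unfold CR
  simp only [List.mem_cons, List.not_mem_nil, or_false, forall_eq_or_imp, forall_eq, map_mul, map_inv, map_cj, map_pow, qU, qH, qT, qC, mul_inv_eq_one]
  constructor
  · rintro ⟨h1, h2, h3, h4, h5, h6, h7⟩
    exact ⟨h1, h4, ⟨h2, h3, h5, h6, h7⟩⟩
  · rintro ⟨h1, h4, ⟨h2, h3, h5, h6, h7⟩⟩
    exact ⟨h1, h2, h3, h4, h5, h6, h7⟩

lemma R12_iff : FreeGroup.lift ![u, h, t, c] R12 = 1 ↔ u * cj c u = cj c u * u * cj (c ^ 2) (t * u⁻¹ * t⁻¹) := by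
  unfold R12
  simp only [map_mul, map_inv, map_cj, map_pow, qU, qH, qT, qC, mul_inv_eq_one]
lemma R13_iff : FreeGroup.lift ![u, h, t, c] R13 = 1 ↔ u * cj (c ^ 2) (t * u⁻¹ * t⁻¹) = cj (c ^ 2) (t * u⁻¹ * t⁻¹) * u := by
  unfold R13
  simp only [map_mul, map_inv, map_cj, map_pow, qU, qH, qT, qC, mul_inv_eq_one]
lemma R14_iff : FreeGroup.lift ![u, h, t, c] R14 = 1 ↔ u * cj c (t * u⁻¹ * t⁻¹) = cj c (t * u⁻¹ * t⁻¹) * u := by
  unfold R14
  simp only [map_mul, map_inv, map_cj, map_pow, qU, qH, qT, qC, mul_inv_eq_one]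
lemma R12'_iff : FreeGroup.lift ![u, h, t, c] R12' = 1 ↔
    cj (cj c h)⁻¹ u * cj c u = cj c u * cj (cj c h)⁻¹ u * cj (c ^ 2) (t * (cj (cj c h)⁻¹ u)⁻¹ * t⁻¹) := by
  unfold R12'
  simp only [map_mul, map_inv, map_cj, map_pow, qU, qH, qT, qC, mul_inv_eq_one]

end eval

section bp4

/-- Borel part -/
def BP4 (K : Type*) [Field K] [Fintype K] (ζ : K) (h0 : ζ ≠ 0) (L : List (FreeGroup (Fin 4))) : Prop :=
  (∀ (Γ : Type) [Group Γ] (u h t c : Γ), Raw h t c → (∀ r ∈ L, FreeGroup.lift ![u, h, t, c] r = 1) →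
    ∃ υ : K → Γ, υ 1 = u ∧ Ups υ (cj c h)⁻¹ ζ ∧ h ^ (Fintype.card K - 1) = 1) ∧
  (∀ r ∈ L, FreeGroup.lift ![(mU 1 : SpecialLinearGroup (Fin 3) K), mH ζ h0, mT, mC] r = 1)

variable (K : Type*) [Field K] [Fintype K] {ζ : K}

theorem bp4_small (p : ℕ) [Fact p.Prime] [Algebra (ZMod p) K] (h0 : ζ ≠ 0) (hord : orderOf ζ = Fintype.card K - 1) (hn : Module.finrank (ZMod p) K ≤ 2) :
    ∃ L, L.length ≤ 4 ∧ BP4 K ζ h0 L := by
  have hfull := full_zeta (p := p) hord
  haveI : CharP K p := (Algebra.charP_iff (ZMod p) K p).1 inferInstance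
  have hint : IsIntegral (ZMod p) ζ := Algebra.IsIntegral.isIntegral _
  refine ⟨[fU ^ p, fU * cj (cj fC fH)⁻¹ fU * (cj (cj fC fH)⁻¹ fU * fU)⁻¹, wd (minpoly (ZMod p) ζ) fU (cj fC fH)⁻¹, fH ^ (Fintype.card K - 1)], by simp, ?_, ?_⟩
  · intro Γ _ u h t c R hr
    simp only [List.mem_cons, List.not_mem_nil, or_false, forall_eq_or_imp, forall_eq, map_mul, map_inv, map_cj, map_pow, map_wd, qU, qH, qT, qC, mul_inv_eq_one] at hr
    obtain ⟨r1, r2, r3, r4⟩ := hr
    have hc := comm_small (minpoly (ZMod p) ζ) (minpoly.monic hint) (minpoly.natDegree_pos hint) ((minpoly.natDegree_le _).trans hn) r2 r3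
    obtain ⟨υ, h1, h2, h3⟩ := exists_ups ζ hfull r1 hc r3
    exact ⟨υ, h1, h2, r4⟩
  · have U := m_ups h0
    simp only [List.mem_cons, List.not_mem_nil, or_false, forall_eq_or_imp, forall_eq, map_mul, map_inv, map_cj, map_pow, map_wd, qU, qH, qT, qC, mul_inv_eq_one]
    refine ⟨?_, ?_, ?_, ?_⟩
    · rw [U.npow, CharP.cast_eq_zero, zero_mul, U.zero]
    · rw [U.act, U.comm]
    · rw [U.wd_eq, minpoly.aeval, U.zero]
    · exact mH_pow h0 (by rw [← hord, pow_orderOf_eq_one])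

theorem bp4_big (p : ℕ) [Fact p.Prime] [Algebra (ZMod p) K] (h0 : ζ ≠ 0) (hζ : ∀ x : K, x ≠ 0 → ∃ n : ℕ, ζ ^ n = x) (hord : orderOf ζ = Fintype.card K - 1) (hq : 3 < Fintype.card K) :
    ∃ L, L.length ≤ 4 ∧ BP4 K ζ h0 L := by
  have hfull := full_zeta (p := p) hord
  haveI : CharP K p := (Algebra.charP_iff (ZMod p) K p).1 inferInstance
  have h10 : 1 + ζ ≠ 0 := by
    intro h
    have h1 : ζ = -1 := by linear_combination h
    have h2 : ζ ^ 2 = 1 := by rw [h1]; ring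
    have := Nat.le_of_dvd (by norm_num) (orderOf_dvd_of_pow_eq_one h2)
    omega
  obtain ⟨k, hk⟩ := hζ _ h10
  refine ⟨[fU ^ p, cj ((cj fC fH)⁻¹ ^ k) fU * (fU * cj (cj fC fH)⁻¹ fU)⁻¹, fU * cj (cj fC fH)⁻¹ fU * (cj (cj fC fH)⁻¹ fU * fU)⁻¹,
    wd (minpoly (ZMod p) ζ) fU (cj fC fH)⁻¹ * (fH ^ (Fintype.card K - 1))⁻¹], by simp, ?_, ?_⟩
  · intro Γ _ u h t c R hr
    simp only [List.mem_cons, List.not_mem_nil, or_false, forall_eq_or_imp, forall_eq, map_mul, map_inv, map_cj, map_pow, map_wd, qU, qH, qT, qC, mul_inv_eq_one] at hr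
    obtain ⟨r1, r2, r3, r4⟩ := hr
    have hc := comm_rel1 (u := u) ((Commute.refl (cj c h)⁻¹).pow_left k) r2 r3
    obtain ⟨d, hcX⟩ : (X - 1 : (ZMod p)[X]) ∣ X ^ k - 1 := by
      have := sub_dvd_pow_sub_pow (X : (ZMod p)[X]) 1 k
      rwa [one_pow] at this
    have hkh : cj (cj c h)⁻¹ h = h := by
      have := R.hk
      unfold cj at this ⊢
      rw [inv_inv, ← this]; group
    obtain ⟨υ, h1, U, hwd⟩ := exists_ups' ζ hfull r1 hc (X ^ k - X - 1) (minpoly (ZMod p) ζ) (Or.inr ⟨k, rfl, r2⟩)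
      (by rw [r4, cj_pow, hkh])
      ⟨-(minpoly (ZMod p) ζ), d - 1, by linear_combination (minpoly (ZMod p) ζ) * hcX⟩
    exact ⟨υ, h1, U, by rw [← r4, hwd, minpoly.aeval, U.zero]⟩
  · have U := m_ups h0
    simp only [List.mem_cons, List.not_mem_nil, or_false, forall_eq_or_imp, forall_eq, map_mul, map_inv, map_cj, map_pow, map_wd, qU, qH, qT, qC, mul_inv_eq_one]
    refine ⟨?_, ?_, ?_, ?_⟩
    · rw [U.npow, CharP.cast_eq_zero, zero_mul, U.zero]
    · rw [U.actPow, U.act, ← U.add, mul_one, mul_one, hk]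
    · rw [U.act, U.comm]
    · rw [U.wd_eq, minpoly.aeval, U.zero, mH_pow h0 (by rw [← hord, pow_orderOf_eq_one])]

end bp4

lemma card_SL3 {K : Type*} [Field K] [Fintype K] :
    (Fintype.card K ^ 2 * Nat.card (SpecialLinearGroup (Fin 2) K)) * (Fintype.card K - 1) * (Fintype.card K ^ 2 + (Fintype.card K + 1)) =
      Nat.card (SpecialLinearGroup (Fin 3) K) := by
  have h := Cfsg.Agent.H5.card_SL_mul (F := K) rfl 3 (by norm_num)
  have h2 := Cfsg.Agent.H5.card_SL2 (F := K) rfl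
  have hq : 1 < Fintype.card K := Fintype.one_lt_card
  rw [h2]
  rw [Fin.prod_univ_three] at h
  simp only [Fin.val_zero, pow_zero, Fin.val_one, pow_one] at h
  have e4 : ((2 : Fin 3) : ℕ) = 2 := rfl
  rw [e4] at h
  generalize Nat.card (SpecialLinearGroup (Fin 3) K) = N at *
  generalize Fintype.card K = q at *
  have hpos : 0 < q - 1 := by omega
  apply Nat.eq_of_mul_eq_mul_left hpos
  rw [h]
  obtain ⟨m, rfl⟩ : ∃ m, q = m + 1 := ⟨q - 1, by omega⟩
  rw [Nat.add_sub_cancel]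
  have e1 : (m + 1) ^ 3 - 1 = m * ((m + 1) ^ 2 + (m + 1 + 1)) := by
    have : (m + 1) ^ 3 = m * ((m + 1) ^ 2 + (m + 1 + 1)) + 1 := by ring
    omega
  have e2 : (m + 1) ^ 3 - (m + 1) = (m + 1) * ((m + 1) ^ 2 - 1) := by
    rw [Nat.mul_sub, mul_one]; ring_nf
  have e3 : (m + 1) ^ 3 - (m + 1) ^ 2 = (m + 1) ^ 2 * m := by
    have : (m + 1) ^ 3 = (m + 1) ^ 2 * m + (m + 1) ^ 2 := by ring
    omega
  rw [e1, e2, e3]
  ring

theorem sl3 (K : Type*) [Field K] [Fintype K] (p : ℕ) [Fact p.Prime] [Algebra (ZMod p) K] :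
    ∃ rels : Finset (FreeGroup (Fin 4)), rels.card ≤ 14 ∧ Nonempty (PresentedGroup (↑rels : Set (FreeGroup (Fin 4))) ≃* Matrix.SpecialLinearGroup (Fin 3) K) := by
  classical
  obtain ⟨ζ, h0, hζ, hord⟩ := exists_zeta K
  have hfull := full_zeta (p := p) hord
  haveI : CharP K p := (Algebra.charP_iff (ZMod p) K p).1 inferInstance
  obtain ⟨LB, hLB, hB1, hB2⟩ : ∃ L, L.length ≤ 4 ∧ BP4 K ζ h0 L := by
    by_cases hn : Module.finrank (ZMod p) K ≤ 2
    · exact bp4_small K p h0 hord hn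
    · push Not at hn
      apply bp4_big K p h0 hζ hord
      have h3 := Module.card_eq_pow_finrank (K := ZMod p) (V := K)
      rw [ZMod.card] at h3
      have hp2 := (Fact.out : p.Prime).two_le
      have h5 : 2 ^ 3 ≤ p ^ Module.finrank (ZMod p) K := (Nat.pow_le_pow_left hp2 3).trans (Nat.pow_le_pow_right (by omega) hn)
      omega
  obtain ⟨LC, hLC⟩ : ∃ LC, LC = if Fintype.card K = 4 then [R12, R12'] else [R12, R13, R14] := ⟨_, rfl⟩
  have hLCl : LC.length ≤ 3 := by rw [hLC]; split_ifs <;> simp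
  have mneg : ∀ a : K, (mU a)⁻¹ = mU (-a) := fun a => ((m_ups h0).neg a).symm
  refine pres_of4 (T := Matrix.SpecialLinearGroup (Fin 3) K) (LB ++ (CR ++ LC)) 14
    (by rw [List.length_append, List.length_append]; have : CR.length = 7 := rfl; omega) (mU 1) (mH ζ h0) mT mC (m_gen (p := p) h0 hfull) ?_ ?_
  · intro r hr
    rw [List.mem_append, List.mem_append] at hr
    rcases hr with hr | hr | hr
    · exact hB2 r hr
    · revert r
      refine CR_iff.2 ⟨?_, m_R0, m_raw h0⟩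
      rw [(m_ups2 h0).act, (m_ups h0).actPow]
    · have k12 : FreeGroup.lift ![(mU 1 : SpecialLinearGroup (Fin 3) K), mH ζ h0, mT, mC] R12 = 1 := by
        rw [R12_iff, mneg]
        have := m_b1 (1 : K) 1
        rw [mul_one] at this
        exact this
      have k13 : FreeGroup.lift ![(mU 1 : SpecialLinearGroup (Fin 3) K), mH ζ h0, mT, mC] R13 = 1 := by
        rw [R13_iff, mneg]
        exact m_b3 (1 : K) 1
      have k14 : FreeGroup.lift ![(mU 1 : SpecialLinearGroup (Fin 3) K), mH ζ h0, mT, mC] R14 = 1 := by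
        rw [R14_iff, mneg]
        exact m_b4 (1 : K) 1
      have k12' : FreeGroup.lift ![(mU 1 : SpecialLinearGroup (Fin 3) K), mH ζ h0, mT, mC] R12' = 1 := by
        rw [R12'_iff, (m_ups h0).act, mul_one, mneg]
        have := m_b1 (ζ : K) 1
        rw [mul_one] at this
        exact this
      rw [hLC] at hr
      split_ifs at hr
      · simp only [List.mem_cons, List.not_mem_nil, or_false] at hr
        rcases hr with rfl | rfl
        · exact k12
        · exact k12'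
      · simp only [List.mem_cons, List.not_mem_nil, or_false] at hr
        rcases hr with rfl | rfl | rfl
        · exact k12
        · exact k13
        · exact k14
  · intro Γ _ u h t c hgen hr
    obtain ⟨h5, h7, R⟩ := CR_iff.1 (fun r hr' => hr r (List.mem_append.2 (Or.inr (List.mem_append.2 (Or.inl hr')))))
    obtain ⟨υ, rfl, U, hN⟩ := hB1 Γ u h t c R (fun r hr' => hr r (List.mem_append.2 (Or.inl hr')))
    have D := step1 p R h0 hζ hord U hN h5 h7
    have hC : ∀ r ∈ LC, FreeGroup.lift ![υ 1, h, t, c] r = 1 := fun r hr' => hr r (List.mem_append.2 (Or.inr (List.mem_append.2 (Or.inr hr'))))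
    have nU : ∀ a, (υ a)⁻¹ = υ (-a) := fun a => (U.neg a).symm
    have A : A2 υ h t c ζ := by
      by_cases h4 : Fintype.card K = 4
      · rw [if_pos h4] at hLC
        have k12 := R12_iff.1 (hC R12 (by rw [hLC]; simp))
        have k12' := R12'_iff.1 (hC R12' (by rw [hLC]; simp))
        rw [nU] at k12
        rw [U.act, mul_one, nU] at k12'
        have hp2 : p = 2 := by
          have h3 := Module.card_eq_pow_finrank (K := ZMod p) (V := K)
          rw [ZMod.card, h4] at h3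
          have h5 : p ∣ 2 ^ 2 := by
            rw [show 2 ^ 2 = 4 from rfl, h3]
            exact dvd_pow_self p (by have := Module.finrank_pos (R := ZMod p) (M := K); omega)
          exact (Nat.prime_dvd_prime_iff_eq Fact.out Nat.prime_two).1 ((Fact.out : p.Prime).dvd_of_dvd_pow h5)
        haveI : CharP K 2 := by rw [← hp2]; infer_instance
        exact mkA2_four R h0 hζ hord h4 U D k12 k12'
      · rw [if_neg h4] at hLC
        have k12 := R12_iff.1 (hC R12 (by rw [hLC]; simp))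
        have k13 := R13_iff.1 (hC R13 (by rw [hLC]; simp))
        have k14 := R14_iff.1 (hC R14 (by rw [hLC]; simp))
        rw [nU] at k12 k13 k14
        exact mkA2 p R h0 hζ hord h4 U D k12 k13 k14
    rw [← card_SL3]
    exact A.bound h0 hζ hgen

end Cfsg.Agent.H1.Pres
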