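import Cfsg.Agent.H1.PrH

set_option autoImplicit false
set_option linter.all false

namespace Cfsg.Agent.H1.Pres

open Cfsg.Agent.H16 Matrix

section bn

variable {Γ : Type*} [Group Γ] {K : Type*}

/-- a double-coset-like set -/
def DS (B U : Subgroup Γ) (w : Γ) : Set Γ := {g | ∃ b ∈ B, ∃ u ∈ U, g = b * w * u}

/-- rank one data -/
structure RK (T U N : Subgroup Γ) (X : K → Γ) (s : Γ) : Prop where
  dec : ∀ u ∈ U, ∃ a, ∃ n ∈ N, u = X a * n
  dec' : ∀ u ∈ U, ∃ a, ∃ n ∈ N, u = n * X a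
  xU : ∀ a, X a ∈ U
  NU : N ≤ U
  sN : Nz N s
  sN' : Nz N s⁻¹
  rel : ∀ a, s * X a * s ∈ T ∨ ∃ α β, ∃ τ ∈ T, s * X a * s = X α * τ * s * X β

variable {T U N B : Subgroup Γ} {X : K → Γ} {s : Γ}

lemma RK.up (R : RK T U N X s) (hU : U ≤ B) {w : Γ} (hw : ∀ a, w * X a * w⁻¹ ∈ B) {g : Γ} (hg : g ∈ DS B U w) :
    g * s ∈ DS B U (w * s) := by
  obtain ⟨b, hb, u, hu, rfl⟩ := hg
  obtain ⟨a, n, hn, rfl⟩ := R.dec u hu
  refine ⟨b * (w * X a * w⁻¹), B.mul_mem hb (hw a), s⁻¹ * n * s⁻¹⁻¹, R.NU (R.sN' n hn), by group⟩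

lemma RK.down (R : RK T U N X s) (hU : U ≤ B) (hT : T ≤ B) {w : Γ} (hwT : Nz T w) (hw : ∀ a, w * X a * w⁻¹ ∈ B) {g : Γ} (hg : g ∈ DS B U (w * s)) :
    g * s ∈ DS B U w ∨ g * s ∈ DS B U (w * s) := by
  obtain ⟨b, hb, u, hu, rfl⟩ := hg
  obtain ⟨a, n, hn, rfl⟩ := R.dec u hu
  have hn' := R.NU (R.sN' n hn)
  rcases R.rel a with h | ⟨α, β, τ, hτ, h⟩
  · left
    refine ⟨b * (w * (s * X a * s) * w⁻¹), B.mul_mem hb (hT (hwT _ h)), _, hn', by group⟩
  · right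
    refine ⟨b * (w * X α * w⁻¹) * (w * τ * w⁻¹), B.mul_mem (B.mul_mem hb (hw α)) (hT (hwT _ hτ)), X β * (s⁻¹ * n * s⁻¹⁻¹), U.mul_mem (R.xU β) hn', ?_⟩
    calc b * (w * s) * (X a * n) * s = b * w * (s * X a * s) * (s⁻¹ * n * s⁻¹⁻¹) := by group
      _ = _ := by rw [h]; group

lemma RK.card [Finite K] (R : RK T U N X s) {w : Γ} (hf : (DS B U w).Finite) :
    (DS B U (w * s)).Finite ∧ (DS B U (w * s)).ncard ≤ (DS B U w).ncard * Nat.card K := by
  have hsub : DS B U (w * s) ⊆ (fun p : Γ × K => p.1 * s * X p.2) '' (DS B U w ×ˢ Set.univ) := by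
    rintro g ⟨b, hb, u, hu, rfl⟩
    obtain ⟨a, n, hn, rfl⟩ := R.dec' u hu
    refine ⟨(b * w * (s * n * s⁻¹), a), ⟨⟨b, hb, _, R.NU (R.sN n hn), rfl⟩, trivial⟩, ?_⟩
    show b * w * (s * n * s⁻¹) * s * X a = b * (w * s) * (n * X a)
    group
  have hf2 : (DS B U w ×ˢ (Set.univ : Set K)).Finite := hf.prod Set.finite_univ
  refine ⟨(hf2.image _).subset hsub, ?_⟩
  refine (Set.ncard_le_ncard hsub (hf2.image _)).trans ((Set.ncard_image_le hf2).trans ?_)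
  rw [Set.ncard_prod, Set.ncard_univ]

lemma DS_T (hT : T ≤ B) (TU : ∀ τ ∈ T, Nz U τ) {w : Γ} (hwT : Nz T w) {τ : Γ} (hτ : τ ∈ T) {g : Γ} (hg : g ∈ DS B U w) : g * τ ∈ DS B U w := by
  obtain ⟨b, hb, u, hu, rfl⟩ := hg
  refine ⟨b * (w * τ * w⁻¹), B.mul_mem hb (hT (hwT _ hτ)), τ⁻¹ * u * τ⁻¹⁻¹, TU _ (T.inv_mem hτ) _ hu, by group⟩

lemma DS_U {w : Γ} {u : Γ} (hu : u ∈ U) {g : Γ} (hg : g ∈ DS B U w) : g * u ∈ DS B U w := by
  obtain ⟨b, hb, v, hv, rfl⟩ := hg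
  exact ⟨b, hb, v * u, U.mul_mem hv hu, by group⟩

theorem bn_bound [Finite K] {M : Subgroup Γ} {Y : K → Γ} {t : Γ} [Finite B] (R : RK T U N X s) (R' : RK T U M Y t)
    (hU : U ≤ B) (hT : T ≤ B) (TU : ∀ τ ∈ T, Nz U τ) (Ts : Nz T s) (Tt : Nz T t) (braid : s * t * s * t = t * s * t * s)
    (X1 : ∀ a, t * X a * t⁻¹ ∈ B) (X2 : ∀ a, (s * t) * X a * (s * t)⁻¹ ∈ B) (X3 : ∀ a, (t * s * t) * X a * (t * s * t)⁻¹ ∈ B)
    (Y1 : ∀ a, s * Y a * s⁻¹ ∈ B) (Y2 : ∀ a, (t * s) * Y a * (t * s)⁻¹ ∈ B) (Y3 : ∀ a, (s * t * s) * Y a * (s * t * s)⁻¹ ∈ B)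
    (s4 : s ^ 4 = 1) (t4 : t ^ 4 = 1) (hgen : Subgroup.closure (({s, t} : Set Γ) ∪ ((T : Set Γ) ∪ (U : Set Γ))) = ⊤) :
    Finite Γ ∧ Nat.card Γ ≤ Nat.card B * (1 + 2 * Nat.card K + 2 * Nat.card K ^ 2 + 2 * Nat.card K ^ 3 + Nat.card K ^ 4) := by
  classical
  have X0 : ∀ a, 1 * X a * 1⁻¹ ∈ B := fun a => by rw [one_mul, inv_one, mul_one]; exact hU (R.xU a)
  have Y0 : ∀ a, 1 * Y a * 1⁻¹ ∈ B := fun a => by rw [one_mul, inv_one, mul_one]; exact hU (R'.xU a)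
  have n1 : Nz T 1 := Nz.one T
  have nst : Nz T (s * t) := Ts.mul Tt
  have nts : Nz T (t * s) := Tt.mul Ts
  have nsts : Nz T (s * t * s) := nst.mul Ts
  have ntst : Nz T (t * s * t) := nts.mul Tt
  have nw : Nz T (t * s * t * s) := ntst.mul Ts
  let 𝒮 : Set Γ := DS B U 1 ∪ (DS B U s ∪ DS B U t) ∪ (DS B U (t * s) ∪ DS B U (s * t)) ∪ (DS B U (s * t * s) ∪ DS B U (t * s * t)) ∪ DS B U (t * s * t * s)
  have m1 : ∀ {g}, g ∈ DS B U 1 → g ∈ 𝒮 := fun h => Or.inl (Or.inl (Or.inl (Or.inl h)))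
  have ms : ∀ {g}, g ∈ DS B U s → g ∈ 𝒮 := fun h => Or.inl (Or.inl (Or.inl (Or.inr (Or.inl h))))
  have mt : ∀ {g}, g ∈ DS B U t → g ∈ 𝒮 := fun h => Or.inl (Or.inl (Or.inl (Or.inr (Or.inr h))))
  have mts : ∀ {g}, g ∈ DS B U (t * s) → g ∈ 𝒮 := fun h => Or.inl (Or.inl (Or.inr (Or.inl h)))
  have mst : ∀ {g}, g ∈ DS B U (s * t) → g ∈ 𝒮 := fun h => Or.inl (Or.inl (Or.inr (Or.inr h)))
  have msts : ∀ {g}, g ∈ DS B U (s * t * s) → g ∈ 𝒮 := fun h => Or.inl (Or.inr (Or.inl h))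
  have mtst : ∀ {g}, g ∈ DS B U (t * s * t) → g ∈ 𝒮 := fun h => Or.inl (Or.inr (Or.inr h))
  have mw : ∀ {g}, g ∈ DS B U (t * s * t * s) → g ∈ 𝒮 := fun h => Or.inr h
  have Ss : ∀ g ∈ 𝒮, g * s ∈ 𝒮 := by
    rintro g ((((h | (h | h)) | (h | h)) | (h | h)) | h)
    · have := R.up hU X0 h
      rw [one_mul] at this
      exact ms this
    · have h' : g ∈ DS B U (1 * s) := by rw [one_mul]; exact h
      rcases R.down hU hT n1 X0 h' with h2 | h2
      · exact m1 h2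
      · rw [one_mul] at h2; exact ms h2
    · exact mts (R.up hU X1 h)
    · rcases R.down hU hT Tt X1 h with h2 | h2
      · exact mt h2
      · exact mts h2
    · exact msts (R.up hU X2 h)
    · rcases R.down hU hT nst X2 h with h2 | h2
      · exact mst h2
      · exact msts h2
    · exact mw (R.up hU X3 h)
    · rcases R.down hU hT ntst X3 h with h2 | h2
      · exact mtst h2
      · exact mw h2
  have St : ∀ g ∈ 𝒮, g * t ∈ 𝒮 := by
    rintro g ((((h | (h | h)) | (h | h)) | (h | h)) | h)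
    · have := R'.up hU Y0 h
      rw [one_mul] at this
      exact mt this
    · exact mst (R'.up hU Y1 h)
    · have h' : g ∈ DS B U (1 * t) := by rw [one_mul]; exact h
      rcases R'.down hU hT n1 Y0 h' with h2 | h2
      · exact m1 h2
      · rw [one_mul] at h2; exact mt h2
    · exact mtst (R'.up hU Y2 h)
    · rcases R'.down hU hT Ts Y1 h with h2 | h2
      · exact ms h2
      · exact mst h2
    · have := R'.up hU Y3 h
      rw [braid] at this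
      exact mw this
    · rcases R'.down hU hT nts Y2 h with h2 | h2
      · exact mts h2
      · exact mtst h2
    · rw [← braid] at h
      rcases R'.down hU hT nsts Y3 h with h2 | h2
      · exact msts h2
      · rw [braid] at h2; exact mw h2
  have SU : ∀ u ∈ U, ∀ g ∈ 𝒮, g * u ∈ 𝒮 := by
    rintro u hu g ((((h | (h | h)) | (h | h)) | (h | h)) | h)
    · exact m1 (DS_U hu h)
    · exact ms (DS_U hu h)
    · exact mt (DS_U hu h)
    · exact mts (DS_U hu h)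
    · exact mst (DS_U hu h)
    · exact msts (DS_U hu h)
    · exact mtst (DS_U hu h)
    · exact mw (DS_U hu h)
  have ST : ∀ τ ∈ T, ∀ g ∈ 𝒮, g * τ ∈ 𝒮 := by
    rintro u hu g ((((h | (h | h)) | (h | h)) | (h | h)) | h)
    · exact m1 (DS_T hT TU n1 hu h)
    · exact ms (DS_T hT TU Ts hu h)
    · exact mt (DS_T hT TU Tt hu h)
    · exact mts (DS_T hT TU nts hu h)
    · exact mst (DS_T hT TU nst hu h)
    · exact msts (DS_T hT TU nsts hu h)
    · exact mtst (DS_T hT TU ntst hu h)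
    · exact mw (DS_T hT TU nw hu h)
  have S1 : (1 : Γ) ∈ 𝒮 := m1 ⟨1, B.one_mem, 1, U.one_mem, by group⟩
  have inv4 : ∀ x : Γ, x ^ 4 = 1 → x⁻¹ = x * x * x := by
    intro x hx
    rw [inv_eq_iff_mul_eq_one, ← hx]; simp only [pow_succ, pow_zero, one_mul, mul_assoc]
  have Sall : ∀ g : Γ, g ∈ 𝒮 := by
    have key : ∀ g ∈ Subgroup.closure (({s, t} : Set Γ) ∪ ((T : Set Γ) ∪ (U : Set Γ))), ∀ x ∈ 𝒮, x * g ∈ 𝒮 ∧ x * g⁻¹ ∈ 𝒮 := by
      intro g hg
      induction hg using Subgroup.closure_induction with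
      | mem g hg =>
        rcases hg with (rfl | rfl) | (hg | hg)
        · intro x hx
          refine ⟨Ss x hx, ?_⟩
          rw [inv4 _ s4, ← mul_assoc, ← mul_assoc]
          exact Ss _ (Ss _ (Ss _ hx))
        · intro x hx
          refine ⟨St x hx, ?_⟩
          rw [inv4 _ t4, ← mul_assoc, ← mul_assoc]
          exact St _ (St _ (St _ hx))
        · intro x hx
          exact ⟨ST g hg x hx, ST g⁻¹ (T.inv_mem hg) x hx⟩
        · intro x hx
          exact ⟨SU g hg x hx, SU g⁻¹ (U.inv_mem hg) x hx⟩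
      | one => intro x hx; rw [inv_one, mul_one]; exact ⟨hx, hx⟩
      | mul a b _ _ ha hb =>
        intro x hx
        refine ⟨?_, ?_⟩
        · rw [← mul_assoc]; exact (hb _ (ha x hx).1).1
        · rw [_root_.mul_inv_rev, ← mul_assoc]; exact (ha _ (hb x hx).2).2
      | inv a _ ha => intro x hx; rw [inv_inv]; exact ⟨(ha x hx).2, (ha x hx).1⟩
    intro g
    have := (key g (by rw [hgen]; trivial) 1 S1).1
    rwa [one_mul] at this
  -- cardinalities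
  obtain ⟨q, hq⟩ : ∃ q, q = Nat.card K := ⟨_, rfl⟩
  obtain ⟨β, hβ⟩ : ∃ β, β = Nat.card B := ⟨_, rfl⟩
  have c1 : (DS B U 1).Finite ∧ (DS B U 1).ncard ≤ β := by
    have hsub : DS B U 1 ⊆ (B : Set Γ) := by
      rintro g ⟨b, hb, u, hu, rfl⟩
      rw [mul_one]; exact B.mul_mem hb (hU hu)
    have hf : (B : Set Γ).Finite := Set.toFinite _
    refine ⟨hf.subset hsub, (Set.ncard_le_ncard hsub hf).trans ?_⟩
    rw [hβ]; exact le_of_eq rfl
  have cs : (DS B U s).Finite ∧ (DS B U s).ncard ≤ β * q := by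
    have := R.card c1.1
    rw [one_mul, ← hq] at this
    exact ⟨this.1, this.2.trans (Nat.mul_le_mul_right _ c1.2)⟩
  have ct : (DS B U t).Finite ∧ (DS B U t).ncard ≤ β * q := by
    have := R'.card c1.1
    rw [one_mul, ← hq] at this
    exact ⟨this.1, this.2.trans (Nat.mul_le_mul_right _ c1.2)⟩
  have cts : (DS B U (t * s)).Finite ∧ (DS B U (t * s)).ncard ≤ β * q * q := by
    have := R.card ct.1
    rw [← hq] at this
    exact ⟨this.1, this.2.trans (Nat.mul_le_mul_right _ ct.2)⟩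
  have cst : (DS B U (s * t)).Finite ∧ (DS B U (s * t)).ncard ≤ β * q * q := by
    have := R'.card cs.1
    rw [← hq] at this
    exact ⟨this.1, this.2.trans (Nat.mul_le_mul_right _ cs.2)⟩
  have csts : (DS B U (s * t * s)).Finite ∧ (DS B U (s * t * s)).ncard ≤ β * q * q * q := by
    have := R.card cst.1
    rw [← hq] at this
    exact ⟨this.1, this.2.trans (Nat.mul_le_mul_right _ cst.2)⟩
  have ctst : (DS B U (t * s * t)).Finite ∧ (DS B U (t * s * t)).ncard ≤ β * q * q * q := by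
    have := R'.card cts.1
    rw [← hq] at this
    exact ⟨this.1, this.2.trans (Nat.mul_le_mul_right _ cts.2)⟩
  have cw : (DS B U (t * s * t * s)).Finite ∧ (DS B U (t * s * t * s)).ncard ≤ β * q * q * q * q := by
    have := R.card ctst.1
    rw [← hq] at this
    exact ⟨this.1, this.2.trans (Nat.mul_le_mul_right _ ctst.2)⟩
  have hall : (Set.univ : Set Γ) = 𝒮 := by
    ext g; exact ⟨fun _ => Sall g, fun _ => trivial⟩
  have hfin : 𝒮.Finite := ((((c1.1.union (cs.1.union ct.1)).union (cts.1.union cst.1)).union (csts.1.union ctst.1)).union cw.1)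
  have hΓ : Finite Γ := by
    rw [← Set.finite_univ_iff, hall]; exact hfin
  refine ⟨hΓ, ?_⟩
  rw [← Set.ncard_univ, hall, ← hq, ← hβ]
  have u1 := Set.ncard_union_le (DS B U 1 ∪ (DS B U s ∪ DS B U t) ∪ (DS B U (t * s) ∪ DS B U (s * t)) ∪ (DS B U (s * t * s) ∪ DS B U (t * s * t))) (DS B U (t * s * t * s))
  have u2 := Set.ncard_union_le (DS B U 1 ∪ (DS B U s ∪ DS B U t) ∪ (DS B U (t * s) ∪ DS B U (s * t))) (DS B U (s * t * s) ∪ DS B U (t * s * t))
  have u3 := Set.ncard_union_le (DS B U 1 ∪ (DS B U s ∪ DS B U t)) (DS B U (t * s) ∪ DS B U (s * t))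
  have u4 := Set.ncard_union_le (DS B U 1) (DS B U s ∪ DS B U t)
  have u5 := Set.ncard_union_le (DS B U s) (DS B U t)
  have u6 := Set.ncard_union_le (DS B U (t * s)) (DS B U (s * t))
  have u7 := Set.ncard_union_le (DS B U (s * t * s)) (DS B U (t * s * t))
  have v1 := c1.2
  have v2 := cs.2
  have v3 := ct.2
  have v4 := cts.2
  have v5 := cst.2
  have v6 := csts.2
  have v7 := ctst.2
  have v8 := cw.2
  have e : β * (1 + 2 * q + 2 * q ^ 2 + 2 * q ^ 3 + q ^ 4) = β + (β * q + β * q) + (β * q * q + β * q * q) + (β * q * q * q + β * q * q * q) + β * q * q * q * q := by ring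
  rw [e]
  show (DS B U 1 ∪ (DS B U s ∪ DS B U t) ∪ (DS B U (t * s) ∪ DS B U (s * t)) ∪ (DS B U (s * t * s) ∪ DS B U (t * s * t)) ∪ DS B U (t * s * t * s)).ncard ≤ _
  omega

end bn

end Cfsg.Agent.H1.Pres
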