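import Cfsg.Agent.H1.PsA
import Cfsg.Agent.H1.PrJ

set_option autoImplicit false
set_option linter.all false

namespace Cfsg.Agent.H1.Pres

open Cfsg.Agent.H16 Matrix

variable {Γ K : Type*} [Group Γ] [Field K]

lemma sTUT {ζ : K} (hζ : ζ ≠ 0) {a : K} (ha : a ≠ 0) {j : ℕ} (hj : ζ ^ j = a) :
    (sT : SpecialLinearGroup (Fin 2) K)⁻¹ * sU a * sT⁻¹ = sU (-a⁻¹) * sH ζ hζ ^ j * sT⁻¹ * sU (-a⁻¹) := by
  have h1 : sU a = sT * (sU (-a⁻¹) * sH ζ hζ ^ j * (sT : SpecialLinearGroup (Fin 2) K)⁻¹ * sU (-a⁻¹)) * sT := by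
    have h2 : (sT : SpecialLinearGroup (Fin 2) K)⁻¹ * sU (-a⁻¹) * sT = sL (a⁻¹) := by
      have h3 : (sU (-a⁻¹) : SpecialLinearGroup (Fin 2) K) * sT = sT * sL (a⁻¹) := by
        apply Subtype.ext
        simp only [Matrix.SpecialLinearGroup.coe_mul]
        show !![1, -a⁻¹; 0, 1] * !![0, 1; -1, 0] = !![0, 1; -1, 0] * !![1, 0; a⁻¹, 1]
        ext i j; fin_cases i <;> fin_cases j <;> simp [Matrix.mul_apply, Fin.sum_univ_two]
      rw [mul_assoc, h3]; group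
    have h4 : sT * (sU (-a⁻¹) * sH ζ hζ ^ j * (sT : SpecialLinearGroup (Fin 2) K)⁻¹ * sU (-a⁻¹)) * sT = sT * sU (-a⁻¹) * sH ζ hζ ^ j * sL (a⁻¹) := by
      rw [← h2]; group
    rw [h4]
    apply Subtype.ext
    simp only [Matrix.SpecialLinearGroup.coe_mul]
    rw [sH_pow, inv_pow, hj]
    show !![1, a; 0, 1] = !![0, 1; -1, 0] * !![1, -a⁻¹; 0, 1] * Matrix.diagonal ![a⁻¹, a] * !![1, 0; a⁻¹, 1]
    have e : Matrix.diagonal ![a⁻¹, a] = !![a⁻¹, 0; 0, a] := by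
      ext i j; fin_cases i <;> fin_cases j <;> simp
    rw [e]
    ext i j; fin_cases i <;> fin_cases j <;> simp [Matrix.mul_apply, Fin.sum_univ_two, ha]
  rw [h1]; group

/-- conjugation moves a family into another -/
def Mv (g : Γ) (X Y : K → Γ) : Prop := ∀ a, ∃ b, g * X a * g⁻¹ = Y b

lemma Mv.one (X : K → Γ) : Mv 1 X X := fun a => ⟨a, by group⟩
lemma Mv.comp {g g' : Γ} {X Y Z : K → Γ} (h : Mv g' Y Z) (h' : Mv g X Y) : Mv (g' * g) X Z := by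
  intro a
  obtain ⟨b, hb⟩ := h' a
  obtain ⟨c, hc⟩ := h b
  refine ⟨c, ?_⟩
  rw [← hc, ← hb]; group

lemma Act.mv {T : Subgroup Γ} {X : K → Γ} (hX : Act T X) {τ : Γ} (hτ : τ ∈ T) : Mv τ X X := by
  intro a
  obtain ⟨μ, hμ, h1⟩ := hX _ (Subgroup.inv_mem _ hτ)
  refine ⟨μ * a, ?_⟩
  rw [← h1]; unfold cj; rw [inv_inv]

/-- range of an additive family -/
def RG (X : K → Γ) (hX : ∀ a b, X (a + b) = X a * X b) : Subgroup Γ where
  carrier := {g | ∃ a, g = X a}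
  one_mem' := by
    have h1 : X 0 = 1 := by
      have := hX 0 0
      rw [add_zero] at this
      exact left_eq_mul.1 this
    exact ⟨0, by rw [h1]⟩
  mul_mem' := by
    rintro _ _ ⟨a, rfl⟩ ⟨b, rfl⟩
    exact ⟨a + b, by rw [hX]⟩
  inv_mem' := by
    rintro _ ⟨a, rfl⟩
    have h1 : X 0 = 1 := by
      have := hX 0 0
      rw [add_zero] at this
      exact left_eq_mul.1 this
    have e1 : X (-a) = (X a)⁻¹ := by
      have := hX (-a) a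
      rw [neg_add_cancel, h1] at this
      exact eq_inv_of_mul_eq_one_left this.symm
    exact ⟨-a, e1.symm⟩

lemma RG_card [Fintype K] (X : K → Γ) (hX : ∀ a b, X (a + b) = X a * X b) : Finite ↥(RG X hX) ∧ Nat.card ↥(RG X hX) ≤ Fintype.card K := by
  have hs : Function.Surjective (fun p : K => (⟨X p, ⟨p, rfl⟩⟩ : ↥(RG X hX))) := by
    rintro ⟨g, a, rfl⟩
    exact ⟨a, rfl⟩
  refine ⟨Finite.of_surjective _ hs, ?_⟩
  have := Nat.card_le_card_of_surjective _ hs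
  rwa [Nat.card_eq_fintype_card (α := K)] at this

lemma mp_sup {A B N : Subgroup Γ} {g : Γ} (h1 : ∀ x ∈ A, g * x * g⁻¹ ∈ N) (h2 : ∀ x ∈ B, g * x * g⁻¹ ∈ N) : ∀ x ∈ A ⊔ B, g * x * g⁻¹ ∈ N := by
  have h : A ⊔ B ≤ N.comap (MulAut.conj g).toMonoidHom := sup_le (fun x hx => h1 x hx) (fun x hx => h2 x hx)
  exact fun x hx => h hx

def y2 (υ : K → Γ) (s : Γ) (b : K) : Γ := cj s (υ b)
def y3 (ν : K → Γ) (t : Γ) (a : K) : Γ := cj t (ν a)

structure RawC (h t k s : Γ) : Prop where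
  hk : h * k = k * h
  ht : h * t * h = t
  ks : k * s * k = s
  sh : cj s h = h * k
  tk : cj t k = k * h ^ 2
  braid : s * t * s * t = t * s * t * s

namespace RawC
variable {h t k s : Γ} (R : RawC h t k s)
include R

lemma h_s : h * s = s * (h * k) := by
  rw [← R.sh]; unfold cj; group
lemma k_s : k * s = s * k⁻¹ := by
  have := R.ks
  calc k * s = k * s * k * k⁻¹ := by group
    _ = s * k⁻¹ := by rw [this]
lemma s_k : s * k = k⁻¹ * s := by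
  have := R.ks
  calc s * k = k⁻¹ * (k * s * k) := by group
    _ = k⁻¹ * s := by rw [this]
lemma h_t : h * t = t * h⁻¹ := by
  have := R.ht
  calc h * t = h * t * h * h⁻¹ := by group
    _ = t * h⁻¹ := by rw [this]
lemma t_h : t * h = h⁻¹ * t := by
  have := R.ht
  calc t * h = h⁻¹ * (h * t * h) := by group
    _ = h⁻¹ * t := by rw [this]
lemma k_t : k * t = t * (k * h ^ 2) := by
  rw [← R.tk]; unfold cj; group
lemma s_h : s * h = h * k * s := by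
  have h1 : h * k * s = s * (h * k) * k⁻¹ := by
    rw [mul_assoc, R.k_s, ← mul_assoc, R.h_s]
  rw [h1]; group
lemma t_k : t * k = k * h ^ 2 * t := by
  have h1 : k * h ^ 2 * t = k * t * (h ^ 2)⁻¹ := by
    have e : h ^ 2 * t = t * (h ^ 2)⁻¹ := by
      rw [sq, mul_assoc, R.h_t, ← mul_assoc, R.h_t]; group
    rw [mul_assoc, e]; group
  rw [h1, R.k_t]; group

def TC (h k : Γ) : Subgroup Γ := Subgroup.closure {h, k}

omit R in
lemma h_TC (h k : Γ) : h ∈ TC h k := Subgroup.subset_closure (by simp)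
omit R in
lemma k_TC (h k : Γ) : k ∈ TC h k := Subgroup.subset_closure (by simp)

lemma Ts : Nz (TC h k) s := by
  intro x hx
  refine closure_conj ?_ hx
  rintro x (rfl | rfl)
  · rw [R.s_h]
    have : x * k * s * s⁻¹ = x * k := by group
    rw [this]
    exact Subgroup.mul_mem _ (h_TC _ _) (k_TC _ _)
  · rw [R.s_k]
    have : x⁻¹ * s * s⁻¹ = x⁻¹ := by group
    rw [this]
    exact Subgroup.inv_mem _ (k_TC _ _)

lemma Tt : Nz (TC h k) t := by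
  intro x hx
  refine closure_conj ?_ hx
  rintro x (rfl | rfl)
  · rw [R.t_h]
    have : x⁻¹ * t * t⁻¹ = x⁻¹ := by group
    rw [this]
    exact Subgroup.inv_mem _ (h_TC _ _)
  · rw [R.t_k]
    have : x * h ^ 2 * t * t⁻¹ = x * h ^ 2 := by group
    rw [this]
    exact Subgroup.mul_mem _ (k_TC _ _) (Subgroup.pow_mem _ (h_TC _ _) _)

end RawC

open RawC

/-- the relations of `Sp₄` -/
structure C2 (υ ν : K → Γ) (h t k s : Γ) (ζ : K) : Prop where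
  fl : Frm υ h t (t ^ 2) ζ
  fs : Frm ν k s (s ^ 2) ζ
  raw : RawC h t k s
  h1 : ∀ a, cj h (ν a) = ν (ζ⁻¹ * a)
  k4 : ∀ a, cj k (υ a) = υ ((ζ ^ 2)⁻¹ * a)
  s3 : ∀ a, cj s (y3 ν t a) = y3 ν t (-a)
  t2 : ∀ b, cj t (y2 υ s b) = y2 υ s b
  A : ∀ a b, ν a * y2 υ s b = y2 υ s b * ν a
  B : ∀ a b, y2 υ s a * υ b = υ b * y2 υ s a
  C : ∀ a b, ν a * y3 ν t b = y3 ν t b * ν a * y2 υ s (-(2 * a * b))
  D : ∀ a b, ν a * υ b = υ b * ν a * (y3 ν t (-(a * b)) * y2 υ s (-(a ^ 2 * b)))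

/-- torus actions -/
lemma act_y3 {ν : K → Γ} {h t k s : Γ} {ζ : K} (R : RawC h t k s) (h0 : ζ ≠ 0) (h1 : ∀ a, cj h (ν a) = ν (ζ⁻¹ * a)) (hk : ∀ a, cj k (ν a) = ν (ζ ^ 2 * a)) :
    (∀ a, cj h (y3 ν t a) = y3 ν t (ζ * a)) ∧ (∀ a, cj k (y3 ν t a) = y3 ν t a) := by
  constructor
  · intro a
    unfold y3
    rw [cj_cj, R.t_h, ← cj_cj, cj_inv_of (inv_ne_zero h0) h1, inv_inv]
  · intro a
    unfold y3
    rw [cj_cj, R.t_k, ← cj_cj, ← cj_cj, hk, sq, ← cj_cj, h1, h1]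
    congr 2
    field_simp


lemma act_y2 {υ : K → Γ} {h t k s : Γ} {ζ : K} (R : RawC h t k s) (h0 : ζ ≠ 0) (hh : ∀ a, cj h (υ a) = υ (ζ ^ 2 * a)) (k4 : ∀ a, cj k (υ a) = υ ((ζ ^ 2)⁻¹ * a)) :
    (∀ a, cj h (y2 υ s a) = y2 υ s a) ∧ (∀ a, cj k (y2 υ s a) = y2 υ s (ζ ^ 2 * a)) := by
  have h20 : ζ ^ 2 ≠ 0 := pow_ne_zero 2 h0
  constructor
  · intro a
    unfold y2
    rw [cj_cj, R.s_h, ← cj_cj, ← cj_cj, hh, k4]
    congr 2
    field_simp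
  · intro a
    unfold y2
    rw [cj_cj, R.s_k, ← cj_cj, cj_inv_of (inv_ne_zero h20) k4, inv_inv]

namespace C2

variable {υ ν : K → Γ} {h t k s : Γ} {ζ : K} (D : C2 υ ν h t k s ζ)
include D

lemma add2 (a b : K) : y2 υ s (a + b) = y2 υ s a * y2 υ s b := by unfold y2; rw [D.fl.ups.add, cj_mul]
lemma add3 (a b : K) : y3 ν t (a + b) = y3 ν t a * y3 ν t b := by unfold y3; rw [D.fs.ups.add, cj_mul]

lemma c32 (a b : K) : y3 ν t a * y2 υ s b = y2 υ s b * y3 ν t a := by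
  have h1 := congrArg (cj t) (D.A a b)
  rw [cj_mul, cj_mul, D.t2] at h1
  exact h1

theorem bound [Fintype K] (hζ : ζ ≠ 0) (hg : ∀ x : K, x ≠ 0 → ∃ n : ℕ, ζ ^ n = x)
    (hgen : Subgroup.closure ({υ 1, h, t, ν 1, k, s} : Set Γ) = ⊤) :
    Finite Γ ∧ Nat.card Γ ≤ (Fintype.card K ^ 4 * (Fintype.card K - 1) ^ 2) *
      (1 + 2 * Fintype.card K + 2 * Fintype.card K ^ 2 + 2 * Fintype.card K ^ 3 + Fintype.card K ^ 4) := by
  classical
  have R := D.raw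
  obtain ⟨ψ, ψU, ψL, ψH, ψT⟩ := D.fl.exists_psi hζ
  obtain ⟨φ, φU, φL, φH, φT⟩ := D.fs.exists_psi hζ
  obtain ⟨j₀, hj₀⟩ := hg (-1 : K) (neg_ne_zero.2 one_ne_zero)
  have hT4 : (sT : SpecialLinearGroup (Fin 2) K) ^ 4 = 1 := by
    rw [show 4 = 2 * 2 from rfl, pow_mul, s_T2, neg_one_sq]
  have t4 : t ^ 4 = 1 := by
    have h2 := congrArg ψ hT4
    rw [map_pow, ψT, map_one, inv_pow, inv_eq_one] at h2
    exact h2
  have s4 : s ^ 4 = 1 := by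
    have h2 := congrArg φ hT4
    rw [map_pow, φT, map_one, inv_pow, inv_eq_one] at h2
    exact h2
  have t2T : t * t ∈ TC h k := by
    have h1 : t⁻¹ ^ 2 = h ^ j₀ := by
      rw [← ψT, ← map_pow, s_T2, ← sH_pow_neg hζ hj₀, map_pow, ψH]
    have h2 : t * t = (t⁻¹ ^ 2)⁻¹ := by rw [inv_pow, inv_inv, sq]
    rw [h2, h1]
    exact Subgroup.inv_mem _ (Subgroup.pow_mem _ (h_TC _ _) _)
  have s2T : s * s ∈ TC h k := by
    have h1 : s⁻¹ ^ 2 = k ^ j₀ := by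
      rw [← φT, ← map_pow, s_T2, ← sH_pow_neg hζ hj₀, map_pow, φH]
    have h2 : s * s = (s⁻¹ ^ 2)⁻¹ := by rw [inv_pow, inv_inv, sq]
    rw [h2, h1]
    exact Subgroup.inv_mem _ (Subgroup.pow_mem _ (k_TC _ _) _)
  have hq1 : 0 < Fintype.card K - 1 := by have : 1 < Fintype.card K := Fintype.one_lt_card; omega
  have hN : h ^ (Fintype.card K - 1) = 1 := by
    have := D.fl.hq (Fintype.card K - 1) 0 (by rw [FiniteField.pow_card_sub_one_eq_one ζ hζ, pow_zero])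
    rwa [pow_zero] at this
  have kN : k ^ (Fintype.card K - 1) = 1 := by
    have := D.fs.hq (Fintype.card K - 1) 0 (by rw [FiniteField.pow_card_sub_one_eq_one ζ hζ, pow_zero])
    rwa [pow_zero] at this
  -- torus
  have hfin : IsOfFinOrder h := isOfFinOrder_iff_pow_eq_one.2 ⟨_, hq1, hN⟩
  have kfin : IsOfFinOrder k := isOfFinOrder_iff_pow_eq_one.2 ⟨_, hq1, kN⟩
  haveI : Finite (Subgroup.zpowers h) := (finite_zpowers.2 hfin).to_subtype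
  haveI : Finite (Subgroup.zpowers k) := (finite_zpowers.2 kfin).to_subtype
  have cZh : Nat.card (Subgroup.zpowers h) ≤ Fintype.card K - 1 := by
    rw [Nat.card_zpowers]
    exact Nat.le_of_dvd hq1 (orderOf_dvd_of_pow_eq_one hN)
  have cZk : Nat.card (Subgroup.zpowers k) ≤ Fintype.card K - 1 := by
    rw [Nat.card_zpowers]
    exact Nat.le_of_dvd hq1 (orderOf_dvd_of_pow_eq_one kN)
  have cT : Finite ↥(TC h k) ∧ Nat.card ↥(TC h k) ≤ (Fintype.card K - 1) ^ 2 := by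
    have h1 : TC h k = Subgroup.zpowers h ⊔ Subgroup.zpowers k := by
      unfold TC
      rw [Subgroup.zpowers_eq_closure, Subgroup.zpowers_eq_closure, ← Subgroup.closure_union]
      rfl
    have h2 : ∀ b ∈ Subgroup.zpowers k, Nz (Subgroup.zpowers h) b := by
      rintro b ⟨m, rfl⟩ x ⟨n, rfl⟩
      have hc : Commute h k := R.hk
      have e : k ^ m * h ^ n * (k ^ m)⁻¹ = h ^ n := by
        rw [((hc.zpow_zpow n m).symm).eq]; group
      show k ^ m * h ^ n * (k ^ m)⁻¹ ∈ _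
      rw [e]
      exact ⟨n, rfl⟩
    obtain ⟨f1, f2⟩ := card_sup_le h2
    rw [h1]
    exact ⟨f1, f2.trans (by rw [sq]; exact Nat.mul_le_mul cZh cZk)⟩
  -- actions
  obtain ⟨h3h, h3k⟩ := act_y3 R hζ D.h1 D.fs.ups.act
  obtain ⟨h2h, h2k⟩ := act_y2 R hζ D.fl.ups.act D.k4
  have a1 : Act (TC h k) ν := by
    apply act_closure
    rintro τ (rfl | rfl)
    · exact ⟨ζ⁻¹, inv_ne_zero hζ, D.h1⟩
    · exact ⟨ζ ^ 2, pow_ne_zero 2 hζ, D.fs.ups.act⟩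
  have a4 : Act (TC h k) υ := by
    apply act_closure
    rintro τ (rfl | rfl)
    · exact ⟨ζ ^ 2, pow_ne_zero 2 hζ, D.fl.ups.act⟩
    · exact ⟨(ζ ^ 2)⁻¹, inv_ne_zero (pow_ne_zero 2 hζ), D.k4⟩
  have a3 : Act (TC h k) (y3 ν t) := by
    apply act_closure
    rintro τ (rfl | rfl)
    · exact ⟨ζ, hζ, h3h⟩
    · exact ⟨1, one_ne_zero, fun a => by rw [h3k, one_mul]⟩
  have a2 : Act (TC h k) (y2 υ s) := by
    apply act_closure
    rintro τ (rfl | rfl)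
    · exact ⟨1, one_ne_zero, fun a => by rw [h2h, one_mul]⟩
    · exact ⟨ζ ^ 2, pow_ne_zero 2 hζ, h2k⟩
  -- moves
  have mt31 : Mv t (y3 ν t) ν := fun a => ⟨a, by unfold y3 cj; group⟩
  have mti13 : Mv t⁻¹ ν (y3 ν t) := fun a => ⟨a, by unfold y3 cj; group⟩
  have mt13 : Mv t ν (y3 ν t) := by
    have := (a3.mv t2T).comp mti13
    rwa [mul_assoc, mul_inv_cancel, mul_one] at this
  have mti31 : Mv t⁻¹ (y3 ν t) ν := by
    have := (a1.mv (Subgroup.inv_mem _ t2T)).comp mt31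
    have e : (t * t)⁻¹ * t = t⁻¹ := by group
    rwa [e] at this
  have mt22 : Mv t (y2 υ s) (y2 υ s) := fun a => ⟨a, by
    have := D.t2 a
    conv_lhs => rw [← this]
    unfold cj; group⟩
  have mti22 : Mv t⁻¹ (y2 υ s) (y2 υ s) := fun a => ⟨a, by
    have := D.t2 a
    conv_rhs => rw [← this]
    unfold cj; group⟩
  have ms24 : Mv s (y2 υ s) υ := fun a => ⟨a, by unfold y2 cj; group⟩
  have msi42 : Mv s⁻¹ υ (y2 υ s) := fun a => ⟨a, by unfold y2 cj; group⟩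
  have ms42 : Mv s υ (y2 υ s) := by
    have := (a2.mv s2T).comp msi42
    rwa [mul_assoc, mul_inv_cancel, mul_one] at this
  have msi24 : Mv s⁻¹ (y2 υ s) υ := by
    have := (a4.mv (Subgroup.inv_mem _ s2T)).comp ms24
    have e : (s * s)⁻¹ * s = s⁻¹ := by group
    rwa [e] at this
  have msi33 : Mv s⁻¹ (y3 ν t) (y3 ν t) := fun a => ⟨-a, by
    have := D.s3 a
    rw [← this]
    unfold cj; group⟩
  have ms33 : Mv s (y3 ν t) (y3 ν t) := fun a => ⟨-a, by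
    have := D.s3 (-a)
    rw [neg_neg] at this
    rw [← this]
    unfold cj; group⟩
  -- commutation of X3 and X4
  have c34 : ∀ a b, y3 ν t a * υ b = υ b * y3 ν t a := by
    intro a b
    obtain ⟨b', hb'⟩ := ms42 b
    have h1 : υ b = s⁻¹ * y2 υ s b' * s := by rw [← hb']; group
    obtain ⟨a', ha'⟩ := ms33 a
    have h2 : y3 ν t a = s⁻¹ * y3 ν t a' * s := by rw [← ha']; group
    rw [h1, h2]
    have h3 := D.c32 a' b'
    calc s⁻¹ * y3 ν t a' * s * (s⁻¹ * y2 υ s b' * s) = s⁻¹ * (y3 ν t a' * y2 υ s b') * s := by group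
      _ = _ := by rw [h3]; group
  -- subgroups
  obtain ⟨P, hP⟩ : ∃ P, P = PS (y2 υ s) (y3 ν t) D.add2 D.add3 (fun a b => (D.c32 b a).symm) := ⟨_, rfl⟩
  have mP : ∀ g, g ∈ P ↔ ∃ a b, g = y2 υ s a * y3 ν t b := fun g => by rw [hP]; rfl
  have cP : Finite P ∧ Nat.card P ≤ Fintype.card K ^ 2 := by rw [hP]; exact PS_card _ _ _ _ _
  obtain ⟨A1, hA1⟩ : ∃ A1, A1 = RG ν D.fs.ups.add := ⟨_, rfl⟩
  obtain ⟨A4, hA4⟩ : ∃ A4, A4 = RG υ D.fl.ups.add := ⟨_, rfl⟩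
  have m1 : ∀ g, g ∈ A1 ↔ ∃ a, g = ν a := fun g => by rw [hA1]; rfl
  have m4 : ∀ g, g ∈ A4 ↔ ∃ a, g = υ a := fun g => by rw [hA4]; rfl
  have cA1 : Finite A1 ∧ Nat.card A1 ≤ Fintype.card K := by rw [hA1]; exact RG_card _ _
  have cA4 : Finite A4 ∧ Nat.card A4 ≤ Fintype.card K := by rw [hA4]; exact RG_card _ _
  have z2 : y2 υ s 0 = 1 := by
    have := D.add2 0 0
    rw [add_zero] at this
    exact left_eq_mul.1 this
  have z3 : y3 ν t 0 = 1 := by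
    have := D.add3 0 0
    rw [add_zero] at this
    exact left_eq_mul.1 this
  have v2 : ∀ a, y2 υ s a ∈ P := fun a => (mP _).2 ⟨a, 0, by rw [z3, mul_one]⟩
  have v3 : ∀ a, y3 ν t a ∈ P := fun a => (mP _).2 ⟨0, a, by rw [z2, one_mul]⟩
  have v1 : ∀ a, ν a ∈ A1 := fun a => (m1 _).2 ⟨a, rfl⟩
  have v4 : ∀ a, υ a ∈ A4 := fun a => (m4 _).2 ⟨a, rfl⟩
  have mpP : ∀ (g : Γ) (Q : Subgroup Γ), (∀ a, g * y2 υ s a * g⁻¹ ∈ Q) → (∀ a, g * y3 ν t a * g⁻¹ ∈ Q) → ∀ x ∈ P, g * x * g⁻¹ ∈ Q := by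
    intro g Q h1 h2 x hx
    obtain ⟨a, b, rfl⟩ := (mP x).1 hx
    have : g * (y2 υ s a * y3 ν t b) * g⁻¹ = (g * y2 υ s a * g⁻¹) * (g * y3 ν t b * g⁻¹) := by group
    rw [this]; exact Q.mul_mem (h1 a) (h2 b)
  have mp1 : ∀ (g : Γ) (Q : Subgroup Γ), (∀ a, g * ν a * g⁻¹ ∈ Q) → ∀ x ∈ A1, g * x * g⁻¹ ∈ Q := by
    intro g Q h1 x hx
    obtain ⟨a, rfl⟩ := (m1 x).1 hx
    exact h1 a
  have mp4 : ∀ (g : Γ) (Q : Subgroup Γ), (∀ a, g * υ a * g⁻¹ ∈ Q) → ∀ x ∈ A4, g * x * g⁻¹ ∈ Q := by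
    intro g Q h1 x hx
    obtain ⟨a, rfl⟩ := (m4 x).1 hx
    exact h1 a
  -- normalizations
  have P4 : ∀ b ∈ A4, Nz P b := by
    intro b hb
    obtain ⟨b, rfl⟩ := (m4 b).1 hb
    apply mpP
    · intro a
      rw [← D.B, mul_assoc, mul_inv_cancel, mul_one]; exact v2 a
    · intro a
      rw [← c34, mul_assoc, mul_inv_cancel, mul_one]; exact v3 a
  have P1 : ∀ b ∈ A1, Nz P b := by
    intro b hb
    obtain ⟨b, rfl⟩ := (m1 b).1 hb
    apply mpP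
    · intro a
      rw [D.A, mul_assoc, mul_inv_cancel, mul_one]; exact v2 a
    · intro a
      have h1 : ν b * y3 ν t a * (ν b)⁻¹ = y3 ν t a * y2 υ s (-(2 * b * a)) := by
        rw [D.C]
        have h2 := D.A b (-(2 * b * a))
        calc y3 ν t a * ν b * y2 υ s (-(2 * b * a)) * (ν b)⁻¹ = y3 ν t a * (ν b * y2 υ s (-(2 * b * a))) * (ν b)⁻¹ := by group
          _ = _ := by rw [h2]; group
      rw [h1]; exact P.mul_mem (v3 _) (v2 _)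
  obtain ⟨N, hN'⟩ : ∃ N, N = P ⊔ A4 := ⟨_, rfl⟩
  obtain ⟨M, hM⟩ : ∃ M, M = P ⊔ A1 := ⟨_, rfl⟩
  have PN : P ≤ N := by rw [hN']; exact le_sup_left
  have PM : P ≤ M := by rw [hM]; exact le_sup_left
  have N4 : A4 ≤ N := by rw [hN']; exact le_sup_right
  have M1 : A1 ≤ M := by rw [hM]; exact le_sup_right
  have N1 : ∀ b ∈ A1, Nz N b := by
    intro b hb
    have hb0 := P1 b hb
    obtain ⟨b, rfl⟩ := (m1 b).1 hb
    rw [hN']
    refine mp_sup (fun x hx => Subgroup.mem_sup_left (hb0 x hx)) (mp4 _ _ ?_)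
    intro a
    rw [D.D]
    have h2 : υ a * ν b * (y3 ν t (-(b * a)) * y2 υ s (-(b ^ 2 * a))) * (ν b)⁻¹ = υ a * (ν b * (y3 ν t (-(b * a)) * y2 υ s (-(b ^ 2 * a))) * (ν b)⁻¹) := by group
    rw [h2]
    exact Subgroup.mul_mem _ (Subgroup.mem_sup_right (v4 _)) (Subgroup.mem_sup_left (hb0 _ (P.mul_mem (v3 _) (v2 _))))
  have M4 : ∀ b ∈ A4, Nz M b := by
    intro b hb
    have hb0 := P4 b hb
    obtain ⟨b, rfl⟩ := (m4 b).1 hb
    rw [hM]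
    refine mp_sup (fun x hx => Subgroup.mem_sup_left (hb0 x hx)) (mp1 _ _ ?_)
    intro a
    have h1 := D.D a b
    have h2 : υ b * ν a * (υ b)⁻¹ = ν a * (υ b * (y3 ν t (-(a * b)) * y2 υ s (-(a ^ 2 * b)))⁻¹ * (υ b)⁻¹) := by
      have h3 : υ b * ν a = ν a * υ b * (y3 ν t (-(a * b)) * y2 υ s (-(a ^ 2 * b)))⁻¹ := by rw [h1]; group
      rw [h3]; group
    rw [h2]
    exact Subgroup.mul_mem _ (Subgroup.mem_sup_right (v1 _)) (Subgroup.mem_sup_left (hb0 _ (P.inv_mem (P.mul_mem (v3 _) (v2 _)))))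
  obtain ⟨U, hU⟩ : ∃ U, U = N ⊔ A1 := ⟨_, rfl⟩
  have hU2 : U = M ⊔ A4 := by rw [hU, hN', hM, sup_assoc, sup_assoc, sup_comm A4 A1]
  have NU : N ≤ U := by rw [hU]; exact le_sup_left
  have MU : M ≤ U := by rw [hU2]; exact le_sup_left
  have U1 : A1 ≤ U := by rw [hU]; exact le_sup_right
  have U4 : A4 ≤ U := by rw [hU2]; exact le_sup_right
  have N2m : ∀ a, y2 υ s a ∈ N := fun a => PN (v2 a)
  have N3m : ∀ a, y3 ν t a ∈ N := fun a => PN (v3 a)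
  have N4m : ∀ a, υ a ∈ N := fun a => N4 (v4 a)
  have M2m : ∀ a, y2 υ s a ∈ M := fun a => PM (v2 a)
  have M3m : ∀ a, y3 ν t a ∈ M := fun a => PM (v3 a)
  have M1m : ∀ a, ν a ∈ M := fun a => M1 (v1 a)
  have mvQ : ∀ (g : Γ) (Q : Subgroup Γ) {X Y : K → Γ}, Mv g X Y → (∀ a, Y a ∈ Q) → ∀ a, g * X a * g⁻¹ ∈ Q := by
    intro g Q X Y hm hY a
    obtain ⟨b, hb⟩ := hm a
    rw [hb]; exact hY b
  have sN : Nz N s := by
    have key : ∀ x ∈ P ⊔ A4, s * x * s⁻¹ ∈ N := mp_sup (mpP _ _ (mvQ _ _ ms24 N4m) (mvQ _ _ ms33 N3m)) (mp4 _ _ (mvQ _ _ ms42 N2m))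
    intro x hx
    exact key x (by rw [← hN']; exact hx)
  have sN' : Nz N s⁻¹ := by
    have key : ∀ x ∈ P ⊔ A4, s⁻¹ * x * s⁻¹⁻¹ ∈ N := mp_sup (mpP _ _ (mvQ _ _ msi24 N4m) (mvQ _ _ msi33 N3m)) (mp4 _ _ (mvQ _ _ msi42 N2m))
    intro x hx
    exact key x (by rw [← hN']; exact hx)
  have tM : Nz M t := by
    have key : ∀ x ∈ P ⊔ A1, t * x * t⁻¹ ∈ M := mp_sup (mpP _ _ (mvQ _ _ mt22 M2m) (mvQ _ _ mt31 M1m)) (mp1 _ _ (mvQ _ _ mt13 M3m))
    intro x hx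
    exact key x (by rw [← hM]; exact hx)
  have tM' : Nz M t⁻¹ := by
    have key : ∀ x ∈ P ⊔ A1, t⁻¹ * x * t⁻¹⁻¹ ∈ M := mp_sup (mpP _ _ (mvQ _ _ mti22 M2m) (mvQ _ _ mti31 M1m)) (mp1 _ _ (mvQ _ _ mti13 M3m))
    intro x hx
    exact key x (by rw [← hM]; exact hx)
  have TP : ∀ τ ∈ TC h k, Nz P τ := by
    intro τ hτ
    exact mpP _ _ (mvQ _ _ (a2.mv hτ) v2) (mvQ _ _ (a3.mv hτ) v3)
  have TU : ∀ τ ∈ TC h k, Nz U τ := by
    intro τ hτ
    have kN' : ∀ x ∈ P ⊔ A4, τ * x * τ⁻¹ ∈ U := mp_sup (fun x hx => NU (PN (TP τ hτ x hx))) (mp4 _ _ (mvQ _ _ (a4.mv hτ) (fun a => U4 (v4 a))))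
    rw [← hN'] at kN'
    have key : ∀ x ∈ N ⊔ A1, τ * x * τ⁻¹ ∈ U := mp_sup kN' (mp1 _ _ (mvQ _ _ (a1.mv hτ) (fun a => U1 (v1 a))))
    intro x hx
    exact key x (by rw [← hU]; exact hx)
  haveI := cP.1
  haveI := cA1.1
  haveI := cA4.1
  have cN : Finite N ∧ Nat.card N ≤ Fintype.card K ^ 3 := by
    obtain ⟨f1, f2⟩ := card_sup_le P4
    rw [hN']
    exact ⟨f1, f2.trans ((Nat.mul_le_mul cP.2 cA4.2).trans (le_of_eq (by ring)))⟩
  haveI := cN.1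
  have cU : Finite U ∧ Nat.card U ≤ Fintype.card K ^ 4 := by
    obtain ⟨f1, f2⟩ := card_sup_le N1
    rw [hU]
    exact ⟨f1, f2.trans ((Nat.mul_le_mul cN.2 cA1.2).trans (le_of_eq (by ring)))⟩
  haveI := cU.1
  haveI := cT.1
  obtain ⟨B, hB⟩ : ∃ B, B = U ⊔ TC h k := ⟨_, rfl⟩
  have cB : Finite B ∧ Nat.card B ≤ Fintype.card K ^ 4 * (Fintype.card K - 1) ^ 2 := by
    obtain ⟨f1, f2⟩ := card_sup_le TU
    rw [hB]
    exact ⟨f1, f2.trans (Nat.mul_le_mul cU.2 cT.2)⟩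
  haveI := cB.1
  have UB : U ≤ B := by rw [hB]; exact le_sup_left
  have TB : TC h k ≤ B := by rw [hB]; exact le_sup_right
  have relS : ∀ a, s * ν a * s ∈ TC h k ∨ ∃ α β, ∃ τ ∈ TC h k, s * ν a * s = ν α * τ * s * ν β := by
    intro a
    by_cases ha : a = 0
    · left; rw [ha, D.fs.ups.zero, mul_one]; exact s2T
    · right
      obtain ⟨j, hj⟩ := hg a ha
      have h1 := congrArg φ (sTUT hζ ha hj)
      rw [map_mul, map_mul, map_mul, map_mul, map_mul, map_pow, map_inv, φT, φU, φU, φH, inv_inv] at h1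
      exact ⟨-a⁻¹, -a⁻¹, k ^ j, Subgroup.pow_mem _ (k_TC _ _) _, h1⟩
  have relT : ∀ a, t * υ a * t ∈ TC h k ∨ ∃ α β, ∃ τ ∈ TC h k, t * υ a * t = υ α * τ * t * υ β := by
    intro a
    by_cases ha : a = 0
    · left; rw [ha, D.fl.ups.zero, mul_one]; exact t2T
    · right
      obtain ⟨j, hj⟩ := hg a ha
      have h1 := congrArg ψ (sTUT hζ ha hj)
      rw [map_mul, map_mul, map_mul, map_mul, map_mul, map_pow, map_inv, ψT, ψU, ψU, ψH, inv_inv] at h1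
      exact ⟨-a⁻¹, -a⁻¹, h ^ j, Subgroup.pow_mem _ (h_TC _ _) _, h1⟩
  have RS : RK (TC h k) U N ν s := by
    refine ⟨?_, ?_, fun a => U1 (v1 a), NU, sN, sN', relS⟩
    · intro u hu
      rw [hU] at hu
      obtain ⟨n, hn, x, hx, h1⟩ := sup_mem' N1 (Subgroup.inv_mem _ hu)
      obtain ⟨a, ha⟩ := (m1 _).1 (A1.inv_mem hx)
      refine ⟨a, n⁻¹, N.inv_mem hn, ?_⟩
      rw [← ha, ← inv_inv u, h1]; group
    · intro u hu
      rw [hU] at hu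
      obtain ⟨n, hn, x, hx, h1⟩ := sup_mem' N1 hu
      obtain ⟨a, ha⟩ := (m1 _).1 hx
      exact ⟨a, n, hn, by rw [h1, ha]⟩
  have RT : RK (TC h k) U M υ t := by
    refine ⟨?_, ?_, fun a => U4 (v4 a), MU, tM, tM', relT⟩
    · intro u hu
      rw [hU2] at hu
      obtain ⟨n, hn, x, hx, h1⟩ := sup_mem' M4 (Subgroup.inv_mem _ hu)
      obtain ⟨a, ha⟩ := (m4 _).1 (A4.inv_mem hx)
      refine ⟨a, n⁻¹, M.inv_mem hn, ?_⟩
      rw [← ha, ← inv_inv u, h1]; group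
    · intro u hu
      rw [hU2] at hu
      obtain ⟨n, hn, x, hx, h1⟩ := sup_mem' M4 hu
      obtain ⟨a, ha⟩ := (m4 _).1 hx
      exact ⟨a, n, hn, by rw [h1, ha]⟩
  have B1 : ∀ a, ν a ∈ B := fun a => UB (U1 (v1 a))
  have B2 : ∀ a, y2 υ s a ∈ B := fun a => UB (MU (M2m a))
  have B3 : ∀ a, y3 ν t a ∈ B := fun a => UB (MU (M3m a))
  have B4 : ∀ a, υ a ∈ B := fun a => UB (U4 (v4 a))
  have hcl : Subgroup.closure (({s, t} : Set Γ) ∪ ((TC h k : Set Γ) ∪ (U : Set Γ))) = ⊤ := by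
    rw [eq_top_iff, ← hgen, Subgroup.closure_le]
    have hT' : ∀ x ∈ TC h k, x ∈ Subgroup.closure (({s, t} : Set Γ) ∪ ((TC h k : Set Γ) ∪ (U : Set Γ))) := fun x hx => Subgroup.subset_closure (Or.inr (Or.inl hx))
    have hU' : ∀ x ∈ U, x ∈ Subgroup.closure (({s, t} : Set Γ) ∪ ((TC h k : Set Γ) ∪ (U : Set Γ))) := fun x hx => Subgroup.subset_closure (Or.inr (Or.inr hx))
    rintro x (rfl | rfl | rfl | rfl | rfl | rfl)
    · exact hU' _ (U4 (v4 1))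
    · exact hT' _ (h_TC _ _)
    · exact Subgroup.subset_closure (Or.inl (by simp))
    · exact hU' _ (U1 (v1 1))
    · exact hT' _ (k_TC _ _)
    · exact Subgroup.subset_closure (Or.inl (by simp))
  obtain ⟨g1, g2⟩ := bn_bound RS RT UB TB TU R.Ts R.Tt R.braid
    (mvQ _ _ mt13 B3) (mvQ _ _ (ms33.comp mt13) B3) (mvQ _ _ ((mt31.comp ms33).comp mt13) B1)
    (mvQ _ _ ms42 B2) (mvQ _ _ (mt22.comp ms42) B2) (mvQ _ _ ((ms24.comp mt22).comp ms42) B4) s4 t4 hcl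
  refine ⟨g1, g2.trans ?_⟩
  rw [Nat.card_eq_fintype_card (α := K)]
  exact Nat.mul_le_mul_right _ cB.2

end C2

end Cfsg.Agent.H1.Pres
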