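import Cfsg.Agent.H1.PsB

set_option autoImplicit false
set_option linter.all false

namespace Cfsg.Agent.H1.Pres

open Cfsg.Agent.H16 Matrix RawC

section ext

variable {Γ K : Type*} [Group Γ] [Field K] [Fintype K] {ζ : K}

lemma span_pred {p : ℕ} [Fact p.Prime] [Algebra (ZMod p) K] (a : K) (ha : ∀ y : K, ∃ f : Polynomial (ZMod p), Polynomial.aeval a f = y) (P : K → Prop)
    (P0 : P 0) (Pa : ∀ x y, P x → P y → P (x + y)) (hP : ∀ i : ℕ, P (a ^ i)) (y : K) : P y := by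
  let A : AddSubmonoid K := { carrier := {x | P x}, zero_mem' := P0, add_mem' := fun {a b} ha hb => Pa a b ha hb }
  obtain ⟨f, rfl⟩ := ha y
  rw [Polynomial.aeval_eq_sum_range]
  have : (∑ i ∈ Finset.range (f.natDegree + 1), f.coeff i • a ^ i) ∈ A := by
    apply AddSubmonoid.sum_mem
    intro i _
    rw [← ZMod.natCast_zmod_val (f.coeff i), Nat.cast_smul_eq_nsmul]
    exact A.nsmul_mem (hP i) _
  exact this

variable {υ ν : K → Γ} {h t k s : Γ}

lemma add_zero_fam {X : K → Γ} (hX : ∀ a b, X (a + b) = X a * X b) : X 0 = 1 := by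
  have := hX 0 0
  rw [add_zero] at this
  exact left_eq_mul.1 this

/-- main derivation -/
theorem mkC2 (p : ℕ) [Fact p.Prime] [Algebra (ZMod p) K] (R : RawC h t k s) (h0 : ζ ≠ 0) (hζ : ∀ x : K, x ≠ 0 → ∃ n : ℕ, ζ ^ n = x)
    (hord : orderOf ζ = Fintype.card K - 1) (fl : Frm υ h t (t ^ 2) ζ) (fs : Frm ν k s (s ^ 2) ζ)
    (h1 : ∀ a, cj h (ν a) = ν (ζ⁻¹ * a)) (k4 : ∀ a, cj k (υ a) = υ ((ζ ^ 2)⁻¹ * a))
    (s3 : cj s (y3 ν t 1) = y3 ν t (-1)) (t2 : cj t (y2 υ s 1) = y2 υ s 1)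
    (A : ν 1 * y2 υ s 1 = y2 υ s 1 * ν 1) (B : y2 υ s 1 * υ 1 = υ 1 * y2 υ s 1)
    (C : ν 1 * y3 ν t 1 = y3 ν t 1 * ν 1 * y2 υ s (-2)) (D : ν 1 * υ 1 = υ 1 * ν 1 * (y3 ν t (-1) * y2 υ s (-1))) : C2 υ ν h t k s ζ := by
  have hsq := full_sq (p := p) hord
  have h20 : ζ ^ 2 ≠ 0 := pow_ne_zero 2 h0
  obtain ⟨h3h, h3k⟩ := act_y3 R h0 h1 fs.ups.act
  obtain ⟨h2h, h2k⟩ := act_y2 R h0 fl.ups.act k4
  have add2 : ∀ a b, y2 υ s (a + b) = y2 υ s a * y2 υ s b := fun a b => by unfold y2; rw [fl.ups.add, cj_mul]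
  have add3 : ∀ a b, y3 ν t (a + b) = y3 ν t a * y3 ν t b := fun a b => by unfold y3; rw [fs.ups.add, cj_mul]
  have z2 := add_zero_fam add2
  have z3 := add_zero_fam add3
  have z1 := fs.ups.zero
  have z4 := fl.ups.zero
  have hk' : ∀ i : ℕ, h ^ i * s = s * (h * k) ^ i := by
    intro i
    have : cj s (h ^ i) = (h * k) ^ i := by rw [cj_pow, R.sh]
    rw [← this]; unfold cj; group
  have kt' : ∀ i : ℕ, k ^ i * t = t * (k * h ^ 2) ^ i := by
    intro i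
    have : cj t (k ^ i) = (k * h ^ 2) ^ i := by rw [cj_pow, R.tk]
    rw [← this]; unfold cj; group
  -- s3
  have S3 : ∀ a, cj s (y3 ν t a) = y3 ν t (-a) := by
    intro a
    by_cases ha : a = 0
    · rw [ha, neg_zero, z3, cj_one]
    obtain ⟨i, hi⟩ := hζ a ha
    have e1 : y3 ν t a = cj (h ^ i) (y3 ν t 1) := by rw [cj_powX h3h, mul_one, hi]
    have e2 : ∀ a, cj (h * k) (y3 ν t a) = y3 ν t (ζ * a) := fun a => by rw [← cj_cj, h3h, h3k]
    rw [e1, cj_cj, hk', ← cj_cj, s3, cj_powX e2, hi, mul_neg, mul_one]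
  -- t2
  have T2 : ∀ b, cj t (y2 υ s b) = y2 υ s b := by
    refine span_pred (p := p) (ζ ^ 2) hsq (fun b => cj t (y2 υ s b) = y2 υ s b) (by rw [z2, cj_one]) (fun x y hx hy => by rw [add2, cj_mul, hx, hy]) ?_
    intro i
    have e1 : y2 υ s ((ζ ^ 2) ^ i) = cj (k ^ i) (y2 υ s 1) := by rw [cj_powX h2k, mul_one]
    have e3 : ∀ a, cj (k * h ^ 2) (y2 υ s a) = y2 υ s (ζ ^ 2 * a) := fun a => by
      rw [← cj_cj, h2k, sq h, ← cj_cj, h2h, h2h]
    rw [e1, cj_cj, kt', ← cj_cj, t2, cj_powX e3, mul_one, cj_powX h2k, mul_one]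
  -- A
  have hi1 : ∀ a, cj h⁻¹ (ν a) = ν (ζ * a) := fun a => by rw [cj_inv_of (inv_ne_zero h0) h1, inv_inv]
  have hi2 : ∀ a, cj h⁻¹ (y2 υ s a) = y2 υ s (1 * a) := fun a => by
    have := cj_inv_of one_ne_zero (X := y2 υ s) (g := h) (fun a => by rw [h2h, one_mul]) a
    rw [this, inv_one]
  have A1 : ∀ a, Commute (ν a) (y2 υ s 1) := by
    intro a
    by_cases ha : a = 0
    · rw [ha, z1]; exact Commute.one_left _
    obtain ⟨i, hi⟩ := hζ a ha
    have h2 := cj_comm (g := h⁻¹ ^ i) (show Commute (ν 1) (y2 υ s 1) from A)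
    rw [cj_powX hi1, cj_powX hi2, mul_one, hi, one_pow, one_mul] at h2
    exact h2
  have AA : ∀ a b, ν a * y2 υ s b = y2 υ s b * ν a := by
    intro a
    refine span_pred (p := p) (ζ ^ 2) hsq (fun b => ν a * y2 υ s b = y2 υ s b * ν a) (by show ν a * y2 υ s 0 = _; rw [z2, mul_one, one_mul]) ?_ ?_
    · intro x y hx hy
      show ν a * y2 υ s (x + y) = y2 υ s (x + y) * ν a
      rw [add2]
      exact (Commute.mul_right (show Commute (ν a) (y2 υ s x) from hx) hy)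
    · intro j
      have h2 := cj_comm (g := k ^ j) (A1 (((ζ ^ 2) ^ j)⁻¹ * a))
      rw [cj_powX fs.ups.act, cj_powX h2k, mul_one, ← mul_assoc, mul_inv_cancel₀ (pow_ne_zero j h20), one_mul] at h2
      exact h2
  -- B
  have hB1 : ∀ b, Commute (y2 υ s 1) (υ b) := by
    refine span_pred (p := p) (ζ ^ 2) hsq (fun b => Commute (y2 υ s 1) (υ b)) (by show Commute _ (υ 0); rw [z4]; exact Commute.one_right _) ?_ ?_
    · intro x y hx hy
      show Commute _ (υ (x + y))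
      rw [fl.ups.add]; exact hx.mul_right hy
    · intro j
      have h2 := cj_comm (g := h ^ j) (show Commute (y2 υ s 1) (υ 1) from B)
      have e2 : ∀ a, cj h (y2 υ s a) = y2 υ s (1 * a) := fun a => by rw [h2h, one_mul]
      rw [cj_powX fl.ups.act, cj_powX e2, mul_one, one_pow, mul_one] at h2
      exact h2
  have BB : ∀ a b, y2 υ s a * υ b = υ b * y2 υ s a := by
    intro a b
    revert a
    refine span_pred (p := p) (ζ ^ 2) hsq (fun a => y2 υ s a * υ b = υ b * y2 υ s a) (by show y2 υ s 0 * υ b = _; rw [z2, mul_one, one_mul]) ?_ ?_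
    · intro x y hx hy
      show y2 υ s (x + y) * υ b = υ b * y2 υ s (x + y)
      rw [add2]
      exact (Commute.mul_left (show Commute (y2 υ s x) (υ b) from hx) hy)
    · intro j
      have h2 := cj_comm (g := k ^ j) (hB1 ((ζ ^ 2) ^ j * b))
      rw [cj_powX h2k, cj_powX k4, mul_one, ← mul_assoc, inv_pow, inv_mul_cancel₀ (pow_ne_zero j h20), one_mul] at h2
      exact h2
  have c32 : ∀ a b, y3 ν t a * y2 υ s b = y2 υ s b * y3 ν t a := by
    intro a b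
    have h1 := congrArg (cj t) (AA a b)
    rw [cj_mul, cj_mul, T2] at h1
    exact h1
  -- C
  have C1 : ∀ a, ν a * y3 ν t 1 = y3 ν t 1 * ν a * y2 υ s (-(2 * a)) := by
    refine span_pred (p := p) (ζ ^ 2) hsq (fun a => ν a * y3 ν t 1 = y3 ν t 1 * ν a * y2 υ s (-(2 * a))) ?_ ?_ ?_
    · show ν 0 * y3 ν t 1 = y3 ν t 1 * ν 0 * y2 υ s (-(2 * 0))
      rw [mul_zero, neg_zero, z2, z1, mul_one, mul_one, one_mul]
    · intro x y hx hy
      have hx' : ν x * y3 ν t 1 = y3 ν t 1 * ν x * y2 υ s (-(2 * x)) := hx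
      have hy' : ν y * y3 ν t 1 = y3 ν t 1 * ν y * y2 υ s (-(2 * y)) := hy
      show ν (x + y) * y3 ν t 1 = y3 ν t 1 * ν (x + y) * y2 υ s (-(2 * (x + y)))
      have e : -(2 * (x + y)) = -(2 * x) + -(2 * y) := by ring
      rw [e, add2, fs.ups.add]
      have h5 := AA y (-(2 * x))
      calc ν x * ν y * y3 ν t 1 = ν x * (ν y * y3 ν t 1) := by group
        _ = (ν x * y3 ν t 1) * ν y * y2 υ s (-(2 * y)) := by rw [hy']; group
        _ = y3 ν t 1 * ν x * (y2 υ s (-(2 * x)) * ν y) * y2 υ s (-(2 * y)) := by rw [hx']; group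
        _ = y3 ν t 1 * ν x * (ν y * y2 υ s (-(2 * x))) * y2 υ s (-(2 * y)) := by rw [h5]
        _ = _ := by group
    · intro i
      show ν ((ζ ^ 2) ^ i) * y3 ν t 1 = y3 ν t 1 * ν ((ζ ^ 2) ^ i) * y2 υ s (-(2 * (ζ ^ 2) ^ i))
      have h2 := congrArg (cj (k ^ i)) C
      have e2 : ∀ a, cj k (y3 ν t a) = y3 ν t (1 * a) := fun a => by rw [h3k, one_mul]
      rw [cj_mul, cj_mul, cj_mul, cj_powX fs.ups.act, cj_powX h2k, cj_powX e2, one_pow, mul_one, mul_one] at h2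
      have e : (ζ ^ 2) ^ i * -2 = -(2 * (ζ ^ 2) ^ i) := by ring
      rw [e] at h2
      exact h2
  have CC : ∀ a b, ν a * y3 ν t b = y3 ν t b * ν a * y2 υ s (-(2 * a * b)) := by
    intro a b
    by_cases hb : b = 0
    · rw [hb, mul_zero, neg_zero, z2, z3, mul_one, mul_one, one_mul]
    obtain ⟨i, hi⟩ := hζ b hb
    have h2 := congrArg (cj (h ^ i)) (C1 (ζ ^ i * a))
    have e2 : ∀ a, cj h (y2 υ s a) = y2 υ s (1 * a) := fun a => by rw [h2h, one_mul]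
    have e3 : ζ⁻¹ ^ i * (ζ ^ i * a) = a := by rw [inv_pow, ← mul_assoc, inv_mul_cancel₀ (pow_ne_zero i h0), one_mul]
    rw [cj_mul, cj_mul, cj_mul, cj_powX h1, cj_powX h3h, cj_powX e2, one_pow, one_mul, mul_one, e3, hi] at h2
    have e4 : -(2 * (b * a)) = -(2 * a * b) := by ring
    rw [e4] at h2
    exact h2
  -- D
  have D1 : ∀ a, ν a * υ 1 = υ 1 * ν a * (y3 ν t (-a) * y2 υ s (-(a ^ 2))) := by
    intro a
    by_cases ha : a = 0
    · rw [ha, z1, neg_zero, z3, zero_pow two_ne_zero, neg_zero, z2]; group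
    obtain ⟨i, hi⟩ := hζ a ha
    have h2 := congrArg (cj ((h * k) ^ i)) D
    have e1 : ∀ a, cj (h * k) (ν a) = ν (ζ * a) := fun a => by
      rw [← cj_cj, h1, fs.ups.act]; congr 1; field_simp
    have e4 : ∀ a, cj (h * k) (υ a) = υ (1 * a) := fun a => by
      rw [← cj_cj, fl.ups.act, k4]; congr 1; field_simp
    have e3 : ∀ a, cj (h * k) (y3 ν t a) = y3 ν t (ζ * a) := fun a => by rw [← cj_cj, h3h, h3k]
    have e2 : ∀ a, cj (h * k) (y2 υ s a) = y2 υ s (ζ ^ 2 * a) := fun a => by rw [← cj_cj, h2h, h2k]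
    rw [cj_mul, cj_mul, cj_mul, cj_mul, cj_powX e1, cj_powX e4, cj_powX e3, cj_powX e2, one_pow, mul_one, mul_one, hi] at h2
    have e5 : a * -1 = -a := by ring
    have e6 : (ζ ^ 2) ^ i * -1 = -(a ^ 2) := by rw [← hi]; ring
    rw [e5, e6] at h2
    exact h2
  have c2s : ∀ a b, y2 υ s a * y2 υ s b = y2 υ s b * y2 υ s a := fun a b => by rw [← add2, ← add2, add_comm]
  have c24 := BB
  have c34 : ∀ a b, y3 ν t a * υ b = υ b * y3 ν t a := by
    -- from c32 by conjugation with `s⁻¹ `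
    intro a b
    have h5 := congrArg (cj s) (c32 (-a) b)
    rw [cj_mul, cj_mul, S3, neg_neg] at h5
    -- cj s (y2 b) = cj (s^2) (υ b) = υ b
    have h6 : cj s (y2 υ s b) = cj (s * s) (υ b) := by unfold y2; rw [cj_cj]
    obtain ⟨j₀, hj₀⟩ := hζ (-1 : K) (neg_ne_zero.2 one_ne_zero)
    have hs2 : cj (s * s) (υ b) = υ b := by
      obtain ⟨φ, φU, φL, φH, φT⟩ := fs.exists_psi h0
      have h1 : s⁻¹ ^ 2 = k ^ j₀ := by
        rw [← φT, ← map_pow, s_T2, ← sH_pow_neg h0 hj₀, map_pow, φH]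
      have h2 : s * s = (k ^ j₀)⁻¹ := by rw [← h1, inv_pow, inv_inv, sq]
      have e5 : ((ζ ^ 2)⁻¹) ^ j₀ = 1 := by
        have : ((ζ ^ 2)⁻¹) ^ j₀ = ((ζ ^ j₀) ^ 2)⁻¹ := by rw [inv_pow, ← pow_mul, ← pow_mul, mul_comm]
        rw [this, hj₀]; norm_num
      have e6 := cj_powX k4 j₀
      rw [h2, cj_inv_of (one_ne_zero) (X := υ) (fun a => by rw [e6, e5]), inv_one, one_mul]
    rw [h6, hs2] at h5
    exact h5
  have DD : ∀ a b, ν a * υ b = υ b * ν a * (y3 ν t (-(a * b)) * y2 υ s (-(a ^ 2 * b))) := by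
    intro a
    refine span_pred (p := p) (ζ ^ 2) hsq (fun b => ν a * υ b = υ b * ν a * (y3 ν t (-(a * b)) * y2 υ s (-(a ^ 2 * b)))) ?_ ?_ ?_
    · show ν a * υ 0 = υ 0 * ν a * (y3 ν t (-(a * 0)) * y2 υ s (-(a ^ 2 * 0)))
      rw [mul_zero, mul_zero, neg_zero, z2, z3, z4]; group
    · intro x y hx hy
      have hx' : ν a * υ x = υ x * ν a * (y3 ν t (-(a * x)) * y2 υ s (-(a ^ 2 * x))) := hx
      have hy' : ν a * υ y = υ y * ν a * (y3 ν t (-(a * y)) * y2 υ s (-(a ^ 2 * y))) := hy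
      show ν a * υ (x + y) = υ (x + y) * ν a * (y3 ν t (-(a * (x + y))) * y2 υ s (-(a ^ 2 * (x + y))))
      have e : -(a * (x + y)) = -(a * y) + -(a * x) := by ring
      have e' : -(a ^ 2 * (x + y)) = -(a ^ 2 * y) + -(a ^ 2 * x) := by ring
      rw [e, e', add2, add3, fl.ups.add]
      generalize hA : y3 ν t (-(a * x)) = X3 at *
      generalize hB : y3 ν t (-(a * y)) = Y3 at *
      generalize hC : y2 υ s (-(a ^ 2 * x)) = X2 at *
      generalize hD : y2 υ s (-(a ^ 2 * y)) = Y2 at *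
      have k1 : X3 * υ y = υ y * X3 := by rw [← hA]; exact c34 _ _
      have k2 : X2 * υ y = υ y * X2 := by rw [← hC]; exact BB _ _
      have k3 : X3 * Y2 = Y2 * X3 := by rw [← hA, ← hD]; exact c32 _ _
      calc ν a * (υ x * υ y) = (ν a * υ x) * υ y := by group
        _ = υ x * ν a * X3 * (X2 * υ y) := by rw [hx']; group
        _ = υ x * ν a * (X3 * υ y) * X2 := by rw [k2]; group
        _ = υ x * (ν a * υ y) * (X3 * X2) := by rw [k1]; group
        _ = υ x * υ y * ν a * (Y3 * Y2) * (X3 * X2) := by rw [hy']; group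
        _ = υ x * υ y * ν a * Y3 * (X3 * Y2) * X2 := by rw [k3]; group
        _ = υ x * υ y * ν a * (Y3 * X3 * (Y2 * X2)) := by group
    · intro j
      show ν a * υ ((ζ ^ 2) ^ j) = υ ((ζ ^ 2) ^ j) * ν a * (y3 ν t (-(a * (ζ ^ 2) ^ j)) * y2 υ s (-(a ^ 2 * (ζ ^ 2) ^ j)))
      have h2 := congrArg (cj (h ^ j)) (D1 (ζ ^ j * a))
      have e2 : ∀ a, cj h (y2 υ s a) = y2 υ s (1 * a) := fun a => by rw [h2h, one_mul]
      have e3 : ζ⁻¹ ^ j * (ζ ^ j * a) = a := by rw [inv_pow, ← mul_assoc, inv_mul_cancel₀ (pow_ne_zero j h0), one_mul]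
      rw [cj_mul, cj_mul, cj_mul, cj_mul, cj_powX h1, cj_powX fl.ups.act, cj_powX h3h, cj_powX e2, one_pow, one_mul, mul_one, e3] at h2
      have e5 : ζ ^ j * -(ζ ^ j * a) = -(a * (ζ ^ 2) ^ j) := by ring
      have e6 : -(ζ ^ j * a) ^ 2 = -(a ^ 2 * (ζ ^ 2) ^ j) := by ring
      rw [e5, e6] at h2
      exact h2
  exact ⟨fl, fs, R, h1, k4, S3, T2, AA, BB, CC, DD⟩

end ext

end Cfsg.Agent.H1.Pres
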