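import Cfsg.Agent.H1.PsC
import Cfsg.Agent.H1.PrL
import Cfsg.Agent.H5.SpOrder
import Cfsg.Agent.H5.SpSimple

set_option autoImplicit false
set_option linter.all false

namespace Cfsg.Agent.H1.Pres

open Cfsg.Agent.H16 Matrix RawC

section target

variable {K : Type*} [Field K]

abbrev Mt (K : Type*) := Matrix (Fin 2 ⊕ Fin 2) (Fin 2 ⊕ Fin 2) K

/-- 4x4 matrices as block matrices -/
def E4 (m : Matrix (Fin 4) (Fin 4) K) : Mt K := Matrix.reindexAlgEquiv K K finSumFinEquiv.symm m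

lemma E4_mul (m n : Matrix (Fin 4) (Fin 4) K) : E4 (m * n) = E4 m * E4 n := map_mul (Matrix.reindexAlgEquiv K K finSumFinEquiv.symm) m n
lemma E4_one : E4 (1 : Matrix (Fin 4) (Fin 4) K) = 1 := map_one (Matrix.reindexAlgEquiv K K finSumFinEquiv.symm)

def J4 : Matrix (Fin 4) (Fin 4) K := !![0, 0, -1, 0; 0, 0, 0, -1; 1, 0, 0, 0; 0, 1, 0, 0]

lemma E4_J : E4 (J4 : Matrix (Fin 4) (Fin 4) K) = Matrix.J (Fin 2) K := by
  ext i j
  rcases i with i | i <;> rcases j with j | j <;> fin_cases i <;> fin_cases j <;> simp [E4, J4, Matrix.J, finSumFinEquiv] <;> rfl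

lemma E4_tr (m : Matrix (Fin 4) (Fin 4) K) : (E4 m).transpose = E4 m.transpose := rfl

lemma E4_mem {m : Matrix (Fin 4) (Fin 4) K} (h : m * J4 * m.transpose = J4) : E4 m ∈ Matrix.symplecticGroup (Fin 2) K := by
  rw [SymplecticGroup.mem_iff, E4_tr, ← E4_J, ← E4_mul, ← E4_mul, h]

/-- element of `Sp₄` from a 4x4 matrix -/
def pE (m : Matrix (Fin 4) (Fin 4) K) (h : m * J4 * m.transpose = J4) : Matrix.symplecticGroup (Fin 2) K := ⟨E4 m, E4_mem h⟩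

def q1 (a : K) : Matrix (Fin 4) (Fin 4) K := !![1, a, 0, 0; 0, 1, 0, 0; 0, 0, 1, 0; 0, 0, -a, 1]
def q4 (b : K) : Matrix (Fin 4) (Fin 4) K := !![1, 0, 0, 0; 0, 1, 0, b; 0, 0, 1, 0; 0, 0, 0, 1]
def q2 (b : K) : Matrix (Fin 4) (Fin 4) K := !![1, 0, b, 0; 0, 1, 0, 0; 0, 0, 1, 0; 0, 0, 0, 1]
def q3 (a : K) : Matrix (Fin 4) (Fin 4) K := !![1, 0, 0, -a; 0, 1, -a, 0; 0, 0, 1, 0; 0, 0, 0, 1]
def qt : Matrix (Fin 4) (Fin 4) K := !![1, 0, 0, 0; 0, 0, 0, -1; 0, 0, 1, 0; 0, 1, 0, 0]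
def qs : Matrix (Fin 4) (Fin 4) K := !![0, -1, 0, 0; 1, 0, 0, 0; 0, 0, 0, -1; 0, 0, 1, 0]
def qh (ζ : K) : Matrix (Fin 4) (Fin 4) K := !![1, 0, 0, 0; 0, ζ⁻¹, 0, 0; 0, 0, 1, 0; 0, 0, 0, ζ]
def qk (ζ : K) : Matrix (Fin 4) (Fin 4) K := !![ζ⁻¹, 0, 0, 0; 0, ζ, 0, 0; 0, 0, ζ, 0; 0, 0, 0, ζ⁻¹]

def p1 (a : K) : Matrix.symplecticGroup (Fin 2) K := pE (q1 a) (by
  unfold q1; ext i j; fin_cases i <;> fin_cases j <;> simp [J4, Matrix.mul_apply, Fin.sum_univ_four, Matrix.transpose])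
def p4 (b : K) : Matrix.symplecticGroup (Fin 2) K := pE (q4 b) (by
  unfold q4; ext i j; fin_cases i <;> fin_cases j <;> simp [J4, Matrix.mul_apply, Fin.sum_univ_four, Matrix.transpose])
def p2 (b : K) : Matrix.symplecticGroup (Fin 2) K := pE (q2 b) (by
  unfold q2; ext i j; fin_cases i <;> fin_cases j <;> simp [J4, Matrix.mul_apply, Fin.sum_univ_four, Matrix.transpose])
def p3 (a : K) : Matrix.symplecticGroup (Fin 2) K := pE (q3 a) (by
  unfold q3; ext i j; fin_cases i <;> fin_cases j <;> simp [J4, Matrix.mul_apply, Fin.sum_univ_four, Matrix.transpose])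
def pt : Matrix.symplecticGroup (Fin 2) K := pE qt (by
  unfold qt; ext i j; fin_cases i <;> fin_cases j <;> simp [J4, Matrix.mul_apply, Fin.sum_univ_four, Matrix.transpose])
def ps : Matrix.symplecticGroup (Fin 2) K := pE qs (by
  unfold qs; ext i j; fin_cases i <;> fin_cases j <;> simp [J4, Matrix.mul_apply, Fin.sum_univ_four, Matrix.transpose])
def ph (ζ : K) (h0 : ζ ≠ 0) : Matrix.symplecticGroup (Fin 2) K := pE (qh ζ) (by
  unfold qh; ext i j; fin_cases i <;> fin_cases j <;> simp [J4, Matrix.mul_apply, Fin.sum_univ_four, Matrix.transpose, h0])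
def pk (ζ : K) (h0 : ζ ≠ 0) : Matrix.symplecticGroup (Fin 2) K := pE (qk ζ) (by
  unfold qk; ext i j; fin_cases i <;> fin_cases j <;> simp [J4, Matrix.mul_apply, Fin.sum_univ_four, Matrix.transpose, h0])

lemma p1_add (a b : K) : p1 (a + b) = p1 a * p1 b := by
  apply Subtype.ext
  show E4 (q1 (a + b)) = E4 (q1 a) * E4 (q1 b)
  rw [← E4_mul]; congr 1; unfold q1
  ext i j; fin_cases i <;> fin_cases j <;> simp [Matrix.mul_apply, Fin.sum_univ_four, add_comm]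
lemma p4_add (a b : K) : p4 (a + b) = p4 a * p4 b := by
  apply Subtype.ext
  show E4 (q4 (a + b)) = E4 (q4 a) * E4 (q4 b)
  rw [← E4_mul]; congr 1; unfold q4
  ext i j; fin_cases i <;> fin_cases j <;> simp [Matrix.mul_apply, Fin.sum_univ_four, add_comm]
lemma p2_add (a b : K) : p2 (a + b) = p2 a * p2 b := by
  apply Subtype.ext
  show E4 (q2 (a + b)) = E4 (q2 a) * E4 (q2 b)
  rw [← E4_mul]; congr 1; unfold q2
  ext i j; fin_cases i <;> fin_cases j <;> simp [Matrix.mul_apply, Fin.sum_univ_four, add_comm]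
lemma p3_add (a b : K) : p3 (a + b) = p3 a * p3 b := by
  apply Subtype.ext
  show E4 (q3 (a + b)) = E4 (q3 a) * E4 (q3 b)
  rw [← E4_mul]; congr 1; unfold q3
  ext i j; fin_cases i <;> fin_cases j <;> simp [Matrix.mul_apply, Fin.sum_univ_four, add_comm]

lemma p4_ups {ζ : K} (h0 : ζ ≠ 0) : Ups (p4 (K := K)) (ph ζ h0) (ζ ^ 2) := by
  refine ⟨p4_add, fun y => cj_eq ?_⟩
  apply Subtype.ext
  show E4 (q4 y) * E4 (qh ζ) = E4 (qh ζ) * E4 (q4 (ζ ^ 2 * y))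
  rw [← E4_mul, ← E4_mul]; congr 1; unfold q4 qh
  ext i j; fin_cases i <;> fin_cases j <;> simp [Matrix.mul_apply, Fin.sum_univ_four] <;> field_simp

lemma p1_h {ζ : K} (h0 : ζ ≠ 0) (y : K) : cj (ph ζ h0) (p1 y) = p1 (ζ⁻¹ * y) := by
  apply cj_eq
  apply Subtype.ext
  show E4 (q1 y) * E4 (qh ζ) = E4 (qh ζ) * E4 (q1 (ζ⁻¹ * y))
  rw [← E4_mul, ← E4_mul]; congr 1; unfold q1 qh
  ext i j; fin_cases i <;> fin_cases j <;> simp [Matrix.mul_apply, Fin.sum_univ_four, h0] <;> field_simp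

lemma p1_k {ζ : K} (h0 : ζ ≠ 0) (y : K) : cj (pk ζ h0) (p1 y) = p1 (ζ ^ 2 * y) := by
  apply cj_eq
  apply Subtype.ext
  show E4 (q1 y) * E4 (qk ζ) = E4 (qk ζ) * E4 (q1 (ζ ^ 2 * y))
  rw [← E4_mul, ← E4_mul]; congr 1; unfold q1 qk
  ext i j; fin_cases i <;> fin_cases j <;> simp [Matrix.mul_apply, Fin.sum_univ_four] <;> field_simp

lemma p4_k {ζ : K} (h0 : ζ ≠ 0) (y : K) : cj (pk ζ h0) (p4 y) = p4 ((ζ ^ 2)⁻¹ * y) := by
  apply cj_eq
  apply Subtype.ext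
  show E4 (q4 y) * E4 (qk ζ) = E4 (qk ζ) * E4 (q4 ((ζ ^ 2)⁻¹ * y))
  rw [← E4_mul, ← E4_mul]; congr 1; unfold q4 qk
  ext i j; fin_cases i <;> fin_cases j <;> simp [Matrix.mul_apply, Fin.sum_univ_four] <;> field_simp

set_option maxHeartbeats 2000000 in
lemma p_raw {ζ : K} (h0 : ζ ≠ 0) : RawC (ph ζ h0) pt (pk ζ h0) ps where
  hk := by
    apply Subtype.ext
    show E4 (qh ζ) * E4 (qk ζ) = E4 (qk ζ) * E4 (qh ζ)
    rw [← E4_mul, ← E4_mul]; congr 1; unfold qh qk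
    ext i j; fin_cases i <;> fin_cases j <;> simp [Matrix.mul_apply, Fin.sum_univ_four, h0]
  ht := by
    apply Subtype.ext
    show E4 (qh ζ) * E4 qt * E4 (qh ζ) = E4 qt
    rw [← E4_mul, ← E4_mul]; congr 1; unfold qh qt
    ext i j; fin_cases i <;> fin_cases j <;> simp [Matrix.mul_apply, Fin.sum_univ_four, h0]
  ks := by
    apply Subtype.ext
    show E4 (qk ζ) * E4 qs * E4 (qk ζ) = E4 qs
    rw [← E4_mul, ← E4_mul]; congr 1; unfold qk qs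
    ext i j; fin_cases i <;> fin_cases j <;> simp [Matrix.mul_apply, Fin.sum_univ_four, h0]
  sh := by
    apply cj_eq
    apply Subtype.ext
    show E4 (qh ζ) * E4 qs = E4 qs * (E4 (qh ζ) * E4 (qk ζ))
    rw [← E4_mul, ← E4_mul, ← E4_mul]; congr 1; unfold qk qs qh
    ext i j; fin_cases i <;> fin_cases j <;> simp [Matrix.mul_apply, Fin.sum_univ_four, h0]
  tk := by
    apply cj_eq
    apply Subtype.ext
    rw [sq]
    show E4 (qk ζ) * E4 qt = E4 qt * (E4 (qk ζ) * (E4 (qh ζ) * E4 (qh ζ)))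
    rw [← E4_mul, ← E4_mul, ← E4_mul, ← E4_mul]; congr 1; unfold qk qt qh
    ext i j; fin_cases i <;> fin_cases j <;> simp [Matrix.mul_apply, Fin.sum_univ_four, h0]
  braid := by
    apply Subtype.ext
    show E4 qs * E4 qt * E4 qs * E4 qt = E4 qt * E4 qs * E4 qt * E4 qs
    rw [← E4_mul, ← E4_mul, ← E4_mul, ← E4_mul, ← E4_mul, ← E4_mul]; congr 1; unfold qs qt
    ext i j; fin_cases i <;> fin_cases j <;> simp [Matrix.mul_apply, Fin.sum_univ_four]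

lemma p_y3 (a : K) : y3 p1 pt a = p3 a := by
  unfold y3
  apply cj_eq
  apply Subtype.ext
  show E4 (q1 a) * E4 qt = E4 qt * E4 (q3 a)
  rw [← E4_mul, ← E4_mul]; congr 1; unfold q1 qt q3
  ext i j; fin_cases i <;> fin_cases j <;> simp [Matrix.mul_apply, Fin.sum_univ_four]

lemma p_y2 (a : K) : y2 p4 ps a = p2 a := by
  unfold y2
  apply cj_eq
  apply Subtype.ext
  show E4 (q4 a) * E4 qs = E4 qs * E4 (q2 a)
  rw [← E4_mul, ← E4_mul]; congr 1; unfold q4 qs q2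
  ext i j; fin_cases i <;> fin_cases j <;> simp [Matrix.mul_apply, Fin.sum_univ_four]

lemma p_s3 (a : K) : cj ps (p3 a) = p3 (-a) := by
  apply cj_eq
  apply Subtype.ext
  show E4 (q3 a) * E4 qs = E4 qs * E4 (q3 (-a))
  rw [← E4_mul, ← E4_mul]; congr 1; unfold qs q3
  ext i j; fin_cases i <;> fin_cases j <;> simp [Matrix.mul_apply, Fin.sum_univ_four]

lemma p_t2 (a : K) : cj pt (p2 a) = p2 a := by
  apply cj_eq
  apply Subtype.ext
  show E4 (q2 a) * E4 qt = E4 qt * E4 (q2 a)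
  rw [← E4_mul, ← E4_mul]; congr 1; unfold qt q2
  ext i j; fin_cases i <;> fin_cases j <;> simp [Matrix.mul_apply, Fin.sum_univ_four]

lemma p_A (a b : K) : p1 a * p2 b = p2 b * p1 a := by
  apply Subtype.ext
  show E4 (q1 a) * E4 (q2 b) = E4 (q2 b) * E4 (q1 a)
  rw [← E4_mul, ← E4_mul]; congr 1; unfold q1 q2
  ext i j; fin_cases i <;> fin_cases j <;> simp [Matrix.mul_apply, Fin.sum_univ_four]

lemma p_B (a b : K) : p2 a * p4 b = p4 b * p2 a := by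
  apply Subtype.ext
  show E4 (q2 a) * E4 (q4 b) = E4 (q4 b) * E4 (q2 a)
  rw [← E4_mul, ← E4_mul]; congr 1; unfold q4 q2
  ext i j; fin_cases i <;> fin_cases j <;> simp [Matrix.mul_apply, Fin.sum_univ_four]

lemma p_C (a b : K) : p1 a * p3 b = p3 b * p1 a * p2 (-(2 * a * b)) := by
  apply Subtype.ext
  show E4 (q1 a) * E4 (q3 b) = E4 (q3 b) * E4 (q1 a) * E4 (q2 (-(2 * a * b)))
  rw [← E4_mul, ← E4_mul, ← E4_mul]; congr 1; unfold q1 q2 q3
  ext i j; fin_cases i <;> fin_cases j <;> simp [Matrix.mul_apply, Fin.sum_univ_four] <;> ring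

lemma p_D (a b : K) : p1 a * p4 b = p4 b * p1 a * (p3 (-(a * b)) * p2 (-(a ^ 2 * b))) := by
  apply Subtype.ext
  show E4 (q1 a) * E4 (q4 b) = E4 (q4 b) * E4 (q1 a) * (E4 (q3 (-(a * b))) * E4 (q2 (-(a ^ 2 * b))))
  rw [← E4_mul, ← E4_mul, ← E4_mul, ← E4_mul]; congr 1; unfold q1 q2 q3 q4
  ext i j; fin_cases i <;> fin_cases j <;> simp [Matrix.mul_apply, Fin.sum_univ_four] <;> ring

lemma p_R0l : ((p4 1 : Matrix.symplecticGroup (Fin 2) K) * pt) ^ 3 = pt ^ 2 := by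
  apply Subtype.ext
  rw [pow_succ, sq, sq]
  show (E4 (q4 1) * E4 qt) * (E4 (q4 1) * E4 qt) * (E4 (q4 1) * E4 qt) = E4 qt * E4 qt
  rw [← E4_mul, ← E4_mul, ← E4_mul, ← E4_mul]; congr 1
  have : (q4 (1 : K)) * qt = !![1, 0, 0, 0; 0, 1, 0, -1; 0, 0, 1, 0; 0, 1, 0, 0] := by
    unfold q4 qt
    ext i j; fin_cases i <;> fin_cases j <;> simp [Matrix.mul_apply, Fin.sum_univ_four]
  rw [this]; unfold qt
  ext i j; fin_cases i <;> fin_cases j <;> simp [Matrix.mul_apply, Fin.sum_univ_four]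

lemma p_R0s : ((p1 1 : Matrix.symplecticGroup (Fin 2) K) * ps) ^ 3 = ps ^ 2 := by
  apply Subtype.ext
  rw [pow_succ, sq, sq]
  show (E4 (q1 1) * E4 qs) * (E4 (q1 1) * E4 qs) * (E4 (q1 1) * E4 qs) = E4 qs * E4 qs
  rw [← E4_mul, ← E4_mul, ← E4_mul, ← E4_mul]; congr 1
  have : (q1 (1 : K)) * qs = !![1, -1, 0, 0; 1, 0, 0, 0; 0, 0, 0, -1; 0, 0, 1, 1] := by
    unfold q1 qs
    ext i j; fin_cases i <;> fin_cases j <;> simp [Matrix.mul_apply, Fin.sum_univ_four]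
  rw [this]; unfold qs
  ext i j; fin_cases i <;> fin_cases j <;> simp [Matrix.mul_apply, Fin.sum_univ_four]

lemma p_R1l {ζ : K} (h0 : ζ ≠ 0) : ((p4 ζ : Matrix.symplecticGroup (Fin 2) K) * pt * ph ζ h0) ^ 3 = pt ^ 2 := by
  apply Subtype.ext
  rw [pow_succ, sq, sq]
  show (E4 (q4 ζ) * E4 qt * E4 (qh ζ)) * (E4 (q4 ζ) * E4 qt * E4 (qh ζ)) * (E4 (q4 ζ) * E4 qt * E4 (qh ζ)) = E4 qt * E4 qt
  rw [← E4_mul, ← E4_mul, ← E4_mul, ← E4_mul, ← E4_mul]; congr 1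
  have : (q4 ζ) * qt * qh ζ = !![1, 0, 0, 0; 0, 1, 0, -ζ; 0, 0, 1, 0; 0, ζ⁻¹, 0, 0] := by
    unfold q4 qt qh
    ext i j; fin_cases i <;> fin_cases j <;> simp [Matrix.mul_apply, Fin.sum_univ_four, h0]
  rw [this]; unfold qt
  ext i j; fin_cases i <;> fin_cases j <;> simp [Matrix.mul_apply, Fin.sum_univ_four, h0]

lemma E4_pow (m : Matrix (Fin 4) (Fin 4) K) (n : ℕ) : E4 (m ^ n) = E4 m ^ n := map_pow (Matrix.reindexAlgEquiv K K finSumFinEquiv.symm) m n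

lemma ph_pow {ζ : K} (h0 : ζ ≠ 0) {m : ℕ} (hm : ζ ^ m = 1) : (ph ζ h0) ^ m = 1 := by
  apply Subtype.ext
  show E4 (qh ζ) ^ m = 1
  rw [← E4_pow, ← E4_one]; congr 1
  have hc : qh ζ = Matrix.diagonal ![1, ζ⁻¹, 1, ζ] := by
    unfold qh
    ext i j; fin_cases i <;> fin_cases j <;> simp
  rw [hc, Matrix.diagonal_pow]
  ext i j; fin_cases i <;> fin_cases j <;> simp [hm]

lemma pk_pow {ζ : K} (h0 : ζ ≠ 0) {m : ℕ} (hm : ζ ^ m = 1) : (pk ζ h0) ^ m = 1 := by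
  apply Subtype.ext
  show E4 (qk ζ) ^ m = 1
  rw [← E4_pow, ← E4_one]; congr 1
  have hc : qk ζ = Matrix.diagonal ![ζ⁻¹, ζ, ζ, ζ⁻¹] := by
    unfold qk
    ext i j; fin_cases i <;> fin_cases j <;> simp
  rw [hc, Matrix.diagonal_pow]
  ext i j; fin_cases i <;> fin_cases j <;> simp [hm]

end target

end Cfsg.Agent.H1.Pres
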