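import Cfsg.Agent.H1.PsD

set_option autoImplicit false
set_option linter.all false

namespace Cfsg.Agent.H1.Pres

open Cfsg.Agent.H16 Cfsg.Agent.H5 Matrix RawC

section gen

variable {K : Type*} [Field K]

def V4 (a b c d : K) : Fin 2 ⊕ Fin 2 → K := Sum.elim ![a, b] ![c, d]

lemma V4_ext (v : Fin 2 ⊕ Fin 2 → K) : v = V4 (v (Sum.inl 0)) (v (Sum.inl 1)) (v (Sum.inr 0)) (v (Sum.inr 1)) := by
  ext i; rcases i with i | i <;> fin_cases i <;> rfl

lemma E4_mulVec (m : Matrix (Fin 4) (Fin 4) K) (a b c d : K) :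
    (E4 m).mulVec (V4 a b c d) = V4 (m 0 0 * a + m 0 1 * b + m 0 2 * c + m 0 3 * d) (m 1 0 * a + m 1 1 * b + m 1 2 * c + m 1 3 * d)
      (m 2 0 * a + m 2 1 * b + m 2 2 * c + m 2 3 * d) (m 3 0 * a + m 3 1 * b + m 3 2 * c + m 3 3 * d) := by
  ext i
  rcases i with i | i <;> fin_cases i <;>
    simp [E4, V4, Matrix.mulVec, dotProduct, Fintype.sum_sum_type, Fin.sum_univ_two, finSumFinEquiv, add_assoc] <;> rfl

def w1 (a : K) : Matrix (Fin 4) (Fin 4) K := !![1, 0, 0, 0; a, 1, 0, 0; 0, 0, 1, -a; 0, 0, 0, 1]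
def w4 (b : K) : Matrix (Fin 4) (Fin 4) K := !![1, 0, 0, 0; 0, 1, 0, 0; 0, 0, 1, 0; 0, b, 0, 1]
def w2 (b : K) : Matrix (Fin 4) (Fin 4) K := !![1, 0, 0, 0; 0, 1, 0, 0; b, 0, 1, 0; 0, 0, 0, 1]
def w3 (a : K) : Matrix (Fin 4) (Fin 4) K := !![1, 0, 0, 0; 0, 1, 0, 0; 0, a, 1, 0; a, 0, 0, 1]

def r1 (a : K) : Matrix.symplecticGroup (Fin 2) K := pE (w1 a) (by
  unfold w1; ext i j; fin_cases i <;> fin_cases j <;> simp [J4, Matrix.mul_apply, Fin.sum_univ_four, Matrix.transpose])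
def r4 (b : K) : Matrix.symplecticGroup (Fin 2) K := pE (w4 b) (by
  unfold w4; ext i j; fin_cases i <;> fin_cases j <;> simp [J4, Matrix.mul_apply, Fin.sum_univ_four, Matrix.transpose])
def r2 (b : K) : Matrix.symplecticGroup (Fin 2) K := pE (w2 b) (by
  unfold w2; ext i j; fin_cases i <;> fin_cases j <;> simp [J4, Matrix.mul_apply, Fin.sum_univ_four, Matrix.transpose])
def r3 (a : K) : Matrix.symplecticGroup (Fin 2) K := pE (w3 a) (by
  unfold w3; ext i j; fin_cases i <;> fin_cases j <;> simp [J4, Matrix.mul_apply, Fin.sum_univ_four, Matrix.transpose])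

lemma r1_eq (a : K) : r1 a * ps = ps * p1 (-a) := by
  apply Subtype.ext
  show E4 (w1 a) * E4 qs = E4 qs * E4 (q1 (-a))
  rw [← E4_mul, ← E4_mul]; congr 1; unfold w1 qs q1
  ext i j; fin_cases i <;> fin_cases j <;> simp [Matrix.mul_apply, Fin.sum_univ_four]

lemma r4_eq (a : K) : r4 a * pt = pt * p4 (-a) := by
  apply Subtype.ext
  show E4 (w4 a) * E4 qt = E4 qt * E4 (q4 (-a))
  rw [← E4_mul, ← E4_mul]; congr 1; unfold w4 qt q4
  ext i j; fin_cases i <;> fin_cases j <;> simp [Matrix.mul_apply, Fin.sum_univ_four]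

lemma r2_eq (a : K) : r4 a * ps = ps * r2 a := by
  apply Subtype.ext
  show E4 (w4 a) * E4 qs = E4 qs * E4 (w2 a)
  rw [← E4_mul, ← E4_mul]; congr 1; unfold w4 qs w2
  ext i j; fin_cases i <;> fin_cases j <;> simp [Matrix.mul_apply, Fin.sum_univ_four]

lemma r3_eq (a : K) : r1 (-a) * pt = pt * r3 a := by
  apply Subtype.ext
  show E4 (w1 (-a)) * E4 qt = E4 qt * E4 (w3 a)
  rw [← E4_mul, ← E4_mul]; congr 1; unfold w1 qt w3
  ext i j; fin_cases i <;> fin_cases j <;> simp [Matrix.mul_apply, Fin.sum_univ_four]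

lemma spT_e (c : K) : spT (V4 1 0 0 0) c = p2 c := by
  apply Subtype.ext
  show Cfsg.sympTransvection 2 (V4 1 0 0 0) c = E4 (q2 c)
  unfold q2
  ext i j
  rcases i with i | i <;> rcases j with j | j <;> fin_cases i <;> fin_cases j <;>
    simp [Cfsg.sympTransvection, Matrix.vecMulVec_apply, V4, E4, Matrix.J, finSumFinEquiv, Matrix.mulVec, dotProduct, Fintype.sum_sum_type, Fin.sum_univ_two, Matrix.one_apply] <;> rfl

theorem p_gen {p : ℕ} [Fact p.Prime] [Algebra (ZMod p) K] {ζ : K} (h0 : ζ ≠ 0)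
    (ha : ∀ y : K, ∃ f : Polynomial (ZMod p), Polynomial.aeval (ζ ^ 2) f = y) (hb : ∀ y : K, ∃ f : Polynomial (ZMod p), Polynomial.aeval ζ f = y) :
    Subgroup.closure ({p4 1, ph ζ h0, pt, p1 1, pk ζ h0, ps} : Set (Matrix.symplecticGroup (Fin 2) K)) = ⊤ := by
  obtain ⟨H, hH⟩ : ∃ H, H = Subgroup.closure ({p4 1, ph ζ h0, pt, p1 1, pk ζ h0, ps} : Set (Matrix.symplecticGroup (Fin 2) K)) := ⟨_, rfl⟩
  rw [← hH]
  have g4 : p4 1 ∈ H := by rw [hH]; exact Subgroup.subset_closure (by simp)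
  have gh : ph ζ h0 ∈ H := by rw [hH]; exact Subgroup.subset_closure (by simp)
  have gt : pt ∈ H := by rw [hH]; exact Subgroup.subset_closure (by simp)
  have g1 : p1 1 ∈ H := by rw [hH]; exact Subgroup.subset_closure (by simp)
  have gs : ps ∈ H := by rw [hH]; exact Subgroup.subset_closure (by simp)
  have U4 := p4_ups (K := K) h0
  have U1 : Ups (p1 (K := K)) (ph ζ h0)⁻¹ ζ := ⟨p1_add, fun y => by rw [cj_inv_of (inv_ne_zero h0) (p1_h h0), inv_inv]⟩
  have H4 : ∀ y : K, p4 y ∈ H := by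
    intro y
    obtain ⟨f, rfl⟩ := ha y
    rw [← U4.wd_eq f]
    exact wd_mem _ f g4 gh
  have H1 : ∀ y : K, p1 y ∈ H := by
    intro y
    obtain ⟨f, rfl⟩ := hb y
    rw [← U1.wd_eq f]
    exact wd_mem _ f g1 (H.inv_mem gh)
  have H2 : ∀ y : K, p2 y ∈ H := by
    intro y
    rw [← p_y2]; exact H.mul_mem (H.mul_mem (H.inv_mem gs) (H4 y)) gs
  have K1 : ∀ y : K, r1 y ∈ H := by
    intro y
    rw [eq_mul_inv_of_mul_eq (r1_eq y)]; exact H.mul_mem (H.mul_mem gs (H1 _)) (H.inv_mem gs)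
  have K4 : ∀ y : K, r4 y ∈ H := by
    intro y
    rw [eq_mul_inv_of_mul_eq (r4_eq y)]; exact H.mul_mem (H.mul_mem gt (H4 _)) (H.inv_mem gt)
  have K2 : ∀ y : K, r2 y ∈ H := by
    intro y
    have := r2_eq y
    rw [← inv_mul_eq_iff_eq_mul] at this
    rw [← this]; exact H.mul_mem (H.inv_mem gs) (H.mul_mem (K4 _) gs)
  have K3 : ∀ y : K, r3 y ∈ H := by
    intro y
    have := r3_eq y
    rw [← inv_mul_eq_iff_eq_mul] at this
    rw [← this]; exact H.mul_mem (H.inv_mem gt) (H.mul_mem (K1 _) gt)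
  -- action
  let R : (Fin 2 ⊕ Fin 2 → K) → Prop := fun v => ∃ g ∈ H, (g : Mt K).mulVec v = V4 1 0 0 0
  have step : ∀ (g : Matrix.symplecticGroup (Fin 2) K) (v w : Fin 2 ⊕ Fin 2 → K), g ∈ H → (g : Mt K).mulVec v = w → R w → R v := by
    rintro g v w hg h1 ⟨g', hg', h2⟩
    refine ⟨g' * g, H.mul_mem hg' hg, ?_⟩
    show ((g' : Mt K) * (g : Mt K)).mulVec v = _
    rw [← Matrix.mulVec_mulVec, h1, h2]
  have s5 : ∀ d : K, R (V4 1 0 0 d) := by
    intro d
    refine step (r3 (-d)) _ (V4 1 0 0 0) (K3 _) ?_ ⟨1, H.one_mem, Matrix.one_mulVec _⟩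
    show (E4 (w3 (-d))).mulVec _ = _
    rw [E4_mulVec]; simp [w3]
  have s4 : ∀ c d : K, R (V4 1 0 c d) := by
    intro c d
    refine step (r2 (-c)) _ (V4 1 0 0 d) (K2 _) ?_ (s5 _)
    show (E4 (w2 (-c))).mulVec _ = _
    rw [E4_mulVec]; simp [w2]
  have s3 : ∀ b c d : K, R (V4 1 b c d) := by
    intro b c d
    refine step (r1 (-b)) _ (V4 1 0 (c + b * d) d) (K1 _) ?_ (s4 _ _)
    show (E4 (w1 (-b))).mulVec _ = _
    rw [E4_mulVec]; simp [w1]
  have s2 : ∀ a b c d : K, b ≠ 0 → R (V4 a b c d) := by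
    intro a b c d hb
    refine step (p1 ((1 - a) / b)) _ (V4 1 b c (-((1 - a) / b) * c + d)) (H1 _) ?_ (s3 _ _ _)
    show (E4 (q1 _)).mulVec _ = _
    rw [E4_mulVec]; simp [q1, hb]
  have s1 : ∀ a b c d : K, ¬ (a = 0 ∧ b = 0 ∧ c = 0 ∧ d = 0) → R (V4 a b c d) := by
    intro a b c d h
    by_cases hb : b = 0
    · by_cases ha : a = 0
      · by_cases hd : d = 0
        · have hc : c ≠ 0 := fun hc => h ⟨ha, hb, hc, hd⟩
          refine step ps _ (V4 (-b) a (-d) c) gs ?_ ?_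
          · show (E4 qs).mulVec _ = _
            rw [E4_mulVec]; simp [qs]
          refine step pt _ (V4 (-b) (-c) (-d) a) gt ?_ (s2 _ _ _ _ (neg_ne_zero.2 hc))
          show (E4 qt).mulVec _ = _
          rw [E4_mulVec]; simp [qt]
        · refine step pt _ (V4 a (-d) c b) gt ?_ (s2 _ _ _ _ (neg_ne_zero.2 hd))
          show (E4 qt).mulVec _ = _
          rw [E4_mulVec]; simp [qt]
      · refine step ps _ (V4 (-b) a (-d) c) gs ?_ (s2 _ _ _ _ ha)
        show (E4 qs).mulVec _ = _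
        rw [E4_mulVec]; simp [qs]
    · exact s2 _ _ _ _ hb
  have s0 : ∀ v : Fin 2 ⊕ Fin 2 → K, v ≠ 0 → R v := by
    intro v hv
    rw [V4_ext v]
    apply s1
    rintro ⟨h1, h2, h3, h4⟩
    apply hv
    ext i
    rcases i with i | i <;> fin_cases i
    · exact h1
    · exact h2
    · exact h3
    · exact h4
  rw [eq_top_iff, ← spTgroup_eq_top]
  unfold spTgroup
  rw [Subgroup.closure_le]
  rintro A ⟨w, c, hA⟩
  have hA' : A = spT w c := Subtype.ext hA
  rw [SetLike.mem_coe, hA']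
  by_cases hw : w = 0
  · have : spT w c = 1 := by
      apply Subtype.ext
      show Cfsg.sympTransvection 2 w c = 1
      unfold Cfsg.sympTransvection
      rw [hw]; simp
    rw [this]; exact H.one_mem
  · obtain ⟨g, hg, h1⟩ := s0 w hw
    have h2 := spT_conj g w c
    rw [h1, spT_e] at h2
    have h3 : spT w c = g⁻¹ * p2 c * g := by rw [← h2]; group
    rw [h3]
    exact H.mul_mem (H.mul_mem (H.inv_mem hg) (H2 c)) hg

end gen

end Cfsg.Agent.H1.Pres
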