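import Cfsg.Agent.H1.PrF
import Cfsg.Agent.H1.PrJ

set_option autoImplicit false
set_option linter.all false

namespace Cfsg.Agent.H1.Pres

open Cfsg.Agent.H16 Matrix Polynomial

section pres

/-- the finishing lemma -/
theorem pres_gen {n : ℕ} {T : Type*} [Group T] [Finite T] (L : List (FreeGroup (Fin n))) (g : Fin n → T)
    (hgen : Subgroup.closure (Set.range g) = ⊤) (hrel : ∀ r ∈ L, FreeGroup.lift g r = 1)
    (hΓ : ∀ (Γ : Type) [Group Γ] (x : Fin n → Γ), Subgroup.closure (Set.range x) = ⊤ → (∀ r ∈ L, FreeGroup.lift x r = 1) →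
      Finite Γ ∧ Nat.card Γ ≤ Nat.card T) :
    ∃ e : PresentedGroup (↑L.toFinset : Set (FreeGroup (Fin n))) ≃* T, ∀ i, e (PresentedGroup.of i) = g i := by
  classical
  have hr : ∀ r ∈ (↑L.toFinset : Set (FreeGroup (Fin n))), FreeGroup.lift g r = 1 := by
    intro r hr
    exact hrel r (by simpa using hr)
  let φ : PresentedGroup (↑L.toFinset : Set (FreeGroup (Fin n))) →* T := PresentedGroup.toGroup hr
  have hφ : ∀ i, φ (PresentedGroup.of i) = g i := fun i => PresentedGroup.toGroup.of hr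
  have hsurj : Function.Surjective φ := by
    rw [← MonoidHom.range_eq_top, eq_top_iff, ← hgen, Subgroup.closure_le]
    rintro _ ⟨i, rfl⟩
    exact ⟨_, hφ i⟩
  obtain ⟨hfin, hcard⟩ := hΓ (PresentedGroup (↑L.toFinset : Set (FreeGroup (Fin n)))) PresentedGroup.of (PresentedGroup.closure_range_of _) (by
      intro r hr
      have h1 : FreeGroup.lift (PresentedGroup.of : Fin n → PresentedGroup (↑L.toFinset : Set (FreeGroup (Fin n)))) = PresentedGroup.mk _ := by
        apply FreeGroup.ext_hom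
        intro i
        rw [FreeGroup.lift_apply_of]
        rfl
      rw [h1]
      exact PresentedGroup.one_of_mem (by simpa using hr))
  have hbij : Function.Bijective φ := by
    exact (Nat.bijective_iff_surjective_and_card φ).2 ⟨hsurj, le_antisymm hcard (Nat.card_le_card_of_surjective _ hsurj)⟩
  exact ⟨MulEquiv.ofBijective φ hbij, hφ⟩

theorem pres_quot {n : ℕ} {T : Type*} [Group T] (L : List (FreeGroup (Fin n))) (g : Fin n → T)
    (e : PresentedGroup (↑L.toFinset : Set (FreeGroup (Fin n))) ≃* T) (he : ∀ i, e (PresentedGroup.of i) = g i)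
    (z : FreeGroup (Fin n)) (C : Subgroup T) [C.Normal] (hz : FreeGroup.lift g z ∈ C) (hC : ∀ x ∈ C, x ∈ Subgroup.zpowers (FreeGroup.lift g z)) :
    Nonempty (PresentedGroup (↑(z :: L).toFinset : Set (FreeGroup (Fin n))) ≃* T ⧸ C) := by
  classical
  have hlift : ∀ r, FreeGroup.lift g r = e (PresentedGroup.mk _ r) := by
    intro r
    have h1 : FreeGroup.lift g = e.toMonoidHom.comp (PresentedGroup.mk _) := by
      apply FreeGroup.ext_hom
      intro i
      rw [FreeGroup.lift_apply_of]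
      exact (he i).symm
    rw [h1]; rfl
  have hgL : ∀ r ∈ L, FreeGroup.lift g r = 1 := by
    intro r hr
    rw [hlift, PresentedGroup.one_of_mem (by simpa using hr), map_one]
  have hlift2 : ∀ r, FreeGroup.lift (fun i => (QuotientGroup.mk' C) (g i)) r = QuotientGroup.mk' C (FreeGroup.lift g r) := by
    intro r
    have h1 : FreeGroup.lift (fun i => (QuotientGroup.mk' C) (g i)) = (QuotientGroup.mk' C).comp (FreeGroup.lift g) := by
      apply FreeGroup.ext_hom
      intro i
      rw [FreeGroup.lift_apply_of, MonoidHom.comp_apply, FreeGroup.lift_apply_of]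
    rw [h1]; rfl
  have hφr : ∀ r ∈ (↑(z :: L).toFinset : Set (FreeGroup (Fin n))), FreeGroup.lift (fun i => (QuotientGroup.mk' C) (g i)) r = 1 := by
    intro r hr
    rw [hlift2]
    have hr' : r = z ∨ r ∈ L := by simpa using hr
    rcases hr' with rfl | hr'
    · rw [QuotientGroup.mk'_apply, QuotientGroup.eq_one_iff]; exact hz
    · rw [hgL r hr', map_one]
  let φ : PresentedGroup (↑(z :: L).toFinset : Set (FreeGroup (Fin n))) →* T ⧸ C := PresentedGroup.toGroup hφr
  have hφ : ∀ i, φ (PresentedGroup.of i) = QuotientGroup.mk' C (g i) := fun i => PresentedGroup.toGroup.of hφr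
  have hof : FreeGroup.lift (PresentedGroup.of : Fin n → PresentedGroup (↑(z :: L).toFinset : Set (FreeGroup (Fin n)))) = PresentedGroup.mk _ := by
    apply FreeGroup.ext_hom
    intro i
    rw [FreeGroup.lift_apply_of]
    rfl
  have hχr : ∀ r ∈ (↑L.toFinset : Set (FreeGroup (Fin n))), FreeGroup.lift (PresentedGroup.of : Fin n → PresentedGroup (↑(z :: L).toFinset : Set (FreeGroup (Fin n)))) r = 1 := by
    intro r hr
    have hr' : r ∈ L := by simpa using hr
    rw [hof]
    exact PresentedGroup.one_of_mem (by simp [hr'])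
  let χ : PresentedGroup (↑L.toFinset : Set (FreeGroup (Fin n))) →* PresentedGroup (↑(z :: L).toFinset : Set (FreeGroup (Fin n))) := PresentedGroup.toGroup hχr
  have hχ : ∀ i, χ (PresentedGroup.of i) = PresentedGroup.of i := fun i => PresentedGroup.toGroup.of hχr
  have hχmk : ∀ r, χ (PresentedGroup.mk _ r) = PresentedGroup.mk _ r := by
    intro r
    have h1 : χ.comp (PresentedGroup.mk _) = PresentedGroup.mk _ := by
      apply FreeGroup.ext_hom
      intro i
      exact hχ i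
    exact congrArg (fun f : FreeGroup (Fin n) →* _ => f r) h1
  have hker : ∀ x ∈ C, (χ.comp e.symm.toMonoidHom) x = 1 := by
    intro x hx
    obtain ⟨m, rfl⟩ := hC x hx
    show χ (e.symm (FreeGroup.lift g z ^ m)) = 1
    rw [map_zpow, map_zpow, hlift, MulEquiv.symm_apply_apply, hχmk, PresentedGroup.one_of_mem (by simp), _root_.one_zpow]
  let ψ : T ⧸ C →* PresentedGroup (↑(z :: L).toFinset : Set (FreeGroup (Fin n))) := QuotientGroup.lift C (χ.comp e.symm.toMonoidHom) hker
  have hψ : ∀ t, ψ (QuotientGroup.mk' C t) = χ (e.symm t) := fun t => rfl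
  have h1 : ∀ x, ψ (φ x) = x := by
    intro x
    have h2 : ψ.comp φ = MonoidHom.id _ := by
      apply PresentedGroup.ext
      intro i
      rw [MonoidHom.comp_apply, hφ, hψ, ← he, MulEquiv.symm_apply_apply, hχ]; rfl
    exact congrArg (fun f : _ →* _ => f x) h2
  have h3 : ∀ y, φ (χ y) = QuotientGroup.mk' C (e y) := by
    intro y
    have h4 : φ.comp χ = (QuotientGroup.mk' C).comp e.toMonoidHom := by
      apply PresentedGroup.ext
      intro i
      rw [MonoidHom.comp_apply, hχ, hφ, ← he]; rfl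
    exact congrArg (fun f : _ →* _ => f y) h4
  have h5 : ∀ x, φ (ψ x) = x := by
    intro x
    obtain ⟨t, rfl⟩ := QuotientGroup.mk'_surjective C x
    rw [hψ, h3, MulEquiv.apply_symm_apply]
  exact ⟨{ toFun := φ, invFun := ψ, left_inv := h1, right_inv := h5, map_mul' := map_mul φ }⟩

end pres

section bpall

theorem bp_two (K : Type*) [Field K] [Fintype K] [CharP K 2] {ζ : K} (h0 : ζ ≠ 0) (hζ : ∀ x : K, x ≠ 0 → ∃ n : ℕ, ζ ^ n = x)
    (hord : orderOf ζ = Fintype.card K - 1) (hq : 2 < Fintype.card K) : BP K ζ := by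
  letI : Algebra (ZMod 2) K := ZMod.algebra K 2
  haveI : Fact (Nat.Prime 2) := ⟨Nat.prime_two⟩
  have hζ1 : ζ ≠ 1 := by
    rintro rfl
    rw [orderOf_one] at hord
    omega
  have h10 : 1 + ζ ≠ 0 := by
    intro h
    apply hζ1
    have := eq_neg_of_add_eq_zero_right h
    rw [this, CharTwo.neg_eq]
  obtain ⟨k, hk⟩ := hζ _ h10
  have hk2 : (ζ ^ 2) ^ k = 1 + ζ ^ 2 := by
    have : (ζ ^ 2) ^ k = (ζ ^ k) ^ 2 := by ring
    rw [this, hk, CharTwo.add_sq, one_pow]
  have hfull := full_sq (p := 2) hord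
  obtain ⟨f, hf⟩ := hfull ζ
  refine ⟨[gU ^ 2, cj (gH ^ k) gU * (gU * cj gH gU)⁻¹, wd (minpoly (ZMod 2) (ζ ^ 2)) gU gH], wd f gU gH, by simp, ?_, ?_⟩
  · intro Γ _ u h t hr
    simp only [List.mem_cons, List.not_mem_nil, or_false, forall_eq_or_imp, forall_eq] at hr
    obtain ⟨r1, r2, r3⟩ := hr
    rw [map_pow, lU] at r1
    rw [map_mul, map_inv, map_mul, map_cj, map_cj, map_pow, lU, lH, mul_inv_eq_one] at r2
    rw [map_wd, lU, lH] at r3
    have hc1 : Commute u (cj h u) := by
      have h1 : (u * cj h u) ^ 2 = 1 := by rw [← r2, ← cj_pow, r1, cj_one]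
      have h2 : (cj h u) ^ 2 = 1 := by rw [← cj_pow, r1, cj_one]
      have h3 : u⁻¹ = u := by rw [inv_eq_iff_mul_eq_one, ← sq, r1]
      have h4 : (cj h u)⁻¹ = cj h u := by rw [inv_eq_iff_mul_eq_one, ← sq, h2]
      have h5 : (u * cj h u)⁻¹ = u * cj h u := by rw [inv_eq_iff_mul_eq_one, ← sq, h1]
      rw [_root_.mul_inv_rev, h3, h4] at h5
      exact h5.symm
    have hc := comm_rel1 (u := u) ((Commute.refl h).pow_left k) r2 hc1
    obtain ⟨υ, h1, h2, h3⟩ := exists_ups (ζ ^ 2) hfull r1 hc r3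
    refine ⟨υ, h1, h2, ?_⟩
    rw [map_wd, lU, lH, h3, hf]
  · intro Γ _ υ h t U
    refine ⟨?_, ?_⟩
    · simp only [List.mem_cons, List.not_mem_nil, or_false, forall_eq_or_imp, forall_eq]
      refine ⟨?_, ?_, ?_⟩
      · rw [map_pow, lU, U.npow, CharP.cast_eq_zero K 2, zero_mul, U.zero]
      · rw [map_mul, map_inv, map_mul, map_cj, map_cj, map_pow, lU, lH, mul_inv_eq_one, U.actPow, U.act, ← U.add, mul_one, mul_one, hk2]
      · rw [map_wd, lU, lH, U.wd_eq, minpoly.aeval, U.zero]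
    · rw [map_wd, lU, lH, U.wd_eq, hf]

theorem bp_all (K : Type*) [Field K] [Fintype K] (p : ℕ) [Fact p.Prime] [Algebra (ZMod p) K] {ζ : K} (h0 : ζ ≠ 0) (hζ : ∀ x : K, x ≠ 0 → ∃ n : ℕ, ζ ^ n = x)
    (hord : orderOf ζ = Fintype.card K - 1) : BP K ζ := by
  haveI : CharP K p := (Algebra.charP_iff (ZMod p) K p).1 inferInstance
  by_cases hn : Module.finrank (ZMod p) K ≤ 2
  · exact bp_small (p := p) K hord hn
  · push Not at hn
    have h3 := Module.card_eq_pow_finrank (K := ZMod p) (V := K)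
    rw [ZMod.card] at h3
    have hp2 := (Fact.out : p.Prime).two_le
    by_cases h2 : p = 2
    · subst h2
      apply bp_two K h0 hζ hord
      have h5 : 2 ^ 3 ≤ 2 ^ Module.finrank (ZMod 2) K := Nat.pow_le_pow_right (by omega) hn
      omega
    · have hp3 : 3 ≤ p := by omega
      have h5 : 3 ^ 3 ≤ p ^ Module.finrank (ZMod p) K := (Nat.pow_le_pow_left hp3 3).trans (Nat.pow_le_pow_right (by omega) hn)
      apply bp_big (p := p) K h0 hζ hord ?_ (by omega)
      intro h
      have h6 : ((2 : ℕ) : K) = 0 := by exact_mod_cast h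
      rw [CharP.cast_eq_zero_iff K p] at h6
      have := Nat.le_of_dvd (by norm_num) h6
      omega

/-- short presentations for an element acting as `ζ` itself -/
def BQ.{v} (K : Type v) [Field K] (ζ : K) : Prop :=
  ∃ (L : List (FreeGroup (Fin 3))), L.length ≤ 4 ∧
    (∀ (Γ : Type) [Group Γ] (u h t : Γ), (∀ r ∈ L, FreeGroup.lift ![u, h, t] r = 1) → ∃ υ : K → Γ, υ 1 = u ∧ Ups υ h ζ) ∧
    (∀ (Γ : Type v) [Group Γ] (υ : K → Γ) (h t : Γ), Ups υ h ζ → ∀ r ∈ L, FreeGroup.lift ![υ 1, h, t] r = 1)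

theorem bq_small (K : Type*) [Field K] [Fintype K] {p : ℕ} [Fact p.Prime] [Algebra (ZMod p) K] {ζ : K}
    (hord : orderOf ζ = Fintype.card K - 1) (hn : Module.finrank (ZMod p) K ≤ 2) : BQ K ζ := by
  have hfull := full_zeta (p := p) hord
  haveI : CharP K p := (Algebra.charP_iff (ZMod p) K p).1 inferInstance
  have hint : IsIntegral (ZMod p) ζ := Algebra.IsIntegral.isIntegral _
  refine ⟨[gU ^ p, gU * cj gH gU * (cj gH gU * gU)⁻¹, wd (minpoly (ZMod p) ζ) gU gH], by simp, ?_, ?_⟩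
  · intro Γ _ u h t hr
    simp only [List.mem_cons, List.not_mem_nil, or_false, forall_eq_or_imp, forall_eq] at hr
    obtain ⟨r1, r2, r3⟩ := hr
    rw [map_pow, lU] at r1
    rw [map_mul, map_inv, map_mul, map_mul, map_cj, lU, lH, mul_inv_eq_one] at r2
    rw [map_wd, lU, lH] at r3
    have hc := comm_small (minpoly (ZMod p) ζ) (minpoly.monic hint) (minpoly.natDegree_pos hint) ((minpoly.natDegree_le _).trans hn) r2 r3
    obtain ⟨υ, h1, h2, h3⟩ := exists_ups ζ hfull r1 hc r3
    exact ⟨υ, h1, h2⟩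
  · intro Γ _ υ h t U
    simp only [List.mem_cons, List.not_mem_nil, or_false, forall_eq_or_imp, forall_eq]
    refine ⟨?_, ?_, ?_⟩
    · rw [map_pow, lU, U.npow, CharP.cast_eq_zero, zero_mul, U.zero]
    · rw [map_mul, map_inv, map_mul, map_mul, map_cj, lU, lH, mul_inv_eq_one, U.act, U.comm]
    · rw [map_wd, lU, lH, U.wd_eq, minpoly.aeval, U.zero]

theorem bq_big (K : Type*) [Field K] [Fintype K] {p : ℕ} [Fact p.Prime] [Algebra (ZMod p) K] {ζ : K} (h0 : ζ ≠ 0)
    (hζ : ∀ x : K, x ≠ 0 → ∃ n : ℕ, ζ ^ n = x)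
    (hord : orderOf ζ = Fintype.card K - 1) (hq : 3 < Fintype.card K) : BQ K ζ := by
  have hfull := full_zeta (p := p) hord
  haveI : CharP K p := (Algebra.charP_iff (ZMod p) K p).1 inferInstance
  have h10 : 1 + ζ ≠ 0 := by
    intro h
    have h1 : ζ = -1 := by linear_combination h
    have h2 : ζ ^ 2 = 1 := by rw [h1]; ring
    have := Nat.le_of_dvd (by norm_num) (orderOf_dvd_of_pow_eq_one h2)
    omega
  obtain ⟨k, hk⟩ := hζ _ h10
  refine ⟨[gU ^ p, cj (gH ^ k) gU * (gU * cj gH gU)⁻¹, gU * cj gH gU * (cj gH gU * gU)⁻¹, wd (minpoly (ZMod p) ζ) gU gH], by simp, ?_, ?_⟩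
  · intro Γ _ u h t hr
    simp only [List.mem_cons, List.not_mem_nil, or_false, forall_eq_or_imp, forall_eq] at hr
    obtain ⟨r1, r2, r3, r4⟩ := hr
    rw [map_pow, lU] at r1
    rw [map_mul, map_inv, map_mul, map_cj, map_cj, map_pow, lU, lH, mul_inv_eq_one] at r2
    rw [map_mul, map_inv, map_mul, map_mul, map_cj, lU, lH, mul_inv_eq_one] at r3
    rw [map_wd, lU, lH] at r4
    have hc := comm_rel1 (u := u) ((Commute.refl h).pow_left k) r2 r3
    obtain ⟨υ, h1, h2, h3⟩ := exists_ups ζ hfull r1 hc r4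
    exact ⟨υ, h1, h2⟩
  · intro Γ _ υ h t U
    simp only [List.mem_cons, List.not_mem_nil, or_false, forall_eq_or_imp, forall_eq]
    refine ⟨?_, ?_, ?_, ?_⟩
    · rw [map_pow, lU, U.npow, CharP.cast_eq_zero, zero_mul, U.zero]
    · rw [map_mul, map_inv, map_mul, map_cj, map_cj, map_pow, lU, lH, mul_inv_eq_one, U.actPow, U.act, ← U.add, mul_one, mul_one, hk]
    · rw [map_mul, map_inv, map_mul, map_mul, map_cj, lU, lH, mul_inv_eq_one, U.act, U.comm]
    · rw [map_wd, lU, lH, U.wd_eq, minpoly.aeval, U.zero]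

theorem bq_all (K : Type*) [Field K] [Fintype K] (p : ℕ) [Fact p.Prime] [Algebra (ZMod p) K] {ζ : K} (h0 : ζ ≠ 0) (hζ : ∀ x : K, x ≠ 0 → ∃ n : ℕ, ζ ^ n = x)
    (hord : orderOf ζ = Fintype.card K - 1) : BQ K ζ := by
  by_cases hn : Module.finrank (ZMod p) K ≤ 2
  · exact bq_small (p := p) K hord hn
  · push Not at hn
    apply bq_big (p := p) K h0 hζ hord
    have h3 := Module.card_eq_pow_finrank (K := ZMod p) (V := K)
    rw [ZMod.card] at h3
    have hp2 := (Fact.out : p.Prime).two_le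
    have h5 : 2 ^ 3 ≤ p ^ Module.finrank (ZMod p) K := (Nat.pow_le_pow_left hp2 3).trans (Nat.pow_le_pow_right (by omega) hn)
    omega

lemma lift3 {m : ℕ} {Γ : Type*} [Group Γ] (g : Fin m → Γ) (a b c : FreeGroup (Fin m)) (r : FreeGroup (Fin 3)) :
    FreeGroup.lift g (FreeGroup.lift ![a, b, c] r) = FreeGroup.lift ![FreeGroup.lift g a, FreeGroup.lift g b, FreeGroup.lift g c] r := by
  have h : (FreeGroup.lift g).comp (FreeGroup.lift ![a, b, c]) = FreeGroup.lift ![FreeGroup.lift g a, FreeGroup.lift g b, FreeGroup.lift g c] := by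
    apply FreeGroup.ext_hom
    intro i
    rw [MonoidHom.comp_apply, FreeGroup.lift_apply_of, FreeGroup.lift_apply_of]
    fin_cases i <;> rfl
  exact congrArg (fun f : FreeGroup (Fin 3) →* Γ => f r) h

end bpall

end Cfsg.Agent.H1.Pres
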