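import Cfsg.Agent.H1.PsE
import Cfsg.Agent.H1.PsF
import Cfsg.Agent.H5.SpOrder
import Cfsg.Agent.H5.SpSimple

set_option autoImplicit false
set_option linter.all false

namespace Cfsg.Agent.H1.Pres

open Cfsg.Agent.H16 Matrix Polynomial RawC

abbrev gens {Γ : Type*} (u h t v k s : Γ) : Fin 6 → Γ := ![u, h, t, v, k, s]

abbrev eU : FreeGroup (Fin 6) := FreeGroup.of 0
abbrev eH : FreeGroup (Fin 6) := FreeGroup.of 1
abbrev eT : FreeGroup (Fin 6) := FreeGroup.of 2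
abbrev eV : FreeGroup (Fin 6) := FreeGroup.of 3
abbrev eK : FreeGroup (Fin 6) := FreeGroup.of 4
abbrev eS : FreeGroup (Fin 6) := FreeGroup.of 5

section lifts

variable {Γ : Type*} [Group Γ] (u h t v k s : Γ)

lemma lU6 : FreeGroup.lift (gens u h t v k s) eU = u := by simp [eU]
lemma lH6 : FreeGroup.lift (gens u h t v k s) eH = h := by simp [eH]
lemma lT6 : FreeGroup.lift (gens u h t v k s) eT = t := by simp [eT]
lemma lV6 : FreeGroup.lift (gens u h t v k s) eV = v := by simp [eV]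
lemma lK6 : FreeGroup.lift (gens u h t v k s) eK = k := by simp [eK]
lemma lS6 : FreeGroup.lift (gens u h t v k s) eS = s := by simp [eS]

end lifts

/-- the common relators (with `W` the word for `υ ζ` and `q₁ = q - 1`) -/
def RC (W : FreeGroup (Fin 6)) (q₁ : ℕ) : List (FreeGroup (Fin 6)) :=
  [eH * eT * eH * eT⁻¹, (eU * eT) ^ 3 * (eT ^ 2)⁻¹, (W * eT * eH) ^ 3 * (eT ^ 2)⁻¹, eH ^ q₁, eK ^ q₁,
    cj eK eV * (cj (eH⁻¹ ^ 2) eV)⁻¹, (eV * eS) ^ 3 * (eS ^ 2)⁻¹, eK * eS * eK * eS⁻¹, eH * eK * (eK * eH)⁻¹, cj eS eH * (eH * eK)⁻¹,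
    cj eT eK * (eK * eH ^ 2)⁻¹, eS * eT * eS * eT * (eT * eS * eT * eS)⁻¹, cj eK eU * (cj eH⁻¹ eU)⁻¹,
    cj eS (cj eT eV) * (cj eT eV⁻¹)⁻¹, cj eT (cj eS eU) * (cj eS eU)⁻¹, eV * cj eS eU * (cj eS eU * eV)⁻¹, cj eS eU * eU * (eU * cj eS eU)⁻¹,
    eV * cj eT eV * (cj eT eV * eV * cj eS (eU⁻¹ ^ 2))⁻¹, eV * eU * (eU * eV * (cj eT eV⁻¹ * cj eS eU⁻¹))⁻¹]

/-- the relations -/
structure RelC {Γ : Type*} [Group Γ] (u h t v k s w : Γ) (q₁ : ℕ) : Prop where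
  raw : RawC h t k s
  a1 : (u * t) ^ 3 = t ^ 2
  a2 : (w * t * h) ^ 3 = t ^ 2
  a3 : h ^ q₁ = 1
  a4 : k ^ q₁ = 1
  a5 : cj k v = cj (h⁻¹ ^ 2) v
  a6 : (v * s) ^ 3 = s ^ 2
  a7 : cj k u = cj h⁻¹ u
  a8 : cj s (cj t v) = cj t v⁻¹
  a9 : cj t (cj s u) = cj s u
  b1 : v * cj s u = cj s u * v
  b2 : cj s u * u = u * cj s u
  b3 : v * cj t v = cj t v * v * cj s (u⁻¹ ^ 2)
  b4 : v * u = u * v * (cj t v⁻¹ * cj s u⁻¹)

lemma RC_iff {Γ : Type*} [Group Γ] {u h t v k s : Γ} {W : FreeGroup (Fin 6)} {q₁ : ℕ} :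
    (∀ r ∈ RC W q₁, FreeGroup.lift (gens u h t v k s) r = 1) ↔ RelC u h t v k s (FreeGroup.lift (gens u h t v k s) W) q₁ := by
  unfold RC
  simp only [List.mem_cons, List.not_mem_nil, or_false, forall_eq_or_imp, forall_eq, map_mul, map_inv, map_cj, map_pow, lU6, lH6, lT6, lV6, lK6, lS6, mul_inv_eq_one]
  constructor
  · rintro ⟨h1, h2, h3, h4, h5, h6, h7, h8, h9, h10, h11, h12, h13, h14, h15, h16, h17, h18, h19⟩
    exact ⟨⟨h9, h1, h8, h10, h11, h12⟩, h2, h3, h4, h5, h6, h7, h13, h14, h15, h16, h17, h18, h19⟩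
  · rintro ⟨⟨h9, h1, h8, h10, h11, h12⟩, h2, h3, h4, h5, h6, h7, h13, h14, h15, h16, h17, h18, h19⟩
    exact ⟨h1, h2, h3, h4, h5, h6, h7, h8, h9, h10, h11, h12, h13, h14, h15, h16, h17, h18, h19⟩

section derive

variable {Γ K : Type*} [Group Γ] [Field K] [Fintype K] {ζ : K}

lemma act_ext {p : ℕ} [Fact p.Prime] [Algebra (ZMod p) K] {υ : K → Γ} {h g : Γ} {a c : K} (hfull : ∀ y : K, ∃ f : (ZMod p)[X], aeval a f = y)
    (U : Ups υ h a) (hg : cj g h = h) (h1 : cj g (υ 1) = υ c) : ∀ y, cj g (υ y) = υ (c * y) := by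
  intro y
  obtain ⟨f, rfl⟩ := hfull y
  rw [← U.wd_eq f]
  have e2 : ∀ x : Γ, cj g x = (MulAut.conj g⁻¹).toMonoidHom x := by
    intro x
    show g⁻¹ * x * g = g⁻¹ * x * g⁻¹⁻¹
    rw [inv_inv]
  rw [e2, map_wd, ← e2, ← e2, hg, h1, U.wd_eq', mul_comm]

lemma zc_ext {p : ℕ} [Fact p.Prime] [Algebra (ZMod p) K] {υ : K → Γ} {h t : Γ} {a : K} (hfull : ∀ y : K, ∃ f : (ZMod p)[X], aeval a f = y)
    (U : Ups υ h a) (hz : h * t ^ 2 = t ^ 2 * h) (h7 : (υ 1 * t) ^ 3 = t ^ 2) : ∀ y, t ^ 2 * υ y = υ y * t ^ 2 := by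
  have hzu : υ 1 ∈ Subgroup.centralizer ({t ^ 2} : Set Γ) := by
    rw [Subgroup.mem_centralizer_singleton_iff]
    have h3 : Commute (t ^ 2) (υ 1 * t) := by rw [← h7]; exact (Commute.refl _).pow_left 3
    have h4 : Commute (t ^ 2) t := (Commute.refl t).pow_left 2
    have h5 : Commute (t ^ 2) (υ 1) := by
      have := h3.mul_right h4.inv_right
      rwa [mul_inv_cancel_right] at this
    exact h5.symm.eq
  have hzk : h ∈ Subgroup.centralizer ({t ^ 2} : Set Γ) := by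
    rw [Subgroup.mem_centralizer_singleton_iff]
    exact hz
  intro y
  obtain ⟨f, rfl⟩ := hfull y
  have h3 := wd_mem _ f hzu hzk
  rw [U.wd_eq, Subgroup.mem_centralizer_singleton_iff] at h3
  exact h3.symm

theorem derive (p : ℕ) [Fact p.Prime] [Algebra (ZMod p) K] {υ ν : K → Γ} {h t k s : Γ} (h0 : ζ ≠ 0) (hζ : ∀ x : K, x ≠ 0 → ∃ n : ℕ, ζ ^ n = x)
    (hord : orderOf ζ = Fintype.card K - 1) (U4 : Ups υ h (ζ ^ 2)) (U1 : Ups ν h⁻¹ ζ) (R : RelC (υ 1) h t (ν 1) k s (υ ζ) (Fintype.card K - 1)) :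
    C2 υ ν h t k s ζ := by
  have W := R.raw
  have hsq := full_sq (p := p) hord
  have hfull := full_zeta (p := p) hord
  have h20 : ζ ^ 2 ≠ 0 := pow_ne_zero 2 h0
  have hkh : cj k h = h := by
    unfold cj
    rw [mul_assoc, W.hk]; group
  have hkh' : cj k h⁻¹ = h⁻¹ := by rw [cj_inv, hkh]
  -- k on ν
  have e5 : cj k (ν 1) = ν (ζ ^ 2) := by rw [R.a5, U1.actPow, mul_one]
  have k1 : ∀ y, cj k (ν y) = ν (ζ ^ 2 * y) := act_ext hfull U1 hkh' e5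
  have h1 : ∀ a, cj h (ν a) = ν (ζ⁻¹ * a) := fun a => by
    have := cj_inv_of h0 U1.act a
    rwa [inv_inv] at this
  have e7 : cj k (υ 1) = υ ((ζ ^ 2)⁻¹) := by rw [R.a7, cj_inv_of h20 U4.act, mul_one]
  have k4 : ∀ y, cj k (υ y) = υ ((ζ ^ 2)⁻¹ * y) := act_ext hsq U4 hkh e7
  -- frames
  have hzt : h * t ^ 2 = t ^ 2 * h := (tth' W.ht).symm
  have zt := zc_ext hsq U4 hzt R.a1
  have hN : h ^ orderOf ζ = 1 := by rw [hord]; exact R.a3
  have kN : k ^ orderOf ζ = 1 := by rw [hord]; exact R.a4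
  have fl : Frm υ h t (t ^ 2) ζ := mk_frm h0 U4 W.ht zt (Or.inl rfl) hN R.a1 (Or.inr ⟨R.a2, hζ⟩)
  have hs2 : h * s ^ 2 = s ^ 2 * h := by
    have e1 : s * h * k = h * s := by
      rw [mul_assoc, ← W.h_s]
    -- s⁻¹ (hk) s = h
    have e2 : (h * k) * s = s * h := W.s_h.symm
    calc h * s ^ 2 = (h * s) * s := by rw [sq]; group
      _ = s * ((h * k) * s) := by rw [W.h_s]; group
      _ = s ^ 2 * h := by rw [e2, sq]; group
  have hs2' : h⁻¹ * s ^ 2 = s ^ 2 * h⁻¹ := by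
    rw [inv_mul_eq_iff_eq_mul, ← mul_assoc, hs2]; group
  have zs := zc_ext hfull U1 hs2' R.a6
  have U1k : Ups ν k (ζ ^ 2) := ⟨U1.add, k1⟩
  have hR1 : (ν ζ * s * k) ^ 3 = s ^ 2 := by
    have h9 := congrArg (cj h⁻¹) R.a6
    have e3 : cj h⁻¹ s = s * k := by
      unfold cj
      rw [inv_inv, W.h_s, W.hk]; group
    rw [cj_pow, cj_mul, cj_pow, e3, U1.act, mul_one] at h9
    rw [mul_assoc, h9, sq, sq]
    calc s * k * (s * k) = s * (k * s * k) := by group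
      _ = s * s := by rw [W.ks]
  have fs : Frm ν k s (s ^ 2) ζ := mk_frm h0 U1k W.ks zs (Or.inl rfl) kN R.a6 (Or.inr ⟨hR1, hζ⟩)
  have n1 : (ν 1)⁻¹ = ν (-1) := (U1.neg 1).symm
  have n4 : (υ 1)⁻¹ = υ (-1) := (U4.neg 1).symm
  have n42 : (υ 1)⁻¹ ^ 2 = υ (-2) := by
    rw [n4, sq, ← U4.add]; congr 1; norm_num
  refine mkC2 p W h0 hζ hord fl fs h1 k4 ?_ R.a9 R.b1 R.b2 ?_ ?_
  · have := R.a8
    rw [n1] at this
    exact this
  · have := R.b3
    rw [n42] at this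
    exact this
  · have := R.b4
    rw [n1, n4] at this
    exact this

end derive

lemma card_Sp4 {K : Type*} [Field K] [Fintype K] :
    (Fintype.card K ^ 4 * (Fintype.card K - 1) ^ 2) *
      (1 + 2 * Fintype.card K + 2 * Fintype.card K ^ 2 + 2 * Fintype.card K ^ 3 + Fintype.card K ^ 4) = Nat.card (Matrix.symplecticGroup (Fin 2) K) := by
  rw [Cfsg.Agent.H5.card_Sp (F := K) rfl 2, Finset.prod_range_succ, Finset.prod_range_one]
  have hq : 1 < Fintype.card K := Fintype.one_lt_card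
  generalize Fintype.card K = q at *
  obtain ⟨m, rfl⟩ : ∃ m, q = m + 1 := ⟨q - 1, by omega⟩
  rw [Nat.add_sub_cancel]
  have e1 : (m + 1) ^ (2 * (0 + 1)) - 1 = m * (m + 2) := by
    have : (m + 1) ^ (2 * (0 + 1)) = m * (m + 2) + 1 := by ring
    omega
  have e2 : (m + 1) ^ (2 * (1 + 1)) - 1 = m * (m + 2) * ((m + 1) ^ 2 + 1) := by
    have : (m + 1) ^ (2 * (1 + 1)) = m * (m + 2) * ((m + 1) ^ 2 + 1) + 1 := by ring
    omega
  rw [e1, e2]
  ring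

lemma p_relC {K : Type*} [Field K] [Fintype K] {ζ : K} (h0 : ζ ≠ 0) (hord : orderOf ζ = Fintype.card K - 1) :
    RelC (p4 (1 : K)) (ph ζ h0) pt (p1 1) (pk ζ h0) ps (p4 ζ) (Fintype.card K - 1) := by
  have U4 := p4_ups (K := K) h0
  have U1 : Ups (p1 (K := K)) (ph ζ h0)⁻¹ ζ := ⟨p1_add, fun y => by rw [cj_inv_of (inv_ne_zero h0) (p1_h h0), inv_inv]⟩
  have h20 : ζ ^ 2 ≠ 0 := pow_ne_zero 2 h0
  have n1 : (p1 (1 : K))⁻¹ = p1 (-1) := (U1.neg 1).symm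
  have n4 : (p4 (1 : K))⁻¹ = p4 (-1) := (U4.neg 1).symm
  have n42 : (p4 (1 : K))⁻¹ ^ 2 = p4 (-2) := by
    rw [n4, sq, ← U4.add]; congr 1; norm_num
  have c2 : ∀ b : K, cj ps (p4 b) = p2 b := p_y2
  have c3 : ∀ b : K, cj pt (p1 b) = p3 b := p_y3
  have hz : ζ ^ (Fintype.card K - 1) = 1 := by rw [← hord, pow_orderOf_eq_one]
  refine ⟨p_raw h0, p_R0l, p_R1l h0, ph_pow h0 hz, pk_pow h0 hz, ?_, p_R0s, ?_, ?_, ?_, ?_, ?_, ?_, ?_⟩
  · rw [U1.actPow, p1_k, mul_one]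
  · rw [p4_k, cj_inv_of h20 U4.act]
  · rw [n1, c3, c3, p_s3]
  · rw [c2, p_t2]
  · rw [c2, p_A]
  · rw [c2, p_B]
  · rw [n42, c2, c3]
    have := p_C (1 : K) 1
    rw [mul_one, mul_one] at this
    exact this
  · rw [n1, n4, c2, c3]
    have := p_D (1 : K) 1
    rw [mul_one, one_pow, mul_one] at this
    exact this

lemma key4 (L4 L1 : List (FreeGroup (Fin 3))) (W : FreeGroup (Fin 3)) (q₁ : ℕ) {Γ : Type*} [Group Γ] (u h t v k s : Γ) :
    (∀ r ∈ (L4.map (FreeGroup.lift ![eU, eH, eT]) ++ L1.map (FreeGroup.lift ![eV, eH⁻¹, 1])) ++ RC (FreeGroup.lift ![eU, eH, eT] W) q₁, FreeGroup.lift (gens u h t v k s) r = 1) ↔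
      ((∀ r ∈ L4, FreeGroup.lift ![u, h, t] r = 1) ∧ (∀ r ∈ L1, FreeGroup.lift ![v, h⁻¹, 1] r = 1) ∧
        RelC u h t v k s (FreeGroup.lift ![u, h, t] W) q₁) := by
  have e1 : ∀ r, FreeGroup.lift (gens u h t v k s) (FreeGroup.lift ![eU, eH, eT] r) = FreeGroup.lift ![u, h, t] r := by
    intro r
    rw [lift3, lU6, lH6, lT6]
  have e2 : ∀ r, FreeGroup.lift (gens u h t v k s) (FreeGroup.lift ![eV, eH⁻¹, 1] r) = FreeGroup.lift ![v, h⁻¹, 1] r := by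
    intro r
    rw [lift3, lV6, map_inv, lH6, map_one]
  constructor
  · intro hr
    refine ⟨?_, ?_, ?_⟩
    · intro r hr'
      rw [← e1]
      exact hr _ (List.mem_append.2 (Or.inl (List.mem_append.2 (Or.inl (List.mem_map_of_mem hr')))))
    · intro r hr'
      rw [← e2]
      exact hr _ (List.mem_append.2 (Or.inl (List.mem_append.2 (Or.inr (List.mem_map_of_mem hr')))))
    · rw [← e1, ← RC_iff]
      exact fun r hr' => hr _ (List.mem_append.2 (Or.inr hr'))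
  · rintro ⟨g1, g2, g3⟩ r hr
    rw [List.mem_append, List.mem_append, List.mem_map, List.mem_map] at hr
    rcases hr with (⟨r', hr', rfl⟩ | ⟨r', hr', rfl⟩) | hr
    · rw [e1]; exact g1 _ hr'
    · rw [e2]; exact g2 _ hr'
    · rw [← e1, ← RC_iff] at g3
      exact g3 r hr

/-- the central word -/
def Zw : FreeGroup (Fin 6) := eT ^ 2 * cj eS (eT ^ 2)

set_option maxHeartbeats 4000000 in
lemma p_Zw {K : Type*} [Field K] {ζ : K} (h0 : ζ ≠ 0) :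
    ((FreeGroup.lift (gens (p4 (1 : K)) (ph ζ h0) pt (p1 1) (pk ζ h0) ps) Zw : Matrix.symplecticGroup (Fin 2) K) : Mt K) = -1 := by
  unfold Zw
  rw [map_mul, map_cj, map_pow, lT6, lS6]
  have h1 : cj (ps : Matrix.symplecticGroup (Fin 2) K) (pt ^ 2) = pE (!![-1, 0, 0, 0; 0, 1, 0, 0; 0, 0, -1, 0; 0, 0, 0, 1]) (by
      ext i j; fin_cases i <;> fin_cases j <;> simp [J4, Matrix.mul_apply, Fin.sum_univ_four, Matrix.transpose]) := by
    apply cj_eq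
    apply Subtype.ext
    rw [sq]
    show E4 qt * E4 qt * E4 qs = E4 qs * E4 _
    rw [← E4_mul, ← E4_mul, ← E4_mul]; congr 1; unfold qt qs
    ext i j; fin_cases i <;> fin_cases j <;> simp [Matrix.mul_apply, Fin.sum_univ_four]
  rw [h1, sq]
  show E4 qt * E4 qt * E4 _ = -1
  have h2 : (-1 : Mt K) = E4 (-1) := by
    unfold E4
    rw [map_neg, map_one]
  rw [h2, ← E4_mul, ← E4_mul]; congr 1; unfold qt
  ext i j; fin_cases i <;> fin_cases j <;> simp [Matrix.mul_apply, Fin.sum_univ_four]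

theorem sp4 (K : Type*) [Field K] [Fintype K] (p : ℕ) [Fact p.Prime] [Algebra (ZMod p) K] :
    (∃ rels : Finset (FreeGroup (Fin 6)), rels.card ≤ 35 ∧ Nonempty (PresentedGroup (↑rels : Set (FreeGroup (Fin 6))) ≃* Matrix.symplecticGroup (Fin 2) K)) ∧
    (∃ rels : Finset (FreeGroup (Fin 6)), rels.card ≤ 36 ∧ Nonempty (PresentedGroup (↑rels : Set (FreeGroup (Fin 6))) ≃* Cfsg.PSp 2 K)) := by
  classical
  obtain ⟨ζ, h0, hζ, hord⟩ := exists_zeta K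
  have hsq := full_sq (p := p) hord
  have hfull := full_zeta (p := p) hord
  obtain ⟨L4, W, hL4, hA4, hB4⟩ := bp_all K p h0 hζ hord
  obtain ⟨L1, hL1, hA1, hB1⟩ := bq_all K p h0 hζ hord
  obtain ⟨L, hL⟩ : ∃ L, L = (L4.map (FreeGroup.lift ![eU, eH, eT]) ++ L1.map (FreeGroup.lift ![eV, eH⁻¹, 1])) ++ RC (FreeGroup.lift ![eU, eH, eT] W) (Fintype.card K - 1) := ⟨_, rfl⟩
  have hlen : L.length ≤ 28 := by
    have : (RC (FreeGroup.lift ![eU, eH, eT] W) (Fintype.card K - 1)).length = 19 := rfl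
    rw [hL, List.length_append, List.length_append, List.length_map, List.length_map]
    omega
  have U4 := p4_ups (K := K) h0
  have U1 : Ups (p1 (K := K)) (ph ζ h0)⁻¹ ζ := ⟨p1_add, fun y => by rw [cj_inv_of (inv_ne_zero h0) (p1_h h0), inv_inv]⟩
  haveI : Finite (Matrix.symplecticGroup (Fin 2) K) := inferInstance
  obtain ⟨e, he⟩ := pres_gen (T := Matrix.symplecticGroup (Fin 2) K) L (gens (p4 (1 : K)) (ph ζ h0) pt (p1 1) (pk ζ h0) ps) (by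
      rw [eq_top_iff, ← p_gen (p := p) h0 hsq hfull]
      apply Subgroup.closure_mono
      rintro x (rfl | rfl | rfl | rfl | rfl | rfl)
      · exact ⟨0, rfl⟩
      · exact ⟨1, rfl⟩
      · exact ⟨2, rfl⟩
      · exact ⟨3, rfl⟩
      · exact ⟨4, rfl⟩
      · exact ⟨5, rfl⟩) (by
      obtain ⟨hB1', hB2'⟩ := hB4 _ (p4 (K := K)) (ph ζ h0) pt U4
      rw [hL]
      refine (key4 _ _ _ _ _ _ _ _ _ _).2 ⟨hB1', hB1 _ (p1 (K := K)) (ph ζ h0)⁻¹ 1 U1, ?_⟩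
      rw [hB2']
      exact p_relC h0 hord) (by
      intro Γ _ x hgen hr
      obtain ⟨u, hu⟩ : ∃ u, u = x 0 := ⟨_, rfl⟩
      obtain ⟨h, hh⟩ : ∃ u, u = x 1 := ⟨_, rfl⟩
      obtain ⟨t, ht⟩ : ∃ u, u = x 2 := ⟨_, rfl⟩
      obtain ⟨v, hv⟩ : ∃ u, u = x 3 := ⟨_, rfl⟩
      obtain ⟨k, hk⟩ : ∃ u, u = x 4 := ⟨_, rfl⟩
      obtain ⟨s, hs⟩ : ∃ u, u = x 5 := ⟨_, rfl⟩
      have hx : x = gens u h t v k s := by
        ext i; fin_cases i
        · exact hu.symm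
        · exact hh.symm
        · exact ht.symm
        · exact hv.symm
        · exact hk.symm
        · exact hs.symm
      rw [hx] at hr hgen
      clear hx hu hh ht hv hk hs
      rw [hL] at hr
      obtain ⟨g1, g2, g3⟩ := (key4 _ _ _ _ _ _ _ _ _ _).1 hr
      obtain ⟨υ, rfl, V4', hW⟩ := hA4 Γ u h t g1
      obtain ⟨ν, rfl, V1'⟩ := hA1 Γ v h⁻¹ 1 g2
      rw [hW] at g3
      have C := derive p h0 hζ hord V4' V1' g3
      rw [← card_Sp4]
      refine C.bound h0 hζ ?_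
      rw [eq_top_iff, ← hgen]
      apply Subgroup.closure_mono
      rintro _ ⟨i, rfl⟩
      fin_cases i <;> simp)
  refine ⟨⟨L.toFinset, (List.toFinset_card_le L).trans (hlen.trans (by norm_num)), ⟨e⟩⟩, ?_⟩
  have hz := p_Zw (K := K) h0
  refine ⟨(Zw :: L).toFinset, (List.toFinset_card_le _).trans (by rw [List.length_cons]; omega), ?_⟩
  refine pres_quot L _ e he Zw (Subgroup.center (Matrix.symplecticGroup (Fin 2) K)) ?_ ?_
  · apply Cfsg.Agent.H5.sp_mem_center_of_scalar (c := -1)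
    rw [hz, neg_one_smul]
  · intro x hx
    obtain ⟨c, hc, hcx⟩ := Cfsg.Agent.H5.sp_center_scalar (m := 2) (by norm_num) hx
    have hc' : (c - 1) * (c + 1) = 0 := by linear_combination hc
    rcases mul_eq_zero.1 hc' with h | h
    · refine ⟨0, ?_⟩
      show _ ^ (0 : ℤ) = x
      rw [zpow_zero]
      apply Subtype.ext
      rw [hcx, sub_eq_zero.1 h, one_smul]; rfl
    · refine ⟨1, ?_⟩
      show _ ^ (1 : ℤ) = x
      rw [zpow_one]
      apply Subtype.ext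
      rw [hz, hcx, eq_neg_of_add_eq_zero_left h, neg_one_smul]

end Cfsg.Agent.H1.Pres
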